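import Mathlib
import Cfsg.Agent.Chev.Dihedral

/-!
Two-dimensional representations of dihedral Hecke algebras and their Schur elements.
-/

set_option autoImplicit false

namespace Cfsg.Agent.Chev.FH

open Cfsg Cfsg.Agent.Chev

/-- The Lucas sequence `p 0 = 0`, `p 1 = 1`, `p (k+2) = z p (k+1) - D p k`. -/
def luc (z D : ℂ) : ℕ → ℂ
  | 0 => 0
  | 1 => 1
  | k + 2 => z * luc z D (k + 1) - D * luc z D k

theorem luc_eq {x x' : ℂ} (k : ℕ) : (x - x') * luc (x + x') (x * x') k = x ^ k - x' ^ k := by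
  induction k using Nat.twoStepInduction with
  | zero => simp [luc]
  | one => simp [luc]
  | more k h1 h2 =>
    rw [luc]
    linear_combination (x + x') * h2 - x * x' * h1

theorem pow_succ_eq {M : Type*} [Ring M] [Algebra ℂ M] {A : M} {z D : ℂ}
    (hA : A * A = z • A - D • 1) (k : ℕ) :
    A ^ (k + 1) = luc z D (k + 1) • A - (D * luc z D k) • 1 := by
  induction k with
  | zero => simp [luc]
  | succ k ih =>
    rw [pow_succ, ih, sub_mul, smul_mul_assoc, hA, smul_mul_assoc, one_mul, luc]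
    module

theorem rec_solution {x x' : ℂ} {w : ℕ → ℂ}
    (hw : ∀ j, w (j + 2) = (x + x') * w (j + 1) - x * x' * w j) (j : ℕ) :
    (x - x') * w j = (w 1 - x' * w 0) * x ^ j - (w 1 - x * w 0) * x' ^ j := by
  induction j using Nat.twoStepInduction with
  | zero => ring
  | one => ring
  | more k h1 h2 =>
    rw [hw]
    linear_combination (x + x') * h2 - x * x' * h1

theorem rec_invariant {z D : ℂ} {w : ℕ → ℂ} (hw : ∀ j, w (j + 2) = z * w (j + 1) - D * w j)
    (j : ℕ) : w (j + 1) ^ 2 + D * w j ^ 2 - z * w (j + 1) * w j =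
      D ^ j * (w 1 ^ 2 + D * w 0 ^ 2 - z * w 1 * w 0) := by
  induction j with
  | zero => simp
  | succ j ih =>
    rw [hw]
    linear_combination D * ih

theorem rec_sum {z D : ℂ} (hD : D ≠ 0) {w : ℕ → ℂ}
    (hw : ∀ j, w (j + 2) = z * w (j + 1) - D * w j) (k : ℕ) :
    (4 * D - z ^ 2) * ∑ j ∈ Finset.range k, w (j + 1) ^ 2 / D ^ (j + 1) =
      2 * k * (w 1 ^ 2 + D * w 0 ^ 2 - z * w 1 * w 0) -
        D * (w (k + 1) ^ 2 / D ^ (k + 1) - w k ^ 2 / D ^ k - w 1 ^ 2 / D + w 0 ^ 2) := by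
  induction k with
  | zero => simp
  | succ k ih =>
    rw [Finset.sum_range_succ, mul_add, ih]
    have h1 := rec_invariant hw k
    have h2 := hw k
    rw [show k + 1 + 1 = k + 2 from rfl, h2]
    push_cast
    have hk : D ^ k ≠ 0 := pow_ne_zero _ hD
    have h3 : w 1 ^ 2 + D * w 0 ^ 2 - z * w 1 * w 0 =
      (w (k + 1) ^ 2 + D * w k ^ 2 - z * w (k + 1) * w k) / D ^ k := by
      rw [h1]; field_simp
    generalize w 1 ^ 2 + D * w 0 ^ 2 - z * w 1 * w 0 = J at h3 ⊢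
    subst h3
    field_simp
    ring

section Rep

variable (a b z β : ℂ)

/-- The matrix of the first generator. -/
noncomputable def Rs : Matrix (Fin 2) (Fin 2) ℂ :=
  !![(a - 1 + z) / (b + 1), β; β, a - 1 - (a - 1 + z) / (b + 1)]

/-- The matrix of the second generator. -/
def Rt : Matrix (Fin 2) (Fin 2) ℂ := !![b, 0; 0, -1]

variable {a b z β}

theorem Rs_transpose : (Rs a b z β).transpose = Rs a b z β := by
  ext i j; fin_cases i <;> fin_cases j <;> rfl

theorem Rt_transpose : (Rt b).transpose = Rt b := by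
  ext i j; fin_cases i <;> fin_cases j <;> rfl

theorem Rt_sq : Rt b * Rt b = (b - 1) • Rt b + b • 1 := by
  ext i j; fin_cases i <;> fin_cases j <;> simp [Rt, Matrix.mul_apply, Fin.sum_univ_two]
  ring

variable (hb : b + 1 ≠ 0)
  (hβ : β * β = (a - 1 + z) / (b + 1) * (a - 1 - (a - 1 + z) / (b + 1)) + a)
include hβ

theorem Rs_sq : Rs a b z β * Rs a b z β = (a - 1) • Rs a b z β + a • 1 := by
  ext i j
  fin_cases i <;> fin_cases j <;> simp [Rs, Matrix.mul_apply, Fin.sum_univ_two]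
  · linear_combination hβ
  · ring
  · ring
  · linear_combination hβ

include hb

theorem st_sq : (Rs a b z β * Rt b) * (Rs a b z β * Rt b) =
    z • (Rs a b z β * Rt b) - (a * b) • 1 := by
  have hz : z = (b + 1) * ((a - 1 + z) / (b + 1)) - (a - 1) := by field_simp; ring
  ext i j
  unfold Rs Rt
  generalize (a - 1 + z) / (b + 1) = α at hz hβ ⊢
  subst hz
  fin_cases i <;> fin_cases j <;> simp [Matrix.mul_apply, Fin.sum_univ_two]
  · linear_combination (-b) * hβ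
  · ring
  · ring
  · linear_combination (-b) * hβ

theorem ts_sq : (Rt b * Rs a b z β) * (Rt b * Rs a b z β) =
    z • (Rt b * Rs a b z β) - (a * b) • 1 := by
  have := congrArg Matrix.transpose (st_sq hb hβ)
  simpa [Matrix.transpose_mul, Rs_transpose, Rt_transpose, Matrix.mul_assoc] using this

theorem sts : Rs a b z β * (Rt b * Rs a b z β) =
    z • Rs a b z β - a • Rt b + (a * (b - 1)) • 1 := by
  have hz : z = (b + 1) * ((a - 1 + z) / (b + 1)) - (a - 1) := by field_simp; ring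
  ext i j
  unfold Rs Rt
  generalize (a - 1 + z) / (b + 1) = α at hz hβ ⊢
  subst hz
  fin_cases i <;> fin_cases j <;> simp [Matrix.mul_apply, Fin.sum_univ_two]
  · linear_combination (-1) * hβ
  · ring
  · ring
  · linear_combination b * hβ

omit hβ in
theorem tst : Rt b * (Rs a b z β * Rt b) =
    z • Rt b - b • Rs a b z β + (b * (a - 1)) • 1 := by
  have hz : z = (b + 1) * ((a - 1 + z) / (b + 1)) - (a - 1) := by field_simp; ring
  ext i j
  unfold Rs Rt
  generalize (a - 1 + z) / (b + 1) = α at hz ⊢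
  subst hz
  fin_cases i <;> fin_cases j <;> simp [Matrix.mul_apply, Fin.sum_univ_two] <;> ring

theorem braid_even {n : ℕ} (hn : luc z (a * b) (n + 1) = 0) :
    (Rs a b z β * Rt b) ^ (n + 1) = (Rt b * Rs a b z β) ^ (n + 1) := by
  rw [pow_succ_eq (st_sq hb hβ), pow_succ_eq (ts_sq hb hβ), hn, zero_smul, zero_smul]

theorem braid_odd {n : ℕ} (hab : a = b)
    (hn : luc z (a * b) (n + 2) + a * luc z (a * b) (n + 1) = 0) :
    Rs a b z β * (Rt b * Rs a b z β) ^ (n + 1) = Rt b * (Rs a b z β * Rt b) ^ (n + 1) := by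
  rw [pow_succ_eq (st_sq hb hβ), pow_succ_eq (ts_sq hb hβ), mul_sub, mul_sub, mul_smul_comm,
    mul_smul_comm, mul_smul_comm, mul_smul_comm, sts hb hβ, tst hb, mul_one, mul_one]
  rw [luc] at hn
  subst hab
  rw [← sub_eq_zero]
  have : ∀ X Y : Matrix (Fin 2) (Fin 2) ℂ,
      luc z (a * a) (n + 1) • (z • X - a • Y + (a * (a - 1)) • 1) - (a * a * luc z (a * a) n) • X -
        (luc z (a * a) (n + 1) • (z • Y - a • X + (a * (a - 1)) • 1) -
          (a * a * luc z (a * a) n) • Y) =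
      (z * luc z (a * a) (n + 1) - a * a * luc z (a * a) n + a * luc z (a * a) (n + 1)) •
        (X - Y) := by
    intro X Y; module
  rw [this, hn, zero_smul]

/-- The entries `(R_s R_t)^j 0 0` satisfy the recurrence. -/
theorem entry_rec (j : ℕ) : ((Rs a b z β * Rt b) ^ (j + 2)) 0 0 =
    z * ((Rs a b z β * Rt b) ^ (j + 1)) 0 0 - a * b * ((Rs a b z β * Rt b) ^ j) 0 0 := by
  rw [pow_add, pow_two, st_sq hb hβ, mul_sub, mul_smul_comm, mul_smul_comm, mul_one, ← pow_succ]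
  simp

omit hb hβ in
theorem entry_succ (j : ℕ) : ((Rs a b z β * Rt b) ^ (j + 1)) 0 0 =
    b * (Rs a b z β * (Rt b * Rs a b z β) ^ j) 0 0 := by
  have : (Rs a b z β * Rt b) ^ (j + 1) = (Rs a b z β * (Rt b * Rs a b z β) ^ j) * Rt b := by
    induction j with
    | zero => simp
    | succ j ih => rw [pow_succ', ih, pow_succ']; simp only [Matrix.mul_assoc]
  rw [this, Matrix.mul_apply]
  simp [Rt, mul_comm]

omit hb hβ in
theorem entry_one : (Rs a b z β * Rt b) 0 0 = b * ((a - 1 + z) / (b + 1)) := by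
  simp [Rs, Rt, Matrix.mul_apply, mul_comm]

end Rep

section Sum

variable {ι : Type*} (q : ι → ℂ) (R : ι → Matrix (Fin 2) (Fin 2) ℂ)

/-- The summand of the Schur element at a word. -/
noncomputable def term (l : List ι) : ℂ := (wprod q l)⁻¹ * (wprod R l 0 0) ^ 2

variable {q R} {s t : ι} {a b z β : ℂ} (hs : q s = a) (ht : q t = b) (hRs : R s = Rs a b z β)
  (hRt : R t = Rt b) (ha0 : a ≠ 0) (hb0 : b ≠ 0)

include ht hRt hb0 in
theorem term_cons (l : List ι) : term q R (t :: l) = b * term q R l := by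
  unfold term
  rw [wprod_cons, wprod_cons, ht, hRt, Matrix.mul_apply]
  simp only [Rt, Fin.sum_univ_two, Matrix.of_apply, Matrix.cons_val', Matrix.cons_val_zero,
    Matrix.cons_val_one, Matrix.cons_val_fin_one, mul_inv]
  field_simp
  ring

include hs ht hRs hRt in
theorem term_even (j : ℕ) : term q R (alt s t (2 * j)) =
    ((Rs a b z β * Rt b) ^ j) 0 0 ^ 2 / (a * b) ^ j := by
  unfold term
  rw [wprod_alt_two_mul, wprod_alt_two_mul, hs, ht, hRs, hRt]
  ring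

include hs ht hRs hRt ha0 hb0 in
theorem term_odd (j : ℕ) : term q R (alt s t (2 * j + 1)) =
    ((Rs a b z β * Rt b) ^ (j + 1)) 0 0 ^ 2 / (a * b) ^ (j + 1) / b := by
  unfold term
  rw [wprod_alt_two_mul_add_one, wprod_alt_two_mul_add_one, hs, ht, hRs, hRt, entry_succ,
    mul_comm b a]
  field_simp
  ring

include hs ht hRs hRt ha0 hb0 in
theorem sum_two_mul (N : ℕ) : ∑ k ∈ Finset.range (2 * N), term q R (alt s t k) =
    (1 + b⁻¹) * ∑ j ∈ Finset.range N,
      ((Rs a b z β * Rt b) ^ (j + 1)) 0 0 ^ 2 / (a * b) ^ (j + 1) + 1 -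
      ((Rs a b z β * Rt b) ^ N) 0 0 ^ 2 / (a * b) ^ N := by
  induction N with
  | zero => simp
  | succ N ih =>
    rw [show 2 * (N + 1) = 2 * N + 1 + 1 by ring, Finset.sum_range_succ, Finset.sum_range_succ, ih,
      Finset.sum_range_succ, term_even hs ht hRs hRt, term_odd hs ht hRs hRt ha0 hb0]
    ring

variable (hb : b + 1 ≠ 0)
  (hβ : β * β = (a - 1 + z) / (b + 1) * (a - 1 - (a - 1 + z) / (b + 1)) + a)
  {r ζ : ℂ} (hr : r * r = a * b) (hz : z = r * (ζ + ζ⁻¹)) (hζ2 : ζ * ζ ≠ 1)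

include hr ha0 hb0 hζ2 in
theorem sub_ne (hζ0 : ζ ≠ 0) : r * ζ - r * ζ⁻¹ ≠ 0 := by
  have hr0 : r ≠ 0 := by
    rintro rfl
    exact mul_ne_zero ha0 hb0 (by simpa using hr.symm)
  rw [← mul_sub]
  refine mul_ne_zero hr0 fun h => hζ2 ?_
  rw [sub_eq_zero] at h
  nth_rewrite 2 [h]
  exact mul_inv_cancel₀ hζ0

include hr ha0 hb0 hζ2 hz in
theorem luc_even {N : ℕ} (hN : N ≠ 0) (hζ : ζ ^ (2 * N) = 1) : luc z (a * b) N = 0 := by
  have hζ0 : ζ ≠ 0 := by
    rintro rfl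
    rw [zero_pow (by omega)] at hζ
    exact zero_ne_one hζ
  have h := luc_eq (x := r * ζ) (x' := r * ζ⁻¹) N
  have e1 : r * ζ + r * ζ⁻¹ = z := by rw [hz]; ring
  have e2 : r * ζ * (r * ζ⁻¹) = a * b := by rw [← hr]; field_simp
  have e3 : ζ⁻¹ ^ N = ζ ^ N := by
    rw [inv_pow]
    apply inv_eq_of_mul_eq_one_right
    rw [← pow_add, ← two_mul, hζ]
  rw [e1, e2, mul_pow, mul_pow, e3, sub_self] at h
  exact (mul_eq_zero.mp h).resolve_left (sub_ne ha0 hb0 hr hζ2 hζ0)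

include hr ha0 hb0 hζ2 hz in
theorem luc_odd {N : ℕ} (hra : r = a) (hζ : ζ ^ (2 * N + 1) = 1) :
    luc z (a * b) (N + 1) + a * luc z (a * b) N = 0 := by
  have hζ0 : ζ ≠ 0 := by
    rintro rfl
    rw [zero_pow (by omega)] at hζ
    exact zero_ne_one hζ
  have h := luc_eq (x := r * ζ) (x' := r * ζ⁻¹) N
  have h' := luc_eq (x := r * ζ) (x' := r * ζ⁻¹) (N + 1)
  have e1 : r * ζ + r * ζ⁻¹ = z := by rw [hz]; ring
  have e2 : r * ζ * (r * ζ⁻¹) = a * b := by rw [← hr]; field_simp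
  have e3 : ζ⁻¹ ^ N = ζ ^ (N + 1) := by
    rw [inv_pow]
    apply inv_eq_of_mul_eq_one_right
    rw [← pow_add, ← hζ]; congr 1; ring
  have e4 : ζ⁻¹ ^ (N + 1) = ζ ^ N := by
    rw [inv_pow]
    apply inv_eq_of_mul_eq_one_right
    rw [← pow_add, ← hζ]; congr 1; ring
  rw [e1, e2, mul_pow, mul_pow] at h h'
  rw [e3] at h
  rw [e4] at h'
  apply mul_left_cancel₀ (sub_ne ha0 hb0 hr hζ2 hζ0)
  subst hra
  linear_combination h' + r * h

include hs ht hRs hRt ha0 hb0 hb hβ hr hz hζ2 in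
theorem schur_even {N : ℕ} (hN : N ≠ 0) (hζ : ζ ^ (2 * N) = 1) :
    (∑ k ∈ Finset.range (2 * N), (term q R (alt s t k) + term q R (alt t s (k + 1)))) *
      (4 * (a * b) - z ^ 2) = (2 * N : ℕ) * ((a * b + 1 - z) * (a + b + z)) := by
  have hζ0 : ζ ≠ 0 := by
    rintro rfl
    rw [zero_pow (by omega)] at hζ
    exact zero_ne_one hζ
  simp only [alt_succ t s, term_cons ht hRt hb0, Finset.sum_add_distrib, ← Finset.mul_sum]
  rw [sum_two_mul hs ht hRs hRt ha0 hb0]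
  have hrec := entry_rec hb hβ
  set w : ℕ → ℂ := fun j => ((Rs a b z β * Rt b) ^ j) 0 0 with hw
  have hD : a * b ≠ 0 := mul_ne_zero ha0 hb0
  have hsum := rec_sum hD (w := w) hrec N
  have e1 : r * ζ + r * ζ⁻¹ = z := by rw [hz]; ring
  have e2 : r * ζ * (r * ζ⁻¹) = a * b := by rw [← hr]; field_simp
  have e3 : ζ⁻¹ ^ N = ζ ^ N := by
    rw [inv_pow]
    apply inv_eq_of_mul_eq_one_right
    rw [← pow_add, ← two_mul, hζ]
  have hsol := rec_solution (x := r * ζ) (x' := r * ζ⁻¹) (w := w) (by rw [e1, e2]; exact hrec)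
  have hper : ∀ j, w (j + N) = (r * ζ) ^ N * w j := by
    intro j
    apply mul_left_cancel₀ (sub_ne ha0 hb0 hr hζ2 hζ0)
    have h1 := hsol (j + N)
    have h2 := hsol j
    rw [pow_add, pow_add, mul_pow r ζ⁻¹ N, e3, ← mul_pow] at h1
    linear_combination h1 - (r * ζ) ^ N * h2
  have hx : ((r * ζ) ^ N) ^ 2 = (a * b) ^ N := by
    rw [← pow_mul, mul_pow, mul_comm N 2, hζ, pow_mul, pow_two, hr, mul_one]
  have hw0 : w 0 = 1 := by simp [hw]
  have hw1 : w 1 = b * ((a - 1 + z) / (b + 1)) := by simp only [hw, pow_one, entry_one]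
  have hDN : (a * b) ^ N ≠ 0 := pow_ne_zero _ hD
  have hN0 : w N ^ 2 / (a * b) ^ N = 1 := by
    have := hper 0
    rw [zero_add] at this
    rw [this, mul_pow, hx, hw0]; field_simp
  have hN1 : w (N + 1) ^ 2 / (a * b) ^ (N + 1) = w 1 ^ 2 / (a * b) := by
    rw [pow_succ (a * b) N, add_comm N 1, hper, mul_pow, hx]; field_simp
  rw [hN0, hN1, hw0, hw1] at hsum
  change (((1 + b⁻¹) * ∑ j ∈ Finset.range N, w (j + 1) ^ 2 / (a * b) ^ (j + 1) + 1 -
    w N ^ 2 / (a * b) ^ N) + b * ((1 + b⁻¹) * ∑ j ∈ Finset.range N,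
      w (j + 1) ^ 2 / (a * b) ^ (j + 1) + 1 - w N ^ 2 / (a * b) ^ N)) * _ = _
  rw [hN0]
  generalize ∑ j ∈ Finset.range N, w (j + 1) ^ 2 / (a * b) ^ (j + 1) = T at hsum ⊢
  have hz' : z = (b + 1) * ((a - 1 + z) / (b + 1)) - (a - 1) := by field_simp; ring
  generalize (a - 1 + z) / (b + 1) = α at hz' hsum
  push_cast
  have hbb : b * b⁻¹ = 1 := mul_inv_cancel₀ hb0
  apply mul_left_cancel₀ hb0
  rw [hz'] at hsum ⊢
  linear_combination (1 + b) ^ 2 * hsum +
    (1 + b) * T * (4 * (a * b) - ((b + 1) * α - (a - 1)) ^ 2) * hbb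

include hs ht hRs hRt ha0 hb0 hb hβ hr hz hζ2 in
theorem schur_odd {N : ℕ} (hra : r = a) (hab : a = b) (hζ : ζ ^ (2 * N + 1) = 1) :
    (∑ k ∈ Finset.range (2 * N + 1), (term q R (alt s t k) + term q R (alt t s (k + 1)))) *
      (4 * (a * b) - z ^ 2) = (2 * N + 1 : ℕ) * ((a * b + 1 - z) * (a + b + z)) := by
  have hζ0 : ζ ≠ 0 := by
    rintro rfl
    rw [zero_pow (by omega)] at hζ
    exact zero_ne_one hζ
  simp only [alt_succ t s, term_cons ht hRt hb0, Finset.sum_add_distrib, ← Finset.mul_sum]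
  rw [Finset.sum_range_succ, sum_two_mul hs ht hRs hRt ha0 hb0, term_even hs ht hRs hRt]
  have hrec := entry_rec hb hβ
  set w : ℕ → ℂ := fun j => ((Rs a b z β * Rt b) ^ j) 0 0 with hw
  have hD : a * b ≠ 0 := mul_ne_zero ha0 hb0
  have hsum := rec_sum hD (w := w) hrec N
  have e1 : r * ζ + r * ζ⁻¹ = z := by rw [hz]; ring
  have e2 : r * ζ * (r * ζ⁻¹) = a * b := by rw [← hr]; field_simp
  have e3 : ζ⁻¹ ^ N = ζ ^ N * ζ := by
    rw [inv_pow]
    apply inv_eq_of_mul_eq_one_right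
    rw [← pow_succ, ← pow_add, ← hζ]; congr 1; ring
  have e4 : ζ ^ N * ζ ^ N * ζ = 1 := by
    rw [← pow_add, ← pow_succ, ← hζ]; congr 1; ring
  have e5 : ζ * ζ⁻¹ = 1 := mul_inv_cancel₀ hζ0
  have hsol := rec_solution (x := r * ζ) (x' := r * ζ⁻¹) (w := w) (by rw [e1, e2]; exact hrec)
  have hw0 : w 0 = 1 := by simp [hw]
  have hw1 : w 1 = b * ((a - 1 + z) / (b + 1)) := by simp only [hw, pow_one, entry_one]
  have hne := sub_ne ha0 hb0 hr hζ2 hζ0
  have hz' : z = (b + 1) * ((a - 1 + z) / (b + 1)) - (a - 1) := by field_simp; ring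
  change (((1 + b⁻¹) * ∑ j ∈ Finset.range N, w (j + 1) ^ 2 / (a * b) ^ (j + 1) + 1 -
    w N ^ 2 / (a * b) ^ N + w N ^ 2 / (a * b) ^ N) + b * ((1 + b⁻¹) * ∑ j ∈ Finset.range N,
      w (j + 1) ^ 2 / (a * b) ^ (j + 1) + 1 - w N ^ 2 / (a * b) ^ N + w N ^ 2 / (a * b) ^ N)) *
        _ = _
  rw [hw0, hw1] at hsum hsol
  generalize ∑ j ∈ Finset.range N, w (j + 1) ^ 2 / (a * b) ^ (j + 1) = T at hsum ⊢
  generalize (a - 1 + z) / (b + 1) = α at hz' hsum hsol
  subst hab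
  subst hra
  have hα : (r + 1) * α = r - 1 + r * (ζ + ζ⁻¹) := by linear_combination hz - hz'
  have hN0 : (r + 1) * w N = r ^ N * (1 + ζ) * ζ ^ N := by
    apply mul_left_cancel₀ hne
    have h1 := hsol N
    rw [mul_pow, mul_pow, e3] at h1
    linear_combination (r + 1) * h1 + r * r ^ N * ζ ^ N * (1 - ζ) * hα +
      r * r ^ N * ζ ^ N * (1 - r) * e5
  have hN1 : (r + 1) * w (N + 1) = r ^ N * r ^ 2 * (1 + ζ) * ζ ^ N := by
    apply mul_left_cancel₀ hne
    have h1 := hsol (N + 1)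
    rw [pow_succ, pow_succ, mul_pow, mul_pow, e3] at h1
    linear_combination (r + 1) * h1 + r ^ 2 * r ^ N * ζ ^ N * ζ * (1 - ζ⁻¹) * hα +
      r ^ 2 * r ^ N * ζ ^ N * (ζ - r * ζ⁻¹) * e5
  have e6 : r * ((1 + ζ) * ζ ^ N) ^ 2 = 2 * r + z := by
    rw [hz]
    linear_combination r * (ζ + 2 + ζ⁻¹) * e4 - r * ζ ^ N * ζ ^ N * e5
  have hrN : r ^ N ≠ 0 := pow_ne_zero _ ha0
  have hV0 : r * (r + 1) ^ 2 * (w N ^ 2 / (r * r) ^ N) = 2 * r + z := by
    rw [← e6, mul_pow r r, mul_assoc, ← mul_div_assoc, ← mul_pow, hN0]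
    field_simp
  have hV1 : (r + 1) ^ 2 * (w (N + 1) ^ 2 / (r * r) ^ (N + 1)) = r * (2 * r + z) := by
    rw [← e6, pow_succ (r * r), mul_pow r r, ← mul_div_assoc, ← mul_pow, hN1]
    field_simp
  have hα2 : (r * α) ^ 2 / (r * r) = α ^ 2 := by field_simp
  rw [hα2] at hsum
  generalize w N ^ 2 / (r * r) ^ N = V0 at hsum hV0 ⊢
  generalize w (N + 1) ^ 2 / (r * r) ^ (N + 1) = V1 at hsum hV1
  push_cast
  have hbb : r * r⁻¹ = 1 := mul_inv_cancel₀ ha0
  apply mul_left_cancel₀ ha0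
  rw [hz'] at hsum hV0 hV1 ⊢
  linear_combination (1 + r) ^ 2 * hsum +
    (1 + r) * T * (4 * (r * r) - ((r + 1) * α - (r - 1)) ^ 2) * hbb - r ^ 2 * hV1 + r * hV0

end Sum

end Cfsg.Agent.Chev.FH
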