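import Mathlib
import Cfsg.Agent.Chev.BNCount

/-!
The Hecke algebra of a finite (B,N)-pair acting on functions on the group, and rationality of
Schur elements computed from a matrix representation.
-/

set_option autoImplicit false

namespace Cfsg.Agent.Chev.BN

open Cfsg Classical

variable {G : Type*} [Group G] {P : BNPair G}

/-- `|BwB| / |B|`. -/
noncomputable def qW (P : BNPair G) (w : W P) : ℚ := (Nat.card (cell P w) : ℚ) / Nat.card P.B

theorem qW_pos [Finite G] (w : W P) : 0 < qW P w := by
  have : Nonempty (cell P w) := (cell_nonempty w).to_subtype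
  have h1 : 0 < Nat.card (cell P w) := Nat.card_pos
  have h2 : 0 < Nat.card P.B := Nat.card_pos
  unfold qW
  positivity

theorem qW_one [Finite G] : qW P 1 = 1 := by
  have h2 : 0 < Nat.card P.B := Nat.card_pos
  unfold qW
  rw [card_cell_one, div_self (by positivity)]

theorem qW_gen_mul [Finite G] {s : P.S} {w : W P}
    (hle : wlen (gen P) w ≤ wlen (gen P) (gen P s * w)) :
    qW P (gen P s * w) = qW P (gen P s) * qW P w := by
  have h2 : 0 < Nat.card P.B := Nat.card_pos
  have h := card_cell_gen_mul hle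
  have h' : (Nat.card (cell P (gen P s * w)) : ℚ) * Nat.card P.B =
      Nat.card (cell P (gen P s)) * Nat.card (cell P w) := by exact_mod_cast h
  unfold qW
  field_simp
  linarith

theorem qW_wprod [Finite G] {l : List P.S} (hl : Reduced (gen P) l) :
    qW P (wprod (gen P) l) = wprod (fun s => qW P (gen P s)) l := by
  induction l with
  | nil => simp [qW_one]
  | cons a t ih =>
    have ht := involGen.reduced_tail hl
    rw [wprod_cons, qW_gen_mul (by rw [← wprod_cons, hl, ht]; simp), ih ht, wprod_cons]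

theorem one_lt_qW_gen [Finite G] (s : P.S) : 1 < qW P (gen P s) := by
  have h2 : 0 < Nat.card P.B := Nat.card_pos
  obtain ⟨b, hb, hnb⟩ := exists_conj_not_mem s
  let f : Option P.B → cell P (gen P s) := fun o =>
    match o with
    | none => ⟨b * s, mul_mem_cell hb (simple_mem_cell s)⟩
    | some c => ⟨s * c, mem_cell_mul (simple_mem_cell s) c.2⟩
  have hss := P.sq_mem s s.2
  have key : ∀ c : P.B, b * s ≠ s * c := by
    intro c hc
    apply hnb
    rw [mul_assoc, hc, ← mul_assoc]
    exact P.B.mul_mem hss c.2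
  have hf : Function.Injective f := by
    rintro (_ | c) (_ | c') h
    · rfl
    · exact absurd (congrArg Subtype.val h) (key c')
    · exact absurd (congrArg Subtype.val h).symm (key c)
    · have : (s : G) * c = s * c' := congrArg Subtype.val h
      rw [Subtype.ext (mul_left_cancel this)]
  have := Nat.card_le_card_of_injective f hf
  rw [Finite.card_option] at this
  unfold qW
  rw [one_lt_div (by positivity)]
  exact_mod_cast this

/-- The matrix of the Hecke algebra element with coefficients `f`. -/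
noncomputable def EE (P : BNPair G) (f : W P → ℂ) : Matrix G G ℂ :=
  Matrix.of fun g h => (Nat.card P.B : ℂ)⁻¹ * f (wt P (g⁻¹ * h))

/-- Left multiplication by a generator of the Hecke algebra, on coefficients. -/
noncomputable def LL (s : P.S) (f : W P → ℂ) : W P → ℂ := fun w =>
  if wlen (gen P) w ≤ wlen (gen P) (gen P s * w) then (qW P (gen P s) : ℂ) * f (gen P s * w)
  else f (gen P s * w) + ((qW P (gen P s) : ℂ) - 1) * f w

theorem EE_sum {ι : Type*} (A : Finset ι) (c : ι → ℂ) (f : ι → W P → ℂ) :
    EE P (fun w => ∑ i ∈ A, c i * f i w) = ∑ i ∈ A, c i • EE P (f i) := by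
  ext g h
  simp only [EE, Matrix.of_apply, Matrix.sum_apply, Matrix.smul_apply, smul_eq_mul,
    Finset.mul_sum]
  refine Finset.sum_congr rfl fun i _ => by ring

theorem EE_mul_apply [Fintype G] (f f' : W P → ℂ) (g h : G) :
    (EE P f * EE P f') g h = (Nat.card P.B : ℂ)⁻¹ * (Nat.card P.B : ℂ)⁻¹ *
      ∑ x : G, f (wt P x⁻¹) * f' (wt P (x * (g⁻¹ * h))) := by
  rw [Matrix.mul_apply, Finset.mul_sum]
  refine Fintype.sum_equiv ((Equiv.inv G).trans (Equiv.mulRight g)) _ _ fun k => ?_
  simp only [EE, Matrix.of_apply, Equiv.trans_apply, Equiv.inv_apply, Equiv.coe_mulRight,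
    mul_inv_rev, inv_inv]
  rw [show k⁻¹ * g * (g⁻¹ * h) = k⁻¹ * h by group]
  ring

theorem card_filter_cell [Fintype G] (w : W P) :
    ((Finset.univ.filter fun x : G => x ∈ cell P w).card : ℂ) = (qW P w : ℂ) * Nat.card P.B := by
  have h2 : 0 < Nat.card P.B := Nat.card_pos
  have h3 : (Nat.card P.B : ℂ) ≠ 0 := by exact_mod_cast h2.ne'
  unfold qW
  push_cast
  rw [div_mul_cancel₀ _ h3, Nat.card_eq_fintype_card, Fintype.card_subtype]

theorem sum_single_inv [Fintype G] (v : W P) (hv : v⁻¹ = v) (F : G → ℂ) :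
    ∑ x : G, (Pi.single v (1 : ℂ) : W P → ℂ) (wt P x⁻¹) * F x =
      ∑ x ∈ Finset.univ.filter (fun x : G => x ∈ cell P v), F x := by
  rw [Finset.sum_filter]
  refine Finset.sum_congr rfl fun x _ => ?_
  by_cases hx : x ∈ cell P v
  · have : wt P x⁻¹ = v := wt_eq_iff.mpr (hv ▸ inv_mem_cell hx)
    rw [this, if_pos hx, Pi.single_eq_same, one_mul]
  · have : wt P x⁻¹ ≠ v := fun h => hx (by
      have := inv_mem_cell (wt_eq_iff.mp h)
      rwa [inv_inv, hv] at this)
    rw [Pi.single_eq_of_ne this, if_neg hx, zero_mul]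

theorem EE_one_mul [Fintype G] (f : W P → ℂ) : EE P (Pi.single 1 1) * EE P f = EE P f := by
  have h2 : 0 < Nat.card P.B := Nat.card_pos
  have h3 : (Nat.card P.B : ℂ) ≠ 0 := by exact_mod_cast h2.ne'
  ext g h
  rw [EE_mul_apply, sum_single_inv 1 inv_one]
  rw [Finset.sum_congr rfl (g := fun _ => f (wt P (g⁻¹ * h))) (fun x hx => by
    have hx' : x ∈ P.B := mem_cell_one.mp (Finset.mem_filter.mp hx).2
    rw [wt_eq_iff.mpr (mul_mem_cell hx' (mem_cell_wt _))])]
  rw [Finset.sum_const, nsmul_eq_mul, card_filter_cell, qW_one]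
  simp only [EE, Matrix.of_apply]
  push_cast
  field_simp

theorem EE_gen_mul [Fintype G] (s : P.S) (f : W P → ℂ) :
    EE P (Pi.single (gen P s) 1) * EE P f = EE P (LL s f) := by
  have h2 : 0 < Nat.card P.B := Nat.card_pos
  have h3 : (Nat.card P.B : ℂ) ≠ 0 := by exact_mod_cast h2.ne'
  ext g h
  rw [EE_mul_apply, sum_single_inv _ (involGen.inv_eq s)]
  simp only [EE, Matrix.of_apply, LL]
  set y := g⁻¹ * h
  set w := wt P y with hw
  have hy : y ∈ cell P w := mem_cell_wt y
  split_ifs with hle
  · rw [Finset.sum_congr rfl (g := fun _ => f (gen P s * w)) (fun x hx => by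
      rw [wt_eq_iff.mpr (cell_gen_mul_of_le hle (Finset.mem_filter.mp hx).2 hy)])]
    rw [Finset.sum_const, nsmul_eq_mul, card_filter_cell]
    field_simp
  · have hw' : gen P s * (gen P s * w) = w := involGen.cancel_left s w
    have hle' : wlen (gen P) (gen P s * w) ≤ wlen (gen P) (gen P s * (gen P s * w)) := by
      rw [hw']; omega
    obtain ⟨x0, hx0, y0, hy0, e⟩ :=
      exists_mul_of_mem_cell_gen_mul (s := s) (w := gen P s * w) (g := y) (by rwa [hw'])
    have hx0' : x0⁻¹ ∈ cell P (gen P s) := by
      have := inv_mem_cell hx0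
      rwa [involGen.inv_eq] at this
    rw [Finset.sum_congr rfl
      (g := fun x => f w + if x * x0 ∈ P.B then f (gen P s * w) - f w else 0) (fun x hx => by
      have hx' := (Finset.mem_filter.mp hx).2
      split_ifs with hb
      · rw [e, ← mul_assoc, wt_eq_iff.mpr (mul_mem_cell hb hy0)]; ring
      · rcases cell_gen_mul hx' hx0 with h1 | h1
        · rw [gen_sq, mem_cell_one] at h1
          exact absurd h1 hb
        · have := cell_gen_mul_of_le hle' h1 hy0
          rw [hw'] at this
          rw [e, ← mul_assoc, wt_eq_iff.mpr this, add_zero])]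
    rw [Finset.sum_add_distrib, Finset.sum_const, nsmul_eq_mul, card_filter_cell,
      ← Finset.sum_filter, Finset.sum_const, nsmul_eq_mul, Finset.filter_filter]
    have hc : ((Finset.univ.filter fun x : G => x ∈ cell P (gen P s) ∧ x * x0 ∈ P.B).card : ℂ) =
        Nat.card P.B := by
      rw [Nat.card_eq_fintype_card, Fintype.card_subtype]
      congr 1
      refine Finset.card_bij (fun x _ => x * x0) ?_ ?_ ?_
      · intro x hx
        simpa using (Finset.mem_filter.mp hx).2.2
      · intro x _ x' _ h
        exact mul_right_cancel h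
      · intro b hb
        have hb' : b ∈ P.B := (Finset.mem_filter.mp hb).2
        refine ⟨b * x0⁻¹, Finset.mem_filter.mpr ⟨Finset.mem_univ _, mul_mem_cell hb' hx0', ?_⟩,
          by group⟩
        simpa using hb'
    rw [hc]
    field_simp
    ring

theorem LL_single {s : P.S} {w : W P} (hle : wlen (gen P) w ≤ wlen (gen P) (gen P s * w)) :
    LL s (Pi.single w 1) = Pi.single (gen P s * w) 1 := by
  have hne := wlen_gen_mul_ne s w
  funext v
  unfold LL
  by_cases hv : v = gen P s * w
  · subst hv
    rw [involGen.cancel_left, if_neg (by omega), Pi.single_eq_same, Pi.single_eq_same,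
      Pi.single_eq_of_ne (fun h => hne (by rw [h])), mul_zero, add_zero]
  · have h1 : gen P s * v ≠ w := fun h => hv (by rw [← h, involGen.cancel_left])
    rw [Pi.single_eq_of_ne hv, Pi.single_eq_of_ne h1]
    split_ifs with h
    · simp
    · have : v ≠ w := by rintro rfl; exact h hle
      rw [Pi.single_eq_of_ne this]; simp

theorem trace_EE [Fintype G] (f : W P → ℂ) :
    (EE P f).trace = (Fintype.card G : ℂ) * (Nat.card P.B : ℂ)⁻¹ * f 1 := by
  have : wt P (1 : G) = 1 := wt_eq_iff.mpr (mem_cell_one.mpr P.B.one_mem)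
  simp [Matrix.trace, EE, this, mul_assoc]

theorem rat_of_mul_self {n : Type*} [Fintype n] (e : Matrix n n ℂ) (c : ℂ) (t : ℚ) (ht : t ≠ 0)
    (he : e * e = c • e) (htr : e.trace = t) : ∃ q : ℚ, c = q := by
  have ht' : (t : ℂ) ≠ 0 := by exact_mod_cast ht
  have hc : c ≠ 0 := by
    rintro rfl
    have : IsNilpotent e := ⟨2, by rw [pow_two, he, zero_smul]⟩
    have h := Matrix.isNilpotent_trace_of_isNilpotent this
    rw [isNilpotent_iff_eq_zero, htr] at h
    exact ht' h
  have hid : IsIdempotentElem (Matrix.toLin' (c⁻¹ • e)) := by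
    unfold IsIdempotentElem
    rw [Module.End.mul_eq_comp, ← Matrix.toLin'_mul, smul_mul_smul_comm, he, smul_smul]
    congr 2
    field_simp
  have h := (LinearMap.IsIdempotentElem.isProj_range _ hid).trace
  rw [Matrix.trace_toLin'_eq, Matrix.trace_smul, htr, smul_eq_mul] at h
  set k := Module.finrank ℂ (LinearMap.range (Matrix.toLin' (c⁻¹ • e)))
  have hk : (k : ℂ) ≠ 0 := by
    rw [← h]; exact mul_ne_zero (inv_ne_zero hc) ht'
  refine ⟨t / k, ?_⟩
  push_cast
  rw [← h]
  field_simp

theorem wprod_transpose {ι n : Type*} [Fintype n] (R : ι → Matrix n n ℂ)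
    (hsym : ∀ s, (R s).transpose = R s) (l : List ι) :
    (wprod R l).transpose = wprod R l.reverse := by
  induction l with
  | nil => simp
  | cons a t ih => simp [Matrix.transpose_mul, ih, hsym]

/-- Rationality of the Schur element of a two-dimensional symmetric representation of the
Hecke algebra. -/
theorem exists_schur_rat [Finite G] [Fintype (W P)] (R : P.S → Matrix (Fin 2) (Fin 2) ℂ)
    (hsym : ∀ s, (R s).transpose = R s)
    (hquad : ∀ s, R s * R s = ((qW P (gen P s) : ℂ) - 1) • R s + (qW P (gen P s) : ℂ) • 1)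
    (hbraid : ∀ a b, orderOf (gen P a * gen P b) ≠ 0 →
      wprod R (alt a b (orderOf (gen P a * gen P b))) =
        wprod R (alt b a (orderOf (gen P a * gen P b))))
    (t : P.S) (ht : R t = !![(qW P (gen P t) : ℂ), 0; 0, -1]) :
    ∃ ρ : W P → Matrix (Fin 2) (Fin 2) ℂ,
      (∀ l, Reduced (gen P) l → ρ (wprod (gen P) l) = wprod R l) ∧
      ∃ c : ℚ, ∑ w, (qW P w : ℂ)⁻¹ * (ρ w 0 0) ^ 2 = c := by
  have := Fintype.ofFinite G
  choose red hred hprod using (involGen (P := P)).exists_reduced'
  let ρ : W P → Matrix (Fin 2) (Fin 2) ℂ := fun w => wprod R (red w)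
  have hρ : ∀ l, Reduced (gen P) l → ρ (wprod (gen P) l) = wprod R l := by
    intro l hl
    refine exchange.matsumoto involGen R hbraid _ _ (hred _) (hprod _).symm ?_
    rw [← hl, ← hred, hprod]
  have hρ1 : ρ 1 = 1 := by
    have := hρ [] (by simp [Reduced, wlen_one])
    simpa using this
  have hρs : ∀ s w, wlen (gen P) w ≤ wlen (gen P) (gen P s * w) → ρ (gen P s * w) = R s * ρ w := by
    intro s w hle
    have h1 : Reduced (gen P) (s :: red w) := by
      unfold Reduced
      rw [wprod_cons, hprod, List.length_cons, ← hred w, hprod]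
      have := exchange.wlen_simple_mul involGen s w
      omega
    have := hρ _ h1
    rwa [wprod_cons, hprod, wprod_cons] at this
  refine ⟨ρ, hρ, ?_⟩
  have hq0 : ∀ w, (qW P w : ℂ) ≠ 0 := fun w => by exact_mod_cast (qW_pos w).ne'
  let F : Fin 2 → W P → ℂ := fun j w => (qW P w : ℂ)⁻¹ * ρ w j 0
  have hLL : ∀ s j, LL s (F j) = fun w => ∑ k, R s j k * F k w := by
    intro s j
    funext w
    have hs : ∑ k, R s j k * F k w = (qW P w : ℂ)⁻¹ * (R s * ρ w) j 0 := by
      rw [Matrix.mul_apply, Finset.mul_sum]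
      exact Finset.sum_congr rfl fun k _ => by simp only [F]; ring
    rw [hs]
    unfold LL
    split_ifs with hle
    · simp only [F]
      rw [hρs s w hle, qW_gen_mul hle]
      have := hq0 (gen P s)
      have := hq0 w
      push_cast
      field_simp
    · have hw' : gen P s * (gen P s * w) = w := involGen.cancel_left s w
      have hle' : wlen (gen P) (gen P s * w) ≤ wlen (gen P) (gen P s * (gen P s * w)) := by
        rw [hw']; omega
      have e1 := hρs s _ hle'
      have e2 := qW_gen_mul hle'
      rw [hw'] at e1 e2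
      simp only [F]
      rw [e1, ← Matrix.mul_assoc, hquad, e2, Matrix.add_mul, Matrix.smul_mul, Matrix.smul_mul,
        Matrix.one_mul, Matrix.add_apply, Matrix.smul_apply, Matrix.smul_apply]
      have := hq0 (gen P s)
      have := hq0 (gen P s * w)
      simp only [smul_eq_mul]
      push_cast
      field_simp
      ring
  have hgen : ∀ s j, EE P (Pi.single (gen P s) 1) * EE P (F j) = ∑ k, R s j k • EE P (F k) := by
    intro s j
    rw [EE_gen_mul, hLL, EE_sum]
  have hword : ∀ l, Reduced (gen P) l → ∀ j, EE P (Pi.single (wprod (gen P) l) 1) * EE P (F j) =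
      ∑ k, wprod R l k j • EE P (F k) := by
    intro l
    induction l with
    | nil =>
      intro _ j
      rw [wprod_nil, EE_one_mul, wprod_nil]
      simp [Matrix.one_apply]
    | cons a l ih =>
      intro hl j
      have hl' := involGen.reduced_tail hl
      have hle : wlen (gen P) (wprod (gen P) l) ≤ wlen (gen P) (gen P a * wprod (gen P) l) := by
        rw [← wprod_cons, hl, hl']; simp
      rw [wprod_cons, ← LL_single hle, ← EE_gen_mul, Matrix.mul_assoc, ih hl', Finset.mul_sum]
      simp only [Matrix.mul_smul, hgen, Finset.smul_sum, smul_smul]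
      rw [Finset.sum_comm]
      refine Finset.sum_congr rfl fun k _ => ?_
      rw [← Finset.sum_smul, wprod_cons, Matrix.mul_apply]
      congr 1
      refine Finset.sum_congr rfl fun i _ => ?_
      rw [mul_comm, ← hsym a, Matrix.transpose_apply, hsym a]
  have hw : ∀ w j, EE P (Pi.single w 1) * EE P (F j) = ∑ k, ρ w k j • EE P (F k) := by
    intro w j
    have := hword _ (hred w) j
    rwa [hprod] at this
  have hdec : EE P (F 0) = ∑ w, F 0 w • EE P (Pi.single w 1) := by
    rw [← EE_sum]
    congr 1
    funext v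
    simp [Pi.single_apply]
  set c : ℂ := ∑ w, (qW P w : ℂ)⁻¹ * (ρ w 0 0) ^ 2 with hc
  set c' : ℂ := ∑ w, F 0 w * ρ w 1 0
  have hee : EE P (F 0) * EE P (F 0) = c • EE P (F 0) + c' • EE P (F 1) := by
    conv_lhs => rw [hdec, Finset.sum_mul]
    rw [← hdec]
    simp only [Matrix.smul_mul, hw, Fin.sum_univ_two, smul_add, smul_smul, Finset.sum_add_distrib,
      ← Finset.sum_smul]
    congr 2
    exact Finset.sum_congr rfl fun w _ => by simp only [F]; ring
  have ht0 : EE P (Pi.single (gen P t) 1) * EE P (F 0) = (qW P (gen P t) : ℂ) • EE P (F 0) := by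
    rw [hgen, ht]; simp
  have ht1 : EE P (Pi.single (gen P t) 1) * EE P (F 1) = -EE P (F 1) := by
    rw [hgen, ht]; simp
  have hz : c' • EE P (F 1) = 0 := by
    have h1 : EE P (Pi.single (gen P t) 1) * (EE P (F 0) * EE P (F 0)) =
        (qW P (gen P t) : ℂ) • (EE P (F 0) * EE P (F 0)) := by
      rw [← Matrix.mul_assoc, ht0, Matrix.smul_mul]
    rw [hee, Matrix.mul_add, Matrix.mul_smul, Matrix.mul_smul, ht0, ht1, smul_add,
      smul_comm c, add_right_inj] at h1
    have h2 : ((qW P (gen P t) : ℂ) + 1) • (c' • EE P (F 1)) = 0 := by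
      rw [add_smul, ← h1, one_smul, smul_neg, neg_add_cancel]
    have h3 : ((qW P (gen P t) : ℂ) + 1) ≠ 0 := by
      have := qW_pos (P := P) (gen P t)
      exact_mod_cast (by positivity : qW P (gen P t) + 1 ≠ 0)
    exact (smul_eq_zero.mp h2).resolve_left h3
  rw [hz, add_zero] at hee
  have h2 : 0 < Nat.card P.B := Nat.card_pos
  have h3 : 0 < Fintype.card G := Fintype.card_pos
  refine rat_of_mul_self _ c ((Fintype.card G : ℚ) / Nat.card P.B) (by positivity) hee ?_
  rw [trace_EE]
  simp [F, hρ1, qW_one, div_eq_mul_inv]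

end Cfsg.Agent.Chev.BN
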