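import Mathlib
import Cfsg.Agent.Chev.Hecke
import Cfsg.Agent.Chev.FHAlg

/-!
The Feit–Higman theorem for finite (B,N)-pairs of rank two.
-/

set_option autoImplicit false

namespace Cfsg.Agent.Chev.FH

open Cfsg Cfsg.Agent.Chev Cfsg.Agent.Chev.BN Classical

theorem dvd_of_rat {ζ : ℂ} {n : ℕ} (hn : n ≠ 0) (h : IsPrimitiveRoot ζ n) {u : ℚ}
    (hu : ζ + ζ⁻¹ = u) : n ∣ 4 ∨ n ∣ 6 := by
  have hi : IsIntegral ℤ (ζ + ζ⁻¹) :=
    (h.isIntegral (Nat.pos_of_ne_zero hn)).add (h.inv.isIntegral (Nat.pos_of_ne_zero hn))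
  obtain ⟨k, hk⟩ := hi.exists_int_iff_exists_rat.mp ⟨u, hu⟩
  have h1 : ‖ζ‖ = 1 := h.norm'_eq_one hn
  have h0 : ζ ≠ 0 := h.ne_zero hn
  have h2 : ‖(k : ℂ)‖ ≤ 2 := by
    rw [← hk]
    refine (norm_add_le _ _).trans ?_
    rw [norm_inv, h1]; norm_num
  rw [Complex.norm_intCast] at h2
  have h3 : |k| ≤ 2 := by exact_mod_cast h2
  have e : ζ * ζ + 1 = k * ζ := by
    rw [← hk]; field_simp
  obtain ⟨h4, h5⟩ := abs_le.mp h3
  interval_cases k
  · left
    apply h.dvd_of_pow_eq_one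
    have : ζ = -1 := by
      have : (ζ + 1) ^ 2 = 0 := by push_cast at e; linear_combination e
      exact eq_neg_of_add_eq_zero_left (pow_eq_zero_iff two_ne_zero |>.mp this)
    rw [this]; norm_num
  · right
    apply h.dvd_of_pow_eq_one
    push_cast at e
    linear_combination (ζ - 1) * (ζ ^ 3 + 1) * e
  · left
    apply h.dvd_of_pow_eq_one
    push_cast at e
    linear_combination (ζ ^ 2 - 1) * e
  · right
    apply h.dvd_of_pow_eq_one
    push_cast at e
    linear_combination (ζ + 1) * (ζ ^ 3 - 1) * e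
  · left
    apply h.dvd_of_pow_eq_one
    have : ζ = 1 := by
      have : (ζ - 1) ^ 2 = 0 := by push_cast at e; linear_combination e
      exact sub_eq_zero.mp (pow_eq_zero_iff two_ne_zero |>.mp this)
    rw [this]; norm_num

variable {G : Type*} [Group G] [Finite G] {P : BNPair G}

/-- The rational Schur element attached to `ζ`. -/
theorem exists_schur {s t : P.S} (hst : ∀ i, i = s ∨ i = t) (hne : s ≠ t) {r ζ : ℂ}
    (hr : r * r = (qW P (gen P s) : ℂ) * qW P (gen P t))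
    (hodd : Odd (orderOf (gen P s * gen P t)) →
      r = qW P (gen P s) ∧ qW P (gen P s) = qW P (gen P t))
    (hζ : ζ ^ orderOf (gen P s * gen P t) = 1) (hζ2 : ζ * ζ ≠ 1) :
    ∃ c : ℚ, (c : ℂ) * (4 * ((qW P (gen P s) : ℂ) * qW P (gen P t)) - (r * (ζ + ζ⁻¹)) ^ 2) =
      (orderOf (gen P s * gen P t) : ℕ) *
        (((qW P (gen P s) : ℂ) * qW P (gen P t) + 1 - r * (ζ + ζ⁻¹)) *
          ((qW P (gen P s) : ℂ) + qW P (gen P t) + r * (ζ + ζ⁻¹))) := by
  have := Fintype.ofFinite (W P)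
  set a : ℂ := ((qW P (gen P s) : ℚ) : ℂ) with ha
  set b : ℂ := ((qW P (gen P t) : ℚ) : ℂ) with hb
  set z := r * (ζ + ζ⁻¹) with hz
  have ha0 : a ≠ 0 := by rw [ha]; exact_mod_cast (qW_pos _).ne'
  have hb0 : b ≠ 0 := by rw [hb]; exact_mod_cast (qW_pos _).ne'
  have hb1 : b + 1 ≠ 0 := by
    have := qW_pos (P := P) (gen P t)
    rw [hb]; exact_mod_cast (by positivity : qW P (gen P t) + 1 ≠ 0)
  obtain ⟨β, hβ⟩ := IsAlgClosed.exists_eq_mul_self
    ((a - 1 + z) / (b + 1) * (a - 1 - (a - 1 + z) / (b + 1)) + a)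
  have hβ := hβ.symm
  let R : P.S → Matrix (Fin 2) (Fin 2) ℂ := fun i => if i = s then Rs a b z β else Rt b
  have hRs : R s = Rs a b z β := if_pos rfl
  have hRt : R t = Rt b := if_neg hne.symm
  set m := orderOf (gen P s * gen P t) with hm
  have hm0 : m ≠ 0 := (orderOf_pos _).ne'
  have hm1 : m ≠ 1 := by
    rw [hm, Ne, orderOf_eq_one_iff, mul_eq_one_iff_eq_inv, involGen.inv_eq]
    exact fun h => hne (gen_injective h)
  have hm' : orderOf (gen P t * gen P s) = m := by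
    rw [hm, ← orderOf_inv, mul_inv_rev, involGen.inv_eq, involGen.inv_eq]
  have hbr : wprod R (alt s t m) = wprod R (alt t s m) := by
    rcases Nat.even_or_odd' m with ⟨N, h | h⟩
    · obtain ⟨N, rfl⟩ : ∃ N', N = N' + 1 := ⟨N - 1, by omega⟩
      rw [h] at hζ ⊢
      rw [wprod_alt_two_mul, wprod_alt_two_mul, hRs, hRt]
      exact braid_even hb1 hβ (luc_even ha0 hb0 hr hz hζ2 (by omega) hζ)
    · obtain ⟨N, rfl⟩ : ∃ N', N = N' + 1 := ⟨N - 1, by omega⟩
      obtain ⟨h1, h2⟩ := hodd ⟨_, h⟩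
      rw [h] at hζ ⊢
      rw [wprod_alt_two_mul_add_one, wprod_alt_two_mul_add_one, hRs, hRt]
      exact braid_odd hb1 hβ (by rw [ha, hb, h2]) (luc_odd ha0 hb0 hr hz hζ2 h1 hζ)
  obtain ⟨ρ, hρ, c, hc⟩ := exists_schur_rat R
    (fun i => by
      rcases hst i with rfl | rfl
      · rw [hRs, Rs_transpose]
      · rw [hRt, Rt_transpose])
    (fun i => by
      rcases hst i with rfl | rfl
      · rw [hRs, Rs_sq hβ]
      · rw [hRt, Rt_sq])
    (fun i j _ => by
      rcases hst i with rfl | rfl <;> rcases hst j with rfl | rfl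
      · rfl
      · exact hbr
      · rw [hm']; exact hbr.symm
      · rfl)
    t hRt
  refine ⟨c, ?_⟩
  have hterm : ∀ l, Reduced (gen P) l →
      (qW P (wprod (gen P) l) : ℂ)⁻¹ * (ρ (wprod (gen P) l) 0 0) ^ 2 =
        term (fun i => (qW P (gen P i) : ℂ)) R l := by
    intro l hl
    rw [hρ l hl, qW_wprod hl, term]
    congr 2
    exact map_wprod _ (Rat.castHom ℂ).toMonoidHom l
  rw [← hc, exchange.sum_dihedral involGen (a := t) (b := s) (fun i => (hst i).symm), hm']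
  rw [Finset.sum_congr rfl (g := fun k => term (fun i => (qW P (gen P i) : ℂ)) R (alt s t k) +
      term (fun i => (qW P (gen P i) : ℂ)) R (alt t s (k + 1))) (fun k hk => by
    have hk' := Finset.mem_range.mp hk
    rw [hterm _ (exchange.reduced_alt_of_le involGen s t (by omega)),
      hterm _ (exchange.reduced_alt_of_le involGen t s (by omega))])]
  rcases Nat.even_or_odd' m with ⟨N, h | h⟩
  · rw [h] at hζ ⊢
    exact schur_even (q := fun i => (qW P (gen P i) : ℂ)) ha.symm hb.symm hRs hRt ha0 hb0 hb1 hβ hr hz hζ2 (by omega) hζ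
  · obtain ⟨h1, h2⟩ := hodd ⟨_, h⟩
    rw [h] at hζ ⊢
    exact schur_odd (q := fun i => (qW P (gen P i) : ℂ)) ha.symm hb.symm hRs hRt ha0 hb0 hb1 hβ hr
      hz hζ2 h1 (by rw [ha, hb, h2]) hζ

theorem rat_odd {a : ℚ} (ha : 1 < a) {m : ℕ} (hm : m ≠ 0) {θ : ℂ} (hθ : θ + 2 ≠ 0) {c : ℚ}
    (h : (c : ℂ) * (4 * ((a : ℂ) * a) - (a * θ) ^ 2) =
      m * (((a : ℂ) * a + 1 - a * θ) * (a + a + a * θ))) : ∃ u : ℚ, θ = u := by
  have ha0 : (a : ℂ) ≠ 0 := by exact_mod_cast (by positivity : a ≠ 0)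
  have h1 : (a : ℂ) * (m - c) * θ = m * (a * a + 1) - 2 * a * c := by
    apply mul_left_cancel₀ (mul_ne_zero ha0 hθ)
    linear_combination h
  have hc : (m : ℚ) - c ≠ 0 := by
    intro h0
    have h2 : c = m := by linarith
    subst h2
    have h3 : ((m * (a - 1) ^ 2 : ℚ) : ℂ) = 0 := by
      push_cast at h1 ⊢
      linear_combination -h1
    have h4 : (m * (a - 1) ^ 2 : ℚ) = 0 := by exact_mod_cast h3
    have : (0 : ℚ) < m * (a - 1) ^ 2 := by
      have : 0 < a - 1 := by linarith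
      positivity
    linarith
  have hc' : (m : ℂ) - c ≠ 0 := by exact_mod_cast hc
  refine ⟨(m * (a * a + 1) - 2 * a * c) / (a * (m - c)), ?_⟩
  push_cast
  rw [← h1]
  field_simp

theorem rat_even {a b : ℚ} (ha : 1 < a) (hb : 1 < b) {m : ℕ} (hm : m ≠ 0) {z : ℂ} {c c' : ℚ}
    (h : (c : ℂ) * (4 * ((a : ℂ) * b) - z ^ 2) = m * (((a : ℂ) * b + 1 - z) * (a + b + z)))
    (h' : (c' : ℂ) * (4 * ((a : ℂ) * b) - (-z) ^ 2) =
      m * (((a : ℂ) * b + 1 - -z) * (a + b + -z))) : ∃ u : ℚ, z = u := by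
  have h1 : z ^ 2 * (2 * m - c - c') = 2 * m * ((a * b + 1) * (a + b)) - 4 * a * b * (c + c') := by
    linear_combination h + h'
  have ha1 : 0 < a - 1 := by linarith
  have hb1 : 0 < b - 1 := by linarith
  have hc : (2 * m : ℚ) - c - c' ≠ 0 := by
    intro h0
    have h2 : c' = 2 * m - c := by linarith
    subst h2
    have h3 : ((2 * m * (a * (b - 1) ^ 2 + b * (a - 1) ^ 2) : ℚ) : ℂ) = 0 := by
      push_cast at h1 ⊢
      linear_combination -h1
    have h4 : (2 * m * (a * (b - 1) ^ 2 + b * (a - 1) ^ 2) : ℚ) = 0 := by exact_mod_cast h3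
    have : (0 : ℚ) < 2 * m * (a * (b - 1) ^ 2 + b * (a - 1) ^ 2) := by positivity
    linarith
  have hc' : (2 * m : ℂ) - c - c' ≠ 0 := by exact_mod_cast hc
  obtain ⟨v, hv⟩ : ∃ v : ℚ, z ^ 2 = v := by
    refine ⟨(2 * m * ((a * b + 1) * (a + b)) - 4 * a * b * (c + c')) / (2 * m - c - c'), ?_⟩
    push_cast
    rw [← h1]
    field_simp
  have hL : ((m * ((a - 1) * (b - 1)) : ℚ) : ℂ) ≠ 0 := by
    exact_mod_cast (by positivity : (m * ((a - 1) * (b - 1)) : ℚ) ≠ 0)
  refine ⟨(c * (4 * (a * b) - v) - m * ((a * b + 1) * (a + b) - v)) / (m * ((a - 1) * (b - 1))), ?_⟩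
  rw [Rat.cast_div, eq_div_iff hL]
  push_cast
  rw [← hv]
  linear_combination -h

theorem orderOf_mem {s t : P.S} (hst : ∀ i, i = s ∨ i = t) (hne : s ≠ t) :
    orderOf (gen P s * gen P t) ∈ ({2, 3, 4, 6, 8} : Set ℕ) := by
  have key := @exists_schur G _ _ P s t hst hne
  set m := orderOf (gen P s * gen P t) with hm
  have hm0 : m ≠ 0 := (orderOf_pos _).ne'
  have hm1 : m ≠ 1 := by
    rw [hm, Ne, orderOf_eq_one_iff, mul_eq_one_iff_eq_inv, involGen.inv_eq]
    exact fun h => hne (gen_injective h)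
  have hm' : orderOf (gen P t * gen P s) = m := by
    rw [hm, ← orderOf_inv, mul_inv_rev, involGen.inv_eq, involGen.inv_eq]
  have ha := one_lt_qW_gen s
  have hb := one_lt_qW_gen t
  by_cases hm2 : m = 2
  · simp [hm2]
  obtain ⟨ζ, hζ⟩ : ∃ ζ : ℂ, IsPrimitiveRoot ζ m := ⟨_, Complex.isPrimitiveRoot_exp m hm0⟩
  have hζ0 : ζ ≠ 0 := hζ.ne_zero hm0
  have hζ2 : ζ * ζ ≠ 1 := by
    intro h
    have := Nat.le_of_dvd two_pos (hζ.dvd_of_pow_eq_one 2 (by rw [pow_two, h]))
    omega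
  rcases Nat.even_or_odd' m with ⟨N, h | h⟩
  · obtain ⟨r, hr⟩ := IsAlgClosed.exists_eq_mul_self ((qW P (gen P s) : ℂ) * qW P (gen P t))
    have hno : ¬Odd m := by rw [h]; simp
    have hD : ((qW P (gen P s) : ℂ) * qW P (gen P t)) ≠ 0 := by
      exact_mod_cast (by positivity : qW P (gen P s) * qW P (gen P t) ≠ 0)
    have hrat : ∀ η : ℂ, η ^ m = 1 → η * η ≠ 1 → ∃ u : ℚ, r * (η + η⁻¹) = u := by
      intro η h1 h2
      obtain ⟨c, hc⟩ := key hr.symm (fun h => absurd h hno) h1 h2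
      obtain ⟨c', hc'⟩ := key (ζ := -η) hr.symm (fun h => absurd h hno)
        (by rw [h, Even.neg_pow (by simp), ← h, h1]) (by simpa using h2)
      rw [show r * (-η + (-η)⁻¹) = -(r * (η + η⁻¹)) by rw [inv_neg]; ring] at hc'
      exact rat_even ha hb hm0 hc hc'
    obtain ⟨u, hu⟩ := hrat ζ hζ.pow_eq_one hζ2
    have hN0 : N ≠ 0 := by omega
    have hζN : IsPrimitiveRoot (ζ ^ 2) N := hζ.pow (Nat.pos_of_ne_zero hm0) h
    have hu2 : ζ ^ 2 + (ζ ^ 2)⁻¹ = ((u ^ 2 / (qW P (gen P s) * qW P (gen P t)) - 2 : ℚ) : ℂ) := by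
      push_cast
      rw [← hu, mul_pow, pow_two r, ← hr]
      field_simp
      ring
    have hdvd := dvd_of_rat hN0 hζN hu2
    have h12 : N ≠ 6 := by
      rintro rfl
      obtain ⟨u', hu'⟩ := hrat (ζ ^ 2) (by rw [← pow_mul, mul_comm, pow_mul, hζ.pow_eq_one, one_pow])
        (by
          intro h4
          have := hζ.dvd_of_pow_eq_one 4 (by rw [← h4]; ring)
          rw [h] at this
          omega)
      rw [hu2] at hu'
      set v : ℚ := u ^ 2 / (qW P (gen P s) * qW P (gen P t)) - 2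
      have hv0 : (v : ℂ) ≠ 0 := by
        intro h0
        rw [h0] at hu2
        have : ζ ^ 8 = 1 := by
          field_simp at hu2
          linear_combination (ζ ^ 4 - 1) * hu2
        have := hζ.dvd_of_pow_eq_one 8 this
        rw [h] at this
        omega
      have hr0 : r ≠ 0 := by rintro rfl; exact hD (by simpa using hr)
      have hu'0 : (u' : ℂ) ≠ 0 := by rw [← hu']; exact mul_ne_zero hr0 hv0
      have : ζ + ζ⁻¹ = ((u * v / u' : ℚ) : ℂ) := by
        push_cast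
        rw [← hu, ← hu']
        field_simp
      have := dvd_of_rat hm0 hζ this
      rw [h] at this
      omega
    have hle : N ≤ 6 := by
      rcases hdvd with h1 | h1
      · have := Nat.le_of_dvd (by norm_num) h1; omega
      · exact Nat.le_of_dvd (by norm_num) h1
    rw [h]
    interval_cases N <;> simp_all
  · have hab : qW P (gen P s) = qW P (gen P t) := by
      have h1 := qW_wprod (exchange.reduced_alt_of_le involGen s t (k := m) le_rfl)
      have h2 := qW_wprod (exchange.reduced_alt_of_le involGen t s (k := m) hm'.ge)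
      rw [(wprod_alt_eq_iff _ gen_sq m s t).mpr (pow_orderOf_eq_one _), h2, h,
        wprod_alt_two_mul_add_one, wprod_alt_two_mul_add_one, 
        mul_comm (qW P (gen P t)) (qW P (gen P s))] at h1
      exact (mul_right_cancel₀ (by positivity) h1).symm
    obtain ⟨c, hc⟩ := key (r := qW P (gen P s)) (by rw [hab]) (fun _ => ⟨rfl, hab⟩)
      hζ.pow_eq_one hζ2
    rw [← hab] at hc
    obtain ⟨u, hu⟩ := rat_odd ha hm0 (by
      intro h0
      apply hζ2
      have : (ζ + 1) ^ 2 = 0 := by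
        field_simp at h0
        linear_combination h0
      rw [eq_neg_of_add_eq_zero_left (pow_eq_zero_iff two_ne_zero |>.mp this)]
      norm_num) hc
    have hdvd := dvd_of_rat hm0 hζ hu
    have hle : m ≤ 6 := by
      rcases hdvd with h1 | h1
      · have := Nat.le_of_dvd (by norm_num) h1; omega
      · exact Nat.le_of_dvd (by norm_num) h1
    have : N = 1 ∨ N = 2 := by omega
    rcases this with rfl | rfl
    · simp [h]
    · rw [h] at hdvd; omega

theorem feit_higman (P : BNPair G) (h2 : P.rank = 2) :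
    ((P.B ⊓ P.N).subgroupOf P.N).index ∈ ({4, 6, 8, 12, 16} : Set ℕ) := by
  obtain ⟨s, t, hne, huniv⟩ := Nat.card_eq_two_iff.mp h2
  have hst : ∀ i, i = s ∨ i = t := fun i => by
    have : i ∈ ({s, t} : Set P.S) := huniv ▸ Set.mem_univ i
    simpa using this
  have h1 : ((P.B ⊓ P.N).subgroupOf P.N).index = 2 * orderOf (gen P s * gen P t) :=
    exchange.card_dihedral involGen hst (orderOf_pos _).ne'
  have h3 := orderOf_mem hst hne
  rw [h1]
  simp only [Set.mem_insert_iff, Set.mem_singleton_iff] at h3 ⊢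
  omega

end Cfsg.Agent.Chev.FH
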