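import Mathlib
import Cfsg.Agent.Chev.Fast

/-!
# Reduction of torus elements of finite order to the fundamental alcove
-/

set_option autoImplicit false

namespace Cfsg.Agent.Chev.AS

/-- The value of a weight on a vector. -/
def dt : List ℤ → (ℕ → ℤ) → ℤ
  | [], _ => 0
  | a :: μ, v => a * v 0 + dt μ fun i => v (i + 1)

/-- The dot product of two lists. -/
noncomputable def dl (μ : List ℤ) : List ℤ → ℤ :=
  List.rec (fun _ => 0) (fun a _ ih v => List.rec 0 (fun b v _ => a * b + ih v) v) μ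

/-- `μ + c a`. -/
def axpy (c : ℤ) : List ℤ → List ℤ → List ℤ
  | [], a => a.map (c * ·)
  | μ, [] => μ
  | x :: μ, y :: a => (x + c * y) :: axpy c μ a

/-- Linear combinations. -/
def comb : List ℤ → List (List ℤ) → List ℤ
  | c :: cs, a :: as => axpy c (comb cs as) a
  | _, _ => []

/-- A list as a vector. -/
def vecL (v : List ℤ) (i : ℕ) : ℤ := v.getD i 0

theorem dt_zero (μ : List ℤ) : dt μ (fun _ => 0) = 0 := by
  induction μ with
  | nil => rfl
  | cons a μ ih => simp [dt, ih]

theorem dl_eq (μ v : List ℤ) : dl μ v = dt μ (vecL v) := by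
  induction μ generalizing v with
  | nil => rfl
  | cons a μ ih =>
    cases v with
    | nil => exact (dt_zero (a :: μ)).symm
    | cons b v => exact congrArg (a * b + ·) (ih v)

theorem dt_add_mul (μ : List ℤ) (v w : ℕ → ℤ) (a c : ℤ) :
    dt μ (fun i => a * v i + c * w i) = a * dt μ v + c * dt μ w := by
  induction μ generalizing v w with
  | nil => simp [dt]
  | cons x μ ih => simp only [dt]; rw [ih]; ring

theorem dt_map (c : ℤ) (a : List ℤ) (v : ℕ → ℤ) : dt (a.map (c * ·)) v = c * dt a v := by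
  induction a generalizing v with
  | nil => simp [dt]
  | cons x a ih => simp only [List.map_cons, dt]; rw [ih]; ring

theorem dt_axpy (c : ℤ) (μ a : List ℤ) (v : ℕ → ℤ) : dt (axpy c μ a) v = dt μ v + c * dt a v := by
  induction μ generalizing a v with
  | nil => simp [axpy, dt_map, dt]
  | cons x μ ih =>
    cases a with
    | nil => simp [axpy, dt]
    | cons y a => simp only [axpy, dt]; rw [ih]; ring

theorem dt_comb (cs : List ℤ) (as : List (List ℤ)) (v : ℕ → ℤ) :
    dt (comb cs as) v = dl cs (as.map (dt · v)) := by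
  induction cs generalizing as with
  | nil => rfl
  | cons c cs ih =>
    cases as with
    | nil => rfl
    | cons a as => rw [comb, dt_axpy, ih, add_comm]; rfl

theorem dt_eq_sum (μ : List ℤ) (v : ℕ → ℤ) :
    dt μ v = ∑ i ∈ Finset.range μ.length, vecL μ i * v i := by
  induction μ generalizing v with
  | nil => rfl
  | cons x μ ih => rw [dt, ih, List.length_cons, Finset.sum_range_succ', add_comm]; rfl

theorem dt_congr {μ : List ℤ} {v w : ℕ → ℤ} (h : ∀ i < μ.length, v i = w i) : dt μ v = dt μ w := by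
  rw [dt_eq_sum, dt_eq_sum]
  exact Finset.sum_congr rfl fun i hi => by rw [h i (Finset.mem_range.1 hi)]

theorem dvd_dt {μ : List ℤ} {v : ℕ → ℤ} {n : ℤ} (h : ∀ i < μ.length, n ∣ v i) : n ∣ dt μ v := by
  rw [dt_eq_sum]
  exact Finset.dvd_sum fun i hi => (h i (Finset.mem_range.1 hi)).mul_left _

/-- The multiplicities of the residues, in base 256. -/
def hist (W : List (List ℤ)) (n : ℕ) (v : ℕ → ℤ) : ℕ :=
  (W.map fun μ => 256 ^ (dt μ v % n).toNat).sum

/-- The same for computations. -/
noncomputable def histL (W : List (List ℤ)) (n : ℕ) (v : List ℤ) : ℕ :=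
  List.rec 0 (fun μ _ ih => Nat.add (Nat.pow 256 (Int.toNat (Int.emod (dl μ v) n))) ih) W

theorem histL_eq (W : List (List ℤ)) (n : ℕ) (v : List ℤ) : histL W n v = hist W n (vecL v) := by
  induction W with
  | nil => rfl
  | cons μ W ih => rw [hist, List.map_cons, List.sum_cons, ← hist, ← ih, ← dl_eq]; rfl

/-- The reflection with root `a` and coroot `b` permutes the weights. -/
def reflOk (l : ℕ) (W : List (List ℤ)) (a b : List ℤ) : Prop :=
  a.length ≤ l ∧ dl a b = 2 ∧ (W.map fun μ => axpy (-dl μ b) μ a).Perm W ∧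
    (W.map fun μ => dl μ b ^ 2).sum ≠ 0

noncomputable instance (l : ℕ) (W : List (List ℤ)) (a b : List ℤ) : Decidable (reflOk l W a b) :=
  inferInstanceAs (Decidable (_ ∧ _))

/-- The distance from a multiple of an interior point. -/
def pot (W : List (List ℤ)) (N n : ℤ) (x : List ℤ) (v : ℕ → ℤ) : ℤ :=
  (W.map fun μ => dt μ (fun i => N * v i + -n * vecL x i) ^ 2).sum

section Refl

variable {l : ℕ} {W : List (List ℤ)} {a b : List ℤ} (h : reflOk l W a b)
include h

theorem reflOk.sum_eq {M : Type*} [AddCommMonoid M] (f : List ℤ → M) :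
    (W.map fun μ => f (axpy (-dl μ b) μ a)).sum = (W.map f).sum := by
  rw [← (h.2.2.1.map f).sum_eq, List.map_map]
  rfl

theorem reflOk.hist_eq (n : ℕ) (v : ℕ → ℤ) (e : ℤ) :
    hist W n (fun i => 1 * v i + -(dt a v - e * n) * vecL b i) = hist W n v := by
  rw [hist, hist, ← h.sum_eq fun μ => 256 ^ (dt μ v % n).toNat]
  congr 1
  refine List.map_congr_left fun μ _ => ?_
  rw [dt_add_mul, dt_axpy, dl_eq, show 1 * dt μ v + -(dt a v - e * n) * dt μ (vecL b) =
    dt μ v + -dt μ (vecL b) * dt a v + n * (e * dt μ (vecL b)) by ring, Int.add_mul_emod_self_left]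

theorem reflOk.zero_of (n : ℕ) (v : ℕ → ℤ) (e : ℤ)
    (h1 : ∀ j < l, (n : ℤ) ∣ 1 * v j + -(dt a v - e * n) * vecL b j) : ∀ j < l, (n : ℤ) ∣ v j := by
  have h2 := dvd_dt (μ := a) fun i hi => h1 i (hi.trans_le h.1)
  rw [dt_add_mul, ← dl_eq, h.2.1] at h2
  have h3 : (n : ℤ) ∣ dt a v - e * n := by
    have := (h2.add (dvd_mul_left (n : ℤ) (-e))).neg_right
    rwa [show -(1 * dt a v + -(dt a v - e * n) * 2 + -e * n) = dt a v - e * n by ring] at this
  intro j hj
  have := (h1 j hj).add (h3.mul_right (vecL b j))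
  rwa [show 1 * v j + -(dt a v - e * n) * vecL b j + (dt a v - e * n) * vecL b j = v j by ring] at this

theorem reflOk.pot_eq (N n : ℤ) (x : List ℤ) (v : ℕ → ℤ) (c : ℤ) :
    pot W N n x (fun i => 1 * v i + -c * vecL b i) = pot W N n x v -
      N * c * (W.map fun μ => dl μ b ^ 2).sum * (N * (dt a v - c) - n * dl a x) := by
  set u : ℕ → ℤ := fun i => N * v i + -n * vecL x i
  have h1 := h.sum_eq fun μ => dt μ u * dt μ (vecL b)
  have h2 : ∀ μ, dt (axpy (-dl μ b) μ a) u * dt (axpy (-dl μ b) μ a) (vecL b) =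
      dt a u * dl μ b ^ 2 + -1 * (dt μ u * dt μ (vecL b)) := fun μ => by
    rw [dt_axpy, dt_axpy, ← dl_eq a b, h.2.1, dl_eq]; ring
  have h3 : ∀ μ, dt μ (fun i => N * (1 * v i + -c * vecL b i) + -n * vecL x i) ^ 2 =
      dt μ u ^ 2 + (-2 * N * c * (dt μ u * dt μ (vecL b)) + (N * c) ^ 2 * dl μ b ^ 2) := fun μ => by
    simp only [u, dt_add_mul, dl_eq]; ring
  have h4 : dt a u = N * dt a v - n * dl a x := by simp only [u, dt_add_mul, dl_eq]; ring
  simp only [h2, List.sum_map_add, List.sum_map_mul_left] at h1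
  simp only [pot, h3, List.sum_map_add, List.sum_map_mul_left]
  rw [h4] at h1
  linear_combination (N * c) * h1

theorem reflOk.pos : 0 < (W.map fun μ => dl μ b ^ 2).sum :=
  lt_of_le_of_ne (List.sum_nonneg fun _ hx => by
    obtain ⟨μ, -, rfl⟩ := List.mem_map.1 hx
    positivity) h.2.2.2.symm

end Refl

theorem pot_nonneg (W : List (List ℤ)) (N n : ℤ) (x : List ℤ) (v : ℕ → ℤ) : 0 ≤ pot W N n x v :=
  List.sum_nonneg fun _ hx => by
    obtain ⟨μ, -, rfl⟩ := List.mem_map.1 hx
    positivity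

/-- Evaluate a number before passing it on. -/
noncomputable def frcN (a : ℕ) (k : ℕ → Bool) : Bool := Nat.rec (k 0) (fun m _ => k (Nat.succ m)) a

theorem frcN_eq (a : ℕ) (k : ℕ → Bool) : frcN a k = k a := by cases a <;> rfl

/-- Evaluate a list of integers before passing it on. -/
noncomputable def frcL (L : List ℤ) : (List ℤ → Bool) → Bool :=
  List.rec (fun k => k []) (fun a _ ih k =>
    Int.rec (fun n => frcN n fun m => ih fun t => k (Int.ofNat m :: t))
      (fun n => frcN n fun m => ih fun t => k (Int.negSucc m :: t)) a) L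

theorem frcL_eq (L : List ℤ) (k : List ℤ → Bool) : frcL L k = k L := by
  induction L generalizing k with
  | nil => rfl
  | cons a L ih =>
    cases a with
    | ofNat n => exact (frcN_eq n fun m => frcL L fun t => k (Int.ofNat m :: t)).trans (ih _)
    | negSucc n => exact (frcN_eq n fun m => frcL L fun t => k (Int.negSucc m :: t)).trans (ih _)

/-- Enumeration of the points of the alcove. -/
noncomputable def enum (ms : List ℕ) : ℕ → (List ℤ → Bool) → Bool :=
  List.rec (fun _ k => k []) (fun m _ ih n k => allN (n + 1) fun t => Nat.blt n (m * t) ||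
    frcN (n - m * t) fun n' => ih n' fun ys => k (Int.ofNat t :: ys)) ms

theorem enum_sound {ms : List ℕ} (hm : ∀ m ∈ ms, 0 < m) {n : ℕ} {k : List ℤ → Bool}
    (h : enum ms n k = true) {ys : List ℤ} (h1 : ys.length = ms.length) (h2 : ∀ y ∈ ys, 0 ≤ y)
    (h3 : dl (ms.map Int.ofNat) ys ≤ n) : k ys = true := by
  have h0 : ∀ (ms : List ℕ) (ys : List ℤ), (∀ y ∈ ys, 0 ≤ y) → 0 ≤ dl (ms.map Int.ofNat) ys := by
    intro ms
    induction ms with
    | nil => exact fun _ _ => le_rfl
    | cons m ms ih =>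
      rintro (_ | ⟨y, ys⟩) h
      · exact le_rfl
      · exact add_nonneg (mul_nonneg (Int.natCast_nonneg m) (h y (by simp)))
          (ih ys fun y hy => h y (by simp [hy]))
  induction ms generalizing n k ys with
  | nil => obtain rfl := List.length_eq_zero_iff.1 h1; exact h
  | cons m ms ih =>
    obtain ⟨y, ys, rfl⟩ := List.exists_cons_of_length_eq_add_one h1
    obtain ⟨t, rfl⟩ := Int.eq_ofNat_of_zero_le (h2 y (by simp))
    have h4 := h0 ms ys fun y hy => h2 y (by simp [hy])
    have h5 : (m : ℤ) * t + dl (ms.map Int.ofNat) ys ≤ n := h3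
    have h6 : m * t ≤ n := by exact_mod_cast (show (m : ℤ) * t ≤ n by omega)
    have h7 := (allN_iff (n + 1) fun t => Nat.blt n (m * t) ||
      frcN (n - m * t) fun n' => enum ms n' fun ys => k (Int.ofNat t :: ys)).1 h t
      (Nat.lt_succ_of_le ((Nat.le_mul_of_pos_left _ (hm m (by simp))).trans h6))
    rw [Bool.or_eq_true, Nat.blt_eq, frcN_eq] at h7
    exact ih (fun m h => hm m (by simp [h])) (h7.resolve_left (by omega)) (by simpa using h1)
      (fun y hy => h2 y (by simp [hy])) (by push_cast [h6]; omega)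

/-- Root data and weights. -/
structure Alc where
  l : ℕ
  W : List (List ℤ)
  R : List (List ℤ × List ℤ)
  m : List ℕ
  θ : List ℤ
  x : List ℤ
  N : ℤ
  adj : List (List ℤ)
  det : ℤ

namespace Alc

variable (A : Alc)

/-- The data are consistent. -/
def Ok : Prop :=
  (∀ μ ∈ A.W, μ.length ≤ A.l) ∧ (∀ p ∈ A.R, reflOk A.l A.W p.1 p.2 ∧ 0 < dl p.1 A.x) ∧
    reflOk A.l A.W A.θ (A.m.map Int.ofNat) ∧ dl A.θ A.x < A.N ∧ 0 < A.N ∧ (∀ m ∈ A.m, 0 < m) ∧
    A.R.length = A.m.length ∧ comb (A.m.map Int.ofNat) (A.R.map Prod.fst) = A.θ ∧ A.det ≠ 0 ∧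
    A.adj.map (comb · (A.R.map Prod.fst)) =
      (List.range A.l).map fun j => (List.range A.l).map fun i => if i = j then A.det else 0

noncomputable instance : Decidable A.Ok := inferInstanceAs (Decidable (_ ∧ _))

/-- The test at a point of the alcove. -/
noncomputable def leaf (n : ℕ) (P : ℕ → Bool) (ys : List ℤ) : Bool :=
  frcL (A.adj.map (dl · ys)) fun w => !(allL w fun a => isZ (a % A.det)) ||
    frcL (w.map (· / A.det)) fun v => (allL v fun a => isZ (a % n)) || frcN (histL A.W n v) P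

variable {A}

theorem exists_alcove (h : A.Ok) {n : ℕ} (hn : 0 < n) (v₀ : ℕ → ℤ) :
    ∃ v, hist A.W n v = hist A.W n v₀ ∧ ((∀ j < A.l, (n : ℤ) ∣ v j) → ∀ j < A.l, (n : ℤ) ∣ v₀ j) ∧
      (∀ p ∈ A.R, 0 ≤ dt p.1 v) ∧ dt A.θ v ≤ n := by
  obtain ⟨-, h2, h3, h4, h5, -⟩ := h
  obtain ⟨v, ⟨hv1, hv2⟩, hv⟩ := (measure fun v => (pot A.W A.N n A.x v).toNat).wf.has_min
    {v | hist A.W n v = hist A.W n v₀ ∧ ((∀ j < A.l, (n : ℤ) ∣ v j) → ∀ j < A.l, (n : ℤ) ∣ v₀ j)}
    ⟨v₀, rfl, id⟩
  have key : ∀ a b e, reflOk A.l A.W a b →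
      A.N * (dt a v - e * n) * (n * (A.N * e - dl a A.x)) ≤ 0 := fun a b e h => by
    have h6 := hv _ ⟨(h.hist_eq n v e).trans hv1, fun h' => hv2 (h.zero_of n v e h')⟩
    change ¬ (Int.toNat _ < Int.toNat _) at h6
    have h7 := pot_nonneg A.W A.N n A.x fun i => 1 * v i + -(dt a v - e * n) * vecL b i
    have h8 : pot A.W A.N n A.x v ≤
        pot A.W A.N n A.x fun i => 1 * v i + -(dt a v - e * n) * vecL b i := by omega
    rw [h.pot_eq] at h8
    refine le_of_mul_le_mul_left ?_ h.pos
    linarith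
  have hn' : (0 : ℤ) < n := by exact_mod_cast hn
  refine ⟨v, hv1, hv2, fun p hp => ?_, ?_⟩
  · have h6 := key _ _ 0 (h2 p hp).1
    have h7 := mul_pos h5 (mul_pos hn' (h2 p hp).2)
    by_contra h8
    nlinarith
  · have h6 := key _ _ 1 h3
    have h7 := mul_pos h5 (mul_pos hn' (sub_pos.2 h4))
    by_contra h8
    nlinarith

theorem sound (h : A.Ok) {n : ℕ} (hn : 0 < n) {P : ℕ → Bool}
    (hP : enum A.m n (A.leaf n P) = true) (v₀ : ℕ → ℤ) :
    (∀ j < A.l, (n : ℤ) ∣ v₀ j) ∨ P (hist A.W n v₀) = true := by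
  obtain ⟨v, h1, h2, h3, h4⟩ := exists_alcove h hn v₀
  obtain ⟨k1, -, -, -, -, k2, k3, k4, k5, k6⟩ := h
  have h5 := enum_sound k2 hP (ys := (A.R.map Prod.fst).map (dt · v)) (by simpa using k3)
    (by simpa using fun _ a b h e => e ▸ h3 _ h) (by rw [← dt_comb, k4]; exact h4)
  have h6 : A.adj.map (dl · ((A.R.map Prod.fst).map (dt · v))) =
      (List.range A.l).map fun j => A.det * v j := by
    have := congrArg (List.map (dt · v)) k6
    rw [List.map_map, List.map_map] at this
    refine (List.map_congr_left fun a _ => (dt_comb _ _ _).symm).trans (this.trans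
      (List.map_congr_left fun j hj => ?_))
    rw [Function.comp_apply, dt_eq_sum, Finset.sum_eq_single j]
    · simp [vecL, List.mem_range.1 hj]
    · intro i hi h
      simp only [List.length_map, List.length_range, Finset.mem_range] at hi
      simp [vecL, hi, h]
    · simp [List.mem_range.1 hj]
  rw [leaf, frcL_eq, frcL_eq, h6, List.map_map, frcN_eq, histL_eq] at h5
  have h7 : ((fun x => x / A.det) ∘ fun j => A.det * v j) = v :=
    funext fun j => Int.mul_ediv_cancel_left _ k5
  rw [h7, show hist A.W n (vecL ((List.range A.l).map v)) = hist A.W n v from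
    congrArg List.sum (List.map_congr_left fun μ hμ => by
      rw [dt_congr (w := v) fun i hi => by simp [vecL, hi.trans_le (k1 μ hμ)]]), h1] at h5
  simp only [Bool.or_eq_true, Bool.not_eq_true', ← Bool.not_eq_true, allL_iff, isZ_iff] at h5
  refine (h5.resolve_left (by simp)).imp_left fun h8 => h2 fun j hj => ?_
  exact Int.dvd_of_emod_eq_zero (h8 _ (List.mem_map_of_mem (List.mem_range.2 hj)))

end Alc

end Cfsg.Agent.Chev.AS
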