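import Mathlib
import Cfsg.Agent.Ree.Count
import Cfsg.Agent.KSG.SymEmbed

/-!
# Alternating sections of groups with an abelian subgroup whose fusion is controlled

`TorD H N`: `H` is an abelian subgroup of `G`, normal in `N`, and conjugation between elements of
`H` is realised in `N`.  When `H` contains Sylow subgroups, the automizers of the sections of `G`
are read off from the action of `N` on `H`.
-/

set_option autoImplicit false

namespace Cfsg.Agent.AltSec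

open Subgroup Function

/-- An abelian subgroup whose fusion is controlled by `N`. -/
structure TorD {G : Type*} [Group G] (H N : Subgroup G) : Prop where
  comm : ∀ a ∈ H, ∀ b ∈ H, a * b = b * a
  le : H ≤ N
  conj : ∀ n ∈ N, ∀ h ∈ H, n * h * n⁻¹ ∈ H
  fus : ∀ g, ∃ n ∈ N, ∀ h ∈ H, g * h * g⁻¹ ∈ H → g * h * g⁻¹ = n * h * n⁻¹

theorem frattini {A Q : Type*} [Group A] [Group Q] [Finite A] {p : ℕ} [Fact p.Prime] (f : A →* Q)
    (hf : Surjective f) (X : Subgroup Q) [X.Normal] (hX : IsPGroup p X) :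
    ∃ P : Subgroup A, IsPGroup p P ∧ P.map f = X ∧ (normalizer (P : Set A)).map f = ⊤ := by
  obtain ⟨S⟩ : Nonempty (Sylow p (X.comap f)) := inferInstance
  have hg := f.subgroupComap_surjective_of_surjective X hf
  have h1 : (S : Subgroup _).map (f.subgroupComap X) = ⊤ :=
    ((S.mapSurjective hg).is_maximal' (hX.to_subgroup ⊤) le_top).symm
  have h2 : ((S : Subgroup _).map (X.comap f).subtype).map f = X := by
    have : f.comp (X.comap f).subtype = X.subtype.comp (f.subgroupComap X) := rfl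
    rw [map_map, this, ← map_map, h1, ← MonoidHom.range_eq_map, range_subtype]
  refine ⟨_, S.isPGroup'.map _, h2, ?_⟩
  have h3 := congrArg (Subgroup.map f) S.normalizer_sup_eq_top
  rw [Subgroup.map_sup, map_top_of_surjective f hf, map_comap_eq_self_of_surjective hf,
    sup_eq_left.2 (h2.ge.trans (map_mono le_normalizer))] at h3
  exact h3

variable {G : Type*} [Group G] {H N : Subgroup G}

theorem TorD.exists_pow (hT : TorD H N) (g : G) : ∃ n ∈ N, ∀ P : Subgroup G, P ≤ H →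
    (∀ h ∈ P, g * h * g⁻¹ ∈ P) → ∀ m : ℕ, ∀ h ∈ P,
      g ^ m * h * (g ^ m)⁻¹ = n ^ m * h * (n ^ m)⁻¹ := by
  obtain ⟨n, hn, h1⟩ := hT.fus g
  refine ⟨n, hn, fun P hP hg m => ?_⟩
  induction m with
  | zero => simp
  | succ m ih =>
    intro h hh
    have e : ∀ a : G, a ^ (m + 1) * h * (a ^ (m + 1))⁻¹ = a ^ m * (a * h * a⁻¹) * (a ^ m)⁻¹ :=
      fun a => by rw [pow_succ]; group
    rw [e, e, ih _ (hg h hh), h1 h (hP hh) (hP (hg h hh))]

theorem TorD.exists_conj [Finite G] (hT : TorD H N) {p₁ p₂ e : ℕ} [Fact p₁.Prime]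
    [hp : Fact p₂.Prime] (h₁ : ¬ p₁ ∣ H.index) (h₂ : ¬ p₂ ∣ H.index) (he : ∀ n ∈ N, n ^ e ∈ H)
    (hc : ¬ p₂ ∣ e) {P₁ P₂ : Subgroup G} (hP₁ : IsPGroup p₁ P₁) (hP₂ : IsPGroup p₂ P₂)
    (hn : ∀ g ∈ P₂, ∀ h ∈ P₁, g * h * g⁻¹ ∈ P₁) :
    ∃ k : G, (∀ g ∈ P₁, k⁻¹ * g * k ∈ H) ∧ ∀ g ∈ P₂, k⁻¹ * g * k ∈ H := by
  obtain ⟨k, hk⟩ := Ree.exists_conj_le_of_isPGroup hP₁ h₁
  let P := P₁.map (MulAut.conj k⁻¹).toMonoidHom
  have hP : P ≤ H := by rintro _ ⟨g, hg, rfl⟩; simpa using hk g hg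
  let C := centralizer (P : Set G)
  have hC : H ≤ C := fun h hh g hg => hT.comm _ (hP hg) _ hh
  have hP' : P₂.map (MulAut.conj k⁻¹).toMonoidHom ≤ C := by
    rintro _ ⟨g, hg, rfl⟩
    obtain ⟨n, hn', h3⟩ := hT.exists_pow ((MulAut.conj k⁻¹).toMonoidHom g)
    have h4 : (MulAut.conj k⁻¹).toMonoidHom g ^ e ∈ C := fun h hh => by
      rw [eq_comm, ← mul_inv_eq_iff_eq_mul, h3 P hP (by
        rintro _ ⟨h, hh, rfl⟩
        exact ⟨_, hn g hg h hh, by simp only [map_mul, map_inv]⟩) e h hh, hT.comm _ (he n hn') _ (hP hh),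
        mul_inv_cancel_right]
    obtain ⟨i, hi⟩ := hP₂ ⟨g, hg⟩
    have h5 : (MulAut.conj k⁻¹).toMonoidHom g ^ p₂ ^ i = 1 := by
      rw [← map_pow, show g ^ p₂ ^ i = 1 from congrArg Subtype.val hi, map_one]
    exact zpowers_le.2 h4 (Ree.mem_zpowers_pow_of_coprime
      (Nat.Coprime.coprime_dvd_left (orderOf_dvd_of_pow_eq_one h5)
        (Nat.Coprime.pow_left _ (hp.out.coprime_iff_not_dvd.2 hc))))
  obtain ⟨c, hc'⟩ := Ree.exists_conj_le_of_isPGroup (A := H.subgroupOf C)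
    ((hP₂.map (MulAut.conj k⁻¹).toMonoidHom).comap_subtype (K := C))
    fun h => h₂ (h.trans (relIndex_dvd_index_of_le hC))
  refine ⟨k * c, fun g hg => ?_, fun g hg => ?_⟩
  · have := c.2 _ ⟨g, hg, rfl⟩
    simp only [MulEquiv.toMonoidHom_eq_coe, MonoidHom.coe_coe, MulAut.conj_apply, inv_inv] at this
    rw [show (k * c)⁻¹ * g * (k * c) = (c : G)⁻¹ * (k⁻¹ * g * k * c) by group, this,
      inv_mul_cancel_left]
    exact hk g hg
  · simpa [mem_subgroupOf, mul_assoc] using hc' ⟨_, hP' ⟨g, hg, rfl⟩⟩ ⟨g, hg, rfl⟩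

/-- The relations satisfied by the action of `n` on `H` hold for the action of `y` on `x`. -/
def Tr (H : Subgroup G) (n : G) {Q : Type*} [Group Q] (y x : Q) : Prop :=
  (∀ m : ℕ, n ^ m ∈ H → y ^ m * x * (y ^ m)⁻¹ = x) ∧
    ((∀ h ∈ H, n ^ 4 * h * (n ^ 4)⁻¹ * h = n ^ 2 * h * (n ^ 2)⁻¹) →
      y ^ 4 * x * (y ^ 4)⁻¹ * x = y ^ 2 * x * (y ^ 2)⁻¹)

theorem TorD.exists_tr' [Finite G] (hT : TorD H N) {p₁ p₂ e : ℕ} [Fact p₁.Prime] [Fact p₂.Prime]
    (h₁ : ¬ p₁ ∣ H.index) (h₂ : ¬ p₂ ∣ H.index) (he : ∀ n ∈ N, n ^ e ∈ H) (hc : ¬ p₂ ∣ e)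
    {A Q : Type*} [Group A] [Group Q] (j : A →* G) (hj : Injective j) (f : A →* Q)
    (hf : Surjective f) (X₁ X₂ : Subgroup Q) [X₁.Normal] [X₂.Normal] (hX₁ : IsPGroup p₁ X₁)
    (hX₂ : IsPGroup p₂ X₂) (y : Q) : ∃ n ∈ N, ∀ x, x ∈ X₁ ∨ x ∈ X₂ → Tr H n y x := by
  have := Finite.of_injective j hj
  obtain ⟨P₁, hP₁, e₁, s₁⟩ := frattini f hf X₁ hX₁
  let B := normalizer (P₁ : Set A)
  obtain ⟨P₂, hP₂, e₂, s₂⟩ := frattini (f.comp B.subtype) (by
    rw [← MonoidHom.range_eq_top, MonoidHom.range_comp, range_subtype, s₁]) X₂ hX₂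
  obtain ⟨z, hz, rfl⟩ := s₂.ge (mem_top y)
  obtain ⟨k, k₁, k₂⟩ := hT.exists_conj h₁ h₂ he hc (hP₁.map j) (hP₂.map (j.comp B.subtype)) (by
    rintro _ ⟨g, -, rfl⟩ _ ⟨h, hh, rfl⟩
    exact ⟨_, (mem_normalizer_iff.1 g.2 h).1 hh, by simp⟩)
  let j' := (MulAut.conj k⁻¹).toMonoidHom.comp j
  have hj' : Injective j' := (MulAut.conj k⁻¹).injective.comp hj
  obtain ⟨n, hn, h3⟩ := hT.exists_pow (j' z)
  have key : ∀ P : Subgroup A, (∀ a ∈ P, j' a ∈ H) → (∀ a ∈ P, z * a * (z : A)⁻¹ ∈ P) →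
      ∀ a ∈ P, Tr H n (f z) (f a) := fun P hP hz a ha => by
    have h4 := fun m => h3 (P.map j') (by rintro _ ⟨a, ha, rfl⟩; exact hP a ha) (by
      rintro _ ⟨a, ha, rfl⟩
      exact ⟨_, hz a ha, by simp only [map_mul, map_inv]⟩) m _ ⟨a, ha, rfl⟩
    refine ⟨fun m hm => ?_, fun h => ?_⟩
    · have h5 := h4 m
      rw [hT.comm _ hm _ (hP a ha), mul_inv_cancel_right, ← map_pow, ← map_inv, ← map_mul,
        ← map_mul] at h5
      simpa only [map_mul, map_inv, map_pow] using congrArg f (hj' h5)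
    · have h5 := h _ (hP a ha)
      rw [← h4, ← h4] at h5
      simp only [← map_pow, ← map_inv, ← map_mul] at h5
      simpa only [map_mul, map_inv, map_pow] using congrArg f (hj' h5)
  refine ⟨n, hn, ?_⟩
  rintro x (hx | hx)
  · obtain ⟨a, ha, rfl⟩ := e₁.ge hx
    exact key P₁ (fun a ha => by simpa [j'] using k₁ _ ⟨a, ha, rfl⟩)
      (fun a ha => (mem_normalizer_iff.1 z.2 a).1 ha) a ha
  · obtain ⟨a, ha, rfl⟩ := e₂.ge hx
    refine key (P₂.map B.subtype) ?_ ?_ a ⟨a, ha, rfl⟩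
    · rintro _ ⟨a, ha, rfl⟩
      simpa [j'] using k₂ _ ⟨a, ha, rfl⟩
    · rintro _ ⟨a, ha, rfl⟩
      exact ⟨_, (mem_normalizer_iff.1 hz a).1 ha, rfl⟩

/-- `G` has a section containing the alternating group of degree `r`. -/
def Cov (G : Type*) [Group G] (r : ℕ) : Prop :=
  ∃ (A : Subgroup G) (f : A →* Equiv.Perm (Fin r)), alternatingGroup (Fin r) ≤ f.range

theorem Cov.of_quot {r : ℕ} {A : Subgroup G} {K : Subgroup A} [K.Normal]
    (h : Nonempty (A ⧸ K ≃* alternatingGroup (Fin r))) : Cov G r := by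
  obtain ⟨e⟩ := h
  refine ⟨A, (alternatingGroup _).subtype.comp (e.toMonoidHom.comp (QuotientGroup.mk' K)),
    fun σ hσ => ?_⟩
  obtain ⟨a, ha⟩ := (e.surjective.comp (QuotientGroup.mk'_surjective K)) ⟨σ, hσ⟩
  exact ⟨a, congrArg Subtype.val ha⟩

theorem Cov.of_hom {r : ℕ} {A : Type*} [Group A] (j : A →* G) (hj : Injective j)
    (f : A →* Equiv.Perm (Fin r)) (h : alternatingGroup (Fin r) ≤ f.range) : Cov G r :=
  ⟨j.range, f.comp (MonoidHom.ofInjective hj).symm.toMonoidHom, fun σ hσ => by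
    obtain ⟨a, rfl⟩ := h hσ
    exact ⟨MonoidHom.ofInjective hj a, by simp⟩⟩

theorem Cov.map {r : ℕ} {G' : Type*} [Group G'] (h : Cov G r) (j : G →* G') (hj : Injective j) :
    Cov G' r := by
  obtain ⟨A, f, h⟩ := h
  exact .of_hom (j.comp A.subtype) (hj.comp A.subtype_injective) f h

theorem Cov.mono {r s : ℕ} (h : Cov G r) (hs : s ≤ r) : Cov G s := by
  obtain ⟨A, f, h⟩ := h
  let i := Equiv.Perm.viaEmbeddingHom (Fin.castLEEmb hs)
  have hi : Injective i := Equiv.Perm.viaEmbeddingHom_injective _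
  refine .of_hom (A.subtype.comp (i.range.comap f).subtype)
    (A.subtype_injective.comp (subtype_injective _))
    ((MonoidHom.ofInjective hi).symm.toMonoidHom.comp (f.subgroupComap _)) fun σ hσ => ?_
  obtain ⟨a, ha⟩ := h (show i σ ∈ alternatingGroup _ from (KSG.sign_viaEmbedding _ _).trans hσ)
  refine ⟨⟨a, σ, ha.symm⟩, (MonoidHom.ofInjective hi).symm_apply_eq.2 (Subtype.ext ha)⟩

theorem Cov.exists_surj {r : ℕ} (h : Cov G r) {Q : Subgroup (Equiv.Perm (Fin r))}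
    (hQ : Q ≤ alternatingGroup (Fin r)) :
    ∃ (A : Subgroup G) (B : Subgroup A) (f : B →* Q), Surjective f := by
  obtain ⟨A, f, h⟩ := h
  refine ⟨A, Q.comap f, f.subgroupComap Q, fun σ => ?_⟩
  obtain ⟨a, ha⟩ := h (hQ σ.2)
  exact ⟨⟨a, by simp [ha]⟩, Subtype.ext ha⟩

theorem mem_normalizer_zpowers {Q : Type*} [Group Q] [Finite Q] {x y : Q} {a : ℕ}
    (h : y * x * y⁻¹ = x ^ a) : y ∈ normalizer (zpowers x : Set Q) :=
  Ree.mem_normalizer_of_forall (by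
    rintro _ ⟨k, rfl⟩
    rw [← conj_zpow, h]
    exact zpow_mem (npow_mem_zpowers _ _) _)

theorem TorD.exists_tr [Finite G] (hT : TorD H N) {p₁ p₂ e : ℕ} [Fact p₁.Prime] [Fact p₂.Prime]
    (h₁ : ¬ p₁ ∣ H.index) (h₂ : ¬ p₂ ∣ H.index) (he : ∀ n ∈ N, n ^ e ∈ H) (hc : ¬ p₂ ∣ e)
    {r : ℕ} (h : Cov G r) (x₁ x₂ y : Equiv.Perm (Fin r)) (a₁ a₂ : ℕ)
    (hs : x₁.sign = 1 ∧ x₂.sign = 1 ∧ y.sign = 1 ∧ x₁ ^ p₁ = 1 ∧ x₂ ^ p₂ = 1 ∧
      x₁ * x₂ * x₁⁻¹ = x₂ ^ 1 ∧ x₂ * x₁ * x₂⁻¹ = x₁ ^ 1 ∧ y * x₁ * y⁻¹ = x₁ ^ a₁ ∧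
      y * x₂ * y⁻¹ = x₂ ^ a₂) : ∃ n ∈ N, Tr H n y x₁ ∧ Tr H n y x₂ := by
  obtain ⟨s₁, s₂, s₃, o₁, o₂, c₁, c₂, d₁, d₂⟩ := hs
  let Q := alternatingGroup (Fin r) ⊓
    (normalizer (zpowers x₁ : Set (Equiv.Perm (Fin r))) ⊓ normalizer (zpowers x₂ : Set _))
  obtain ⟨A, B, f, hf⟩ := h.exists_surj (Q := Q) inf_le_left
  have := normal_subgroupOf_of_le_normalizer (H := Q) (N := zpowers x₁)
    (inf_le_right.trans inf_le_left)
  have := normal_subgroupOf_of_le_normalizer (H := Q) (N := zpowers x₂)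
    (inf_le_right.trans inf_le_right)
  obtain ⟨n, hn, h3⟩ := hT.exists_tr' h₁ h₂ he hc (A.subtype.comp B.subtype)
    (A.subtype_injective.comp B.subtype_injective) f hf ((zpowers x₁).subgroupOf Q)
    ((zpowers x₂).subgroupOf Q)
    (Ree.isPGroup_zpowers_of_pow (k := 1) (by simpa using o₁)).comap_subtype
    (Ree.isPGroup_zpowers_of_pow (k := 1) (by simpa using o₂)).comap_subtype
    ⟨y, s₃, mem_normalizer_zpowers d₁, mem_normalizer_zpowers d₂⟩
  have key : ∀ y x : Q, Tr H n y x → Tr H n (y : Equiv.Perm (Fin r)) x := fun y x h =>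
    ⟨fun m hm => congrArg Subtype.val (h.1 m hm), fun h' => congrArg Subtype.val (h.2 h')⟩
  exact ⟨n, hn, key _ _ (h3 ⟨x₁, s₁, le_normalizer (mem_zpowers _), mem_normalizer_zpowers c₁⟩
    (.inl (mem_zpowers _))), key _ _ (h3 ⟨x₂, s₂, mem_normalizer_zpowers c₂,
      le_normalizer (mem_zpowers _)⟩ (.inr (mem_zpowers _)))⟩

open Equiv.Perm in
theorem TorD.not_cov_five [Finite G] (hT : TorD H N) (h : ¬ 5 ∣ H.index)
    (he : ∀ n ∈ N, n ^ 6 ∈ H) : ¬ Cov G 7 := fun hc => by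
  have : Fact (Nat.Prime 5) := ⟨by norm_num⟩
  obtain ⟨n, hn, h1, -⟩ := hT.exists_tr h h he (by norm_num) hc c[0, 1, 2, 3, 4] 1
    (c[1, 2, 4, 3] * c[5, 6]) 2 1 (by decide +kernel)
  exact absurd (h1.1 6 (he n hn)) (by decide +kernel)

open Equiv.Perm in
theorem TorD.not_cov_seven [Finite G] (hT : TorD H N) (h : ¬ 7 ∣ H.index)
    (he : ∀ n ∈ N, n ^ 16 ∈ H) : ¬ Cov G 7 := fun hc => by
  have : Fact (Nat.Prime 7) := ⟨by norm_num⟩
  obtain ⟨n, hn, h1, -⟩ := hT.exists_tr h h he (by norm_num) hc c[0, 1, 2, 3, 4, 5, 6] 1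
    (c[1, 2, 4] * c[3, 6, 5]) 2 1 (by decide +kernel)
  exact absurd (h1.1 16 (he n hn)) (by decide +kernel)

open Equiv.Perm in
theorem TorD.not_cov_eleven [Finite G] (hT : TorD H N) (h : ¬ 11 ∣ H.index)
    (he : ∀ n ∈ N, n ^ 1152 ∈ H) : ¬ Cov G 11 := fun hc => by
  have : Fact (Nat.Prime 11) := ⟨by norm_num⟩
  obtain ⟨n, hn, h1, -⟩ := hT.exists_tr h h he (by norm_num) hc
    c[0, 1, 2, 3, 4, 5, 6, 7, 8, 9, 10] 1 (c[1, 3, 9, 5, 4] * c[2, 6, 7, 10, 8]) 3 1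
    (by decide +kernel)
  have h2 := h1.1 1152 (he n hn)
  rw [← pow_mod_orderOf, orderOf_eq_prime (p := 5) (hp := ⟨by norm_num⟩) (by decide +kernel)
    (by decide +kernel)] at h2
  exact absurd h2 (by decide +kernel)

open Equiv.Perm in
theorem TorD.not_cov_twelve [Finite G] (hT : TorD H N) (h₁ : ¬ 5 ∣ H.index) (h₂ : ¬ 7 ∣ H.index)
    (he : ∀ n ∈ N, n ^ 1152 ∈ H) (he' : ∀ n ∈ N, n ^ 8 ∈ H ∨ n ^ 6 ∈ H ∨
      ∀ h ∈ H, n ^ 4 * h * (n ^ 4)⁻¹ * h = n ^ 2 * h * (n ^ 2)⁻¹) : ¬ Cov G 12 := fun hc => by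
  have : Fact (Nat.Prime 5) := ⟨by norm_num⟩
  have : Fact (Nat.Prime 7) := ⟨by norm_num⟩
  obtain ⟨n, hn, h1, h2⟩ := hT.exists_tr h₁ h₂ he (by norm_num) hc c[7, 8, 9, 10, 11]
    c[0, 1, 2, 3, 4, 5, 6] (c[1, 3, 2, 6, 4, 5] * c[8, 9, 11, 10]) 2 3 (by decide +kernel)
  rcases he' n hn with h | h | h
  · exact absurd (h2.1 8 h) (by decide +kernel)
  · exact absurd (h1.1 6 h) (by decide +kernel)
  · exact absurd (h1.2 h) (by decide +kernel)

/-- The unitriangular affine maps of the three-dimensional space over `F₂`. -/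
def aff (p : Fin 64) (v : Fin 8) : Fin 8 :=
  Fin.ofNat 8 ((v + p * (v / 2) + p / 8 * (v / 4) + p / 32) % 2 +
    2 * ((v / 2 + p / 2 * (v / 4) + p / 16) % 2) + 4 * ((v / 4 + p / 4) % 2))

theorem aff_four : ∀ p v, aff p (aff p (aff p (aff p v))) = v := by decide +kernel

/-- The unitriangular affine maps as permutations. -/
def affP (p : Fin 64) : Equiv.Perm (Fin 8) :=
  ⟨aff p, fun v => aff p (aff p (aff p v)), aff_four p, aff_four p⟩

/-- The parameters of a unitriangular affine map. -/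
def par (a b c : Fin 8) : Fin 64 :=
  Fin.ofNat 64 ((b + a : ℕ) % 2 + 2 * ((c / 2 + a / 2 : ℕ) % 2) + 4 * (a / 4) +
    8 * ((c + a : ℕ) % 2) + 16 * (a / 2 % 2) + 32 * (a % 2))

theorem par_aff : ∀ p, par (aff p 0) (aff p 2) (aff p 4) = p := by decide +kernel

theorem aff_mul : ∀ p p' v, aff (par (aff p (aff p' 0)) (aff p (aff p' 2)) (aff p (aff p' 4))) v =
    aff p (aff p' v) := by decide +kernel

theorem aff_comm : ∀ p p', (∀ v, aff p (aff p' v) = aff p' (aff p v)) →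
    (∀ v, aff p (aff p v) = v) ∨ (∀ v, aff p' (aff p' v) = v) ∨
      ∀ v, aff p (aff p v) = aff p' (aff p' v) := by decide +kernel

theorem sign_affP : ∀ p, (affP p).sign = 1 := by decide +kernel

theorem range_mul {a b : Equiv.Perm (Fin 8)} (ha : a ∈ Set.range affP) (hb : b ∈ Set.range affP) :
    a * b ∈ Set.range affP := by
  obtain ⟨p, rfl⟩ := ha
  obtain ⟨p', rfl⟩ := hb
  exact ⟨_, Equiv.ext (aff_mul p p')⟩

/-- A Sylow 2-subgroup of `A₈`. -/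
def S8 : Subgroup (Equiv.Perm (Fin 8)) where
  carrier := Set.range affP
  one_mem' := ⟨0, by decide +kernel⟩
  mul_mem' := range_mul
  inv_mem' := by
    rintro _ ⟨p, rfl⟩
    rw [show (affP p)⁻¹ = affP p * (affP p * affP p) from Equiv.ext fun _ => rfl]
    exact range_mul ⟨p, rfl⟩ (range_mul ⟨p, rfl⟩ ⟨p, rfl⟩)

theorem card_S8 : Nat.card S8 = 64 := by
  have : Injective affP := fun p p' h => by
    rw [← par_aff p, ← par_aff p', show aff p = aff p' from congrArg Equiv.toFun h]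
  exact (Nat.card_range_of_injective this).trans (by simp)

theorem sq_S8 (a b : S8) (h : a * b = b * a) : a ^ 2 = 1 ∨ b ^ 2 = 1 ∨ a ^ 2 = b ^ 2 := by
  obtain ⟨_, p, rfl⟩ := a
  obtain ⟨_, p', rfl⟩ := b
  exact (aff_comm p p' fun v => congrArg (fun σ : S8 => σ.1 v) h).imp
    (fun h => Subtype.ext (Equiv.ext h))
    (Or.imp (fun h => Subtype.ext (Equiv.ext h)) fun h => Subtype.ext (Equiv.ext h))

theorem TorD.not_cov_eight [Finite G] (hT : TorD H N) (h4 : 4 ∣ H.relIndex N)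
    (h8 : ¬ 8 ∣ H.index) (hsq : {h | h ∈ H ∧ h ^ 2 = 1}.ncard ≤ 4) : ¬ Cov G 8 := fun hc => by
  obtain ⟨A, B, f, hf⟩ := hc.exists_surj (Q := S8) (by rintro _ ⟨p, rfl⟩; exact sign_affP p)
  obtain ⟨P, hP, e, -⟩ := frattini (p := 2) f hf ⊤
    ((IsPGroup.of_card (n := 6) card_S8).to_subgroup _)
  have hi := relIndex_mul_index hT.le
  obtain ⟨k, hk⟩ := Ree.exists_conj_le_of_isPGroup (A := N)
    (hP.map (A.subtype.comp B.subtype)) fun h => h8 (hi ▸ Nat.mul_dvd_mul h4 h)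
  let j₀ : P →* G := (MulAut.conj k⁻¹).toMonoidHom.comp ((A.subtype.comp B.subtype).comp P.subtype)
  have hj₀ : Injective j₀ := (MulAut.conj k⁻¹).injective.comp
    ((A.subtype_injective.comp B.subtype_injective).comp P.subtype_injective)
  let j : P →* N := j₀.codRestrict N fun a => by simpa [j₀] using hk _ ⟨a, a.2, rfl⟩
  have : (H.subgroupOf N).Normal := ⟨fun h hh n => hT.conj n n.2 h hh⟩
  let P₀ := (H.subgroupOf N).comap j
  have h1 : P₀.index ≤ 4 := by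
    have h2 : P₀.index ∣ H.index := by
      rw [index_comap]
      exact (relIndex_dvd_index_of_normal _ _).trans (Dvd.intro _ hi)
    obtain ⟨i, hi⟩ := hP.index P₀
    rw [hi] at h2 ⊢
    by_contra h3
    refine h8 ((pow_dvd_pow 2 (show 3 ≤ i from ?_)).trans h2)
    by_contra h5
    interval_cases i <;> omega
  have hc : ∀ a b : P₀, a * b = b * a := fun a b =>
    Subtype.ext (hj₀ (by rw [coe_mul, coe_mul, map_mul, map_mul]; exact hT.comm _ a.2 _ b.2))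
  let _ : CommGroup P₀ := ⟨hc⟩
  let s : P₀ →* P₀ := powMonoidHom 2
  have h2 : s.range.index ≤ 4 := by
    have h3 : Nat.card s.ker ≤ 4 := le_trans (Nat.card_le_card_of_injective
      (β := {h | h ∈ H ∧ h ^ 2 = 1}) (fun a => ⟨j₀ a.1.1, a.1.2, by
        rw [← map_pow, show a.1.1 ^ 2 = 1 from congrArg Subtype.val a.2, map_one]⟩)
      fun a b h => Subtype.ext (Subtype.ext (hj₀ (congrArg Subtype.val h)))) hsq
    have h5 := s.ker.card_mul_index
    rw [index_ker, ← s.range.index_mul_card] at h5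
    exact (Nat.eq_of_mul_eq_mul_right Nat.card_pos h5).ge.trans h3
  have hf' : Surjective (f.comp P.subtype) := by
    rw [← MonoidHom.range_eq_top, MonoidHom.range_comp, range_subtype, e]
  let R := (s.range.map P₀.subtype).map (f.comp P.subtype)
  have h3 : R.index ≤ 16 := by
    refine (Nat.le_of_dvd (Nat.pos_of_ne_zero index_ne_zero_of_finite) (index_map_dvd _ hf')).trans ?_
    rw [index_map_subtype]
    exact Nat.mul_le_mul h2 h1
  have h5 : Nat.card R ≤ 2 := by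
    by_contra h
    obtain ⟨a, b, c, ha, hb, hc', hab, hac, hbc⟩ :=
      (Set.two_lt_ncard_iff (s := (R : Set S8))).1 (not_le.1 h)
    have key : ∀ a ∈ R, ∀ b ∈ R, a = 1 ∨ b = 1 ∨ a = b := by
      rintro _ ⟨_, ⟨_, ⟨a, rfl⟩, rfl⟩, rfl⟩ _ ⟨_, ⟨_, ⟨b, rfl⟩, rfl⟩, rfl⟩
      simpa [s] using sq_S8 (f a.1.1) (f b.1.1) (by
        rw [← map_mul, ← map_mul]
        exact congrArg (fun x : P₀ => f x.1.1) (hc a b))
    rcases key a ha b hb with h1 | h1 | h1 <;> rcases key a ha c hc' with h2 | h2 | h2 <;>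
      rcases key b hb c hc' with h3 | h3 | h3 <;> simp_all
  have h6 := R.card_mul_index
  rw [card_S8] at h6
  have := Nat.mul_le_mul h5 h3
  omega

end Cfsg.Agent.AltSec
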