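import Mathlib
import Cfsg.Agent.Chev.ASLin
import Cfsg.Agent.Chev.AltSec
import Cfsg.Agent.FT.RepBridge
import Cfsg.Agent.Perm.AltMult

/-!
# Minimal covers of alternating groups
-/

set_option autoImplicit false

namespace Cfsg.Agent.Chev.AS

open Module Function Subgroup
open scoped commutatorElement IsMulCommutative

universe u

variable {A : Type u} {Q : Type*} [Group A] [Group Q] {f : A →* Q}

/-- No proper subgroup maps onto `Q`. -/
structure Frat (f : A →* Q) : Prop where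
  surj : Surjective f
  min : ∀ B : Subgroup A, B.map f = ⊤ → B = ⊤

theorem Frat.perfect (h : Frat f) (hQ : commutator Q = ⊤) : commutator A = ⊤ :=
  h.min _ (by rw [_root_.commutator_def, map_commutator, map_top_of_surjective f h.surj]; exact hQ)

variable [Finite A]

theorem Frat.normal (h : Frat f) {p : ℕ} [Fact p.Prime] (P : Sylow p f.ker) :
    (P.map f.ker.subtype).Normal := by
  have h1 := congrArg (Subgroup.map f) P.normalizer_sup_eq_top
  rw [Subgroup.map_sup, map_top_of_surjective f h.surj, (Subgroup.map_eq_bot_iff _).2 le_rfl, sup_bot_eq] at h1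
  exact normalizer_eq_top_iff.1 (h.min _ h1)

theorem Frat.nilpotent (h : Frat f) : Group.IsNilpotent f.ker :=
  (Group.isNilpotent_of_finite_tfae.out 0 3 rfl rfl).2 fun p hp P => by
    have := (h.normal P).comap f.ker.subtype
    rwa [comap_map_eq_self_of_injective f.ker.subtype_injective] at this

omit [Finite A] in
theorem eq_bot_of_le_commutator {R K : Subgroup A} (hK : Group.IsNilpotent K) (h : R ≤ K)
    (h' : R ≤ ⁅R, K⁆) : R = ⊥ := by
  obtain ⟨n, hn⟩ := (isNilpotent_iff_lowerCentralSeries K).1 hK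
  rw [eq_bot_iff, ← hn]
  clear hn
  induction n with
  | zero => exact h
  | succ n ih => exact h'.trans (commutator_mono ih le_rfl)

omit [Finite A] in
theorem le_center_of_commutator (hA : commutator A = ⊤) {R : Subgroup A}
    (h : ⁅R, ⊤⁆ ≤ center A) : R ≤ center A := by
  have h1 : ⁅⁅R, ⊤⁆, (⊤ : Subgroup A)⁆ = ⊥ :=
    commutator_eq_bot_iff_le_centralizer.2 (h.trans (center_le_centralizer _))
  have h2 := commutator_commutator_eq_bot_of_rotate (H₁ := ⊤) (H₂ := ⊤) (H₃ := R)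
    (by rwa [commutator_comm ⊤ R]) h1
  rw [← _root_.commutator_def, hA, commutator_comm, commutator_eq_bot_iff_le_centralizer] at h2
  exact fun x hx => mem_center_iff.2 fun y => h2 hx y trivial

section Mult

variable {r : ℕ} {f : A →* alternatingGroup (Fin r)} (h : Frat f) (hr : 8 ≤ r)
include h hr

omit [Finite A] in
theorem Frat.perfect' : commutator A = ⊤ :=
  h.perfect (commutator_alternatingGroup_eq_top (by simp; omega))

omit [Finite A] in
theorem Frat.relIndex_le_two : relIndex ⁅f.ker, ⊤⁆ f.ker ≤ 2 := by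
  have h1 : ⁅f.ker, ⊤⁆ ≤ f.ker := commutator_le_left _ _
  let π := QuotientGroup.lift _ f h1
  have h2 : π.ker = f.ker.map (QuotientGroup.mk' _) := QuotientGroup.ker_lift _ _ _
  have h3 := AltCover.card_ker_le_two π (QuotientGroup.lift_surjective_of_surjective _ _ h.surj _)
    (by
      rw [h2]
      rintro _ ⟨x, hx, rfl⟩
      refine mem_center_iff.2 fun y => ?_
      obtain ⟨y, rfl⟩ := QuotientGroup.mk'_surjective _ y
      rw [eq_comm, ← commutatorElement_eq_one_iff_mul_comm, ← map_commutatorElement]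
      exact (QuotientGroup.eq_one_iff _).2 (commutator_mem_commutator hx trivial))
    (by
      rw [_root_.commutator_def, ← map_top_of_surjective _ (QuotientGroup.mk'_surjective ⁅f.ker, ⊤⁆),
        ← map_commutator, ← _root_.commutator_def, h.perfect' hr,
        map_top_of_surjective _ (QuotientGroup.mk'_surjective _)]
      exact le_top) (Or.inr (by simpa using hr))
  rwa [h2, ← relIndex_ker, QuotientGroup.ker_mk'] at h3

theorem Frat.card_le_two {p : ℕ} [hp : Fact p.Prime] (P : Sylow p f.ker)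
    (hP : P.map f.ker.subtype ≤ center A) : Nat.card P ≤ 2 := by
  have hc : ∀ x : f.ker, x ∈ (P : Subgroup f.ker) → ∀ a : A, a * x = x * a :=
    fun x hx => mem_center_iff.1 (hP ⟨x, hx, rfl⟩)
  have : IsMulCommutative P := ⟨⟨fun a b => Subtype.ext (Subtype.ext (hc _ b.2 _))⟩⟩
  have key : ∀ (g : f.ker) (k : ℕ) (g₀ : f.ker), g₀⁻¹ * g ^ k * g₀ ∈ (P : Subgroup f.ker) →
      g₀⁻¹ * g ^ k * g₀ = g ^ k := fun g k g₀ h => by
    have : g₀ * (g₀⁻¹ * g ^ k * g₀) = g₀⁻¹ * g ^ k * g₀ * g₀ := Subtype.ext (hc _ h _)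
    rw [← mul_left_inj g₀, ← this]
    group
  let τ := MonoidHom.transfer (MonoidHom.id (P : Subgroup f.ker))
  have hτ : ∀ g, (τ g : f.ker) = g ^ (P : Subgroup f.ker).index := fun g =>
    congrArg Subtype.val (MonoidHom.transfer_eq_pow _ g (key g))
  have h1 : ⁅f.ker, ⊤⁆ ≤ τ.ker.map f.ker.subtype := commutator_le.2 fun x hx a _ => by
    refine ⟨⟨x, hx⟩ * MulAut.conjNormal a (⟨x, hx⟩ : f.ker)⁻¹, ?_, by simp [commutatorElement_def, mul_assoc]⟩
    rw [SetLike.mem_coe, MonoidHom.mem_ker, map_mul, Subtype.ext_iff, coe_mul, hτ (MulAut.conjNormal a _),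
      ← map_pow, ← hτ, Subtype.ext_iff]
    simp [hc _ (τ ⟨x, hx⟩).2, mul_assoc]
  have h2 : Surjective τ := fun y => by
    obtain ⟨x, rfl⟩ := (P.isPGroup'.powEquiv
      (hp.out.coprime_iff_not_dvd.2 P.not_dvd_index)).surjective y
    exact ⟨x, Subtype.ext (hτ x)⟩
  refine le_trans ?_ (h.relIndex_le_two hr)
  refine le_trans ?_ (relIndex_le_of_le_left h1 (by simp [relIndex, FiniteIndex.index_ne_zero]))
  rw [relIndex, subgroupOf, comap_map_eq_self_of_injective f.ker.subtype_injective, index_ker,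
    MonoidHom.range_eq_top.2 h2, card_top]

theorem Frat.not_dvd {p : ℕ} [hp : Fact p.Prime] (h2 : p ≠ 2)
    (hP : ∀ L : Subgroup A, L.Normal → IsPGroup p L → L ≤ f.ker → L ≤ center A) :
    ¬ p ∣ Nat.card f.ker := fun h3 => by
  obtain ⟨P⟩ : Nonempty (Sylow p f.ker) := inferInstance
  have h4 := h.card_le_two hr P (hP _ (h.normal P) (P.isPGroup'.map _) (map_subtype_le _))
  have h5 := Nat.le_of_dvd Nat.card_pos (P.dvd_card_of_dvd_card h3)
  have := hp.out.two_le
  omega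

theorem Frat.central
    (hP : ∀ p, p.Prime → ∀ L : Subgroup A, L.Normal → IsPGroup p L → L ≤ f.ker → L ≤ center A) :
    f.ker ≤ center A ∧ Nat.card f.ker ≤ 2 := by
  have h1 : f.ker ≤ center A := by
    rw [← relIndex_eq_one]
    refine Nat.eq_one_iff_not_exists_prime_dvd.2 fun p hp h1 => ?_
    have := Fact.mk hp
    obtain ⟨P⟩ : Nonempty (Sylow p f.ker) := inferInstance
    exact P.not_dvd_index (h1.trans (index_dvd_of_le (map_le_iff_le_comap.1
      (hP p hp _ (h.normal P) (P.isPGroup'.map _) (map_subtype_le _)))))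
  exact ⟨h1, AltCover.card_ker_le_two f h.surj h1 (le_top.trans (h.perfect' hr).ge)
    (Or.inr (by simpa using hr))⟩

end Mult

/-- A minimal non-central normal subgroup. -/
structure MinNC (l : ℕ) (R : Subgroup A) : Prop where
  normal : R.Normal
  pgroup : IsPGroup l R
  ncent : ¬ R ≤ center A
  min : ∀ N : Subgroup A, N.Normal → N < R → N ≤ center A
  comm : ⁅R, R⁆ ≤ center A
  pow : ∀ x ∈ R, x ^ l ∈ center A
  elem : ⁅R, R⁆ = ⊥ → ∀ x ∈ R, x ^ l = 1

theorem Frat.exists_sec (h : Frat f) [IsSimpleGroup Q] (hQ : commutator Q = ⊤) {l : ℕ}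
    [hl : Fact l.Prime] (k : Type) [Field k] [CharP k l] {L : Subgroup A} (h1 : L.Normal)
    (h2 : IsPGroup l L) (h3 : L ≤ f.ker) (h4 : ¬ L ≤ center A) :
    ∃ R : Subgroup A, MinNC l R ∧ ∃ (W : Type u) (_ : AddCommGroup W) (_ : Module k W)
      (_ : FiniteDimensional k W) (σ : Q →* End k W), Injective σ ∧
        (center A).relIndex R = l ^ finrank k W := by
  obtain ⟨R, ⟨r1, r2, r3⟩, r4⟩ := exists_minimal_of_wellFoundedLT
    (fun R : Subgroup A => R.Normal ∧ R ≤ L ∧ ¬ R ≤ center A) ⟨L, h1, le_rfl, h4⟩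
  have hmin : ∀ N : Subgroup A, N.Normal → N < R → N ≤ center A := fun N a b => by
    by_contra c
    exact b.not_ge (r4 ⟨a, b.le.trans r2, c⟩ b.le)
  have hA := h.perfect hQ
  have c1 : ⁅R, ⊤⁆ = R := by
    by_contra c
    exact r3 (le_center_of_commutator hA
      (hmin _ inferInstance (lt_of_le_of_ne (commutator_le_left _ _) c)))
  have c2 : ⁅R, f.ker⁆ ≤ center A := hmin _ inferInstance (lt_of_le_of_ne (commutator_le_left _ _)
    fun c => r3 ((eq_bot_of_le_commutator h.nilpotent (r2.trans h3) c.ge).le.trans bot_le))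
  have c3 : ⁅R, R⁆ ≤ center A := (commutator_mono le_rfl (r2.trans h3)).trans c2
  have hR : IsPGroup l R := h2.to_le r2
  have c4 : ∀ x ∈ R, x ^ l ∈ center A := by
    let S := R.map (QuotientGroup.mk' (center A))
    have : S.Normal := r1.map _ (QuotientGroup.mk'_surjective _)
    have hS : ∀ a ∈ S, ∀ b ∈ S, Commute a b := by
      rintro _ ⟨a, ha, rfl⟩ _ ⟨b, hb, rfl⟩
      rw [← commutatorElement_eq_one_iff_commute, ← map_commutatorElement]
      exact (QuotientGroup.eq_one_iff _).2 (c3 (commutator_mem_commutator ha hb))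
    let N : Subgroup (A ⧸ center A) :=
      { carrier := {a | a ∈ S ∧ a ^ l = 1}
        one_mem' := ⟨one_mem _, one_pow _⟩
        mul_mem' := fun a b => ⟨mul_mem a.1 b.1, by rw [(hS _ a.1 _ b.1).mul_pow, a.2, b.2, mul_one]⟩
        inv_mem' := fun a => ⟨inv_mem a.1, by rw [inv_pow, a.2, inv_one]⟩ }
    have : N.Normal := ⟨fun a ha g => ⟨this.conj_mem a ha.1 g, by rw [conj_pow, ha.2]; simp⟩⟩
    have e : R ⊓ N.comap (QuotientGroup.mk' _) = R := by
      by_contra c
      have c5 := hmin _ inferInstance (lt_of_le_of_ne inf_le_left c)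
      have : Nontrivial S := (nontrivial_iff_ne_bot _).2 fun e =>
        r3 (by simpa using (Subgroup.map_eq_bot_iff _).1 e)
      obtain ⟨n, hn, e⟩ := (hR.map (QuotientGroup.mk' (center A))).nontrivial_iff_card.1 this
      obtain ⟨⟨_, x, hx, rfl⟩, h5⟩ := exists_prime_orderOf_dvd_card' (G := S) l
        (e ▸ dvd_pow_self l hn.ne')
      have h6 : (⟨_, x, hx, rfl⟩ : S) = 1 := Subtype.ext ((QuotientGroup.eq_one_iff _).2
        (c5 ⟨hx, ⟨x, hx, rfl⟩, congrArg Subtype.val (h5 ▸ pow_orderOf_eq_one (⟨_, x, hx, rfl⟩ : S))⟩))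
      rw [h6, orderOf_one] at h5
      exact hl.out.ne_one h5.symm
    exact fun x hx => (QuotientGroup.eq_one_iff _).1 (e.ge hx).2.2
  refine ⟨R, ⟨r1, hR, r3, hmin, c3, c4, fun e => ?_⟩, ?_⟩
  · have hc : ∀ a ∈ R, ∀ b ∈ R, Commute a b := fun a ha b hb =>
      commutatorElement_eq_one_iff_commute.1 (e.le (commutator_mem_commutator ha hb))
    let N : Subgroup A :=
      { carrier := {a | a ∈ R ∧ a ^ l = 1}
        one_mem' := ⟨one_mem _, one_pow _⟩
        mul_mem' := fun a b => ⟨mul_mem a.1 b.1, by rw [(hc _ a.1 _ b.1).mul_pow, a.2, b.2, mul_one]⟩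
        inv_mem' := fun a => ⟨inv_mem a.1, by rw [inv_pow, a.2, inv_one]⟩ }
    have : ⁅R, ⊤⁆ ≤ N := commutator_le.2 fun x hx a _ => by
      have h5 : a * x⁻¹ * a⁻¹ ∈ R := r1.conj_mem _ (inv_mem hx) a
      rw [show ⁅x, a⁆ = x * (a * x⁻¹ * a⁻¹) by simp [commutatorElement_def, mul_assoc]]
      refine ⟨mul_mem hx h5, ?_⟩
      rw [(hc _ hx _ h5).mul_pow, conj_pow, inv_pow, mem_center_iff.1 (inv_mem (c4 x hx)) a]
      simp
    exact fun x hx => (this (c1.ge hx)).2
  obtain ⟨W, _, _, _, σ, hσ⟩ := FT.Rep.exists_secRep l k (V := R) (N := R ⊓ center A) (L := ⊤)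
    ⟨inf_le_left, le_normalizer_of_normal⟩ (le_inf (commutator_le_left _ _) c3)
    (fun x hx => ⟨pow_mem hx l, c4 x hx⟩) le_normalizer_of_normal le_normalizer_of_normal
  have key : ∀ B : Subgroup A, ⁅R, B⁆ ≤ center A → (R ⊓ center A).relIndex R =
      l ^ finrank k (FT.Rep.fix σ (B.subgroupOf ⊤)) := fun B hB => by
    obtain ⟨C, -, a2, a3, a4⟩ := hσ (B.subgroupOf ⊤)
    rwa [le_antisymm a2 fun v hv => (a3 v hv).2 fun a ha => by
      simpa [commutatorElement_def, mul_assoc] using (le_inf (commutator_le_left _ _) hB)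
        (commutator_mem_commutator (inv_mem hv) ha)] at a4
  have k0 := key ⊥ (by simp)
  rw [bot_subgroupOf, FT.Rep.fix_bot, finrank_top] at k0
  have k1 := Submodule.eq_top_of_finrank_eq
    (Nat.pow_right_injective hl.out.two_le ((key _ c2).symm.trans k0))
  let σ' := σ.comp topEquiv.symm.toMonoidHom
  have k2 : f.ker ≤ σ'.ker := fun a ha =>
    LinearMap.ext fun w => FT.Rep.mem_fix.1 (k1.ge (Submodule.mem_top (x := w))) ⟨a, trivial⟩ ha
  let σ'' := f.liftOfSurjective h.surj ⟨σ'.toHomUnits, fun a ha => Units.ext (k2 ha)⟩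
  have k3 : ∀ a, (σ'' (f a) : End k W) = σ ⟨a, trivial⟩ := fun a =>
    congrArg Units.val (f.liftOfRightInverse_comp_apply _ _ _ a)
  refine ⟨W, _, _, inferInstance, (Units.coeHom _).comp σ'', Units.val_injective.comp ?_,
    by rw [← k0, inf_relIndex_left]⟩
  rw [← MonoidHom.ker_eq_bot_iff]
  refine (σ''.normal_ker.eq_bot_or_eq_top).resolve_right fun e => r3 ?_
  obtain ⟨C, a1, a2, a3, a4⟩ := hσ ⊤
  have k4 : FT.Rep.fix σ ⊤ = ⊤ := eq_top_iff.2 fun w _ => FT.Rep.mem_fix.2 fun a _ => by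
    rw [← k3, show σ'' (f a) = 1 from e.ge (mem_top _)]
    rfl
  rw [k4, finrank_top, ← k0] at a4
  have k5 : C = R := eq_of_le_of_card_ge a2 (by
    rw [← Grp.card_mul_relIndex a1, a4, Grp.card_mul_relIndex inf_le_left])
  refine le_center_of_commutator hA (commutator_le.2 fun x hx a _ => ?_)
  have := ((a3 _ (inv_mem hx)).1 (k5.ge (inv_mem hx)) ⟨a, trivial⟩ trivial).2
  rwa [inv_inv, ← mul_assoc, ← mul_assoc] at this

/-- The bound in the non-abelian case. -/
theorem MinNC.relIndex_le_sq {l : ℕ} [hl : Fact l.Prime] {R : Subgroup A} (h : MinNC l R)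
    (hR : ⁅R, R⁆ ≠ ⊥) {k V : Type*} [Field k] [IsAlgClosed k] [AddCommGroup V] [Module k V]
    [FiniteDimensional k V] (hk : (l : k) ≠ 0) (ρ : A →* End k V)
    (hρ : ∀ g, g ^ l = 1 → ρ g = 1 → g = 1) : (center A).relIndex R ≤ finrank k V ^ 2 := by
  have := h.normal
  have hc : ∀ x ∈ R, ∀ y ∈ R, ⁅x, y⁆ ∈ center A := fun x hx y hy =>
    h.comm (commutator_mem_commutator hx hy)
  have hz : ∀ x ∈ R, ∀ y ∈ R, ∀ a, a * ⁅x, y⁆ * a⁻¹ = ⁅x, y⁆ := fun x hx y hy a => by
    rw [mem_center_iff.1 (hc x hx y hy), mul_inv_cancel_right]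
  have m1 : ∀ x ∈ R, ∀ y ∈ R, ∀ a, ⁅a * x, y⁆ = ⁅x, y⁆ * ⁅a, y⁆ := fun x hx y hy a => by
    rw [commutatorElement_mul_left_eq_conj_mul, hz x hx y hy]
  have m2 : ∀ x ∈ R, ∀ y ∈ R, ∀ a, ⁅x, a * y⁆ = ⁅x, a⁆ * ⁅x, y⁆ := fun x hx y hy a => by
    rw [commutatorElement_mul_right_eq_mul_conj, mul_assoc, mul_assoc, ← mul_assoc a, hz x hx y hy]
  have m3 : ∀ x ∈ R, ∀ y ∈ R, ⁅x, y⁆ ^ l = 1 := fun x hx y hy => by
    have : ∀ n : ℕ, ⁅x, y ^ n⁆ = ⁅x, y⁆ ^ n := fun n => by
      induction n with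
      | zero => simp
      | succ n ih => rw [pow_succ, m2 x hx y hy, ih, pow_succ]
    rw [← this, commutatorElement_eq_one_iff_mul_comm, mem_center_iff.1 (h.pow y hy)]
  have : NeZero l := ⟨hl.out.ne_zero⟩
  obtain ⟨ψ, hψ⟩ := exists_psi hk
  have hF : Fam l fun p : R × R => ρ ⁅(p.1 : A), (p.2 : A)⁆ :=
    ⟨fun p p' => Commute.map (mem_center_iff.1 (hc _ p'.1.2 _ p'.2.2) _) ρ,
      fun p => by rw [← map_pow, m3 _ p.1.2 _ p.2.2, map_one]⟩
  obtain ⟨y₀, hy₀, x₀, hx₀, h0⟩ : ∃ y ∈ R, ∃ x ∈ R, ⁅y, x⁆ ≠ 1 := by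
    by_contra! c
    exact hR (eq_bot_iff.2 (commutator_le.2 c))
  obtain ⟨χ, w, hw, hw0⟩ : ∃ χ, ∃ w ∈ J ψ (fun p : R × R => ρ ⁅(p.1 : A), (p.2 : A)⁆) χ,
      ρ ⁅y₀, x₀⁆ w ≠ w := by
    by_contra! c
    refine h0 (hρ _ (m3 _ hy₀ _ hx₀) (LinearMap.ext fun w => ?_))
    exact (iSup_le (a := LinearMap.eqLocus (ρ ⁅y₀, x₀⁆) 1) c) ((hF.span hψ).ge Submodule.mem_top)
  have w0 : w ≠ 0 := by rintro rfl; simp at hw0
  have hW : ∀ a, ∀ v ∈ J ψ (fun p : R × R => ρ ⁅(p.1 : A), (p.2 : A)⁆) χ,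
      ρ a v ∈ J ψ (fun p : R × R => ρ ⁅(p.1 : A), (p.2 : A)⁆) χ := fun a v hv => mem_J.2 fun p => by
    rw [← End.mul_apply, ← map_mul, ← mem_center_iff.1 (hc _ p.1.2 _ p.2.2), map_mul, End.mul_apply,
      mem_J.1 hv, map_smul]
  have hinv : ∀ y ∈ R, ∀ x ∈ R, ρ ⁅y, x⁻¹⁆ (ρ ⁅y, x⁆ w) = w := fun y hy x hx => by
    rw [← End.mul_apply, ← map_mul, ← m2 y hy x hx]
    simp
  let N : Subgroup A :=
    { carrier := {x | x ∈ R ∧ ∀ y ∈ R, ρ ⁅y, x⁆ w = w}
      one_mem' := ⟨one_mem _, by simp⟩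
      mul_mem' := fun a b => ⟨mul_mem a.1 b.1, fun y hy => by
        rw [m2 y hy _ b.1, map_mul, End.mul_apply, b.2 y hy, a.2 y hy]⟩
      inv_mem' := fun a => ⟨inv_mem a.1, fun y hy => by
        have := hinv y hy _ a.1
        rwa [a.2 y hy] at this⟩ }
  have hN : N ≤ center A := h.min N ⟨fun x hx a => ⟨h.normal.conj_mem x hx.1 a, fun y hy => by
    have h1 := h.normal.conj_mem' y hy a
    rw [show ⁅y, a * x * a⁻¹⁆ = a * ⁅a⁻¹ * y * a, x⁆ * a⁻¹ by simp [commutatorElement_def, mul_assoc],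
      hz _ h1 _ hx.1, hx.2 _ h1]⟩⟩
    (lt_of_le_of_ne (fun _ h => h.1) fun e => hw0 ((e.ge hx₀).2 _ hy₀))
  have := Fintype.ofFinite (R ⧸ (center A).subgroupOf R)
  let lam : R → R →* k := fun x =>
    { toFun := fun y => ψ (χ (y, x))
      map_one' := smul_left_injective k w0 (by simpa using (mem_J.1 hw (1, x)).symm)
      map_mul' := fun a b => smul_left_injective k w0 (by
        have h1 := mem_J.1 hw (a * b, x)
        rw [coe_mul, m1 _ b.2 _ x.2, map_mul, End.mul_apply, mem_J.1 hw (a, x), map_smul,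
          mem_J.1 hw (b, x), smul_smul] at h1
        exact h1.symm) }
  rw [relIndex, index_eq_card, Nat.card_eq_fintype_card]
  refine card_le_sq ρ (fun s => (s.out : R)) (fun y : R => y) (fun s => lam s.out) (fun s t e => ?_)
    ((Submodule.ne_bot_iff _).2 ⟨w, hw, w0⟩) (fun g => hW _) fun s g v hv => ?_
  · rw [← s.out_eq, ← t.out_eq]
    refine QuotientGroup.eq.2 (hN ⟨(s.out⁻¹ * t.out).2, fun y hy => ?_⟩)
    have h1 : ψ (χ (⟨y, hy⟩, s.out)) = ψ (χ (⟨y, hy⟩, t.out)) := DFunLike.congr_fun e ⟨y, hy⟩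
    rw [coe_subtype, coe_mul, m2 y hy _ t.out.2, map_mul, End.mul_apply, mem_J.1 hw (⟨y, hy⟩, t.out), ← h1,
      ← mem_J.1 hw]
    exact hinv y hy _ s.out.2
  · rw [show g * s.out * (g : A)⁻¹ = ⁅(g : A), (s.out : A)⁆ * s.out by simp [commutatorElement_def],
      map_mul, End.mul_apply]
    exact mem_J.1 (hW _ v hv) (g, s.out)

/-- Elementary abelian sections of `l`-subgroups of a group with a large abelian subgroup. -/
theorem index_le_pow {G : Type*} [Group G] [Finite G] {H : Subgroup G}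
    (hH : ∀ a ∈ H, ∀ b ∈ H, a * b = b * a) {l n j : ℕ} [hl : Fact l.Prime]
    (h1 : Nat.card {a : H // a ^ l = 1} ≤ l ^ n) (h2 : ¬ l ^ (j + 1) ∣ H.index) (hA : IsPGroup l A)
    (φ : A →* G) {Z : Subgroup A} (hZ : φ.ker ≤ Z) (h3 : ∀ x, x ^ l ∈ Z) : Z.index ≤ l ^ (n + j) := by
  obtain ⟨P⟩ : Nonempty (Sylow l H) := inferInstance
  obtain ⟨S, hS⟩ := (P.isPGroup'.map H.subtype).exists_le_sylow
  have h4 : H.relIndex S ≤ l ^ j := by
    obtain ⟨a, ha⟩ := S.isPGroup'.index (H.subgroupOf S)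
    have h5 : H.relIndex S ∣ (P : Subgroup H).index * H.index := by
      refine (relIndex_dvd_of_le_left _ (map_subtype_le (P : Subgroup H))).trans
        ((relIndex_dvd_index_of_le hS).trans ?_)
      rw [← relIndex_mul_index (map_subtype_le (P : Subgroup H)), relIndex, subgroupOf,
        comap_map_eq_self_of_injective H.subtype_injective]
    rw [relIndex, ha] at h5 ⊢
    refine Nat.pow_le_pow_right hl.out.pos (not_lt.1 fun h => h2 ((pow_dvd_pow l h).trans ?_))
    exact (Nat.Coprime.pow_left _ (hl.out.coprime_iff_not_dvd.2 P.not_dvd_index)).dvd_of_dvd_mul_left h5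
  wlog h5 : φ.range ≤ S generalizing φ
  · obtain ⟨S', hS'⟩ := (hA.of_surjective _ φ.rangeRestrict_surjective).exists_le_sylow
    obtain ⟨g, rfl⟩ := MulAction.exists_smul_eq G S' S
    exact this ((MulAut.conj g).toMonoidHom.comp φ) (fun x hx => hZ (by simpa using hx)) (by
      rintro _ ⟨x, rfl⟩
      exact smul_mem_pointwise_smul _ (MulAut.conj g) _ (hS' ⟨x, rfl⟩))
  have h6 : (H.comap φ).index ≤ l ^ j := by
    rw [index_comap]
    exact (relIndex_le_of_le_right h5 FiniteIndex.index_ne_zero).trans h4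
  have h7 : Z.relIndex (H.comap φ) ≤ l ^ n := by
    rw [← comap_map_eq_self hZ, relIndex_comap]
    set T := (H.comap φ).map φ
    have hT : T ≤ H := map_comap_le _ _
    have : IsMulCommutative T := ⟨⟨fun a b => Subtype.ext (hH _ (hT a.2) _ (hT b.2))⟩⟩
    have h8 : (powMonoidHom l : T →* T).range ≤ (Z.map φ).subgroupOf T := by
      rintro _ ⟨⟨_, x, hx, rfl⟩, rfl⟩
      exact ⟨x ^ l, h3 x, map_pow φ x l⟩
    refine (index_antitone h8).trans (index_range.trans_le (le_trans ?_ h1))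
    exact Nat.card_le_card_of_injective (fun a => ⟨inclusion hT a, by
      rw [← map_pow, show (a : T) ^ l = 1 from a.2, map_one]⟩) fun a b e =>
        Subtype.ext (inclusion_injective hT (congrArg Subtype.val e))
  refine (index_antitone (inf_le_left (b := H.comap φ))).trans ?_
  rw [← relIndex_mul_index inf_le_right, inf_relIndex_right, pow_add]
  exact Nat.mul_le_mul h7 h6

/-- Lifting a family of commuting elements of order `q` together with its symmetries. -/
theorem exists_lift_fam [Finite Q] {q : ℕ} [hq : Fact q.Prime] (hf : Surjective f)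
    (h : ¬ q ∣ Nat.card f.ker) {ι : Type*} (c : ι → Q) (h1 : ∀ i j, Commute (c i) (c j))
    (h2 : ∀ i, c i ^ q = 1) : ∃ c' : ι → A, (∀ i, f (c' i) = c i) ∧ (∀ i j, Commute (c' i) (c' j)) ∧
      (∀ i, c' i ^ q = 1) ∧ ∀ (σ : Q) (π : ι → ι) (n : ι → ℕ), (∀ i, c i * σ = σ * c (π i) ^ n i) →
        ∃ s : A, ∀ i, c' i * s = s * c' (π i) ^ n i := by
  let E := closure (Set.range c)
  have hE : IsPGroup q E := by
    have : IsMulCommutative E := isMulCommutative_closure (by
      rintro _ ⟨i, rfl⟩ _ ⟨j, rfl⟩; exact h1 i j)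
    refine fun x => ⟨1, ?_⟩
    obtain ⟨x, hx⟩ := x
    induction hx using closure_induction with
    | mem x hx => obtain ⟨i, rfl⟩ := hx; exact Subtype.ext (by simpa using h2 i)
    | one => exact one_pow _
    | mul x y hx hy a b => exact (mul_pow (⟨x, hx⟩ : E) ⟨y, hy⟩ _).trans (by rw [a, b, mul_one])
    | inv x hx a => exact (inv_pow (⟨x, hx⟩ : E) _).trans (by rw [a, inv_one])
  let N := normalizer (E : Set Q)
  obtain ⟨P, p1, p2, p3⟩ := AltSec.frattini (f.subgroupComap N)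
    (f.subgroupComap_surjective_of_surjective N hf) (E.subgroupOf N) hE.comap_subtype
  have hinj : ∀ a ∈ P, ∀ b ∈ P, f a = f b → (a : A) = b := fun a ha b hb e => by
    obtain ⟨k, hk⟩ := p1 ⟨_, mul_mem (inv_mem ha) hb⟩
    have h3 : ((a : A)⁻¹ * b) ^ q ^ k = 1 := congrArg (fun x : P => (x : A)) hk
    have h4 : ((a : A)⁻¹ * b) ^ Nat.card f.ker = 1 :=
      congrArg Subtype.val (pow_card_eq_one' (x := (⟨(a : A)⁻¹ * b, by simp [e]⟩ : f.ker)))
    exact inv_mul_eq_one.1 (orderOf_eq_one_iff.1 (Nat.eq_one_of_dvd_coprimes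
      (Nat.Coprime.pow_left k (hq.out.coprime_iff_not_dvd.2 h)) (orderOf_dvd_of_pow_eq_one h3)
      (orderOf_dvd_of_pow_eq_one h4)))
  choose c' hc hc' using fun i => p2.ge (show (⟨c i, le_normalizer (subset_closure ⟨i, rfl⟩)⟩ : N) ∈
    E.subgroupOf N from subset_closure ⟨i, rfl⟩)
  have h3 : ∀ i, f (c' i) = c i := fun i => congrArg Subtype.val (hc' i)
  refine ⟨fun i => c' i, h3, fun i j => hinj _ (mul_mem (hc i) (hc j)) _ (mul_mem (hc j) (hc i))
    (by simp [h3, (h1 i j).eq]), fun i => hinj _ (pow_mem (hc i) q) _ (one_mem _) (by simp [h3, h2]),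
    fun σ π n H => ?_⟩
  have h4 : σ⁻¹ ∈ N := Ree.mem_normalizer_of_forall fun x hx =>
    (closure_le (E.comap (MulAut.conj σ⁻¹).toMonoidHom)).2 (by
      rintro _ ⟨i, rfl⟩
      change σ⁻¹ * c i * σ⁻¹⁻¹ ∈ E
      rw [inv_inv, mul_assoc, H, inv_mul_cancel_left]
      exact pow_mem (subset_closure (Set.mem_range_self _)) _) hx
  obtain ⟨s, hs, e⟩ := p3.ge (mem_top ⟨σ⁻¹, h4⟩)
  have e' : f s = σ⁻¹ := congrArg Subtype.val e
  refine ⟨(s : A)⁻¹, fun i => ?_⟩
  rw [eq_inv_mul_iff_mul_eq, ← mul_assoc]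
  exact hinj _ ((mem_normalizer_iff.1 hs _).1 (hc i)) _ (pow_mem (hc _) _)
    (by simp [h3, e', mul_assoc, H])

/-- A cover of least order inside `Γ`. -/
structure MinCov {Γ : Type*} [Group Γ] (j : A →* Γ) (f : A →* Q) : Prop where
  inj : Injective j
  surj : Surjective f
  min : ∀ (B : Subgroup Γ) (g : B →* Q), Surjective g → Nat.card A ≤ Nat.card B

variable {Γ : Type*} [Group Γ] {j : A →* Γ}

theorem MinCov.injective (h : MinCov j f) (φ : A →* Γ) (hφ : φ.ker ≤ f.ker) : Injective φ := by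
  let g := φ.rangeRestrict.liftOfSurjective φ.rangeRestrict_surjective
    ⟨f, φ.ker_rangeRestrict.le.trans hφ⟩
  have h1 := h.min _ g fun x => by
    obtain ⟨a, rfl⟩ := h.surj x
    exact ⟨_, φ.rangeRestrict.liftOfRightInverse_comp_apply _ _ _ a⟩
  have : Finite φ.range := Finite.of_surjective _ φ.rangeRestrict_surjective
  rw [← φ.ker.card_mul_index, index_ker] at h1
  rw [← MonoidHom.ker_eq_bot_iff, ← card_le_one_iff_eq_bot]
  exact Nat.le_of_mul_le_mul_right (h1.trans (one_mul _).ge) Nat.card_pos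

theorem MinCov.frat (h : MinCov j f) : Frat f := ⟨h.surj, fun B hB => by
  have h1 := h.min (B.map j) ((f.comp B.subtype).comp (B.equivMapOfInjective j h.inj).symm.toMonoidHom)
    (Surjective.comp (g := f.comp B.subtype) (fun x => by
      obtain ⟨a, ha, rfl⟩ := hB.ge (mem_top x)
      exact ⟨⟨a, ha⟩, rfl⟩) (B.equivMapOfInjective j h.inj).symm.surjective)
  rw [card_map_of_injective h.inj] at h1
  exact eq_top_of_le_card _ h1⟩

theorem exists_minCov {Γ : Type u} [Group Γ] [Finite Γ] {r : ℕ} (h : AltSec.Cov Γ r) :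
    ∃ (A : Subgroup Γ) (f : A →* alternatingGroup (Fin r)), MinCov A.subtype f := by
  obtain ⟨A, B, f, hf⟩ := h.exists_surj le_rfl
  obtain ⟨A, ⟨f, hf⟩, h⟩ := (measure fun A : Subgroup Γ => Nat.card A).wf.has_min
    {A | ∃ f : A →* alternatingGroup (Fin r), Surjective f} ⟨B.map A.subtype,
      f.comp (B.equivMapOfInjective _ A.subtype_injective).symm.toMonoidHom,
      hf.comp (B.equivMapOfInjective _ A.subtype_injective).symm.surjective⟩
  exact ⟨A, f, A.subtype_injective, hf, fun B g hg => not_lt.1 (h B ⟨g, hg⟩)⟩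

/-- A minimal cover inside a split extension of a `p`-group meets that `p`-group trivially. -/
theorem MinCov.eq_one [IsSimpleGroup Q] (hQ : commutator Q = ⊤) (h : MinCov j f) {p : ℕ}
    [Fact p.Prime] {U L P : Subgroup Γ} (hU : IsPGroup p U) (h1 : P ≤ normalizer (U : Set Γ))
    (h2 : U ⊔ L = P) (h3 : U ⊓ L = ⊥) (g : Γ) (h4 : ∀ a, g⁻¹ * j a * g ∈ P) {a : A}
    (ha : g⁻¹ * j a * g ∈ U) : a = 1 := by
  have := normal_subgroupOf_of_le_normalizer h1
  have h5 : (L.subgroupOf P).IsComplement' (U.subgroupOf P) :=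
    isComplement'_of_disjoint_and_mul_eq_univ (by
      rw [disjoint_iff, subgroupOf, subgroupOf, ← comap_inf, inf_comm, h3]
      simp) (by
      rw [← mul_normal, sup_comm, ← subgroupOf_sup (h2 ▸ le_sup_left) (h2 ▸ le_sup_right), h2,
        subgroupOf_self, coe_top])
  let j' : A →* P := ((MulAut.conj g⁻¹).toMonoidHom.comp j).codRestrict P fun a => by simpa using h4 a
  have hj' : Injective j' := fun a b e => h.inj ((MulAut.conj g⁻¹).injective (congrArg Subtype.val e))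
  let φ : A →* Γ := (P.subtype.comp (L.subgroupOf P).subtype).comp
    (h5.QuotientMulEquiv.toMonoidHom.comp ((QuotientGroup.mk' _).comp j'))
  have h6 : φ.ker = (U.subgroupOf P).comap j' := by
    rw [MonoidHom.ker_comp_of_injective _ (P.subtype.comp (L.subgroupOf P).subtype)
      (P.subtype_injective.comp (L.subgroupOf P).subtype_injective),
      MonoidHom.ker_comp_of_injective _ _ h5.QuotientMulEquiv.injective, ← MonoidHom.comap_ker,
      QuotientGroup.ker_mk']
  have h7 : IsPGroup p φ.ker := h6 ▸ hU.comap_subtype.comap_of_injective j' hj'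
  have h8 : φ.ker ≤ f.ker := by
    refine (Subgroup.map_eq_bot_iff _).1
      ((φ.normal_ker.map f h.surj).eq_bot_or_eq_top.resolve_right fun e => ?_)
    have : Finite Q := Finite.of_surjective f h.surj
    have h9 : Group.IsNilpotent Q := ((e ▸ h7.map f).of_equiv topEquiv).isNilpotent
    exact (Group.IsSolvable.commutator_lt_top_of_nontrivial Q).ne hQ
  exact h.injective φ h8 ((h6.ge (show j' a ∈ U.subgroupOf P by simpa [j', mem_subgroupOf] using ha)).trans
    (map_one φ).symm)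

end Cfsg.Agent.Chev.AS
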