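import Mathlib
import Cfsg.Agent.Chev.ASAlc

/-!
# Eigenvalue multiplicities of torus elements of small order in E6, E7, E8
-/

set_option autoImplicit false

namespace Cfsg.Agent.Chev.AS

local notation "z₀" => Int.ofNat (nat_lit 0)
local notation "z₁" => Int.ofNat (nat_lit 1)
local notation "z₂" => Int.ofNat (nat_lit 2)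
local notation "m₁" => Int.negSucc (nat_lit 0)
local notation "m₂" => Int.negSucc (nat_lit 1)

/-- The data for E6. -/
def alc6 : Alc where
  l := 6
  W := [[z₀,z₀,z₀,z₀,z₀,m₁], [z₀,z₀,z₀,z₀,m₁,z₁], [z₀,z₀,z₀,m₁,z₁,z₀], [z₀,m₁,m₁,z₁,z₀,z₀],
    [m₁,m₁,z₁,z₀,z₀,z₀], [z₀,z₁,m₁,z₀,z₀,z₀], [m₁,z₁,z₁,m₁,z₀,z₀], [m₁,z₀,z₀,z₁,m₁,z₀],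
    [m₁,z₀,z₀,z₀,z₁,m₁], [m₁,z₀,z₀,z₀,z₀,z₁], [z₁,m₁,z₀,z₀,z₀,z₀], [z₁,z₁,z₀,m₁,z₀,z₀],
    [z₁,z₀,m₁,z₁,m₁,z₀], [z₁,z₀,m₁,z₀,z₁,m₁], [z₁,z₀,m₁,z₀,z₀,z₁], [z₀,z₀,z₁,z₀,m₁,z₀],
    [z₀,z₀,z₁,m₁,z₁,m₁], [z₀,z₀,z₁,m₁,z₀,z₁], [z₀,m₁,z₀,z₁,z₀,m₁], [z₀,m₁,z₀,z₁,m₁,z₁],
    [z₀,m₁,z₀,z₀,z₁,z₀], [z₀,z₁,z₀,z₀,z₀,m₁], [z₀,z₁,z₀,z₀,m₁,z₁], [z₀,z₁,z₀,m₁,z₁,z₀],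
    [z₀,z₀,m₁,z₁,z₀,z₀], [m₁,z₀,z₁,z₀,z₀,z₀], [z₁,z₀,z₀,z₀,z₀,z₀]]
  R := [([2, 0, -1, 0, 0, 0], [1, 0, 0, 0, 0, 0]), ([0, 2, 0, -1, 0, 0], [0, 1, 0, 0, 0, 0]), ([-1, 0, 2, -1, 0, 0], [0, 0, 1, 0, 0, 0]), ([0, -1, -1, 2, -1, 0], [0, 0, 0, 1, 0, 0]), ([0, 0, 0, -1, 2, -1], [0, 0, 0, 0, 1, 0]), ([0, 0, 0, 0, -1, 2], [0, 0, 0, 0, 0, 1])]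
  m := [1, 2, 2, 3, 2, 1]
  θ := [0, 1, 0, 0, 0, 0]
  x := [24, 33, 45, 63, 45, 24]
  N := 36
  adj := [[4, 3, 5, 6, 4, 2], [3, 6, 6, 9, 6, 3], [5, 6, 10, 12, 8, 4], [6, 9, 12, 18, 12, 6], [4, 6, 8, 12, 10, 5], [2, 3, 4, 6, 5, 4]]
  det := 3

/-- The grading. -/
def lev6 : List ℤ := [24, 36, 48, 72, 60, 48, 36, 23]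

/-- The data for E7. -/
def alc7 : Alc where
  l := 7
  W := [[z₀,z₀,z₀,z₀,z₀,z₀,m₁], [z₀,z₀,z₀,z₀,z₀,m₁,z₁], [z₀,z₀,z₀,z₀,m₁,z₁,z₀], [z₀,z₀,z₀,m₁,z₁,z₀,z₀],
    [z₀,m₁,m₁,z₁,z₀,z₀,z₀], [m₁,m₁,z₁,z₀,z₀,z₀,z₀], [z₀,z₁,m₁,z₀,z₀,z₀,z₀], [m₁,z₁,z₁,m₁,z₀,z₀,z₀],
    [m₁,z₀,z₀,z₁,m₁,z₀,z₀], [m₁,z₀,z₀,z₀,z₁,m₁,z₀], [m₁,z₀,z₀,z₀,z₀,z₁,m₁], [m₁,z₀,z₀,z₀,z₀,z₀,z₁],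
    [z₁,m₁,z₀,z₀,z₀,z₀,z₀], [z₁,z₁,z₀,m₁,z₀,z₀,z₀], [z₁,z₀,m₁,z₁,m₁,z₀,z₀], [z₁,z₀,m₁,z₀,z₁,m₁,z₀],
    [z₁,z₀,m₁,z₀,z₀,z₁,m₁], [z₁,z₀,m₁,z₀,z₀,z₀,z₁], [z₀,z₀,z₁,z₀,m₁,z₀,z₀], [z₀,z₀,z₁,m₁,z₁,m₁,z₀],
    [z₀,z₀,z₁,m₁,z₀,z₁,m₁], [z₀,z₀,z₁,m₁,z₀,z₀,z₁], [z₀,m₁,z₀,z₁,z₀,m₁,z₀], [z₀,m₁,z₀,z₁,m₁,z₁,m₁],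
    [z₀,m₁,z₀,z₁,m₁,z₀,z₁], [z₀,m₁,z₀,z₀,z₁,z₀,m₁], [z₀,m₁,z₀,z₀,z₁,m₁,z₁], [z₀,m₁,z₀,z₀,z₀,z₁,z₀],
    [z₀,z₁,z₀,z₀,z₀,m₁,z₀], [z₀,z₁,z₀,z₀,m₁,z₁,m₁], [z₀,z₁,z₀,z₀,m₁,z₀,z₁], [z₀,z₁,z₀,m₁,z₁,z₀,m₁],
    [z₀,z₁,z₀,m₁,z₁,m₁,z₁], [z₀,z₁,z₀,m₁,z₀,z₁,z₀], [z₀,z₀,m₁,z₁,z₀,z₀,m₁], [z₀,z₀,m₁,z₁,z₀,m₁,z₁],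
    [z₀,z₀,m₁,z₁,m₁,z₁,z₀], [z₀,z₀,m₁,z₀,z₁,z₀,z₀], [m₁,z₀,z₁,z₀,z₀,z₀,m₁], [m₁,z₀,z₁,z₀,z₀,m₁,z₁],
    [m₁,z₀,z₁,z₀,m₁,z₁,z₀], [m₁,z₀,z₁,m₁,z₁,z₀,z₀], [m₁,m₁,z₀,z₁,z₀,z₀,z₀], [m₁,z₁,z₀,z₀,z₀,z₀,z₀],
    [z₁,z₀,z₀,z₀,z₀,z₀,m₁], [z₁,z₀,z₀,z₀,z₀,m₁,z₁], [z₁,z₀,z₀,z₀,m₁,z₁,z₀], [z₁,z₀,z₀,m₁,z₁,z₀,z₀],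
    [z₁,m₁,m₁,z₁,z₀,z₀,z₀], [z₀,m₁,z₁,z₀,z₀,z₀,z₀], [z₁,z₁,m₁,z₀,z₀,z₀,z₀], [z₀,z₁,z₁,m₁,z₀,z₀,z₀],
    [z₀,z₀,z₀,z₁,m₁,z₀,z₀], [z₀,z₀,z₀,z₀,z₁,m₁,z₀], [z₀,z₀,z₀,z₀,z₀,z₁,m₁], [z₀,z₀,z₀,z₀,z₀,z₀,z₁]]
  R := [([2, 0, -1, 0, 0, 0, 0], [1, 0, 0, 0, 0, 0, 0]), ([0, 2, 0, -1, 0, 0, 0], [0, 1, 0, 0, 0, 0, 0]), ([-1, 0, 2, -1, 0, 0, 0], [0, 0, 1, 0, 0, 0, 0]), ([0, -1, -1, 2, -1, 0, 0], [0, 0, 0, 1, 0, 0, 0]), ([0, 0, 0, -1, 2, -1, 0], [0, 0, 0, 0, 1, 0, 0]), ([0, 0, 0, 0, -1, 2, -1], [0, 0, 0, 0, 0, 1, 0]), ([0, 0, 0, 0, 0, -1, 2], [0, 0, 0, 0, 0, 0, 1])]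
  m := [2, 2, 3, 4, 3, 2, 1]
  θ := [1, 0, 0, 0, 0, 0, 0]
  x := [34, 49, 66, 96, 75, 52, 27]
  N := 36
  adj := [[4, 4, 6, 8, 6, 4, 2], [4, 7, 8, 12, 9, 6, 3], [6, 8, 12, 16, 12, 8, 4], [8, 12, 16, 24, 18, 12, 6], [6, 9, 12, 18, 15, 10, 5], [4, 6, 8, 12, 10, 8, 4], [2, 3, 4, 6, 5, 4, 3]]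
  det := 2

/-- The grading. -/
def lev7 : List ℤ := [2, 3, 4, 6, 5, 4, 3, 2]

/-- The data for E8. -/
def alc8 : Alc where
  l := 8
  W := [[z₀,z₀,z₀,z₀,z₀,z₀,z₀,z₀], [z₀,z₀,z₀,z₀,z₀,z₀,z₀,z₀], [z₀,z₀,z₀,z₀,z₀,z₀,z₀,z₀],
    [z₀,z₀,z₀,z₀,z₀,z₀,z₀,z₀], [z₀,z₀,z₀,z₀,z₀,z₀,z₀,z₀], [z₀,z₀,z₀,z₀,z₀,z₀,z₀,z₀],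
    [z₀,z₀,z₀,z₀,z₀,z₀,z₀,z₀], [z₀,z₀,z₀,z₀,z₀,z₀,z₀,z₀], [z₀,z₀,z₀,z₀,z₀,z₀,z₀,m₁],
    [z₀,z₀,z₀,z₀,z₀,z₀,m₁,z₁], [z₀,z₀,z₀,z₀,z₀,m₁,z₁,z₀], [z₀,z₀,z₀,z₀,m₁,z₁,z₀,z₀],
    [z₀,z₀,z₀,m₁,z₁,z₀,z₀,z₀], [z₀,m₁,m₁,z₁,z₀,z₀,z₀,z₀], [m₁,m₁,z₁,z₀,z₀,z₀,z₀,z₀],
    [z₀,z₁,m₁,z₀,z₀,z₀,z₀,z₀], [m₁,z₁,z₁,m₁,z₀,z₀,z₀,z₀], [m₁,z₀,z₀,z₁,m₁,z₀,z₀,z₀],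
    [m₁,z₀,z₀,z₀,z₁,m₁,z₀,z₀], [m₁,z₀,z₀,z₀,z₀,z₁,m₁,z₀], [m₁,z₀,z₀,z₀,z₀,z₀,z₁,m₁],
    [m₁,z₀,z₀,z₀,z₀,z₀,z₀,z₁], [z₁,m₁,z₀,z₀,z₀,z₀,z₀,z₀], [z₁,z₁,z₀,m₁,z₀,z₀,z₀,z₀],
    [z₁,z₀,m₁,z₁,m₁,z₀,z₀,z₀], [z₁,z₀,m₁,z₀,z₁,m₁,z₀,z₀], [z₁,z₀,m₁,z₀,z₀,z₁,m₁,z₀],
    [z₁,z₀,m₁,z₀,z₀,z₀,z₁,m₁], [z₁,z₀,m₁,z₀,z₀,z₀,z₀,z₁], [z₀,z₀,z₁,z₀,m₁,z₀,z₀,z₀],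
    [z₀,z₀,z₁,m₁,z₁,m₁,z₀,z₀], [z₀,z₀,z₁,m₁,z₀,z₁,m₁,z₀], [z₀,z₀,z₁,m₁,z₀,z₀,z₁,m₁],
    [z₀,z₀,z₁,m₁,z₀,z₀,z₀,z₁], [z₀,m₁,z₀,z₁,z₀,m₁,z₀,z₀], [z₀,m₁,z₀,z₁,m₁,z₁,m₁,z₀],
    [z₀,m₁,z₀,z₁,m₁,z₀,z₁,m₁], [z₀,m₁,z₀,z₁,m₁,z₀,z₀,z₁], [z₀,m₁,z₀,z₀,z₁,z₀,m₁,z₀],
    [z₀,m₁,z₀,z₀,z₁,m₁,z₁,m₁], [z₀,m₁,z₀,z₀,z₁,m₁,z₀,z₁], [z₀,m₁,z₀,z₀,z₀,z₁,z₀,m₁],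
    [z₀,m₁,z₀,z₀,z₀,z₁,m₁,z₁], [z₀,m₁,z₀,z₀,z₀,z₀,z₁,z₀], [z₀,z₁,z₀,z₀,z₀,m₁,z₀,z₀],
    [z₀,z₁,z₀,z₀,m₁,z₁,m₁,z₀], [z₀,z₁,z₀,z₀,m₁,z₀,z₁,m₁], [z₀,z₁,z₀,z₀,m₁,z₀,z₀,z₁],
    [z₀,z₁,z₀,m₁,z₁,z₀,m₁,z₀], [z₀,z₁,z₀,m₁,z₁,m₁,z₁,m₁], [z₀,z₁,z₀,m₁,z₁,m₁,z₀,z₁],
    [z₀,z₁,z₀,m₁,z₀,z₁,z₀,m₁], [z₀,z₁,z₀,m₁,z₀,z₁,m₁,z₁], [z₀,z₁,z₀,m₁,z₀,z₀,z₁,z₀],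
    [z₀,z₀,m₁,z₁,z₀,z₀,m₁,z₀], [z₀,z₀,m₁,z₁,z₀,m₁,z₁,m₁], [z₀,z₀,m₁,z₁,z₀,m₁,z₀,z₁],
    [z₀,z₀,m₁,z₁,m₁,z₁,z₀,m₁], [z₀,z₀,m₁,z₁,m₁,z₁,m₁,z₁], [z₀,z₀,m₁,z₁,m₁,z₀,z₁,z₀],
    [z₀,z₀,m₁,z₀,z₁,z₀,z₀,m₁], [z₀,z₀,m₁,z₀,z₁,z₀,m₁,z₁], [z₀,z₀,m₁,z₀,z₁,m₁,z₁,z₀],
    [z₀,z₀,m₁,z₀,z₀,z₁,z₀,z₀], [m₁,z₀,z₁,z₀,z₀,z₀,m₁,z₀], [m₁,z₀,z₁,z₀,z₀,m₁,z₁,m₁],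
    [m₁,z₀,z₁,z₀,z₀,m₁,z₀,z₁], [m₁,z₀,z₁,z₀,m₁,z₁,z₀,m₁], [m₁,z₀,z₁,z₀,m₁,z₁,m₁,z₁],
    [m₁,z₀,z₁,z₀,m₁,z₀,z₁,z₀], [m₁,z₀,z₁,m₁,z₁,z₀,z₀,m₁], [m₁,z₀,z₁,m₁,z₁,z₀,m₁,z₁],
    [m₁,z₀,z₁,m₁,z₁,m₁,z₁,z₀], [m₁,z₀,z₁,m₁,z₀,z₁,z₀,z₀], [m₁,m₁,z₀,z₁,z₀,z₀,z₀,m₁],
    [m₁,m₁,z₀,z₁,z₀,z₀,m₁,z₁], [m₁,m₁,z₀,z₁,z₀,m₁,z₁,z₀], [m₁,m₁,z₀,z₁,m₁,z₁,z₀,z₀],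
    [m₁,m₁,z₀,z₀,z₁,z₀,z₀,z₀], [m₁,z₁,z₀,z₀,z₀,z₀,z₀,m₁], [m₁,z₁,z₀,z₀,z₀,z₀,m₁,z₁],
    [m₁,z₁,z₀,z₀,z₀,m₁,z₁,z₀], [m₁,z₁,z₀,z₀,m₁,z₁,z₀,z₀], [m₁,z₁,z₀,m₁,z₁,z₀,z₀,z₀],
    [m₁,z₀,m₁,z₁,z₀,z₀,z₀,z₀], [m₂,z₀,z₁,z₀,z₀,z₀,z₀,z₀], [z₁,z₀,z₀,z₀,z₀,z₀,m₁,z₀],
    [z₁,z₀,z₀,z₀,z₀,m₁,z₁,m₁], [z₁,z₀,z₀,z₀,z₀,m₁,z₀,z₁], [z₁,z₀,z₀,z₀,m₁,z₁,z₀,m₁],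
    [z₁,z₀,z₀,z₀,m₁,z₁,m₁,z₁], [z₁,z₀,z₀,z₀,m₁,z₀,z₁,z₀], [z₁,z₀,z₀,m₁,z₁,z₀,z₀,m₁],
    [z₁,z₀,z₀,m₁,z₁,z₀,m₁,z₁], [z₁,z₀,z₀,m₁,z₁,m₁,z₁,z₀], [z₁,z₀,z₀,m₁,z₀,z₁,z₀,z₀],
    [z₁,m₁,m₁,z₁,z₀,z₀,z₀,m₁], [z₁,m₁,m₁,z₁,z₀,z₀,m₁,z₁], [z₁,m₁,m₁,z₁,z₀,m₁,z₁,z₀],
    [z₁,m₁,m₁,z₁,m₁,z₁,z₀,z₀], [z₁,m₁,m₁,z₀,z₁,z₀,z₀,z₀], [z₀,m₁,z₁,z₀,z₀,z₀,z₀,m₁],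
    [z₀,m₁,z₁,z₀,z₀,z₀,m₁,z₁], [z₀,m₁,z₁,z₀,z₀,m₁,z₁,z₀], [z₀,m₁,z₁,z₀,m₁,z₁,z₀,z₀],
    [z₀,m₁,z₁,m₁,z₁,z₀,z₀,z₀], [z₀,m₂,z₀,z₁,z₀,z₀,z₀,z₀], [z₁,z₁,m₁,z₀,z₀,z₀,z₀,m₁],
    [z₁,z₁,m₁,z₀,z₀,z₀,m₁,z₁], [z₁,z₁,m₁,z₀,z₀,m₁,z₁,z₀], [z₁,z₁,m₁,z₀,m₁,z₁,z₀,z₀],
    [z₁,z₁,m₁,m₁,z₁,z₀,z₀,z₀], [z₁,z₀,m₂,z₁,z₀,z₀,z₀,z₀], [z₀,z₁,z₁,m₁,z₀,z₀,z₀,m₁],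
    [z₀,z₁,z₁,m₁,z₀,z₀,m₁,z₁], [z₀,z₁,z₁,m₁,z₀,m₁,z₁,z₀], [z₀,z₁,z₁,m₁,m₁,z₁,z₀,z₀],
    [z₀,z₁,z₁,m₂,z₁,z₀,z₀,z₀], [z₀,z₀,z₀,z₁,m₁,z₀,z₀,m₁], [z₀,z₀,z₀,z₁,m₁,z₀,m₁,z₁],
    [z₀,z₀,z₀,z₁,m₁,m₁,z₁,z₀], [z₀,z₀,z₀,z₁,m₂,z₁,z₀,z₀], [z₀,z₀,z₀,z₀,z₁,m₁,z₀,m₁],
    [z₀,z₀,z₀,z₀,z₁,m₁,m₁,z₁], [z₀,z₀,z₀,z₀,z₁,m₂,z₁,z₀], [z₀,z₀,z₀,z₀,z₀,z₁,m₁,m₁],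
    [z₀,z₀,z₀,z₀,z₀,z₁,m₂,z₁], [z₀,z₀,z₀,z₀,z₀,z₀,z₁,m₂], [z₀,z₀,z₀,z₀,z₀,z₀,m₁,z₂],
    [z₀,z₀,z₀,z₀,z₀,m₁,z₂,m₁], [z₀,z₀,z₀,z₀,z₀,m₁,z₁,z₁], [z₀,z₀,z₀,z₀,m₁,z₂,m₁,z₀],
    [z₀,z₀,z₀,z₀,m₁,z₁,z₁,m₁], [z₀,z₀,z₀,z₀,m₁,z₁,z₀,z₁], [z₀,z₀,z₀,m₁,z₂,m₁,z₀,z₀],
    [z₀,z₀,z₀,m₁,z₁,z₁,m₁,z₀], [z₀,z₀,z₀,m₁,z₁,z₀,z₁,m₁], [z₀,z₀,z₀,m₁,z₁,z₀,z₀,z₁],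
    [z₀,m₁,m₁,z₂,m₁,z₀,z₀,z₀], [z₀,m₁,m₁,z₁,z₁,m₁,z₀,z₀], [z₀,m₁,m₁,z₁,z₀,z₁,m₁,z₀],
    [z₀,m₁,m₁,z₁,z₀,z₀,z₁,m₁], [z₀,m₁,m₁,z₁,z₀,z₀,z₀,z₁], [m₁,z₀,z₂,m₁,z₀,z₀,z₀,z₀],
    [m₁,m₁,z₁,z₁,m₁,z₀,z₀,z₀], [m₁,m₁,z₁,z₀,z₁,m₁,z₀,z₀], [m₁,m₁,z₁,z₀,z₀,z₁,m₁,z₀],
    [m₁,m₁,z₁,z₀,z₀,z₀,z₁,m₁], [m₁,m₁,z₁,z₀,z₀,z₀,z₀,z₁], [z₀,z₂,z₀,m₁,z₀,z₀,z₀,z₀],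
    [z₀,z₁,m₁,z₁,m₁,z₀,z₀,z₀], [z₀,z₁,m₁,z₀,z₁,m₁,z₀,z₀], [z₀,z₁,m₁,z₀,z₀,z₁,m₁,z₀],
    [z₀,z₁,m₁,z₀,z₀,z₀,z₁,m₁], [z₀,z₁,m₁,z₀,z₀,z₀,z₀,z₁], [m₁,z₁,z₁,z₀,m₁,z₀,z₀,z₀],
    [m₁,z₁,z₁,m₁,z₁,m₁,z₀,z₀], [m₁,z₁,z₁,m₁,z₀,z₁,m₁,z₀], [m₁,z₁,z₁,m₁,z₀,z₀,z₁,m₁],
    [m₁,z₁,z₁,m₁,z₀,z₀,z₀,z₁], [m₁,z₀,z₀,z₁,z₀,m₁,z₀,z₀], [m₁,z₀,z₀,z₁,m₁,z₁,m₁,z₀],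
    [m₁,z₀,z₀,z₁,m₁,z₀,z₁,m₁], [m₁,z₀,z₀,z₁,m₁,z₀,z₀,z₁], [m₁,z₀,z₀,z₀,z₁,z₀,m₁,z₀],
    [m₁,z₀,z₀,z₀,z₁,m₁,z₁,m₁], [m₁,z₀,z₀,z₀,z₁,m₁,z₀,z₁], [m₁,z₀,z₀,z₀,z₀,z₁,z₀,m₁],
    [m₁,z₀,z₀,z₀,z₀,z₁,m₁,z₁], [m₁,z₀,z₀,z₀,z₀,z₀,z₁,z₀], [z₂,z₀,m₁,z₀,z₀,z₀,z₀,z₀],
    [z₁,z₀,z₁,m₁,z₀,z₀,z₀,z₀], [z₁,m₁,z₀,z₁,m₁,z₀,z₀,z₀], [z₁,m₁,z₀,z₀,z₁,m₁,z₀,z₀],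
    [z₁,m₁,z₀,z₀,z₀,z₁,m₁,z₀], [z₁,m₁,z₀,z₀,z₀,z₀,z₁,m₁], [z₁,m₁,z₀,z₀,z₀,z₀,z₀,z₁],
    [z₁,z₁,z₀,z₀,m₁,z₀,z₀,z₀], [z₁,z₁,z₀,m₁,z₁,m₁,z₀,z₀], [z₁,z₁,z₀,m₁,z₀,z₁,m₁,z₀],
    [z₁,z₁,z₀,m₁,z₀,z₀,z₁,m₁], [z₁,z₁,z₀,m₁,z₀,z₀,z₀,z₁], [z₁,z₀,m₁,z₁,z₀,m₁,z₀,z₀],
    [z₁,z₀,m₁,z₁,m₁,z₁,m₁,z₀], [z₁,z₀,m₁,z₁,m₁,z₀,z₁,m₁], [z₁,z₀,m₁,z₁,m₁,z₀,z₀,z₁],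
    [z₁,z₀,m₁,z₀,z₁,z₀,m₁,z₀], [z₁,z₀,m₁,z₀,z₁,m₁,z₁,m₁], [z₁,z₀,m₁,z₀,z₁,m₁,z₀,z₁],
    [z₁,z₀,m₁,z₀,z₀,z₁,z₀,m₁], [z₁,z₀,m₁,z₀,z₀,z₁,m₁,z₁], [z₁,z₀,m₁,z₀,z₀,z₀,z₁,z₀],
    [z₀,z₀,z₁,z₀,z₀,m₁,z₀,z₀], [z₀,z₀,z₁,z₀,m₁,z₁,m₁,z₀], [z₀,z₀,z₁,z₀,m₁,z₀,z₁,m₁],
    [z₀,z₀,z₁,z₀,m₁,z₀,z₀,z₁], [z₀,z₀,z₁,m₁,z₁,z₀,m₁,z₀], [z₀,z₀,z₁,m₁,z₁,m₁,z₁,m₁],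
    [z₀,z₀,z₁,m₁,z₁,m₁,z₀,z₁], [z₀,z₀,z₁,m₁,z₀,z₁,z₀,m₁], [z₀,z₀,z₁,m₁,z₀,z₁,m₁,z₁],
    [z₀,z₀,z₁,m₁,z₀,z₀,z₁,z₀], [z₀,m₁,z₀,z₁,z₀,z₀,m₁,z₀], [z₀,m₁,z₀,z₁,z₀,m₁,z₁,m₁],
    [z₀,m₁,z₀,z₁,z₀,m₁,z₀,z₁], [z₀,m₁,z₀,z₁,m₁,z₁,z₀,m₁], [z₀,m₁,z₀,z₁,m₁,z₁,m₁,z₁],
    [z₀,m₁,z₀,z₁,m₁,z₀,z₁,z₀], [z₀,m₁,z₀,z₀,z₁,z₀,z₀,m₁], [z₀,m₁,z₀,z₀,z₁,z₀,m₁,z₁],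
    [z₀,m₁,z₀,z₀,z₁,m₁,z₁,z₀], [z₀,m₁,z₀,z₀,z₀,z₁,z₀,z₀], [z₀,z₁,z₀,z₀,z₀,z₀,m₁,z₀],
    [z₀,z₁,z₀,z₀,z₀,m₁,z₁,m₁], [z₀,z₁,z₀,z₀,z₀,m₁,z₀,z₁], [z₀,z₁,z₀,z₀,m₁,z₁,z₀,m₁],
    [z₀,z₁,z₀,z₀,m₁,z₁,m₁,z₁], [z₀,z₁,z₀,z₀,m₁,z₀,z₁,z₀], [z₀,z₁,z₀,m₁,z₁,z₀,z₀,m₁],
    [z₀,z₁,z₀,m₁,z₁,z₀,m₁,z₁], [z₀,z₁,z₀,m₁,z₁,m₁,z₁,z₀], [z₀,z₁,z₀,m₁,z₀,z₁,z₀,z₀],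
    [z₀,z₀,m₁,z₁,z₀,z₀,z₀,m₁], [z₀,z₀,m₁,z₁,z₀,z₀,m₁,z₁], [z₀,z₀,m₁,z₁,z₀,m₁,z₁,z₀],
    [z₀,z₀,m₁,z₁,m₁,z₁,z₀,z₀], [z₀,z₀,m₁,z₀,z₁,z₀,z₀,z₀], [m₁,z₀,z₁,z₀,z₀,z₀,z₀,m₁],
    [m₁,z₀,z₁,z₀,z₀,z₀,m₁,z₁], [m₁,z₀,z₁,z₀,z₀,m₁,z₁,z₀], [m₁,z₀,z₁,z₀,m₁,z₁,z₀,z₀],
    [m₁,z₀,z₁,m₁,z₁,z₀,z₀,z₀], [m₁,m₁,z₀,z₁,z₀,z₀,z₀,z₀], [m₁,z₁,z₀,z₀,z₀,z₀,z₀,z₀],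
    [z₁,z₀,z₀,z₀,z₀,z₀,z₀,m₁], [z₁,z₀,z₀,z₀,z₀,z₀,m₁,z₁], [z₁,z₀,z₀,z₀,z₀,m₁,z₁,z₀],
    [z₁,z₀,z₀,z₀,m₁,z₁,z₀,z₀], [z₁,z₀,z₀,m₁,z₁,z₀,z₀,z₀], [z₁,m₁,m₁,z₁,z₀,z₀,z₀,z₀],
    [z₀,m₁,z₁,z₀,z₀,z₀,z₀,z₀], [z₁,z₁,m₁,z₀,z₀,z₀,z₀,z₀], [z₀,z₁,z₁,m₁,z₀,z₀,z₀,z₀],
    [z₀,z₀,z₀,z₁,m₁,z₀,z₀,z₀], [z₀,z₀,z₀,z₀,z₁,m₁,z₀,z₀], [z₀,z₀,z₀,z₀,z₀,z₁,m₁,z₀],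
    [z₀,z₀,z₀,z₀,z₀,z₀,z₁,m₁], [z₀,z₀,z₀,z₀,z₀,z₀,z₀,z₁]]
  R := [([2, 0, -1, 0, 0, 0, 0, 0], [1, 0, 0, 0, 0, 0, 0, 0]), ([0, 2, 0, -1, 0, 0, 0, 0], [0, 1, 0, 0, 0, 0, 0, 0]), ([-1, 0, 2, -1, 0, 0, 0, 0], [0, 0, 1, 0, 0, 0, 0, 0]), ([0, -1, -1, 2, -1, 0, 0, 0], [0, 0, 0, 1, 0, 0, 0, 0]), ([0, 0, 0, -1, 2, -1, 0, 0], [0, 0, 0, 0, 1, 0, 0, 0]), ([0, 0, 0, 0, -1, 2, -1, 0], [0, 0, 0, 0, 0, 1, 0, 0]), ([0, 0, 0, 0, 0, -1, 2, -1], [0, 0, 0, 0, 0, 0, 1, 0]), ([0, 0, 0, 0, 0, 0, -1, 2], [0, 0, 0, 0, 0, 0, 0, 1])]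
  m := [2, 3, 4, 6, 5, 4, 3, 2]
  θ := [0, 0, 0, 0, 0, 0, 0, 1]
  x := [46, 68, 91, 135, 110, 84, 57, 29]
  N := 30
  adj := [[4, 5, 7, 10, 8, 6, 4, 2], [5, 8, 10, 15, 12, 9, 6, 3], [7, 10, 14, 20, 16, 12, 8, 4], [10, 15, 20, 30, 24, 18, 12, 6], [8, 12, 16, 24, 20, 15, 10, 5], [6, 9, 12, 18, 15, 12, 8, 4], [4, 6, 8, 12, 10, 8, 6, 3], [2, 3, 4, 6, 5, 4, 3, 2]]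
  det := 1

/-- The grading. -/
def lev8 : List ℤ := [0, 0, 0, 0, 0, 0, 0, 0]

theorem ok6 : alc6.Ok := by decide +kernel

theorem ok7 : alc7.Ok := by decide +kernel

theorem ok8 : alc8.Ok := by decide +kernel

/-- The test for rational elements. -/
def ratP (d n : ℕ) (L : List ℕ) (H : ℕ) : Bool :=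
  !(Nat.beq H (H % 256 + (d - H % 256) / (n - 1) * (256 * ((256 ^ (n - 1) - 1) / 255)))) ||
    L.elem (H % 256)

theorem chk6_2 : enum alc6.m 2 (alc6.leaf 2 (ratP 27 2 [15, 11])) = true := by decide +kernel

theorem chk6_3 : enum alc6.m 3 (alc6.leaf 3 fun H => [27 * 256, 27 * 65536, 15 + 6 * 256 + 6 * 65536,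
    6 + 15 * 256 + 6 * 65536, 6 + 6 * 256 + 15 * 65536, 9 + 9 * 256 + 9 * 65536].elem H) = true := by
  decide +kernel

theorem chk6_11 : enum alc6.m 11 (alc6.leaf 11 (ratP 27 11 [])) = true := by decide +kernel

theorem chk7_5 : enum alc7.m 5 (alc7.leaf 5 (ratP 56 5 [16])) = true := by decide +kernel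

theorem chk7_7 : enum alc7.m 7 (alc7.leaf 7 (ratP 56 7 [8, 2, 20])) = true := by decide +kernel

theorem chk8_2 : enum alc8.m 2 (alc8.leaf 2 (ratP 248 2 [136, 120])) = true := by decide +kernel

theorem chk8_3 : enum alc8.m 3 (alc8.leaf 3 (ratP 248 3 [134, 86, 80, 92])) = true := by
  decide +kernel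

theorem chk8_17 : enum alc8.m 17 (alc8.leaf 17 (ratP 248 17 [])) = true := by decide +kernel

end Cfsg.Agent.Chev.AS
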