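import Mathlib
import Cfsg.Agent.Chev.ASLin
import Cfsg.Agent.Chev.ASTab
import Cfsg.Agent.Lang.WEnum
import Cfsg.Agent.Mult.ChevR3

/-!
# The minimal representations of the simply connected groups of type E6, E7, E8
-/

set_option autoImplicit false

namespace Cfsg.Agent.Chev.AS

open Module Function Cfsg.Lie Cfsg.Agent.Lang

section Lin

variable {k V : Type*} [Field k] [AddCommGroup V] [Module k V] {q : ℕ}

/-- The eigenvalue multiplicities in base 256. -/
noncomputable def prof [NeZero q] (ψ : AddChar (ZMod q) k) (g : End k V) : ℕ :=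
  ∑ a, ed ψ g a * 256 ^ a.val

/-- The eigenvalue multiplicities of the elements of order prime to the characteristic are read
off from the weights. -/
structure IsRep (A : Alc) {Γ : Type*} [Group Γ] (ρ : Γ →* End k V) : Prop where
  dim : finrank k V = A.W.length
  spec : ∀ (q : ℕ) [NeZero q] (ψ : AddChar (ZMod q) k), Psi ψ → ∀ g, g ^ q = 1 →
    ∃ v, prof ψ (ρ g) = hist A.W q v ∧ ((∀ j < A.l, (q : ℤ) ∣ v j) → g = 1)

theorem psi_sum (ψ : AddChar (ZMod q) k) {ι : Type*} (s : Finset ι) (f : ι → ZMod q) :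
    ψ (∑ i ∈ s, f i) = ∏ i ∈ s, ψ (f i) := by
  classical
  induction s using Finset.induction_on with
  | empty => simp
  | insert a s h ih => rw [Finset.sum_insert h, Finset.prod_insert h, AddChar.map_add_eq_mul, ih]

theorem rep_injective {Γ : Type*} [Group Γ] (ρ : Γ →* End k V) (g : Γ) : Injective (ρ g) :=
  ((End.isUnit_iff _).1 ((Group.isUnit g).map ρ)).1

theorem ed_conj [FiniteDimensional k V] {Γ : Type*} [Group Γ] (ρ : Γ →* End k V)
    (ψ : AddChar (ZMod q) k) (u g : Γ) : ed ψ (ρ (u * g * u⁻¹)) = ed ψ (ρ g) := by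
  have key : ∀ u g a, ed ψ (ρ g) a ≤ ed ψ (ρ (u * g * u⁻¹)) a := fun u g a =>
    finrank_le_of_map (rep_injective ρ u) fun x hx => End.mem_eigenspace_iff.2 (by
      rw [← End.mul_apply, ← map_mul, inv_mul_cancel_right, map_mul, End.mul_apply,
        End.mem_eigenspace_iff.1 hx, map_smul])
  refine funext fun a => le_antisymm ?_ (key u g a)
  simpa [mul_assoc] using key u⁻¹ (u * g * u⁻¹) a

theorem finrank_eigenspace_diagonal {I : Type*} [Fintype I] [DecidableEq I] [DecidableEq k]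
    (d : I → k) (a : k) : finrank k (End.eigenspace (Matrix.toLin' (Matrix.diagonal d)) a) =
      (Finset.univ.filter fun i => d i = a).card := by
  have h1 : Matrix.toLin' (Matrix.diagonal d) - a • (1 : End k (I → k)) =
      Matrix.toLin' (Matrix.diagonal fun i => d i - a) := by
    refine LinearMap.ext fun x => funext fun i => ?_
    simp [Matrix.mulVec_diagonal, sub_mul]
  have h2 := (Matrix.toLin' (Matrix.diagonal fun i => d i - a)).finrank_range_add_finrank_ker
  have h3 : finrank k (Matrix.toLin' (Matrix.diagonal fun i => d i - a)).range = _ :=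
    Matrix.rank_diagonal fun i => d i - a
  have h4 := Finset.card_filter_add_card_filter_not (s := Finset.univ) fun i => d i = a
  rw [End.eigenspace_def, h1]
  simp only [Fintype.card_subtype, ne_eq, sub_eq_zero] at h3
  simp only [finrank_fintype_fun_eq_card, Finset.card_univ] at h2 h4
  omega

theorem prof_diagonal [NeZero q] {ψ : AddChar (ZMod q) k} (hψ : Psi ψ) {I : Type*} [Fintype I]
    [DecidableEq I] (e : I → ℤ) : prof ψ (Matrix.toLin' (Matrix.diagonal fun i => ψ (e i))) =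
      ∑ i, 256 ^ (e i % q).toNat := by
  classical
  rw [← Finset.sum_fiberwise Finset.univ fun i => (e i : ZMod q)]
  refine Finset.sum_congr rfl fun a _ => ?_
  rw [ed, finrank_eigenspace_diagonal, Finset.sum_congr rfl (g := fun _ => 256 ^ a.val)
    fun i hi => by rw [← (Finset.mem_filter.1 hi).2, ← ZMod.val_intCast, Int.toNat_natCast]]
  simp [hψ.inj.eq_iff]

end Lin

section Block

variable {D : ChevalleyDatum} [Good D] (k : Type*) [Field k] (f : (Nd D → ℤ) →+ ℤ) (m : ℤ)

/-- The action on a graded piece. -/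
noncomputable def blk : ↥(filtSub k f 0 le_rfl ⊓ filtSub k (-f) 0 le_rfl) →*
    Matrix {a // f (wtv a) = m} {a // f (wtv a) = m} k where
  toFun g := (g.1 : Matrix D.Idx D.Idx k).submatrix Subtype.val Subtype.val
  map_one' := Matrix.submatrix_one _ Subtype.val_injective
  map_mul' g h := by
    ext a b
    simp only [Subgroup.coe_mul, Units.val_mul, Matrix.submatrix_apply, Matrix.mul_apply]
    refine (Fintype.sum_of_injective Subtype.val Subtype.val_injective _ _ (fun c hc => ?_)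
      fun _ => rfl).symm
    have hc' : f (wtv c) ≠ m := fun e => hc ⟨⟨c, e⟩, rfl⟩
    have h0 : (h.1 : Matrix D.Idx D.Idx k) c b = 0 := by
      by_contra h0
      have h1 : ((h.1 : Matrix D.Idx D.Idx k) - 1) c b ≠ 0 := by
        rwa [Matrix.sub_apply, Matrix.one_apply_ne fun e => hc' (by rw [e]; exact b.2), sub_zero]
      have h2 := h.2.1.1 c b h1
      have h3 := h.2.2.1 c b h1
      have h4 := b.2
      simp only [AddMonoidHom.neg_apply] at h3
      omega
    rw [h0, mul_zero]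

variable {k f} in
theorem exists_blk {Γ : Type*} [Group Γ] (φ : Γ →* GL D.Idx k)
    (h : ∀ g, φ g ∈ filtSub k f 0 le_rfl ⊓ filtSub k (-f) 0 le_rfl) :
    ∃ ρ : Γ →* End k ({a // f (wtv a) = m} → k), ∀ g,
      ρ g = Matrix.toLin' ((φ g : Matrix D.Idx D.Idx k).submatrix Subtype.val Subtype.val) :=
  ⟨((Matrix.toLinAlgEquiv' (R := k)).toMonoidHom.comp (blk k f m)).comp (φ.codRestrict _ h),
    fun _ => rfl⟩

end Block

/-- The weights of a graded piece of the Lie algebra. -/
def wtsOf (E : ChevalleyDatum) (l : ℕ) (y : List ℤ) (m : ℤ) : List (List ℤ) :=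
  (if m = 0 then List.replicate E.rank (List.replicate l 0) else []) ++
    ((List.range E.nroots).filter fun s => evY E (vecL y) s = m).map fun s =>
      (List.range l).map (E.cartan · s)

theorem sum_range_filter {n : ℕ} (P : ℕ → Prop) [DecidablePred P] (g : ℕ → ℕ) :
    (((List.range n).filter fun s => P s).map g).sum = ∑ s : Fin n, if P s then g s else 0 := by
  rw [Fin.sum_univ_eq_sum_range fun s => if P s then g s else 0]
  induction n with
  | zero => rfl
  | succ n ih =>
    rw [List.range_succ, List.filter_append, List.map_append, List.sum_append, ih,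
      Finset.sum_range_succ]
    by_cases h : P n <;> simp [h]

section Main

variable {D : ChevalleyDatum} (hD : D ∈ [chevG2, chevB2, chevD4, chevF4, chevE6, chevE7, chevE8])
  (T : RootTable D) {k : Type*} [Field k] (hS : IsSt D (D.stGen k))

include hD in
/-- Elements of order prime to the characteristic are conjugate into the torus. -/
theorem exists_toral {F : Type*} [Field F] [Fintype F] [IsAlgClosed k] (ι : F →+* k) :
    ∃ σ : D.SteinbergGroup F →* D.SteinbergGroup k, (∀ g, σ g = 1 → g = 1) ∧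
      ∀ q : ℕ, (q : k) ≠ 0 → ∀ g, g ^ q = 1 →
        ∃ u c, isR3_stGen.torY hS T c = u * σ g * u⁻¹ ∧ c ^ q = 1 := by
  obtain ⟨_⟩ := good_of_mem hD
  obtain ⟨p, hp⟩ := CharP.exists F
  have : Fact p.Prime := ⟨CharP.char_is_prime F p⟩
  have : CharP k p := (ι.charP_iff_charP p).1 hp
  have hS' := (isSt0_stGen (D := D) (F := F)).isSt hD
  obtain ⟨θ, hθ⟩ := (isSt_xC (D := D) (F := k)).toIsSt0.exists_lift3 isR3_xC T
  obtain ⟨θ', hθ'⟩ := (isSt_xC (D := D) (F := F)).toIsSt0.exists_lift3 isR3_xC T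
  obtain ⟨σ, hσ⟩ : ∃ σ : D.SteinbergGroup F →* D.SteinbergGroup k,
      ∀ r < D.nroots, ∀ t, σ (D.stGen F r t) = D.stGen k r (ι t) := by
    refine IsSt0.exists_lift3 (y := fun r t => D.stGen k r (ι t)) ⟨fun r hr t u => ?_,
      fun r s hr hs h1 h2 t u => ?_⟩ (fun r hr t u ht hu => ?_) T
    · rw [hS.add r hr, map_add]
    · rw [hS.comm r s hr hs h1 h2]
      simp [word, ChevalleyDatum.commWord, Function.comp_def]
    · have := isR3_stGen (D := D) r hr (ι t) (ι u) ((map_ne_zero ι).2 ht) ((map_ne_zero ι).2 hu)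
      simpa [hh, nn] using this
  have hθσ : θ.comp σ = (fieldHom D ι).comp θ' := Mult.hom_ext_of_Gs Gs_stGen fun r hr t => by
    simp [hσ r hr, hθ r hr, hθ' r hr]
  refine ⟨σ, fun g hg => ?_, fun q hq g hg => ?_⟩
  · have h1 : θ' g = 1 := fieldHom_injective ι (by
      rw [← MonoidHom.comp_apply, ← hθσ, MonoidHom.comp_apply, hg, map_one, map_one])
    obtain ⟨c, rfl⟩ := exists_torY hS' isR3_stGen T (hS'.ker_le_Hs T θ' hθ' Gs_stGen h1)
    rw [map_torY_field hS' isR3_stGen T hS isR3_stGen σ ι hσ, ← map_one (IsR3.torY hS isR3_stGen T)]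
      at hg
    rw [show c = 1 from funext fun i => Units.map_injective ι.injective
      ((congrFun (torY_stGen_injective hD T hS hg) i).trans (map_one _).symm), map_one]
  obtain ⟨u, hu⟩ := exists_conj_mem_Hs_xC T p ι (u := θ' g) (m := q)
    ((Nat.Prime.coprime_iff_not_dvd Fact.out).2 fun h => hq ((CharP.cast_eq_zero_iff k p q).2 h)).symm
    (by rw [← map_pow, hg, map_one])
  obtain ⟨u, rfl⟩ := surjective_of_hom θ hθ u
  rw [← MonoidHom.comp_apply, ← hθσ, ← Hs_congr hθ T, ← map_Hs] at hu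
  obtain ⟨h, hh1, hh2⟩ := hu
  have h1 : h⁻¹ * (u * σ g * u⁻¹) ∈ θ.ker := by
    rw [MonoidHom.mem_ker, map_mul, map_inv, hh2, map_mul, map_mul, map_inv]
    exact inv_mul_cancel _
  obtain ⟨c, hc⟩ := exists_torY hS isR3_stGen T
    ((Subgroup.mul_mem_cancel_left _ (inv_mem hh1)).1 (hS.ker_le_Hs T θ hθ Gs_stGen h1))
  exact ⟨u, c, hc, torY_stGen_injective hD T hS (by rw [map_pow, hc, conj_pow, ← map_pow, hg]; simp)⟩

variable {E : ChevalleyDatum} [Good E] (T' : RootTable E) (h8 : D.rank ≤ E.rank) (Y : List ℤ) (m : ℤ)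

include T' in
theorem sum_piece (l : ℕ) (g : List ℤ → ℕ) : ∑ a : {a : E.Idx // fY E (vecL Y) (wtv a) = m},
    g (Sum.elim (fun _ => List.replicate l 0) (fun s : Rt E => (List.range l).map (E.cartan · s)) a.1) =
      ((wtsOf E l Y m).map g).sum := by
  have hf : ∀ s : Rt E, fY E (vecL Y) (wtv (.inr s)) = evY E (vecL Y) s := fun s => by
    rw [← fY_vec T' _ (T'.lt_iff.1 s.2), T'.vec_eq_v s]
    rfl
  rw [← Finset.sum_subtype (Finset.univ.filter fun a : E.Idx => fY E (vecL Y) (wtv a) = m) (by simp)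
    fun a => g (Sum.elim (fun _ => List.replicate l 0) (fun s : Rt E => (List.range l).map (E.cartan · s)) a),
    Finset.sum_filter, Fintype.sum_sum_type, wtsOf, List.map_append, List.sum_append,
    List.map_map, sum_range_filter]
  congr 1
  · have : ∀ i, fY E (vecL Y) (wtv (.inl i)) = 0 := fun _ => map_zero _
    simp only [this, eq_comm (a := (0 : ℤ))]
    split_ifs <;> simp
  · exact Finset.sum_congr rfl fun s _ => by rw [hf]; rfl

include T' in
theorem exists_piece {y : ℕ → k → GL E.Idx k} (h0 : IsSt0 D y) (h3 : IsR3 D y)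
    (hy : ∀ r < D.nroots, ∀ t, ∃ s < E.nroots, evY E (vecL Y) s = 0 ∧ ∃ u, y r t = xG E k s u)
    (hh' : ∀ (i : Fin D.rank) (c : kˣ), hh D y (D.simple i) c =
      hh E (xG E k) (E.simple (Fin.castLE h8 i)) c) :
    ∃ ρ : D.SteinbergGroup k →* End k ({a : E.Idx // fY E (vecL Y) (wtv a) = m} → k), ∀ c,
      ρ (isR3_stGen.torY hS T c) = Matrix.toLin' (Matrix.diagonal fun a =>
        Sum.elim (fun _ => 1) (fun s : Rt E => ∏ i : Fin D.rank, (c i : k) ^ E.cartan i s) a.1) := by
  obtain ⟨φ, hφ⟩ := h0.exists_lift3 h3 T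
  let f := fY E (vecL Y)
  have hB : ∀ g, φ g ∈ filtSub k f 0 le_rfl ⊓ filtSub k (-f) 0 le_rfl := fun g => by
    refine (XS_le (K := Subgroup.comap φ (filtSub k f 0 le_rfl ⊓ filtSub k (-f) 0 le_rfl))).2
      (fun r hr t => ?_) (Gs_stGen.ge (Subgroup.mem_top g))
    obtain ⟨s, hs, h1, u, h2⟩ := hy r hr t
    have h4 := T'.lt_iff.1 hs
    have h5 : f (T'.vec s) = 0 := (fY_vec T' _ h4).trans h1
    have h6 : ∀ f' : (Nd E → ℤ) →+ ℤ, f' (T'.vec s) = 0 → xG E k s u ∈ filtSub k f' 0 le_rfl :=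
      fun f' h => XS_le_filtSub T' f' le_rfl (S := {s}) (by rintro _ rfl; exact ⟨h4, h.ge⟩)
        (mem_XS (Set.mem_singleton s) u)
    rw [Subgroup.mem_comap, hφ r hr, h2]
    exact Subgroup.mem_inf.2 ⟨h6 f h5, h6 (-f) (by rw [AddMonoidHom.neg_apply, h5, neg_zero])⟩
  let ιc : (Fin D.rank → kˣ) →* (Fin E.rank → kˣ) :=
    { toFun := fun c => ∏ i, Pi.mulSingle (Fin.castLE h8 i) (c i)
      map_one' := by simp
      map_mul' := fun c c' => by simp [Pi.mulSingle_mul, Finset.prod_mul_distrib] }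
  have key : φ.comp (isR3_stGen.torY hS T) = (tor E k).comp ιc := hom_ext_mulSingle fun i c => by
    have : ιc (Pi.mulSingle i c) = Pi.mulSingle (Fin.castLE h8 i) c := by
      change (∏ j, Pi.mulSingle (Fin.castLE h8 j) (Pi.mulSingle (M := fun _ => kˣ) i c j) :
        Fin E.rank → kˣ) = _
      rw [Finset.prod_eq_single i (fun j _ hj => by simp [hj]) (by simp)]
      simp
    rw [MonoidHom.comp_apply, MonoidHom.comp_apply, IsR3.torY_mulSingle, map_hh,
      hh_congr hφ T (T.simple_lt' i), hh', hh_simple_eq_tor, this]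
  have hχ : ∀ c s, torChar E (ιc c) s = ∏ i : Fin D.rank, c i ^ E.cartan i s := fun c s => by
    change ∏ j, (∏ i, Pi.mulSingle (M := fun _ => kˣ) (Fin.castLE h8 i) (c i)) j ^ _ = _
    simp only [Finset.prod_apply, ← Finset.prod_zpow]
    rw [Finset.prod_comm]
    refine Finset.prod_congr rfl fun i _ => ?_
    rw [Finset.prod_eq_single (Fin.castLE h8 i) (fun j _ hj => by simp [hj]) (by simp)]
    simp
  obtain ⟨ρ, hρ⟩ := exists_blk m φ hB
  refine ⟨ρ, fun c => ?_⟩
  rw [hρ, show φ _ = tor E k (ιc c) from DFunLike.congr_fun key c, tor_apply, coe_diagHom,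
    Matrix.submatrix_diagonal _ _ Subtype.val_injective]
  refine congrArg (fun d => Matrix.toLin' (Matrix.diagonal d)) (funext fun a => ?_)
  obtain ⟨a, _⟩ := a
  cases a <;> simp [hχ]

include hD T' in
theorem exists_rep {A : Alc} (hl : A.l = D.rank) (hW : wtsOf E A.l Y m = A.W) {F : Type*} [Field F]
    [Fintype F] [IsAlgClosed k] (ι : F →+* k) {y : ℕ → k → GL E.Idx k} (h0 : IsSt0 D y)
    (h3 : IsR3 D y)
    (hy : ∀ r < D.nroots, ∀ t, ∃ s < E.nroots, evY E (vecL Y) s = 0 ∧ ∃ u, y r t = xG E k s u)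
    (hh' : ∀ (i : Fin D.rank) (c : kˣ), hh D y (D.simple i) c =
      hh E (xG E k) (E.simple (Fin.castLE h8 i)) c) :
    ∃ (I : Type) (_ : Fintype I) (ρ : D.SteinbergGroup F →* End k (I → k)), IsRep A ρ := by
  obtain ⟨T⟩ := exists_rootTable hD
  have hS := (isSt0_stGen (D := D) (F := k)).isSt hD
  obtain ⟨σ, hσ, hσ'⟩ := exists_toral hD T hS ι
  obtain ⟨ρ, hρ⟩ := exists_piece T hS T' h8 Y m h0 h3 hy hh'
  refine ⟨_, inferInstance, ρ.comp σ, ?_, fun q _ ψ hψ g hg => ?_⟩
  · simpa [hW] using sum_piece T' Y m A.l fun _ => 1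
  obtain ⟨u, c, hc, h2⟩ := hσ' q hψ.ne g hg
  choose x hx using fun i => hψ.surj (c i) (by
    rw [← Units.val_pow_eq_pow_val, show c i ^ q = 1 from congrFun h2 i, Units.val_one])
  let v : ℕ → ℤ := fun j => if h : j < D.rank then (x ⟨j, h⟩).val else 0
  have hv : ∀ i : Fin D.rank, (v i : ZMod q) = x i := fun i => by simp [v]
  refine ⟨v, ?_, fun h => hσ g ?_⟩
  · rw [hist, ← hW, ← sum_piece T', ← prof_diagonal hψ, prof, prof, MonoidHom.comp_apply,
      ← ed_conj ρ ψ u, ← hc, hρ]
    congr! 6 with _ _ ⟨a, _⟩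
    rcases a with i | s
    · simp [dt_eq_sum, vecL]
    · simp only [Sum.elim_inr, dt_eq_sum, List.length_map, List.length_range, hl, Finset.sum_range]
      push_cast
      rw [psi_sum]
      refine Finset.prod_congr rfl fun i _ => ?_
      rw [hv, ← hx, ← AddChar.map_zsmul_eq_zpow, zsmul_eq_mul]
      simp [vecL]
  · have h4 : c = 1 := funext fun i => Units.ext (by
      rw [← hx, ← hv, (ZMod.intCast_zmod_eq_zero_iff_dvd _ _).2 (h i (i.2.trans_eq hl.symm))]; simp)
    rw [h4, map_one, eq_comm, mul_inv_eq_one, mul_eq_left] at hc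
    exact hc

end Main

theorem wtsOf_E8 (l : ℕ) (y : List ℤ) (m : ℤ) : wtsOf chevE8 l y m =
    (if m = 0 then List.replicate 8 (List.replicate l 0) else []) ++
      ((List.range 240).filter fun s => evE encE8 (vecL y) s = m).map fun s =>
        (List.range l).map (encE8.car · s) := by
  obtain ⟨h1, h2, -, -, -, h6, -⟩ := encE8.agree_spec _ encE8_agree
  rw [wtsOf, h1, h2, h6, ← evE_eq encE8_agree]
  rfl

theorem wts6 : wtsOf chevE8 alc6.l lev6 1 = alc6.W := (wtsOf_E8 _ _ _).trans (by decide +kernel)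

theorem wts7 : wtsOf chevE8 alc7.l lev7 1 = alc7.W := (wtsOf_E8 _ _ _).trans (by decide +kernel)

theorem wts8 : wtsOf chevE8 alc8.l lev8 0 = alc8.W := (wtsOf_E8 _ _ _).trans (by decide +kernel)

theorem lev_emb6 : ∀ r < chevE6.nroots, evY chevE8 (vecL lev6) (embE6 r) = 0 := by
  rw [← evE_eq encE8_agree]
  decide +kernel

theorem lev_emb7 : ∀ r < chevE7.nroots, evY chevE8 (vecL lev7) (embE7 r) = 0 := by
  rw [← evE_eq encE8_agree]
  decide +kernel

theorem lev_emb8 : ∀ r < chevE8.nroots, evY chevE8 (vecL lev8) r = 0 := by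
  rw [← evE_eq encE8_agree]
  decide +kernel

variable {F : Type*} [Field F] [Fintype F] {k : Type*} [Field k] [IsAlgClosed k] (ι : F →+* k)
include ι

theorem exists_rep_emb {D : ChevalleyDatum}
    (hD : D ∈ [chevG2, chevB2, chevD4, chevF4, chevE6, chevE7, chevE8]) {E : ChevalleyDatum} [Good E]
    (T' : RootTable E) (h8 : D.rank ≤ E.rank) {Y : List ℤ} {m : ℤ} {A : Alc} (hl : A.l = D.rank)
    (hW : wtsOf E A.l Y m = A.W) {e : ℕ → ℕ} (he : IsEmb D E e fun _ => 1)
    (h1 : ∀ r < D.nroots, evY E (vecL Y) (e r) = 0)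
    (h2 : ∀ i : Fin D.rank, e (D.simple i) = E.simple i) :
    ∃ (I : Type) (_ : Fintype I) (ρ : D.SteinbergGroup F →* End k (I → k)), IsRep A ρ := by
  obtain ⟨T⟩ := exists_rootTable hD
  exact exists_rep hD T' h8 Y m hl hW ι (he.isSt0 isSt_xG.toIsSt0)
    (he.isR3 isSt_xG.toIsSt0 isR3_xG T') (fun r hr t => ⟨_, (he.spec hr).1, h1 r hr, _, rfl⟩)
    fun i c => by
      rw [he.hh_eq isSt_xG.toIsSt0 isR3_xG T' (T.simple_lt' i) c.ne_zero, h2]
      rfl

theorem exists_rep6 : ∃ (I : Type) (_ : Fintype I) (ρ : chevE6.SteinbergGroup F →* End k (I → k)),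
    IsRep alc6 ρ :=
  have := goodE8
  exists_rep_emb ι (by simp) rootTableE8 (by decide +kernel) (by decide +kernel) wts6 isEmbE6 lev_emb6
    (by decide +kernel)

theorem exists_rep7 : ∃ (I : Type) (_ : Fintype I) (ρ : chevE7.SteinbergGroup F →* End k (I → k)),
    IsRep alc7 ρ :=
  have := goodE8
  exists_rep_emb ι (by simp) rootTableE8 (by decide +kernel) (by decide +kernel) wts7 isEmbE7 lev_emb7
    (by decide +kernel)

theorem exists_rep8 : ∃ (I : Type) (_ : Fintype I) (ρ : chevE8.SteinbergGroup F →* End k (I → k)),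
    IsRep alc8 ρ :=
  have := goodE8
  exists_rep (by simp) rootTableE8 le_rfl lev8 0 (by decide +kernel) wts8 ι
    isSt_xG.toIsSt0 isR3_xG (fun r hr t => ⟨r, hr, lev_emb8 r hr, t, rfl⟩) fun _ _ => rfl

end Cfsg.Agent.Chev.AS
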