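import Mathlib
import Cfsg.Agent.Chev.ASGrp
import Cfsg.Agent.Chev.ASRep
import Cfsg.Agent.St.BorelTits
import Cfsg.Agent.Mult.ChevMain

/-!
# Normal subgroups of prime power order in minimal covers inside Chevalley groups
-/

set_option autoImplicit false

namespace Cfsg.Agent.Chev.AS

open Module Function Subgroup Cfsg.Lie Cfsg.Agent.Lang
open scoped commutatorElement IsMulCommutative

universe u

section Chev

variable {D : ChevalleyDatum} (hD : D ∈ [chevG2, chevB2, chevD4, chevF4, chevE6, chevE7, chevE8])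
  (T : RootTable D) {F : Type u} [Field F] [Finite F] (p : ℕ) [hp : Fact p.Prime] [CharP F p]
  {A : Type u} [Group A] [Finite A]
include hD

omit hp [CharP F p] in
theorem index_le_aux {l j : ℕ} [hl : Fact l.Prime] (hW : ¬ l ^ (j + 1) ∣ Nat.card T.W)
    {F : Type*} [Field F] [Finite F] (hq : Nat.card F ≡ 1 [MOD l ^ (j + 1)]) (hA : IsPGroup l A)
    (φ : A →* D.group F) {Z : Subgroup A} (hZ : φ.ker ≤ Z) (h3 : ∀ x, x ^ l ∈ Z) :
    Z.index ≤ l ^ (D.rank + j) := by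
  obtain ⟨_⟩ := good_of_mem hD
  have : NeZero l := ⟨hl.out.ne_zero⟩
  refine index_le_pow (H := Hs D (xC D F)) (fun _ ha _ hb => Hs_xC_comm ha hb) ?_ ?_ hA φ hZ h3
  · choose c hc using fun a : Hs D (xC D F) => exists_torY isSt_xC isR3_xC T a.2
    have hc' : ∀ a, torC D T F (c a) = a := hc
    refine (Nat.card_le_card_of_injective (β := Fin D.rank → rootsOfUnity l F)
      (fun (a : {a : Hs D (xC D F) // a ^ l = 1}) i => ⟨torChar D (c a) (D.simple i), (torC_pow_eq_one T).1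
        (by rw [hc']; exact congrArg Subtype.val a.2) i⟩) fun a b e => ?_).trans ?_
    · refine Subtype.ext (Subtype.ext ?_)
      rw [← hc', ← hc', ← mul_inv_eq_one, ← map_inv, ← map_mul, torC_eq_one_iff]
      intro i
      have : ∏ j, c a j ^ cm D j i = ∏ j, c b j ^ cm D j i := congrArg Subtype.val (congrFun e i)
      simp [mul_zpow, Finset.prod_mul_distrib, this]
    · rw [Nat.card_fun, Nat.card_eq_fintype_card (α := Fin _), Fintype.card_fin]
      exact Nat.pow_le_pow_left (card_rootsOfUnity F l) _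
  · have : Finite T.W := Nat.finite_of_card_ne_zero fun e => hW (e ▸ dvd_zero _)
    have := Fintype.ofFinite T.W
    have h1 := (isND_xC T).card_eq (isSt_xC (D := D) (F := F)) Gs_xC
    rw [← (Hs D (xC D F)).card_mul_index, mul_comm (_ ^ _), mul_assoc,
      mul_right_inj' Nat.card_pos.ne', finsum_eq_sum_of_fintype] at h1
    rw [h1, ← ZMod.natCast_eq_zero_iff]
    push_cast
    rw [(ZMod.natCast_eq_natCast_iff _ _ _).2 hq]
    simpa [ZMod.natCast_eq_zero_iff] using hW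

/-- The rank bound for sections. -/
theorem MinNC.relIndex_le {l j : ℕ} [hl : Fact l.Prime] (hlp : l ≠ p)
    (hW : ¬ l ^ (j + 1) ∣ Nat.card T.W) {ι : A →* D.SteinbergGroup F} (hι : Injective ι)
    {R : Subgroup A} (h : MinNC l R) : (center A).relIndex R ≤ l ^ (D.rank + j) := by
  obtain ⟨_⟩ := good_of_mem hD
  have := Fintype.ofFinite F
  obtain ⟨θ, hθ⟩ := (isSt_xC (D := D) (F := F)).toIsSt0.exists_lift3 isR3_xC T
  have : NeZero (l ^ (j + 1)).totient := ⟨(Nat.totient_pos.2 (pow_pos hl.out.pos _)).ne'⟩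
  refine index_le_aux hD T hW (F := FiniteField.Extension F p (l ^ (j + 1)).totient) ?_ h.pgroup
    (((fieldHom D (algebraMap F _)).comp θ).comp (ι.comp R.subtype)) (fun x hx => ?_)
    fun x => h.pow x x.2
  · rw [FiniteField.natCard_extension]
    obtain ⟨n, -, e⟩ := FiniteField.card F p
    rw [Nat.card_eq_fintype_card, e]
    exact Nat.ModEq.pow_totient (Nat.coprime_pow_primes _ _ hp.out hl.out hlp.symm)
  · have h1 : ι x ∈ θ.ker := fieldHom_injective _ (hx.trans (map_one _).symm)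
    rw [(isSt0_stGen.isSt hD).ker_eq_center T θ hθ Gs_stGen] at h1
    exact mem_center_iff.2 fun y => hι (by simpa using mem_center_iff.1 h1 (ι y))

/-- A minimal cover has no normal `p`-subgroup. -/
theorem MinCov.eq_bot {Q : Type*} [Group Q] [IsSimpleGroup Q] (hQ : commutator Q = ⊤)
    {ι : A →* D.SteinbergGroup F} {f : A →* Q} (h : MinCov ι f) {L : Subgroup A} (h1 : L.Normal)
    (h2 : IsPGroup p L) : L = ⊥ := by
  obtain ⟨_⟩ := good_of_mem hD
  obtain ⟨T⟩ := exists_rootTable hD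
  have := Fintype.ofFinite F
  have := Mult.finite_steinbergGroup (F := F) hD
  have hS := (isSt0_stGen (D := D) (F := F)).isSt hD
  obtain ⟨θ, hθ⟩ := (isSt_xC (D := D) (F := F)).toIsSt0.exists_lift3 isR3_xC T
  have hn := hS.toIsSt0.isND_of_hom T θ hθ
  by_contra h3
  obtain ⟨g, J, -, k1, k2⟩ := St.borel_tits_pGroup hn hS Gs_stGen p (fun h4 => by
    rw [← isR3_stGen.range_torY hS T] at h4
    have h5 := hp.out.dvd_of_dvd_pow (n := D.rank) (m := Nat.card Fˣ) (by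
      simpa [Nat.card_fun] using h4.trans (card_range_dvd _))
    obtain ⟨n, -, e⟩ := FiniteField.card F p
    rw [Nat.card_units, Nat.card_eq_fintype_card, e] at h5
    exact hp.out.not_dvd_one ((Nat.dvd_sub_iff_right (Nat.one_le_pow _ _ hp.out.pos)
      (dvd_pow_self p n.ne_zero)).1 h5)) (h2.map ι) fun e => h3 ((map_eq_bot_iff_of_injective _ h.inj).1 e)
  refine h3 (eq_bot_iff.2 fun a ha => h.eq_one hQ (isPGroup_XS_of_nil hS.toIsSt0 p (T.nil_setUJ _))
    (hS.Ps_le_normalizer T _) (hS.UJ_sup_LJ T _) (hn.UJ_inf_LJ _) g (fun a => k2 _ ?_)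
    (k1 _ ⟨a, ha, rfl⟩))
  exact le_normalizer_map ι ⟨a, le_normalizer_of_normal (mem_top a), rfl⟩

omit hp [CharP F p] in
theorem exists_minCov' {r : ℕ} (h : AltSec.Cov (D.group F) r) :
    ∃ (A : Subgroup (D.SteinbergGroup F)) (f : A →* alternatingGroup (Fin r)), MinCov A.subtype f := by
  obtain ⟨_⟩ := good_of_mem hD
  obtain ⟨T⟩ := exists_rootTable hD
  have := Mult.finite_steinbergGroup (F := F) hD
  obtain ⟨θ, hθ⟩ := (isSt_xC (D := D) (F := F)).toIsSt0.exists_lift3 isR3_xC T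
  obtain ⟨A, f, h⟩ := h
  refine exists_minCov ⟨A.comap θ, f.comp (θ.subgroupComap A), fun x hx => ?_⟩
  obtain ⟨a, rfl⟩ := h hx
  obtain ⟨a, rfl⟩ := θ.subgroupComap_surjective_of_surjective A (surjective_of_hom θ hθ) a
  exact ⟨a, rfl⟩

end Chev

section Low

/-- Faithful modules of the alternating group in characteristic `l` have dimension at least `N`. -/
def Low (r l N : ℕ) [Fact l.Prime] : Prop :=
  ∀ (W : Type u) [AddCommGroup W] [Module (AlgebraicClosure (ZMod l)) W]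
    [FiniteDimensional (AlgebraicClosure (ZMod l)) W]
    (σ : alternatingGroup (Fin r) →* End (AlgebraicClosure (ZMod l)) W), Injective σ →
      N ≤ finrank (AlgebraicClosure (ZMod l)) W

theorem cast_ne (k : Type*) [Field k] (l : ℕ) [hl : Fact l.Prime] [CharP k l] {q : ℕ}
    [hq : Fact q.Prime] (h : l ≠ q) : (q : k) ≠ 0 := fun e =>
  h ((Nat.prime_dvd_prime_iff_eq hl.out hq.out).1 ((CharP.cast_eq_zero_iff k l q).1 e))

/-- `g` is an even permutation of order `q` conjugate to all its powers. -/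
def RatEl {r : ℕ} (q : ℕ) (g h : Equiv.Perm (Fin r)) (u : ℕ) : Prop :=
  g.sign = 1 ∧ h.sign = 1 ∧ g ^ q = 1 ∧ g ≠ 1 ∧ g * h = h * g ^ u ∧
    ∀ x : ZMod q, x ≠ 0 → ∃ j < q, x = (u : ZMod q) ^ j ∧ u ≠ (0 : ZMod q)

instance {r : ℕ} (q : ℕ) [NeZero q] (g h : Equiv.Perm (Fin r)) (u : ℕ) : Decidable (RatEl q g h u) :=
  inferInstanceAs (Decidable (_ ∧ _))

variable {r l q u : ℕ} [Fact l.Prime] [hq : Fact q.Prime] {g h : Equiv.Perm (Fin r)}

theorem RatEl.rat (H : RatEl q g h u) {k W : Type*} [Field k] [AddCommGroup W] [Module k W]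
    [FiniteDimensional k W] (σ : alternatingGroup (Fin r) →* End k W) (hσ : Injective σ)
    (ψ : AddChar (ZMod q) k) : σ ⟨g, H.1⟩ ^ q = 1 ∧
      (∀ x, x ≠ 0 → ed ψ (σ ⟨g, H.1⟩) x = ed ψ (σ ⟨g, H.1⟩) 1) ∧ σ ⟨g, H.1⟩ ≠ 1 :=
  ⟨by rw [← map_pow, ← map_one σ]; exact congrArg σ (Subtype.ext H.2.2.1),
    fun _ => ed_eq_of_rat (rep_injective σ ⟨h, H.2.1⟩) (by
      rw [← map_pow, ← map_mul, ← map_mul]; exact congrArg σ (Subtype.ext H.2.2.2.2.1)) H.2.2.2.2.2,
    fun e => H.2.2.2.1 (congrArg Subtype.val (hσ (e.trans (map_one σ).symm)))⟩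

theorem RatEl.low (H : RatEl q g h u) (hl : l ≠ q) : Low.{u} r l (q - 1) := fun W _ _ _ σ hσ => by
  obtain ⟨ψ, hψ⟩ := exists_psi (cast_ne (AlgebraicClosure (ZMod l)) l hl)
  obtain ⟨h1, h2, h3⟩ := H.rat σ hσ ψ
  exact (Nat.le_add_left _ _).trans (le_finrank_of_rat hψ h1 h2 h3)

theorem RatEl.low₂ (H : RatEl q g h u) (hl : l ≠ q) {q' u' : ℕ} [Fact q'.Prime]
    {g' h' t : Equiv.Perm (Fin r)} (H' : RatEl q' g' h' u') (hl' : l ≠ q') (ho : Odd q')
    (ht : t.sign = 1 ∧ g * g' = g' * g ∧ g * t = t * g ∧ g' * t * g' = t) {N : ℕ}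
    (hN : N ≤ 2 * (q - 1) ∧ N ≤ (q - 1) + (q' - 1)) : Low.{u} r l N := fun W _ _ _ σ hσ => by
  obtain ⟨ψ, hψ⟩ := exists_psi (cast_ne (AlgebraicClosure (ZMod l)) l hl)
  obtain ⟨ψ', hψ'⟩ := exists_psi (cast_ne (AlgebraicClosure (ZMod l)) l hl')
  obtain ⟨h1, h2, h3⟩ := H.rat σ hσ ψ
  obtain ⟨h1', h2', h3'⟩ := H'.rat σ hσ ψ'
  exact (le_finrank_of_pair hψ h1 h2 h3 hψ' h1' h2' h3' ho (t := σ ⟨t, ht.1⟩)
    (Commute.map (Subtype.ext ht.2.1) σ) (Commute.map (Subtype.ext ht.2.2.1) σ) (rep_injective σ _)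
    (by rw [← map_mul, ← map_mul]; exact congrArg σ (Subtype.ext ht.2.2.2))).elim hN.1.trans hN.2.trans

omit hq in
theorem Frat.le_center {A : Type u} [Group A] [Finite A] {f : A →* alternatingGroup (Fin r)}
    (h : Frat f) (hr : 5 ≤ r) {N : ℕ} (h1 : Low.{u} r l N)
    (h2 : ∀ R : Subgroup A, MinNC l R → (center A).relIndex R < l ^ N) (L : Subgroup A)
    (k1 : L.Normal) (k2 : IsPGroup l L) (k3 : L ≤ f.ker) : L ≤ center A := by
  by_contra k4
  have := alternatingGroup.isSimpleGroup (α := Fin r) (by simpa using hr)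
  obtain ⟨R, hR, W, _, _, _, σ, hσ, e⟩ := h.exists_sec
    (commutator_alternatingGroup_eq_top (by simpa using hr)) (AlgebraicClosure (ZMod l)) k1 k2 k3 k4
  exact (h2 R hR).not_ge (e ▸ Nat.pow_le_pow_right (Fact.out : l.Prime).pos (h1 W σ hσ))

end Low

section Spec

variable {k V : Type*} [Field k] [IsAlgClosed k] [AddCommGroup V] [Module k V]
  [FiniteDimensional k V] {Γ : Type*} [Group Γ] {ρ : Γ →* End k V} {B : Alc}

omit [IsAlgClosed k] [FiniteDimensional k V] in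
theorem IsRep.comp (h : IsRep B ρ) {A : Type*} [Group A] {j : A →* Γ} (hj : Injective j) :
    IsRep B (ρ.comp j) :=
  ⟨h.dim, fun q _ ψ hψ g hg => by
    obtain ⟨v, h1, h2⟩ := h.spec q ψ hψ (j g) (by rw [← map_pow, hg, map_one])
    exact ⟨v, h1, fun h => hj ((h2 h).trans (map_one j).symm)⟩⟩

omit [IsAlgClosed k] [FiniteDimensional k V] in
theorem IsRep.test (h : IsRep B ρ) (hB : B.Ok) {q : ℕ} [NeZero q] {P : ℕ → Bool}
    (hP : enum B.m q (B.leaf q P) = true) {ψ : AddChar (ZMod q) k} (hψ : Psi ψ) {g : Γ}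
    (hg : g ^ q = 1) (h1 : g ≠ 1) : P (prof ψ (ρ g)) = true := by
  obtain ⟨v, h2, h3⟩ := h.spec q ψ hψ g hg
  exact h2 ▸ (Alc.sound hB (NeZero.pos q) hP v).resolve_left fun h => h1 (h3 h)

theorem IsRep.rat (h : IsRep B ρ) (hB : B.Ok) {q d : ℕ} [NeZero q] {L : List ℕ}
    (hP : enum B.m q (B.leaf q (ratP d q L)) = true) (hd : B.W.length = d ∧ d < 256 ∧ 1 < q ∧
      ∑ a ∈ Finset.univ.erase (0 : ZMod q), 256 ^ a.val = 256 * ((256 ^ (q - 1) - 1) / 255))
    {ψ : AddChar (ZMod q) k} (hψ : Psi ψ) {g : Γ} (hg : g ^ q = 1) (h1 : g ≠ 1)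
    (h2 : ∀ x, x ≠ 0 → ed ψ (ρ g) x = ed ψ (ρ g) 1) : ed ψ (ρ g) 0 ∈ L := by
  have h3 := h.test hB hP hψ hg h1
  have h4 := finrank_eq_of_rat hψ (by rw [← map_pow, hg, map_one]) h2
  rw [prof, ← Finset.add_sum_erase _ _ (Finset.mem_univ 0), Finset.sum_congr rfl fun x hx => by
    rw [h2 x (Finset.ne_of_mem_erase hx)], ← Finset.mul_sum, hd.2.2.2, ZMod.val_zero, pow_zero,
    mul_one, ratP, mul_left_comm, Nat.add_mul_mod_self_left,
    Nat.mod_eq_of_lt (by rw [h.dim] at h4; omega), ← hd.1, ← h.dim, h4, Nat.add_sub_cancel_left,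
    Nat.mul_div_cancel_left _ (by omega), mul_left_comm] at h3
  simpa using h3

end Spec

end Cfsg.Agent.Chev.AS
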