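import Mathlib
import Cfsg.Agent.Chev.E72Chk
import Cfsg.Agent.Chev.FoldInst
import Cfsg.Agent.S1064

/-! The group `E₇(2)` has no element of order `65`. -/

set_option autoImplicit false
set_option maxRecDepth 2000

namespace Cfsg.Agent.E72

open Cfsg.Agent.Comp.SS Cfsg.Agent.Comp.Kron Cfsg.Agent.Comp.BM Cfsg.Lie Finset
open Cfsg.Agent.Comp.Dig hiding dig
open Cfsg.Agent.Chev hiding wd co
open Cfsg.Agent.Chev.E72

/-- endomorphisms -/
abbrev En : Type := Module.End (ZMod 2) (V 56)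
/-- the group -/
abbrev G : Type := chevE7.group (ZMod 2)

/-- the basis of the Lie algebra -/
noncomputable def E (j : ℕ) : En := lin 56 (L j)

theorem op_E (j : ℕ) : Op 56 56 (eE j) (E j) := op_ap (by
  by_cases h : j < 133
  · exact c_L j h
  · simp [L, h, show ¬ j < 126 by omega])

theorem op_sg (r : ℕ) : Op 56 56 (sg r) (1 + E r) := Op.id.add (op_E r)

theorem op_w (w : List ℕ) : Op 56 56 (wd sg w) (w.map fun r => 1 + E r).prod :=
  op_wd fun r _ => op_sg r

theorem op_dn {F : ℕ → ℕ} {A : En} (h : Op 56 56 F A) : Op 56 56 (dn F) A := by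
  have e : lin 56 ((List.range 56).map fun k => (k, dg 56 (F (idS 56)) k)) = A :=
    (Pi.basisFun (ZMod 2) (Fin 56)).ext fun i => by
      rw [Pi.basisFun_apply, lin, List.map_map, ← List.sum_toFinset _ List.nodup_range,
        List.toFinset_range, LinearMap.sum_apply, Finset.sum_eq_single_of_mem i.1 (mem_range.2 i.2)
          fun k hk hki => by simp [co, mem_range.1 hk, Fin.ext_iff, hki]]
      simpa [co, col_idS, col.eq_1 56 (F _)] using h (idS 56) i i.2
  exact e ▸ op_ap fun p hp => by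
    obtain ⟨k, hk, rfl⟩ := List.mem_map.1 hp
    exact ⟨List.mem_range.1 hk, dig_lt _ _ _⟩

theorem op_it {F : ℕ → ℕ} {A : En} (h : Op 56 56 F A) (m : ℕ) : Op 56 56 (it F m) (A ^ m) := by
  simpa [it] using op_wd (F := fun _ => F) (A := fun _ => A) (w := List.replicate m 0) fun _ _ => h

theorem Op.vec {F : ℕ → ℕ} {A : En} (h : Op 56 56 F A) (c : ℕ) :
    vec 56 (dg 56 (F c) 0) = A (vec 56 c) := by
  refine (h c 0 (by norm_num)).trans (congrArg A (funext fun i => ?_))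
  simp [col, Comp.BM.vec, testBit_dig]

theorem exists_rho : ∃ ρ : G →* En, ∀ r ∈ lt, ρ (xC chevE7 (ZMod 2) r 1) = 1 + E r := by
  have h1 : ∀ r < 126, (1 + E r) * (1 + E r) = 1 := fun r hr => by
    simpa using (op_w [r, r]).eq Op.id le_rfl (c_sq r hr)
  let σ : ℕ → Enˣ := fun r => if h : r < 126 then ⟨1 + E r, 1 + E r, h1 r h, h1 r h⟩ else 1
  have hσ : ∀ r < 126, (σ r : En) = 1 + E r := fun r hr => by simp only [σ, dif_pos hr]
  obtain ⟨φ, hφ⟩ := exists_hom_two_CT (D := chevE7) (F := ZMod 2) (by simp) (by decide) σ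
    (fun r hr => Units.ext (by rw [Units.val_mul, hσ r hr, h1 r hr, Units.val_one]))
    fun i hi j hj r hr s hs e1 e2 => Units.ext (by
      obtain ⟨k1, k2⟩ := ((c_rel i hi j hj r hr s hs).resolve_left e1).resolve_left e2
      have hr' : r < 126 := List.mem_range.1 (List.mem_filter.1 hr).1
      have hs' : s < 126 := List.mem_range.1 (List.mem_filter.1 hs).1
      have := (op_w _).eq (op_w _) le_rfl k2
      rw [Units.val_mul, Units.val_mul, Units.val_mul, hσ r hr', hσ s hs', ← Units.coeHom_apply,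
        map_list_prod, List.map_map, List.map_congr_left (f := Units.coeHom En ∘ σ)
          (g := fun r => 1 + E r) fun k hk => hσ k (k1 k hk)]
      simpa [mul_assoc] using this)
  refine ⟨(Units.coeHom _).comp φ, fun r hr => ?_⟩
  obtain ⟨h, i, hi⟩ : r < 126 ∧ ∃ i : Fin chevE7.rank, chevE7.InRankTwoSub i i r := by
    revert r; decide +kernel
  exact (congrArg Units.val (hφ i i r (mem_Phi_iff.2 hi))).trans (hσ r h)

/-- fixed space -/
abbrev Fx (A : En) : Submodule (ZMod 2) (V 56) := LinearMap.eqLocus A 1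

/-- span -/
abbrev Sp (l : List ℕ) : Submodule (ZMod 2) (V 56) := Submodule.span (ZMod 2) (vec 56 '' {a | a ∈ l})

theorem gs_fix {A : En} {v : V 56} (h : A v = v) {m : ℕ} (hm : Odd m) :
    (∑ i ∈ range m, A ^ i) v = v := by
  have : ∀ i, (A ^ i) v = v := fun i => by
    rw [Module.End.pow_apply]; exact Function.iterate_fixed h i
  simp only [LinearMap.sum_apply, this, sum_const, card_range]
  rw [← Nat.cast_smul_eq_nsmul (ZMod 2), (ZMod.natCast_eq_one_iff_odd).2 hm, one_smul]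

theorem fix_spec {F : ℕ → ℕ} {A : En} (h : Op 56 56 F A) {m : ℕ} (hm : Odd m)
    {B : List (ℕ × ℕ)} (hB : fixB F m B) :
    Fx A = Sp (B.map Prod.snd) ∧ Nat.card (Fx A) = 2 ^ B.length := by
  obtain ⟨h1, h0, h2, h3⟩ := hB
  have hP : Op 56 56 (ap R B) (lin 56 B) := op_ap fun p hp => ⟨(h1 p hp).1, (h1 p hp).2.1⟩
  have e1 := (h.comp hP).eq hP le_rfl h2
  have e2 := (hP.comp (op_gs h m)).eq (op_gs h m) le_rfl h3
  have hc : ∀ p ∈ B, ∀ q ∈ B, co 56 p.1 (vec 56 q.2) = if q = p then 1 else 0 := fun p hp q hq => by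
    simp [co, (h1 p hp).1, vec, (h1 p hp).2.2 q hq]
  have hs : Fx A = Sp (B.map Prod.snd) := by
    refine le_antisymm (fun v hv => ?_) (Submodule.span_le.2 ?_)
    · have := LinearMap.congr_fun e2 v
      rw [Module.End.mul_apply, gs_fix hv hm] at this
      rw [← this, lin, ← List.sum_toFinset _ h0, LinearMap.sum_apply]
      exact sum_mem fun p hp => Submodule.smul_mem _ _ (Submodule.subset_span
        ⟨_, List.mem_map_of_mem (List.mem_toFinset.1 hp), rfl⟩)
    · rintro _ ⟨_, hq', rfl⟩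
      obtain ⟨q, hq, rfl⟩ := List.mem_map.1 hq'
      have := LinearMap.congr_fun e1 (vec 56 q.2)
      rwa [Module.End.mul_apply, lin, ← List.sum_toFinset _ h0, LinearMap.sum_apply,
        Finset.sum_eq_single_of_mem q (List.mem_toFinset.2 hq) fun p hp hpq => by
          simp [hc p (List.mem_toFinset.1 hp) q hq, hpq.symm],
        LinearMap.smulRight_apply, hc q hq q hq, if_pos rfl, one_smul] at this
  refine ⟨hs, ?_⟩
  have hi : LinearIndependent (ZMod 2) fun p : B.toFinset => vec 56 p.1.2 :=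
    LinearIndependent.of_pairwise_dual_eq_zero_one _ (fun p => co 56 p.1.1)
      (fun p q hpq => by
        beta_reduce
        rw [hc _ (List.mem_toFinset.1 p.2) _ (List.mem_toFinset.1 q.2),
          if_neg fun e => hpq (Subtype.ext e.symm)])
      fun p => by rw [hc _ (List.mem_toFinset.1 p.2) _ (List.mem_toFinset.1 p.2), if_pos rfl]
  have := finrank_span_eq_card hi
  rw [Fintype.card_coe, List.toFinset_card_of_nodup h0, show Set.range (fun p : B.toFinset =>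
    vec 56 p.1.2) = vec 56 '' {a | a ∈ B.map Prod.snd} by ext; simp; tauto] at this
  rw [hs, Module.natCard_eq_pow_finrank (K := ZMod 2), this, Nat.card_zmod]

theorem fix_mod {A : En} {p : ℕ} (hp : p.Prime) (hA : A ^ p = 1) {T : Set (V 56)}
    (hT : Set.MapsTo A T T) : T.ncard ≡ {v ∈ T | A v = v}.ncard [MOD p] := by
  classical
  have := Fact.mk hp
  have := Equiv.Perm.card_fixedPoints_modEq (α := T) (f := hT.restrict) (p := p) (n := 1) (by
    rw [pow_one]
    funext v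
    refine Subtype.ext ((congrArg Subtype.val (congrFun (hT.iterate_restrict p) v)).trans ?_)
    exact (Module.End.pow_apply A p _).symm.trans (by rw [hA]; rfl))
  rw [← Nat.card_eq_fintype_card, ← Nat.card_eq_fintype_card] at this
  rw [← Nat.card_coe_set_eq, ← Nat.card_coe_set_eq]
  convert this using 1
  exact Nat.card_congr ⟨fun v => ⟨⟨v.1, v.2.1⟩, Subtype.ext v.2.2⟩,
    fun v => ⟨v.1.1, v.1.2, congrArg Subtype.val v.2⟩, fun _ => rfl, fun _ => rfl⟩

theorem exists_conj_mem {H : Type*} [Group H] [Finite H] {p n : ℕ} (hp : p.Prime) {Q : Subgroup H}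
    (hQ : Nat.card Q = p ^ n) (h : ¬ p ^ (n + 1) ∣ Nat.card H) {y : H} (hy : orderOf y = p) :
    ∃ k, k * y * k⁻¹ ∈ Q := by
  have := Fact.mk hp
  obtain ⟨P, hP⟩ := (IsPGroup.of_card (n := 1) (G := Subgroup.zpowers y) (p := p)
    (by simp [hy])).exists_le_sylow
  obtain ⟨P', hP'⟩ := (IsPGroup.of_card hQ).exists_le_sylow
  obtain ⟨k, rfl⟩ := MulAction.exists_smul_eq H P P'
  obtain ⟨m, hm⟩ := IsPGroup.iff_card.1 (k • P).isPGroup'
  rw [Subgroup.eq_of_le_of_card_ge hP' (by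
    rw [hQ, hm]
    refine Nat.pow_le_pow_right hp.pos (not_lt.1 fun h' => h ((pow_dvd_pow p h').trans ?_))
    exact hm ▸ Subgroup.card_subgroup_dvd_card _)]
  exact ⟨k, Subgroup.smul_mem_pointwise_smul _ (MulAut.conj k) _ (hP (Subgroup.mem_zpowers y))⟩

theorem exists_sub {H : Type*} [Group H] {u v : H} (p1 : u ^ 5 = 1) (p2 : v ^ 5 = 1)
    (hc : Commute u v) (h2 : ∀ a < 5, ∀ b < 5, u ^ a * v ^ b = 1 → a = 0 ∧ b = 0) :
    ∃ Q : Subgroup H, Nat.card Q = 25 ∧ ∀ g ∈ Q, ∃ a b : ℕ, u ^ a * v ^ b = g := by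
  let Q : Subgroup H :=
    { carrier := {g | ∃ a b : ℕ, u ^ a * v ^ b = g}
      one_mem' := ⟨0, 0, by simp⟩
      mul_mem' := by
        rintro _ _ ⟨a, b, rfl⟩ ⟨c, d, rfl⟩
        exact ⟨a + c, b + d, by rw [pow_add, pow_add, (hc.pow_pow c b).mul_mul_mul_comm]⟩
      inv_mem' := by
        rintro _ ⟨a, b, rfl⟩
        refine ⟨4 * a, 4 * b, eq_inv_of_mul_eq_one_left ?_⟩
        rw [(hc.pow_pow _ _).symm.mul_mul_mul_comm, ← pow_add, ← pow_add]
        simp [show ∀ n, 4 * n + n = 5 * n by omega, pow_mul, p1, p2] }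
  have hQ : Nat.card Q = 25 := by
    refine (Nat.card_congr (Equiv.ofBijective (fun p : Fin 5 × Fin 5 =>
      (⟨_, p.1, p.2, rfl⟩ : Q)) ⟨fun p q h => ?_, ?_⟩)).symm.trans (by simp)
    · have h3 : u ^ (p.1 + 4 * q.1 : ℕ) * v ^ (p.2 + 4 * q.2 : ℕ) = 1 := by
        rw [pow_add, pow_add, (hc.pow_pow _ _).mul_mul_mul_comm, Subtype.mk.inj h,
          (hc.pow_pow _ _).symm.mul_mul_mul_comm, ← pow_add, ← pow_add]
        simp [show ∀ n, n + 4 * n = 5 * n by omega, pow_mul, p1, p2]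
      rw [pow_eq_pow_mod _ p1, pow_eq_pow_mod _ p2] at h3
      have := h2 _ (Nat.mod_lt _ (by norm_num)) _ (Nat.mod_lt _ (by norm_num)) h3
      ext <;> omega
    · rintro ⟨_, a, b, rfl⟩
      exact ⟨(⟨a % 5, Nat.mod_lt _ (by norm_num)⟩, ⟨b % 5, Nat.mod_lt _ (by norm_num)⟩),
        Subtype.ext (by simp only [← pow_eq_pow_mod _ p1, ← pow_eq_pow_mod _ p2])⟩
  exact ⟨Q, hQ, fun _ h => h⟩

theorem exists_commute {H : Type*} [Group H] [Finite H] {x g : H} (h1 : orderOf x = 13)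
    (h : ¬ 13 ^ 2 ∣ Nat.card H) (hg : orderOf g = 65) : ∃ y, orderOf y = 5 ∧ Commute y x := by
  have h2 : orderOf (g ^ 5) = 13 := by rw [orderOf_pow' _ (by norm_num), hg]; rfl
  obtain ⟨k, hk⟩ := exists_conj_mem (n := 1) (p := 13) (by norm_num)
    (Q := Subgroup.zpowers x) (by simp [h1]) h h2
  have h3 : ∀ a : H, orderOf (k * a * k⁻¹) = orderOf a := fun a =>
    (MulAut.conj k).orderOf_eq a
  obtain ⟨m, hm⟩ := (Subgroup.eq_of_le_of_card_ge (Subgroup.zpowers_le.2 hk)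
    (by simp [h1, h2, h3])).ge (Subgroup.mem_zpowers _)
  refine ⟨k * g ^ 13 * k⁻¹, by rw [h3, orderOf_pow' _ (by norm_num), hg]; rfl,
    hm ▸ Commute.zpow_right ?_ m⟩
  exact ((Commute.refl g).pow_pow 13 5).map (MulAut.conj k)

/-- the Lie algebra -/
abbrev Lg : Submodule (ZMod 2) En := Submodule.span (ZMod 2) (Set.range E)

/-- elements of the group -/
noncomputable def el (w : List ℕ) : G := (w.map fun r => xC chevE7 (ZMod 2) r 1).prod

variable {ρ : G →* En} (hρ : ∀ r ∈ lt, ρ (xC chevE7 (ZMod 2) r 1) = 1 + E r)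
include hρ

theorem op_el {w : List ℕ} (hw : ∀ r ∈ w, r ∈ lt) : Op 56 56 (wd sg w) (ρ (el w)) := by
  rw [el, map_list_prod, List.map_map, List.map_congr_left (f := ρ ∘ _) fun r hr => hρ r (hw r hr)]
  exact op_w w

theorem conj_mem (g : G) : ∀ A ∈ Lg, ρ g * A * ρ g⁻¹ ∈ Lg := by
  let K : Subgroup G :=
    { carrier := {g | (∀ A ∈ Lg, ρ g * A * ρ g⁻¹ ∈ Lg) ∧ ∀ A ∈ Lg, ρ g⁻¹ * A * ρ g ∈ Lg}
      one_mem' := by simp
      mul_mem' := fun {a b} ha hb => ⟨fun A hA => by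
        simpa [mul_assoc] using ha.1 _ (hb.1 A hA), fun A hA => by
        simpa [mul_assoc] using hb.2 _ (ha.2 A hA)⟩
      inv_mem' := fun {a} ha => ⟨by simpa using ha.2, by simpa using ha.1⟩ }
  have hK : ∀ r ∈ lt, ∀ t, xC chevE7 (ZMod 2) r t ∈ K := fun r hr t => by
    obtain ⟨h1, e, he, rfl⟩ : r < 126 ∧ ∃ e < 14, lt.getD e 0 = r := by revert r; decide
    have h2 := isSt_xC (D := chevE7) (F := ZMod 2).toIsSt0
    fin_cases t
    · exact (h2.x_zero h1).symm ▸ one_mem K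
    have h3 : (xC chevE7 (ZMod 2) (lt.getD e 0) 1)⁻¹ = xC chevE7 (ZMod 2) (lt.getD e 0) 1 :=
      inv_eq_of_mul_eq_one_right ((h2.add _ h1 1 1).trans (h2.x_zero h1))
    have h4 : ∀ A ∈ Lg, (1 + E (lt.getD e 0)) * A * (1 + E (lt.getD e 0)) ∈ Lg := fun A hA => by
      induction hA using Submodule.span_induction with
      | mem A hA =>
        obtain ⟨j, rfl⟩ := hA
        by_cases hj : j < 133
        · rw [mul_assoc, ((op_sg _).comp ((op_E j).comp (op_sg _))).eq (op_sm fun k _ => op_E k)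
            le_rfl (c_nrm e he j hj)]
          exact list_sum_mem fun A hA => by
            obtain ⟨k, -, rfl⟩ := List.mem_map.1 hA
            exact Submodule.subset_span ⟨k, rfl⟩
        · simp [E, L, hj, show ¬ j < 126 by omega, lin]
      | zero => simp
      | add A B _ _ hA hB => rw [mul_add _ A, add_mul (_ * A)]; exact add_mem hA hB
      | smul c A _ hA => rw [mul_smul_comm, smul_mul_assoc]; exact Submodule.smul_mem _ _ hA
    show (∀ A ∈ Lg, ρ (xC chevE7 (ZMod 2) _ 1) * A * ρ (xC chevE7 (ZMod 2) _ 1)⁻¹ ∈ Lg) ∧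
      ∀ A ∈ Lg, ρ (xC chevE7 (ZMod 2) _ 1)⁻¹ * A * ρ (xC chevE7 (ZMod 2) _ 1) ∈ Lg
    rw [h3, hρ _ hr]
    exact ⟨h4, h4⟩
  exact (range_le_of_simple rootTableE7 (MonoidHom.id G) (K := K)
    (fun i t => hK _ (by revert i; decide +kernel) t)
    (fun i t => hK _ (by revert i; decide +kernel) t) ⟨g, rfl⟩).1

theorem rho_inj : Function.Injective ρ := by
  have := (isSimpleGroup_group (D := chevE7) (F := ZMod 2) (by simp) (by
    rintro (h | h) <;> exact absurd (congrArg ChevalleyDatum.rank h) (by decide))).1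
  rw [← MonoidHom.ker_eq_bot_iff]
  refine (IsSimpleGroup.eq_bot_or_eq_top_of_normal _ inferInstance).resolve_right fun h => ?_
  have h1 := (fix_spec (op_el hρ (w := wx) (by decide)) (by decide) c_x.2).2
  rw [show ρ (el wx) = 1 from (h ▸ Subgroup.mem_top _ : _ ∈ ρ.ker), Fx, LinearMap.eqLocus_same,
    Nat.card_congr Submodule.topEquiv.toEquiv] at h1
  simp [B8] at h1

omit hρ in
theorem card_G : Nat.card G = 2 ^ 63 * 3 ^ 11 * 7 ^ 3 * 11 * 17 * 19 * 31 * 43 * 73 * 127 * 325 := by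
  simpa using S1064.result (F := ZMod 2) (q := 2) (by simp)

theorem card_fix {y : G} (hy : orderOf y = 5) : Nat.card (Fx (ρ y)) = 2 ^ 16 := by
  have := Fact.mk Nat.prime_five
  have o : ∀ a b, Op 56 56 (oY a b) (ρ (el w1 ^ a * el w2 ^ b)) := fun a b => by
    rw [map_mul, map_pow, map_pow]
    exact (op_it (op_el hρ (by decide)) a).comp (op_it (op_dn (op_el hρ (by decide))) b)
  have p1 : el w1 ^ 5 = 1 := rho_inj hρ (by simpa using (o 5 0).eq Op.id le_rfl c_y.1)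
  have p2 : el w2 ^ 5 = 1 := rho_inj hρ (by simpa using (o 0 5).eq Op.id le_rfl c_y.2.1)
  have hc : Commute (el w1) (el w2) := rho_inj hρ (by
    simpa [el] using (op_el hρ (by decide)).eq (op_el hρ (by decide)) le_rfl c_y.2.2.1)
  have h1 : ∀ a b : ℕ, el w1 ^ a * el w2 ^ b = 1 ∨ Nat.card (Fx (ρ (el w1 ^ a * el w2 ^ b))) = 2 ^ 16 :=
    fun a b => by
      rw [pow_eq_pow_mod a p1, pow_eq_pow_mod b p2]
      rcases c_y.2.2.2 _ (Nat.mod_lt a (by norm_num)) _ (Nat.mod_lt b (by norm_num)) with h | h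
      · simp [h]
      · exact Or.inr (h.1 ▸ (fix_spec (o _ _) (by decide) h.2).2)
  have h2 : ∀ a < 5, ∀ b < 5, el w1 ^ a * el w2 ^ b = 1 → a = 0 ∧ b = 0 := fun a ha b hb h =>
    (c_y.2.2.2 a ha b hb).resolve_right fun h' => by
      have := (fix_spec (o _ _) (by decide) h'.2).2
      rw [h, map_one, Fx, LinearMap.eqLocus_same, Nat.card_congr Submodule.topEquiv.toEquiv,
        h'.1] at this
      simp at this
  obtain ⟨Q, hQ, hQ'⟩ := exists_sub p1 p2 hc h2
  obtain ⟨k, hk⟩ := exists_conj_mem (n := 2) Nat.prime_five hQ (by rw [card_G]; norm_num) hy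
  obtain ⟨a, b, hk⟩ := hQ' _ hk
  rw [← (h1 a b).resolve_left fun h => by
    rw [h, eq_comm, conj_eq_one_iff] at hk
    simp [hk] at hy, hk]
  have e : ∀ g v, ρ g (ρ g⁻¹ v) = v := fun g v => by
    rw [← Module.End.mul_apply, ← map_mul, mul_inv_cancel, map_one, Module.End.one_apply]
  have e' : ∀ g v, ρ g⁻¹ (ρ g v) = v := fun g v => by simpa using e g⁻¹ v
  exact Nat.card_congr ⟨fun v => ⟨ρ k v, by
      have : ρ y v = v := v.2
      simp [LinearMap.mem_eqLocus, e', this]⟩, fun v => ⟨ρ k⁻¹ v, by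
      simpa [LinearMap.mem_eqLocus, e'] using congrArg (ρ k⁻¹) v.2⟩,
    fun v => Subtype.ext (e' k v), fun v => Subtype.ext (e k v)⟩

attribute [local irreducible] el

omit hρ in
/-- the spaces attached to fixed vectors -/
noncomputable def W (X : En) (v : V 56) : Submodule (ZMod 2) (V 56) :=
  Lg.map (LinearMap.applyₗ v) ⊓ Fx X

theorem W_map {x g : G} (h : Commute g x) (v : V 56) :
    Set.MapsTo (ρ g) (W (ρ x) v) (W (ρ x) (ρ g v)) := by
  rintro _ ⟨⟨A, hA, rfl⟩, hw⟩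
  refine ⟨⟨_, conj_mem hρ g A hA, ?_⟩, ?_⟩
  · simp [← Module.End.mul_apply, mul_assoc, ← map_mul]
  · show ρ x (ρ g _) = _
    rw [← Module.End.mul_apply, ← map_mul, ← h.eq, map_mul, Module.End.mul_apply]
    exact congrArg _ hw

theorem x_pow : el wx ^ 13 = 1 :=
  rho_inj hρ (by simpa using (op_it (op_el hρ (by decide)) 13).eq Op.id le_rfl c_x.1)

theorem vec_gn (j v : ℕ) : vec 56 (dg 56 (force (eE j v) oN) 0) =
    (∑ i ∈ range 13, ρ (el wx) ^ i) (E j (vec 56 v)) :=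
  Op.vec (F := fun M => oN (eE j M)) ((op_dn (op_gs (op_el hρ (w := wx) (by decide)) 13)).comp
    (op_E j)) v

theorem gs_mem {v : V 56} (hv : ρ (el wx) v = v) {A : En} (hA : A ∈ Lg) :
    (∑ i ∈ range 13, ρ (el wx) ^ i) (A v) ∈ W (ρ (el wx)) v := by
  refine ⟨?_, ?_⟩
  · rw [LinearMap.sum_apply]
    refine sum_mem fun i _ => ?_
    have h1 : ρ (el wx ^ i) v = v := by
      rw [map_pow, Module.End.pow_apply]; exact Function.iterate_fixed hv i
    refine ⟨_, conj_mem hρ (el wx ^ i) A hA, ?_⟩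
    conv_lhs => rw [← h1]
    simp [← Module.End.mul_apply, mul_assoc, ← map_mul, ← map_pow]
  · have := mul_geom_sum (ρ (el wx)) 13
    rw [← map_pow, x_pow hρ, map_one, sub_self, sub_mul, sub_eq_zero] at this
    exact LinearMap.congr_fun this _

theorem Sp_le {v : ℕ} (hv : ρ (el wx) (vec 56 v) = vec 56 v) (J : List ℕ) :
    Sp (gn J v) ≤ W (ρ (el wx)) (vec 56 v) := Submodule.span_le.2 (by
  rintro _ ⟨_, ha, rfl⟩
  obtain ⟨j, -, rfl⟩ := List.mem_map.1 ha
  rw [vec_gn hρ]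
  exact gs_mem hρ hv (Submodule.subset_span ⟨j, rfl⟩))

theorem W_eq {v : ℕ} (hv : ρ (el wx) (vec 56 v) = vec 56 v) :
    W (ρ (el wx)) (vec 56 v) = Sp (gn (List.range 133) v) := by
  refine le_antisymm ?_ (Sp_le hρ hv _)
  rintro _ ⟨⟨A, hA, rfl⟩, hw⟩
  rw [← gs_fix (m := 13) hw (by decide)]
  clear hw
  induction hA using Submodule.span_induction with
  | mem A hA =>
    obtain ⟨j, rfl⟩ := hA
    by_cases hj : j < 133
    · exact Submodule.subset_span ⟨_, List.mem_map_of_mem (List.mem_range.2 hj), vec_gn hρ j v⟩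
    · simp [E, L, hj, show ¬ j < 126 by omega, lin]
  | zero => simp
  | add A B _ _ hA hB => rw [map_add, map_add]; exact add_mem hA hB
  | smul c A _ hA => rw [map_smul, map_smul]; exact Submodule.smul_mem _ _ hA

omit hρ in
theorem gn_lt (J : List ℕ) (v : ℕ) : ∀ a ∈ gn J v, a < 2 ^ 56 := fun a ha => by
  obtain ⟨j, -, rfl⟩ := List.mem_map.1 ha
  exact dig_lt _ _ _

attribute [local irreducible] gn spn

theorem x_fix : (∀ v, v ∈ Fx (ρ (el wx)) ↔ ∃ a ∈ spn (B8.map Prod.snd), vec 56 a = v) ∧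
    Fx (ρ (el wx)) = Sp (B8.map Prod.snd) ∧ Nat.card (Fx (ρ (el wx))) = 2 ^ 8 := by
  obtain ⟨hF, hF'⟩ := fix_spec (op_el hρ (w := wx) (by decide)) (by decide) c_x.2
  have hB : ∀ a ∈ B8.map Prod.snd, a < 2 ^ 56 := by decide
  exact ⟨hF ▸ (spn_spec hB).2.2, hF, hF'⟩

theorem S_eq : {v | v ≠ 0 ∧ ρ (el wx) v = v ∧ Nat.card (W (ρ (el wx)) v) ≤ 16} =
    vec 56 '' {a | a ∈ S9} := by
  have hU := (x_fix hρ).1
  ext v
  constructor
  · rintro ⟨h1, h2, h3⟩
    obtain ⟨a, ha, rfl⟩ := (hU v).1 h2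
    rcases c_U a ha with rfl | h | h
    · exact absurd vec_zero h1
    · exact ⟨a, h, rfl⟩
    · rw [← card_span (gn_lt _ _)] at h
      exact absurd ((Nat.card_mono (Set.toFinite _) (Sp_le hρ h2 J0)).trans h3) (not_le.2 h)
  · rintro ⟨a, ha, rfl⟩
    obtain ⟨k1, k2, k3, k4, -⟩ := c_S.2 a ha
    have := (hU _).2 ⟨a, k3, rfl⟩
    exact ⟨fun h => k1 (vec_inj k2 (by norm_num) (h.trans vec_zero.symm)), this, by
      rw [W_eq hρ this, card_span (gn_lt _ _), k4]⟩

theorem two_fixed {y : G} (h5 : ρ y ^ 5 = 1) (hc : Commute y (el wx)) :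
    ∃ v ∈ S9, ∃ u ∈ S9, u ≠ v ∧ ρ y (vec 56 v) = vec 56 v ∧ ρ y (vec 56 u) = vec 56 u := by
  have e : ∀ g v, ρ g⁻¹ (ρ g v) = v := fun g v => by
    rw [← Module.End.mul_apply, ← map_mul, inv_mul_cancel, map_one, Module.End.one_apply]
  have h0 : Set.MapsTo (ρ y) (vec 56 '' {a | a ∈ S9}) (vec 56 '' {a | a ∈ S9}) := by
    rw [← S_eq hρ]
    intro v hv
    rw [Set.mem_ofPred_eq] at hv ⊢
    refine ⟨fun h => hv.1 (by rw [← e y v, h, map_zero]), by
      rw [← Module.End.mul_apply, ← map_mul, ← hc.eq, map_mul, Module.End.mul_apply, hv.2.1], ?_⟩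
    have h1 := W_map hρ (g := y⁻¹) (x := el wx) (Commute.inv_left_iff.2 hc) (ρ y v)
    rw [e] at h1
    have h2 : Function.Injective (ρ y⁻¹) :=
      Function.LeftInverse.injective (g := ρ y) fun w => by simpa using e y⁻¹ w
    exact (Set.ncard_le_ncard_of_injOn _ h1 h2.injOn).trans hv.2.2
  have h1 := fix_mod Nat.prime_five h5 h0
  rw [Set.InjOn.ncard_image (f := vec 56) (s := {a | a ∈ S9}) fun a ha b hb =>
      vec_inj (c_S.2 a ha).2.1 (c_S.2 b hb).2.1,
    ← List.coe_toFinset, Set.ncard_coe_finset, List.toFinset_card_of_nodup c_S.1] at h1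
  obtain ⟨_, ⟨⟨v, hv, rfl⟩, hv'⟩, _, ⟨⟨u, hu, rfl⟩, hu'⟩, huv⟩ :=
    (Set.one_lt_ncard (s := {v ∈ vec 56 '' ↑S9.toFinset | ρ y v = v})).1 (by
      rw [Nat.ModEq, show S9.length % 5 = 4 from rfl] at h1; omega)
  rw [List.coe_toFinset] at hu hv
  exact ⟨v, hv, u, hu, fun h => huv (h ▸ rfl), hv', hu'⟩

theorem fix_W {y : G} (h5 : ρ y ^ 5 = 1) (hc : Commute y (el wx)) {v : ℕ} (hv : v ∈ S9)
    (hv' : ρ y (vec 56 v) = vec 56 v) {a : ℕ} (ha : a ∈ spn (gn (List.range 133) v)) :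
    ρ y (vec 56 a) = vec 56 a := by
  obtain ⟨k1, k2, k3, k4, k5, -⟩ := c_S.2 v hv
  have k6 := W_eq hρ (((x_fix hρ).1 _).2 ⟨v, k3, rfl⟩)
  have k7 := fix_mod Nat.prime_five h5
    (T := Submodule.span (ZMod 2) (vec 56 '' {a | a ∈ gn (List.range 133) v}))
    (by simpa [hv', k6] using W_map hρ hc (vec 56 v))
  have k8 := (card_span (gn_lt (List.range 133) v)).trans k4
  have k9 := (spn_spec (gn_lt (List.range 133) v)).2.2
  have m1 := (k9 _).2 ⟨v, k5, rfl⟩
  have m2 := (k9 _).2 ⟨a, ha, rfl⟩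
  clear k3 k4 k5 k6 k9 ha
  generalize Submodule.span (ZMod 2) (vec 56 '' {a | a ∈ gn (List.range 133) v}) = T at *
  have l1 : Nat.card ↥(T ⊓ Fx (ρ y)) ∣ 16 :=
    (AddSubgroup.card_dvd_of_le (H := (T ⊓ Fx (ρ y)).toAddSubgroup)
      (K := T.toAddSubgroup) fun _ h => h.1).trans k8.dvd
  have l2 : 16 ≡ Nat.card ↥(T ⊓ Fx (ρ y)) [MOD 5] := (congrArg (· % 5) k8.symm).trans k7
  have l3 : Nat.card ↥(T ⊓ Fx (ρ y)) ≠ 1 := fun h => k1 (vec_inj k2 (by norm_num)
    (vec_zero.symm ▸ congrArg Subtype.val ((Nat.card_eq_one_iff_unique.1 h).1.elim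
      ⟨_, m1, hv'⟩ 0)))
  have l4 : Nat.card ↥(T ⊓ Fx (ρ y)) = 16 := by
    have := Nat.le_of_dvd (by norm_num) l1
    revert l1 l2 l3
    generalize Nat.card ↥(T ⊓ Fx (ρ y)) = m at this ⊢
    interval_cases m <;> decide
  have l5 : T ⊓ Fx (ρ y) = T := SetLike.coe_injective
    (Set.eq_of_subset_of_ncard_le (fun _ h => (Submodule.mem_inf.1 h).1) (k8.trans l4.symm).le)
  exact (l5.ge m2).2

theorem not_commute {y : G} (hy : orderOf y = 5) : ¬ Commute y (el wx) := by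
  intro hc
  obtain ⟨-, hF, hF'⟩ := x_fix hρ
  have h5 : ρ y ^ 5 = 1 := by rw [← map_pow, ← hy, pow_orderOf_eq_one, map_one]
  obtain ⟨v, hv, u, hu, huv, hv', hu'⟩ := two_fixed hρ h5 hc
  have h3 : Fx (ρ (el wx)) ≤ Fx (ρ y) := by
    rw [hF]
    refine Submodule.span_le.2 ?_
    rintro _ ⟨_, hc', rfl⟩
    obtain ⟨c, hc'', rfl⟩ := List.mem_map.1 hc'
    obtain ⟨a, k1, k2⟩ := ((c_S.2 v hv).2.2.2.2.2 u hu).resolve_left huv c hc''
    have := (Fx (ρ y)).add_mem (fix_W hρ h5 hc hv hv' k1) (fix_W hρ h5 hc hu hu' k2)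
    rwa [← vec_xor, ← Nat.xor_assoc, Nat.xor_self, Nat.zero_xor] at this
  have h4 := fix_mod (p := 13) (by norm_num) (A := ρ (el wx)) (by
    rw [← map_pow, x_pow hρ, map_one]) (T := Fx (ρ y)) fun v hv => by
      show ρ y _ = _
      rw [← Module.End.mul_apply, ← map_mul, hc.eq, map_mul, Module.End.mul_apply]
      exact congrArg _ hv
  rw [show {v ∈ (Fx (ρ y) : Set (V 56)) | ρ (el wx) v = v} = Fx (ρ (el wx)) from
    Set.ext fun v => ⟨fun h => h.2, fun h => ⟨h3 h, h⟩⟩, ← Nat.card_coe_set_eq,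
    ← Nat.card_coe_set_eq] at h4
  exact absurd ((congrArg (· % 13) (card_fix hρ hy)).symm.trans
    (h4.trans (congrArg (· % 13) hF'))) (by decide)

omit hρ in
theorem orderOf_ne (g : G) : orderOf g ≠ 65 := fun hg => by
  obtain ⟨ρ, hρ⟩ := exists_rho
  have h1 : orderOf (el wx) = 13 := by
    have := Fact.mk (show Nat.Prime 13 by norm_num)
    refine orderOf_eq_prime (x_pow hρ) fun h => ?_
    have h1 := (fix_spec (op_el hρ (w := wx) (by decide)) (by decide) c_x.2).2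
    rw [h, map_one, Fx, LinearMap.eqLocus_same, Nat.card_congr Submodule.topEquiv.toEquiv] at h1
    simp [B8] at h1
  obtain ⟨y, hy, hc⟩ := exists_commute h1 (by rw [card_G]; norm_num) hg
  exact not_commute hρ hy hc

end Cfsg.Agent.E72
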