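import Cfsg.Agent.Chev.StInv

/-!
Roots of the same length are conjugate under the Weyl group.
-/

set_option autoImplicit false
set_option linter.unusedSectionVars false

namespace Cfsg.Agent.Chev

open Cfsg.Lie

variable {F : Type*} [Field F] {G : Type*} [Group G] {D : ChevalleyDatum} {x : ℕ → F → G}

/-- The dominant roots lie in `L`. -/
def DomIn (D : ChevalleyDatum) (L : List ℕ) : Prop :=
  ∀ r < D.nroots, (∀ i : Fin D.rank, 0 ≤ D.cartan i r) → r ∈ L

instance instDecidableDomIn (D : ChevalleyDatum) (L : List ℕ) : Decidable (DomIn D L) := by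
  unfold DomIn; infer_instance

theorem domInG2 : DomIn chevG2 [9, 11] := by decide +kernel
theorem domInB2 : DomIn chevB2 [6, 7] := by decide +kernel
theorem domInD4 : DomIn chevD4 [23] := by decide +kernel
theorem domInF4 : DomIn chevF4 [44, 47] := by decide +kernel
theorem domInE6 : DomIn chevE6 [71] := by decide +kernel
theorem domInE7 : DomIn chevE7 [125] := by decide +kernel
theorem domInE8 : DomIn chevE8 [239] := by decide +kernel

theorem exists_domIn (hD : D ∈ [chevG2, chevB2, chevD4, chevF4, chevE6, chevE7, chevE8]) :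
    ∃ L, DomIn D L ∧ ∀ r ∈ L, ∀ s ∈ L, D.isLong r = D.isLong s → r = s := by
  simp only [List.mem_cons, List.not_mem_nil, or_false] at hD
  rcases hD with rfl | rfl | rfl | rfl | rfl | rfl | rfl
  · exact ⟨_, domInG2, by decide +kernel⟩
  · exact ⟨_, domInB2, by decide +kernel⟩
  · exact ⟨_, domInD4, by simp⟩
  · exact ⟨_, domInF4, by decide +kernel⟩
  · exact ⟨_, domInE6, by simp⟩
  · exact ⟨_, domInE7, by simp⟩
  · exact ⟨_, domInE8, by simp⟩

/-- Roots of the same length are conjugate. -/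
theorem RootTable.exists_act_eq (T : RootTable D)
    (hD : D ∈ [chevG2, chevB2, chevD4, chevF4, chevE6, chevE7, chevE8]) {r s : ℕ}
    (hr : r < 2 * T.N) (hs : s < 2 * T.N) (e : D.isLong r = D.isLong s) :
    ∃ w : T.W, T.act w r = s := by
  obtain ⟨L, h1, h2⟩ := exists_domIn hD
  obtain ⟨w, hw⟩ := T.exists_dominant hr
  obtain ⟨v, hv⟩ := T.exists_dominant hs
  have := h2 _ (h1 _ (T.lt_iff.mpr (T.act_lt w hr)) hw) _ (h1 _ (T.lt_iff.mpr (T.act_lt v hs)) hv)
    (by rw [T.isLong_act w hr, T.isLong_act v hs, e])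
  exact ⟨v⁻¹ * w, by rw [T.act_mul, this, T.act_inv_act]⟩

theorem IsSt.x_mem_act (h : IsSt D x) (T : RootTable D) {K : Subgroup G} (hK : Ns D x ≤ K)
    {r : ℕ} (hr : r < 2 * T.N) (h1 : ∀ t, x r t ∈ K) (w : T.W) (t : F) : x (T.act w r) t ∈ K := by
  obtain ⟨n, hN, hw⟩ := h.exists_mem_Ns_acts T w
  obtain ⟨c, hc, e⟩ := hw.conj hr
  rw [← mul_inv_cancel_left₀ hc t, ← e]
  exact mul_mem (mul_mem (hK hN) (h1 _)) (inv_mem (hK hN))

theorem IsSt.x_mem_of_isLong_eq (h : IsSt D x) (T : RootTable D)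
    (hD : D ∈ [chevG2, chevB2, chevD4, chevF4, chevE6, chevE7, chevE8]) {K : Subgroup G}
    (hK : Ns D x ≤ K) {r s : ℕ} (hr : r < 2 * T.N) (hs : s < 2 * T.N)
    (e : D.isLong r = D.isLong s) (h1 : ∀ t, x r t ∈ K) (t : F) : x s t ∈ K := by
  obtain ⟨w, rfl⟩ := T.exists_act_eq hD hr hs e
  exact h.x_mem_act T hK hr h1 w t

theorem IsSt0.x_mem_of_single (h : IsSt0 D x) {K : Subgroup G} {r s k : ℕ} {c : ℤ}
    (hr : r < D.nroots) (hs : s < D.nroots) (h1 : s ≠ r) (h2 : s ≠ D.neg r)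
    (e : D.commTerms r s = [(k, c, 1, 1)]) (hc : (c : F) ≠ 0) (h3 : ∀ t, x r t ∈ K)
    (h4 : ∀ t, x s t ∈ K) (t : F) : x k t ∈ K := by
  have := h.conj_x hr hs h1 h2 (-1) ((c : F)⁻¹ * t)
  simp only [ChevalleyDatum.commWord, e, List.map_cons, List.map_nil, word_cons, word_nil,
    mul_one, neg_neg, pow_one, mul_inv_cancel_left₀ hc] at this
  rw [← K.mul_mem_cancel_left (h4 ((c : F)⁻¹ * t)), ← this]
  exact mul_mem (mul_mem (inv_mem (h3 _)) (h4 _)) (h3 _)

end Cfsg.Agent.Chev
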