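import Mathlib
import Cfsg.Agent.Chev.StGen
import Cfsg.Agent.Chev.TwistPres
import Cfsg.Agent.Chev.TwistGen

/-!
Two-element generation of Chevalley groups: certificates showing that `x_r(1)` and `x_s(1) n_w` generate all
`x_k(1)`, and filling the root subgroups with a torus element.
-/

set_option autoImplicit false

namespace Cfsg.Agent.TwoGen

open Cfsg.Lie Cfsg.Agent.Chev Subgroup

section Abstract

variable {G : Type*} [Group G] {K : Subgroup G}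

theorem mem_of_mul_mem {u h : G} {p m : ℕ} (hc : Commute u h) (hu : u ^ p = 1) (hh : h ^ m = 1)
    (hpm : p.Coprime m) (hK : u * h ∈ K) : u ∈ K ∧ h ∈ K := by
  have h1 : u ∈ K := by
    obtain ⟨j, hj⟩ := exists_pow_eq_self_of_coprime
      (Nat.Coprime.coprime_dvd_right (orderOf_dvd_of_pow_eq_one hu) hpm.symm)
    have := pow_mem (pow_mem hK m) j
    rwa [hc.mul_pow, hh, mul_one, hj] at this
  exact ⟨h1, (K.mul_mem_cancel_left h1).1 hK⟩

variable {F : Type*} [Field F]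

/-- The additive span of the powers of `c`. -/
def sp (c : Fˣ) : AddSubgroup F := AddSubgroup.closure {t | ∃ d ∈ zpowers c, (d : F) = t}

theorem sp_le [Finite F] {c : Fˣ} {S : AddSubgroup F} (h1 : 1 ∈ S) (hc : ∀ t ∈ S, c * t ∈ S) : sp c ≤ S := by
  rw [sp, AddSubgroup.closure_le]
  rintro _ ⟨d, hd, rfl⟩
  obtain ⟨j, rfl⟩ := mem_powers_iff_mem_zpowers.2 hd
  induction j with
  | zero => simpa using h1
  | succ j ih => simpa [pow_succ'] using hc _ (ih (npow_mem_zpowers _ _))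

theorem mem_sp {c d : Fˣ} (h : d ∈ zpowers c) : (d : F) ∈ sp c := AddSubgroup.subset_closure ⟨d, h, rfl⟩

theorem sp_inv (c : Fˣ) : sp c⁻¹ = sp c := by rw [sp, zpowers_inv, sp]

theorem mem_sp_sq [Finite F] {k : Fˣ} (hk : ∀ u, u ∈ zpowers k) (t : F) : t ∈ sp (k ^ 2) := by
  have h1 : ∀ t : F, t ^ 2 ∈ sp (k ^ 2) := fun t => by
    by_cases ht : t = 0
    · simp [ht]
    · obtain ⟨j, hj⟩ := hk (Units.mk0 t ht)
      have : Units.mk0 t ht ^ 2 ∈ zpowers (k ^ 2) := ⟨j, by simp only [← hj, ← zpow_natCast, ← zpow_mul, mul_comm]⟩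
      simpa using mem_sp this
  by_cases h2 : ringChar F = 2
  · obtain ⟨s, rfl⟩ := FiniteField.isSquare_of_char_two h2 t
    rw [← sq]
    exact h1 s
  · have h3 : (2 : F) ≠ 0 := Ring.two_ne_zero h2
    have := sub_mem (sub_mem (h1 (t / 2 + 1)) (h1 (t / 2))) (h1 1)
    convert this using 1
    field_simp
    ring

theorem mem_sp_zpow [Finite F] {k : Fˣ} (hk : ∀ u, u ∈ zpowers k) {e : ℤ}
    (he : e = 1 ∨ e = -1 ∨ e = 2 ∨ e = -2) (t : F) : t ∈ sp (k ^ e) := by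
  have h1 : t ∈ sp k := by
    by_cases ht : t = 0
    · simp [ht]
    · exact mem_sp (hk (Units.mk0 t ht))
  rcases he with rfl | rfl | rfl | rfl
  · simpa using h1
  · simpa [sp_inv] using h1
  · exact mem_sp_sq hk t
  · rw [zpow_neg, sp_inv]
    exact mem_sp_sq hk t

variable {X : F → G} (hX : ∀ t u, X t * X u = X (t + u))
include hX

theorem X_zero : X 0 = 1 := by simpa using hX 0 0

theorem X_neg (t : F) : X (-t) = (X t)⁻¹ := eq_inv_of_mul_eq_one_left (by rw [hX, neg_add_cancel, X_zero hX])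

theorem X_pow (t : F) (n : ℕ) : X t ^ n = X (n * t) := by
  induction n with
  | zero => simp [X_zero hX]
  | succ n ih => rw [pow_succ, ih, hX, Nat.cast_succ, add_mul, one_mul]

/-- The parameters of the elements in `K`. -/
def params (K : Subgroup G) (t₀ : F) : AddSubgroup F where
  carrier := {t | X (t * t₀) ∈ K}
  zero_mem' := by simp [X_zero hX]
  add_mem' ha hb := by simpa [add_mul, ← hX] using mul_mem ha hb
  neg_mem' ha := by simpa [X_neg hX] using ha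

theorem fill [Finite F] {h : G} (hh : h ∈ K) {c : Fˣ} (hc : ∀ t, h * X t * h⁻¹ = X (c * t)) {t₀ : F}
    (h0 : X t₀ ∈ K) {t : F} (ht : t ∈ sp c) : X (t * t₀) ∈ K :=
  sp_le (S := params hX K t₀) (by simpa [params] using h0) (fun t (ht : X (t * t₀) ∈ K) =>
    show X (c * t * t₀) ∈ K from mul_assoc (c : F) t t₀ ▸ hc _ ▸ mul_mem (mul_mem hh ht) (inv_mem hh)) ht

theorem fill' [Finite F] {h : G} (hh : h ∈ K) {c : Fˣ} (hc : ∀ t, h * X t * h⁻¹ = X (c * t)) {t₀ : F}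
    (h0 : X t₀ ∈ K) (ht : t₀ ≠ 0) (hs : ∀ t, t ∈ sp c) (t : F) : X t ∈ K := by
  simpa [ht] using fill hX hh hc h0 (hs (t * t₀⁻¹))

/-- Steinberg's commutator trick. -/
theorem trick [Finite F] {h n : G} (hh : h ∈ K) (hb : X 1 * n ∈ K) {c c' : Fˣ}
    (hc : ∀ t, h * X t * h⁻¹ = X (c * t)) (hc' : ∀ t, n * h * n⁻¹ * X t * (n * h * n⁻¹)⁻¹ = X (c' * t))
    (hcomm : h * (n * h * n⁻¹) = n * h * n⁻¹ * h) (h1 : c ≠ 1) (h1' : c' ≠ 1) (hs : ∀ t, t ∈ sp c) (t : F) :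
    X t ∈ K := by
  have h2 := mul_mem (mul_mem hb hh) (inv_mem hb)
  have h3 := mul_mem (mul_mem (mul_mem hh h2) (inv_mem hh)) (inv_mem h2)
  have e : h * (X 1 * n * h * (X 1 * n)⁻¹) * h⁻¹ * (X 1 * n * h * (X 1 * n)⁻¹)⁻¹ =
      (h * X 1 * h⁻¹) * (n * h * n⁻¹ * ((h * X 1 * h⁻¹)⁻¹ * X 1) * (n * h * n⁻¹)⁻¹) * (X 1)⁻¹ := by
    have : h * (X 1 * n * h * (X 1 * n)⁻¹) * h⁻¹ =
        (h * X 1 * h⁻¹) * (h * (n * h * n⁻¹) * h⁻¹) * (h * X 1 * h⁻¹)⁻¹ := by group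
    rw [this, hcomm]
    group
  rw [e, hc, ← X_neg hX, hX, hc', ← X_neg hX, hX, hX] at h3
  refine fill' hX hh hc h3 ?_ hs t
  rw [show (c : F) * 1 + c' * (-(c * 1) + 1) + -1 = (c - 1) * (1 - c') by ring]
  exact mul_ne_zero (sub_ne_zero.2 (by simpa using h1)) (sub_ne_zero.2 (by simpa [eq_comm] using h1'))

end Abstract

section Cert

variable {F : Type*} [Field F] {G : Type*} [Group G] {D : ChevalleyDatum} {x : ℕ → F → G} {K : Subgroup G}

/-- The action of a word in the simple reflections on the roots. -/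
def act (D : ChevalleyDatum) (l : List (Fin D.rank)) (r : ℕ) : ℕ := l.foldr (fun (i : Fin D.rank) s => D.reflectRoot i s) r

theorem act_wordProd (T : RootTable D) (l : List (Fin D.rank)) {r : ℕ} (hr : r < 2 * T.N) :
    T.act (T.cs.wordProd l) r = act D l r := by
  induction l with
  | nil => simp [act]
  | cons i l ih => rw [T.cs.wordProd_cons, T.act_mul, T.act_simple _ (T.act_lt _ hr), ih]; rfl

theorem conj_nw (h : IsSt D x) (T : RootTable D) (l : List (Fin D.rank)) {s : ℕ} (hs : s < D.nroots) :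
    ∃ η : F, (η = 1 ∨ η = -1) ∧ ∀ t, nw D x l * x s t * (nw D x l)⁻¹ = x (act D l s) (η * t) := by
  induction l with
  | nil => exact ⟨1, Or.inl rfl, by simp [act]⟩
  | cons i l ih =>
    obtain ⟨η, h1, h2⟩ := ih
    have h3 : act D l s < 2 * T.N := act_wordProd T l (T.lt_iff.1 hs) ▸ T.act_lt _ (T.lt_iff.1 hs)
    obtain ⟨η', h4⟩ := h.nconj' T i
    obtain ⟨h5, -, h6⟩ := h4 _ h3
    refine ⟨η' (act D l s) * η, by rcases h1 with h1 | h1 <;> rcases h5 with h5 | h5 <;> simp [h1, h5], fun t => ?_⟩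
    rw [nw_cons, mul_assoc (η' _), act, List.foldr_cons, ← act, ← h6, ← h2]
    group

theorem x_int_mem (h : IsSt0 D x) {r : ℕ} (hr : r < D.nroots) (h1 : x r 1 ∈ K) (m : ℤ) : x r m ∈ K := by
  have := (params (h.add r hr) K 1).zsmul_mem (x := 1) (show x r (1 * 1) ∈ K by simpa using h1) m
  simpa [params] using this

theorem x_sign_mem (h : IsSt0 D x) {r : ℕ} (hr : r < D.nroots) {η t : F} (hη : η = 1 ∨ η = -1) :
    x r (η * t) ∈ K ↔ x r t ∈ K := by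
  rcases hη with rfl | rfl <;> simp [h.x_neg hr]

/-- All terms but the one with root `k` are known. -/
def pick (R : List ℕ) (k : ℕ) : List (ℕ × ℤ × ℕ × ℕ) → Bool
  | [] => false
  | c :: L => if c.1 ∈ R then pick R k L else c.1 == k && (c.2.1 == 1 || c.2.1 == -1) && L.all fun c => c.1 ∈ R

theorem pick_sound (h : IsSt0 D x) {R : List ℕ} (hR : ∀ r ∈ R, r < D.nroots ∧ x r 1 ∈ K) {k : ℕ}
    (hk : k < D.nroots) {a b : F} (ha : a = 1 ∨ a = -1) (hb : b = 1 ∨ b = -1) (L : List (ℕ × ℤ × ℕ × ℕ))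
    (hp : pick R k L = true)
    (hw : word x (L.map fun c => (c.1, (c.2.1 : F) * a ^ c.2.2.1 * b ^ c.2.2.2)) ∈ K) : x k 1 ∈ K := by
  have hs : ∀ i j : ℕ, a ^ i * b ^ j = 1 ∨ a ^ i * b ^ j = -1 := fun i j => by
    rcases ha with rfl | rfl <;> rcases hb with rfl | rfl <;> rcases neg_one_pow_eq_or F i with h1 | h1 <;>
      rcases neg_one_pow_eq_or F j with h2 | h2 <;> simp [h1, h2]
  have key : ∀ c : ℕ × ℤ × ℕ × ℕ, c.1 ∈ R → x c.1 ((c.2.1 : F) * a ^ c.2.2.1 * b ^ c.2.2.2) ∈ K := fun c hc => by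
    rw [mul_assoc, mul_comm, x_sign_mem h (hR _ hc).1 (hs _ _)]
    exact x_int_mem h (hR _ hc).1 (hR _ hc).2 _
  induction L with
  | nil => simp [pick] at hp
  | cons c L ih =>
    rw [List.map_cons, word_cons] at hw
    rw [pick] at hp
    split_ifs at hp with hc
    · exact ih hp ((K.mul_mem_cancel_left (key c hc)).1 hw)
    · simp only [Bool.and_eq_true, beq_iff_eq, Bool.or_eq_true, List.all_eq_true, decide_eq_true_eq] at hp
      obtain ⟨⟨rfl, h1⟩, h2⟩ := hp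
      have h3 := (K.mul_mem_cancel_right (word_mem fun p hp => ?_)).1 hw
      · rw [mul_assoc, mul_comm, x_sign_mem h hk (hs _ _)] at h3
        rcases h1 with h1 | h1 <;> simpa [h1, h.x_neg hk] using h3
      · obtain ⟨c, hc, rfl⟩ := List.mem_map.1 hp
        exact key c (h2 c hc)

/-- One step of a certificate. -/
def step (D : ChevalleyDatum) (l : List (Fin D.rank)) (r₁ : ℕ) (R : List ℕ) (st : ℕ × ℕ × ℕ × ℕ) : Bool :=
  decide (st.2.2.2 < D.nroots) && decide (st.2.2.1 ∈ R) &&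
    if st.1 = 0 then decide (r₁ ∈ R) && act D l st.2.2.1 == st.2.2.2
    else if st.1 = 1 then decide (act D l st.2.2.1 < D.nroots) && act D l st.2.2.1 != r₁ &&
      act D l st.2.2.1 != D.neg r₁ &&
      pick R st.2.2.2 ((act D l st.2.2.1, 1, 0, 1) :: D.commTerms r₁ (act D l st.2.2.1))
    else if st.1 = 2 then decide (st.2.1 ∈ R) && st.2.2.1 != st.2.1 && st.2.2.1 != D.neg st.2.1 &&
      pick R st.2.2.2 (D.commTerms st.2.1 st.2.2.1)
    else act D l st.2.2.1 == r₁ && st.2.2.2 == r₁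

/-- The check of a certificate. -/
def chk (D : ChevalleyDatum) (l : List (Fin D.rank)) (r₁ : ℕ) : List ℕ → List (ℕ × ℕ × ℕ × ℕ) → Bool
  | R, [] => (List.range D.rank).all fun i => decide (D.simple i ∈ R) && decide (D.neg (D.simple i) ∈ R)
  | R, st :: L => step D l r₁ R st && chk D l r₁ (st.2.2.2 :: R) L

theorem step_sound (h : IsSt D x) (T : RootTable D) {l : List (Fin D.rank)} {r₁ : ℕ} (h1 : r₁ < D.nroots)
    (hb : x r₁ 1 * nw D x l ∈ K) {R : List ℕ} (hR : ∀ r ∈ R, r < D.nroots ∧ x r 1 ∈ K) {st : ℕ × ℕ × ℕ × ℕ}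
    (hs : step D l r₁ R st = true) : st.2.2.2 < D.nroots ∧ x st.2.2.2 1 ∈ K := by
  obtain ⟨tag, r, s, k⟩ := st
  simp only [step, Bool.and_eq_true, decide_eq_true_eq] at hs
  obtain ⟨⟨hk, hs⟩, h2⟩ := hs
  refine ⟨hk, ?_⟩
  obtain ⟨η, hη, e⟩ := conj_nw h T l (hR s hs).1
  have h3 := mul_mem (mul_mem hb (hR s hs).2) (inv_mem hb)
  rw [show ∀ a b c : G, a * b * c * (a * b)⁻¹ = a * (b * c * b⁻¹) * a⁻¹ from fun a b c => by group, e] at h3
  split_ifs at h2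
  · simp only [Bool.and_eq_true, decide_eq_true_eq, beq_iff_eq] at h2
    have h4 := (hR _ h2.1).2
    rwa [K.mul_mem_cancel_right (inv_mem h4), K.mul_mem_cancel_left h4, h2.2, x_sign_mem h.toIsSt0 hk hη] at h3
  · simp only [Bool.and_eq_true, decide_eq_true_eq, bne_iff_ne, ne_eq] at h2
    obtain ⟨⟨⟨h4, h5⟩, h6⟩, h7⟩ := h2
    refine pick_sound h.toIsSt0 hR hk (a := - -1) (by simp) hη _ h7 ?_
    rw [mul_assoc, ← h.x_neg h1, h.comm _ _ h1 h4 h5 h6, ← mul_assoc, ← mul_assoc, h.add _ h1, add_neg_cancel,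
      h.x_zero h1, one_mul, mul_one] at h3
    simpa [ChevalleyDatum.commWord] using h3
  · simp only [Bool.and_eq_true, decide_eq_true_eq, bne_iff_ne, ne_eq] at h2
    obtain ⟨⟨⟨h4, h5⟩, h6⟩, h7⟩ := h2
    refine pick_sound h.toIsSt0 hR hk (a := -1) (b := 1) (by simp) (by simp) _ h7 ?_
    have h8 := mul_mem (hR s hs).2 (hR r h4).2
    rwa [h.comm _ _ (hR r h4).1 (hR s hs).1 h5 h6,
      K.mul_mem_cancel_left (mul_mem (hR r h4).2 (hR s hs).2)] at h8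
  · simp only [Bool.and_eq_true, beq_iff_eq] at h2
    obtain ⟨h4, rfl⟩ := h2
    rwa [h4, h.x_comm h1, mul_inv_cancel_right, x_sign_mem h.toIsSt0 h1 hη] at h3

theorem nw_mem_of_all (h : IsSt D x) (T : RootTable D)
    (hK : ∀ i : Fin D.rank, x (D.simple i) 1 ∈ K ∧ x (D.neg (D.simple i)) 1 ∈ K) (l : List (Fin D.rank)) :
    nw D x l ∈ K :=
  nw_mem fun i _ => mul_mem (mul_mem (hK i).1 (by
    simpa [h.x_neg (T.lt_iff.2 (T.neg_lt (T.simple_lt i)))] using (hK i).2)) (hK i).1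

theorem all_of_simple (h : IsSt D x) (T : RootTable D)
    (hK : ∀ i : Fin D.rank, x (D.simple i) 1 ∈ K ∧ x (D.neg (D.simple i)) 1 ∈ K) {r : ℕ} (hr : r < D.nroots) :
    x r 1 ∈ K := by
  refine T.root_induction (P := fun r => x r 1 ∈ K) (fun i => (hK i).1) (fun i r hr h1 => ?_) (T.lt_iff.1 hr)
  obtain ⟨η, hη, e⟩ := conj_nw h T [i] (T.lt_iff.2 hr)
  have h2 := nw_mem_of_all h T hK [i]
  have h3 := mul_mem (mul_mem h2 h1) (inv_mem h2)
  exact (x_sign_mem h.toIsSt0 (T.lt_iff.2 (T.refl_lt i r hr)) hη).1 (e 1 ▸ h3)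

theorem chk_sound (h : IsSt D x) (T : RootTable D) {l : List (Fin D.rank)} {r₁ : ℕ} (h1 : r₁ < D.nroots)
    (hb : x r₁ 1 * nw D x l ∈ K) (L : List (ℕ × ℕ × ℕ × ℕ)) {R : List ℕ}
    (hR : ∀ r ∈ R, r < D.nroots ∧ x r 1 ∈ K) (hc : chk D l r₁ R L = true) (i : Fin D.rank) :
    x (D.simple i) 1 ∈ K ∧ x (D.neg (D.simple i)) 1 ∈ K := by
  induction L generalizing R with
  | nil =>
    simp only [chk, List.all_eq_true, List.mem_range, Bool.and_eq_true, decide_eq_true_eq] at hc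
    exact ⟨(hR _ (hc i i.2).1).2, (hR _ (hc i i.2).2).2⟩
  | cons st L ih =>
    rw [chk, Bool.and_eq_true] at hc
    exact ih (List.forall_mem_cons.2 ⟨step_sound h T h1 hb hR hc.1, hR⟩) hc.2

theorem mem_of_isLong (h : IsSt D x) (T : RootTable D)
    (hD : D ∈ [chevG2, chevB2, chevD4, chevF4, chevE6, chevE7, chevE8])
    (hK : ∀ i : Fin D.rank, x (D.simple i) 1 ∈ K ∧ x (D.neg (D.simple i)) 1 ∈ K) {r s : ℕ} (hr : r < D.nroots)
    (hs : s < D.nroots) (e : D.isLong r = D.isLong s) {t : F} (ht : x r t ∈ K) : x s t ∈ K := by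
  obtain ⟨w, rfl⟩ := T.exists_act_eq hD (T.lt_iff.1 hr) (T.lt_iff.1 hs) e
  obtain ⟨l, rfl⟩ := T.cs.wordProd_surjective w
  rw [act_wordProd T l (T.lt_iff.1 hr)] at hs ⊢
  obtain ⟨η, hη, e⟩ := conj_nw h T l hr
  have h2 := nw_mem_of_all h T hK l
  have h3 := mul_mem (mul_mem h2 ht) (inv_mem h2)
  rwa [e, x_sign_mem h.toIsSt0 hs hη] at h3

end Cert

section Tor

variable {F : Type*} [Field F] {G : Type*} [Group G] {D : ChevalleyDatum} {T : RootTable D} {x : ℕ → F → G}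
  (S : ChevSys T x) {K : Subgroup G}

theorem tor_pow_card [Finite F] (c : Fin D.rank → Fˣ) : S.tor c ^ Nat.card Fˣ = 1 := by
  rw [← map_pow, show c ^ Nat.card Fˣ = 1 from funext fun _ => pow_card_eq_one', map_one]

theorem coprime_card (F : Type*) [Field F] [Finite F] : (ringChar F).Coprime (Nat.card Fˣ) := by
  have := Fintype.ofFinite F
  obtain ⟨n, hp, e⟩ := FiniteField.card F (ringChar F)
  rw [Nat.card_units, Nat.card_eq_fintype_card, e]
  exact ((Nat.coprime_self_sub_left (Nat.one_le_pow _ _ hp.pos)).2 (by simp)).symm.coprime_dvd_left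
    (dvd_pow_self _ n.ne_zero)

theorem X_pow_char {X : F → G} (hX : ∀ t u, X t * X u = X (t + u)) (t : F) : X t ^ ringChar F = 1 := by
  rw [X_pow hX, ringChar.Nat.cast_ringChar, zero_mul, X_zero hX]

theorem conj_tor {n : G} {r s : ℕ} (hs : s < 2 * T.N) {a : F} (ha : a ≠ 0)
    (e : ∀ t, n * x s t * n⁻¹ = x r (a * t)) (c : Fin D.rank → Fˣ) (t : F) :
    n * S.tor c * n⁻¹ * x r t * (n * S.tor c * n⁻¹)⁻¹ = x r (chi D s c * t) := by
  obtain ⟨t, rfl⟩ : ∃ u, t = a * u := ⟨a⁻¹ * t, by rw [mul_inv_cancel_left₀ ha]⟩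
  rw [mul_left_comm, ← e, ← e, ← S.tor_conj _ hs]
  group

theorem conj_x_word (n : S.R.N) {l : List (Fin D.rank)} (hn : S.R.π n = T.cs.wordProd l) {r s : ℕ}
    (hs : s < D.nroots ∧ act D l s = r) : ∃ a : F, a ≠ 0 ∧ ∀ t, (n : G) * x s t * (n : G)⁻¹ = x r (a * t) := by
  have := S.conj_x n (T.lt_iff.1 hs.1)
  rwa [hn, act_wordProd T l (T.lt_iff.1 hs.1), hs.2] at this

theorem conj_tor_word (n : S.R.N) {l : List (Fin D.rank)} (hn : S.R.π n = T.cs.wordProd l) {r s : ℕ}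
    (hs : s < D.nroots ∧ act D l s = r) (c : Fin D.rank → Fˣ) (t : F) :
    n * S.tor c * (n : G)⁻¹ * x r t * (n * S.tor c * (n : G)⁻¹)⁻¹ = x r (chi D s c * t) := by
  obtain ⟨a, ha, e⟩ := conj_x_word S n hn hs
  exact conj_tor S (T.lt_iff.1 hs.1) ha e c t

/-- The pairing of a cocharacter with a root. -/
def ev (D : ChevalleyDatum) (y : List ℤ) (r : ℕ) : ℤ := ∑ i : Fin D.rank, y.getD i 0 * D.cartan i r

theorem chi_ev (k : Fˣ) (y : List ℤ) (r : ℕ) : chi D r (fun i => k ^ y.getD i 0) = k ^ ev D y r := by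
  simp only [chi_apply, ev, zpow_finset_sum, zpow_mul]

/-- The data for two generators. -/
structure Data (D : ChevalleyDatum) (l : List (Fin D.rank)) (r₀ r₁ : ℕ) (y : List ℤ) (L : List ℕ) : Prop where
  lt : r₀ < D.nroots ∧ r₁ < D.nroots
  ev₀ : ev D y r₀ = 0
  evL : ∀ r ∈ L, r < D.nroots ∧ (ev D y r = 1 ∨ ev D y r = -1 ∨ ev D y r = 2 ∨ ev D y r = -2)
  long : ∀ i : Fin D.rank, ∃ r ∈ L, D.isLong r = D.isLong (D.simple i)

include S in
theorem exists_gen [Finite F] (hD : D ∈ [chevG2, chevB2, chevD4, chevF4, chevE6, chevE7, chevE8])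
    (htop : Gs D x = ⊤) {l : List (Fin D.rank)} {r₀ r₁ : ℕ} {y : List ℤ} {L : List ℕ}
    (hd : Data D l r₀ r₁ y L) (C : List (ℕ × ℕ × ℕ × ℕ))
    (hc : chk D l r₁ [r₀] C = true ∨ (chk D l r₁ [r₀, r₁] C = true ∧ (∃ t : F, t ≠ 0 ∧ t ≠ 1) ∧
      (ev D y r₁ = 1 ∨ ev D y r₁ = -1) ∧ ∃ s < D.nroots, act D l s = r₁ ∧ (ev D y s = 1 ∨ ev D y s = -1))) :
    ∃ a b : G, closure {a, b} = ⊤ := by
  obtain ⟨k, hk⟩ := IsCyclic.exists_generator (α := Fˣ)
  let c : Fin D.rank → Fˣ := fun i => k ^ y.getD i 0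
  refine ⟨x r₀ 1 * S.tor c, x r₁ 1 * nw D x l, ?_⟩
  set K := closure {x r₀ 1 * S.tor c, x r₁ 1 * nw D x l}
  have hb : x r₁ 1 * nw D x l ∈ K := subset_closure (by simp)
  have ht : ∀ r < D.nroots, ∀ t, S.tor c * x r t * (S.tor c)⁻¹ = x r ((k ^ ev D y r : Fˣ) * t) :=
    fun r hr t => by rw [S.tor_conj _ (T.lt_iff.1 hr), chi_ev]
  obtain ⟨h0, hh⟩ := mem_of_mul_mem (K := K) (u := x r₀ 1) (h := S.tor c)
    (by
      have := ht r₀ hd.lt.1 1
      rw [hd.ev₀, zpow_zero, Units.val_one, one_mul, mul_inv_eq_iff_eq_mul] at this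
      exact this.symm)
    (X_pow_char (S.st.add _ hd.lt.1) 1) (tor_pow_card S c) (coprime_card F) (subset_closure (by simp))
  have h1 : ∀ i : Fin D.rank, x (D.simple i) 1 ∈ K ∧ x (D.neg (D.simple i)) 1 ∈ K := by
    rcases hc with hc | ⟨hc, ⟨t, ht0, ht1⟩, h2, s, hs, h3, h4⟩
    · exact chk_sound S.st T hd.lt.2 hb C (by simp [hd.lt.1, h0]) hc
    · have hk1 : ∀ e : ℤ, e = 1 ∨ e = -1 → k ^ e ≠ 1 := fun e he h => by
        have h5 : k = 1 := by rcases he with rfl | rfl <;> simpa using h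
        obtain ⟨j, hj⟩ := hk (Units.mk0 t ht0)
        exact ht1 (by simpa [h5] using (congrArg Units.val hj).symm)
      obtain ⟨η, hη, e⟩ := conj_nw S.st T l hs
      have h5 := trick (S.st.add _ hd.lt.2) hh hb (ht _ hd.lt.2) (c' := k ^ ev D y s)
        (fun t => by rw [conj_tor S (T.lt_iff.1 hs) (by rcases hη with rfl | rfl <;> simp) (h3 ▸ e), chi_ev])
        (S.H_comm (S.tor_mem c) (S.R.conj_mem_H ⟨_, S.N_eq ▸ T.nw_mem_Ns l⟩ (S.tor_mem c)))
        (hk1 _ h2) (hk1 _ h4) (mem_sp_zpow hk (by tauto)) 1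
      exact chk_sound S.st T hd.lt.2 hb C (by simp [hd.lt, h0, h5]) hc
  rw [eq_top_iff, ← htop]
  refine S.st.Gs_le' T (fun i t => ?_) fun i => by simpa using nw_mem_of_all S.st T h1 [i]
  obtain ⟨r, hr, e⟩ := hd.long i
  exact mem_of_isLong S.st T hD h1 (hd.evL r hr).1 (T.lt_iff.2 (T.simple_lt i)) e
    (fill' (S.st.add _ (hd.evL r hr).1) hh (ht _ (hd.evL r hr).1) (all_of_simple S.st T h1 (hd.evL r hr).1)
      one_ne_zero (mem_sp_zpow hk (hd.evL r hr).2) t)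

end Tor

theorem chkF4 : chk chevF4 ([2, 1, 0, 3] : List (Fin 4)) 18 [47]
    [(1, 0, 47, 45), (1, 0, 45, 42), (1, 0, 42, 22), (1, 0, 22, 15), (1, 0, 15, 1), (1, 0, 1, 0), (1, 0, 0, 2),
     (1, 0, 2, 5), (1, 0, 5, 25), (2, 47, 1, 24), (2, 47, 2, 26), (2, 47, 5, 32), (2, 45, 0, 21), (2, 45, 25, 46),
     (2, 42, 25, 43), (2, 22, 32, 31), (2, 15, 25, 16), (2, 15, 46, 41), (2, 0, 46, 23), (1, 0, 43, 27),
     (1, 0, 41, 19), (1, 0, 23, 20), (1, 0, 27, 33), (1, 0, 19, 8), (1, 0, 33, 12), (3, 0, 12, 18),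
     (0, 0, 20, 14)] = true := by decide +kernel

attribute [local instance] goodG2 goodB2 goodD4 goodF4 goodE6 goodE7 goodE8

variable (F : Type*) [Field F] [Finite F]

theorem gen_G2 (hF : ∃ t : F, t ≠ 0 ∧ t ≠ 1) : ∃ a b : chevG2.group F, closure {a, b} = ⊤ :=
  exists_gen (sysC F (by simp) rootTableG2) (by simp) Gs_xC (l := ([1, 0] : List (Fin 2))) (r₀ := 7) (r₁ := 6)
    (y := [1, 2]) (L := [6, 8]) (by constructor <;> decide +kernel)
    [(0, 0, 7, 3), (0, 0, 6, 11), (0, 0, 3, 2), (0, 0, 11, 10), (0, 0, 2, 4), (0, 0, 10, 5)]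
    (Or.inr ⟨by decide +kernel, hF, by decide +kernel, 1, by decide +kernel⟩)

theorem gen_B2 (hF : ∃ t : F, t ≠ 0 ∧ t ≠ 1) : ∃ a b : chevB2.group F, closure {a, b} = ⊤ :=
  exists_gen (sysC F (by simp) rootTableB2) (by simp) Gs_xC (l := ([1, 0] : List (Fin 2))) (r₀ := 0) (r₁ := 2)
    (y := [0, 1]) (L := [2, 4]) (by constructor <;> decide +kernel)
    [(0, 0, 0, 4), (0, 0, 2, 6), (0, 0, 4, 7), (0, 0, 6, 5), (0, 0, 7, 3)]
    (Or.inr ⟨by decide +kernel, hF, by decide +kernel, 1, by decide +kernel⟩)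

theorem gen_D4 : ∃ a b : chevD4.group F, closure {a, b} = ⊤ :=
  exists_gen (sysC F (by simp) rootTableD4) (by simp) Gs_xC (l := ([1, 3, 2, 0, 1, 0] : List (Fin 4))) (r₀ := 23)
    (r₁ := 7) (y := [1, 0, 0, 0]) (L := [1]) (by constructor <;> decide +kernel)
    [(1, 0, 23, 9), (1, 0, 9, 19), (1, 0, 19, 0), (2, 9, 19, 18), (2, 19, 0, 6), (1, 0, 6, 1), (2, 23, 1, 14),
     (1, 0, 0, 10), (1, 0, 14, 4), (1, 0, 10, 3), (1, 0, 3, 15), (1, 0, 15, 13), (2, 23, 4, 17), (2, 9, 15, 12),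
     (2, 19, 3, 11), (2, 1, 17, 5)] (Or.inl (by decide +kernel))

theorem gen_F4 : ∃ a b : chevF4.group F, closure {a, b} = ⊤ :=
  exists_gen (sysC F (by simp) rootTableF4) (by simp) Gs_xC (r₀ := 47)
    (r₁ := 18) (y := [0, 0, 1, 0]) (L := [1, 8]) (by constructor <;> decide +kernel) _ (Or.inl chkF4)

theorem gen_E6 : ∃ a b : chevE6.group F, closure {a, b} = ⊤ :=
  exists_gen (sysC F (by simp) rootTableE6) (by simp) Gs_xC (l := ([4, 5, 2, 3, 4, 1, 3, 0] : List (Fin 6)))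
    (r₀ := 71) (r₁ := 71) (y := [1]) (L := [5]) (by constructor <;> decide +kernel)
    [(0, 0, 71, 65), (0, 0, 65, 39), (0, 0, 39, 19), (0, 0, 19, 3), (0, 0, 3, 1), (0, 0, 1, 7), (0, 0, 7, 42),
     (0, 0, 42, 69), (2, 71, 1, 46), (2, 71, 7, 52), (2, 65, 3, 29), (2, 65, 7, 36), (2, 39, 52, 54),
     (2, 19, 46, 26), (2, 19, 36, 20), (2, 3, 69, 37), (2, 3, 54, 14), (2, 1, 69, 32), (2, 42, 14, 15),
     (2, 69, 26, 62), (2, 69, 20, 60), (0, 0, 62, 49), (0, 0, 60, 53), (0, 0, 49, 34), (0, 0, 53, 56),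
     (0, 0, 34, 25), (0, 0, 25, 35)] (Or.inl (by decide +kernel))

theorem gen_E7 : ∃ a b : chevE7.group F, closure {a, b} = ⊤ :=
  exists_gen (sysC F (by simp) rootTableE7) (by simp) Gs_xC (l := ([6, 5, 3, 2, 1, 3, 4, 0, 2] : List (Fin 7)))
    (r₀ := 125) (r₁ := 125) (y := [0, 1]) (L := [3]) (by constructor <;> decide +kernel)
    [(0, 0, 125, 122), (0, 0, 122, 112), (0, 0, 112, 66), (0, 0, 66, 36), (0, 0, 36, 8), (0, 0, 8, 2),
     (0, 0, 2, 0), (0, 0, 0, 3), (0, 0, 3, 13), (0, 0, 13, 59), (0, 0, 59, 89), (0, 0, 89, 117), (0, 0, 117, 123),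
     (2, 125, 13, 105), (2, 122, 2, 56), (2, 122, 59, 121), (2, 112, 89, 124), (2, 66, 117, 118),
     (2, 66, 105, 107), (2, 36, 123, 106), (2, 36, 105, 93), (2, 36, 121, 101), (2, 8, 121, 78), (2, 2, 124, 73),
     (2, 2, 107, 37), (2, 0, 124, 32), (2, 0, 101, 9), (2, 3, 123, 69), (2, 3, 118, 47), (2, 13, 106, 52),
     (2, 89, 37, 63), (2, 117, 9, 64), (2, 123, 9, 81), (0, 0, 81, 109), (0, 0, 109, 68), (0, 0, 68, 62),
     (0, 0, 62, 61)] (Or.inl (by decide +kernel))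

theorem gen_E8 : ∃ a b : chevE8.group F, closure {a, b} = ⊤ :=
  exists_gen (sysC F (by simp) rootTableE8) (by simp) Gs_xC (l := ([0, 1, 2, 4, 3, 5, 6, 7] : List (Fin 8)))
    (r₀ := 239) (r₁ := 239) (y := [1]) (L := [6]) (by constructor <;> decide +kernel)
    [(0, 0, 239, 235), (0, 0, 235, 224), (0, 0, 224, 217), (0, 0, 217, 199), (0, 0, 199, 155), (0, 0, 155, 130),
     (0, 0, 130, 69), (0, 0, 69, 51), (0, 0, 51, 29), (0, 0, 29, 9), (0, 0, 9, 5), (0, 0, 5, 3), (0, 0, 3, 2),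
     (0, 0, 2, 1), (0, 0, 1, 0), (0, 0, 0, 4), (0, 0, 4, 15), (0, 0, 15, 22), (0, 0, 22, 40), (0, 0, 40, 84),
     (0, 0, 84, 109), (0, 0, 109, 170), (0, 0, 170, 188), (0, 0, 188, 210), (0, 0, 210, 230), (0, 0, 230, 234),
     (0, 0, 234, 236), (0, 0, 236, 237), (0, 0, 237, 238), (2, 239, 1, 120), (2, 235, 3, 113), (2, 224, 84, 200),
     (2, 224, 109, 223), (2, 217, 170, 233), (2, 155, 210, 225), (2, 130, 230, 231), (2, 69, 234, 222),
     (2, 29, 200, 98), (2, 9, 223, 77), (2, 5, 233, 104), (2, 3, 237, 123), (2, 2, 236, 116), (2, 2, 238, 121),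
     (2, 1, 237, 118), (2, 0, 238, 119), (2, 4, 236, 126), (2, 15, 225, 141), (2, 15, 231, 162),
     (2, 22, 222, 135)] (Or.inl (by decide +kernel))

end Cfsg.Agent.TwoGen
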