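import Mathlib
import Cfsg.Agent.Lang.ClsSq
import Cfsg.Agent.UL.TitsGrp
import Cfsg.Agent.Chev.TwMultF4
import Cfsg.Agent.Chev.SzCover
import Cfsg.Agent.Chev.TwoGen

/-!
Every nontrivial element of `²F₄(q)`, `q > 2`, is a product of two conjugates of a semisimple element.
-/

set_option autoImplicit false

namespace Cfsg.Agent.Lang

open Cfsg.Agent.St Cfsg.Agent.Chev Cfsg.Agent.UL Subgroup

section Split

variable {p : ℕ} [Fact p.Prime] {G ι W : Type*} [Group G] [Group W] [Finite G] (T : Split p G ι W)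
  {n₀ : G} (hn : n₀ ∈ T.N) (ht : IsTop T.s Set.univ (T.wt n₀))

include hn ht in
theorem exists_gauss_one (i : ι) : ∃ m ∈ T.N, T.wt m = T.s i ∧
    ∃ a ∈ T.U, ∃ v, n₀⁻¹ * v * n₀ ∈ T.U ∧ ∃ u ∈ T.U, a * m = v * u := by
  obtain ⟨m, hm, e⟩ := T.exists_N (T.s i)
  obtain ⟨⟨x, hx⟩, h1⟩ := ne_bot_iff_exists_ne_one.1 (rootX_ne_bot T i)
  have h2 : m⁻¹ * x * m ∉ T.B := fun h => h1 (Subtype.ext (eq_one_of_rootX_fix T hx e h))
  have hp := mem_par_gen T.toTits e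
  have h3 := wt_eq_gen_of_mem T.toTits (mul_mem (mul_mem (inv_mem hp) (T.B_le_par _ (T.U_le hx.1))) hp) h2
  obtain ⟨b, hb, n, hn', b', hb', e1, e2⟩ := T.exists_BNB (m⁻¹ * x * m)
  obtain ⟨u, hu, h, hh, rfl⟩ := T.exists_UH hb
  obtain ⟨h', hh', u', hu', rfl⟩ := T.exists_HU hb'
  refine ⟨h * n * h', mul_mem (mul_mem hh.2 hn') hh'.2, by rw [T.wt_mul_B _ hh'.1, T.wt_B_mul hh.1, e1, h3],
    u, hu, m⁻¹ * x * m, ?_, u'⁻¹, inv_mem hu', by rw [e2]; group⟩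
  have := conj_rootX_mem_U T hx (mul_mem hm hn) (by
    rw [T.wt_N_mul hm hn, e]; exact not_LD_gen_top T.toTits ht i)
  simpa [mul_assoc] using this

variable (hI : Irred T.toTits) (hc : ∀ a ∈ T.H, ∀ b ∈ T.H, a * b = b * a) (ho : Odd (Nat.card T.H))
  (hinv : ∀ h ∈ T.H, n₀⁻¹ * h * n₀ = h⁻¹)

include hn ht hI hc ho hinv in
theorem exists_gauss_inv {g h : G} (hg : g ∉ T.B.normalCore) (hh : h ∈ T.H) :
    ∃ y, ∃ v ∈ T.U, ∃ u ∈ T.U, y * g * y⁻¹ = n₀ * v * n₀⁻¹ * h * u := by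
  choose m hm e a ha v hv u hu e' using exists_gauss_one T hn ht
  let K : ι → Subgroup G := fun i =>
    { carrier := {c | ∃ t ∈ T.H, c = t * ((m i)⁻¹ * t⁻¹ * m i)}
      one_mem' := ⟨1, one_mem _, by simp⟩
      mul_mem' := by
        rintro _ _ ⟨t, h1, rfl⟩ ⟨t', h2, rfl⟩
        refine ⟨t * t', mul_mem h1 h2, ?_⟩
        rw [mul_assoc, ← mul_assoc _ t', hc _ (T.conj_mem_H' (hm i) (inv_mem h1)) _ h2, hc t h1 t' h2, mul_inv_rev,
          ← hc t h1 t' h2]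
        group
      inv_mem' := by
        rintro _ ⟨t, h1, rfl⟩
        refine ⟨t⁻¹, inv_mem h1, ?_⟩
        rw [hc _ h1 _ (T.conj_mem_H' (hm i) (inv_mem h1))]
        group }
  have hK : ∀ i, K i ≤ T.H := by
    rintro i _ ⟨t, h1, rfl⟩
    exact mul_mem h1 (T.conj_mem_H' (hm i) (inv_mem h1))
  have key : ∀ l : List ι, ∀ n ∈ T.N, T.wt n = wprod T.s l → ∀ t ∈ T.H, t * (n⁻¹ * t⁻¹ * n) ∈ ⨆ i, K i := by
    intro l
    induction l with
    | nil =>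
      intro n h1 h2 t h3
      have h4 := (T.mem_H_iff h1).2 h2
      rw [mul_assoc, hc _ (inv_mem h3) _ h4]
      simp
    | cons i l ih =>
      intro n h1 h2 t h3
      have h4 := mul_mem (mem_iSup_of_mem (S := K) i ⟨t, h3, rfl⟩) (ih _ (mul_mem (inv_mem (hm i)) h1) (by
        rw [T.wt_N_mul (inv_mem (hm i)) h1, T.wt_inv, e, h2, wprod_cons, inv_mul_cancel_left]) _
        (T.conj_mem_H' (hm i) h3))
      convert h4 using 1
      group
  obtain ⟨y, v', hv', u', hu', e1⟩ := exists_gauss (T := T) (V := T.U.comap (MulAut.conj n₀⁻¹).toMonoidHom)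
    (fun k hk v hv => by
      have := T.conj_U _ (T.conj_mem_H' hn hk).1 _ hv
      simpa [mul_assoc] using this) hI hc K hK (fun t h1 => by
      have := T.finite_W
      obtain ⟨l, -, e2⟩ := T.cox.inv.exists_reduced' (T.wt n₀)
      obtain ⟨k, hk⟩ := ho
      have h2 := pow_mem (key l n₀ hn e2.symm _ (pow_mem h1 (k + 1))) 1
      rw [hinv _ (inv_mem (pow_mem h1 _)), inv_inv, ← pow_add, show k + 1 + (k + 1) = Nat.card T.H + 1 by omega,
        pow_succ, pow_succ, show t ^ Nat.card T.H = 1 from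
          congrArg Subtype.val (pow_card_eq_one' (x := (⟨t, h1⟩ : T.H)))] at h2
      simpa using h2)
    (fun i => ⟨m i, hm i, e i, 1, one_mem _, by
      rintro _ ⟨t, h1, rfl⟩
      have h2 := hK i ⟨t, h1, rfl⟩
      refine ⟨_, T.conj_U t h1.1 _ (ha i), t * v i * t⁻¹, ?_, _,
        T.conj_U' h2.1 (T.conj_U t h1.1 _ (hu i)), ?_⟩
      · have := T.conj_U _ (T.conj_mem_H' hn h1).1 _ (hv i)
        simpa [mul_assoc] using this
      · calc _ = t * (a i * m i) * ((m i)⁻¹ * t⁻¹ * m i) := by group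
          _ = _ := by rw [e']; group⟩) hg hh
  exact ⟨y, _, hv', u', hu', by rw [e1]; simp [mul_assoc]⟩

include hn ht hI hc ho hinv in
theorem two_of_levi {i : ι} {L : Subgroup G} (hX : rootX T i ≤ L) (hL : L ≤ T.par {i})
    (h1 : ∀ l ∈ L, n₀ * l * n₀⁻¹ ∈ L) (h2 : ∀ l ∈ L, n₀⁻¹ * l * n₀ ∈ L) {z s : G} (hz : z ∈ T.H)
    (h3 : ∀ l ∈ L, Commute l z) (hf : ∀ r ∈ T.R {i}, Commute z r → r = 1) (hs : s ∈ L) {a b : ℕ}
    (ha : s ^ a = 1) (hb : z ^ b = 1) (hab : a.Coprime b)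
    (h4 : ∀ l ∈ L, ∃ c ∈ L, ∃ d ∈ L, l = c * s * c⁻¹ * (d * s * d⁻¹)) {g : G} (hg : g ∉ T.B.normalCore) :
    Two (s * z) g := by
  obtain ⟨y, v, hv, u, hu, e⟩ := exists_gauss_inv T hn ht hI hc ho hinv hg (mul_mem hz hz)
  obtain ⟨x, hx, hr⟩ := exists_rootX_mul_R T i hu
  obtain ⟨x', hx', hr'⟩ := exists_rootX_mul_R T i (inv_mem hv)
  obtain ⟨c, hc', d, hd, e'⟩ := h4 _ (mul_mem (h1 _ (inv_mem (hX hx'))) (hX hx))
  have hN := hL.trans (par_le_normalizer_R T {i})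
  have hF : ∀ s ∈ L, s ^ a = 1 → ∀ w : G, w = z ∨ w = z⁻¹ → Fpf (T.R {i}) (s * w) := fun s hs ha w hw => by
    have hz' := par_le_normalizer_R T {i} (T.B_le_par _ hz.1)
    refine ⟨mul_mem (hN hs) (by rcases hw with rfl | rfl; exacts [hz', inv_mem hz']), fun r hr e => hf r hr ?_⟩
    have := (TwoGen.mem_of_mul_mem (K := centralizer {r}) (u := s) (h := w) (m := b)
      (by rcases hw with rfl | rfl; exacts [h3 s hs, (h3 s hs).inv_right]) ha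
      (by rcases hw with rfl | rfl; exacts [hb, by rw [inv_pow, hb, inv_one]]) hab
      (mem_centralizer_singleton_iff.2 (mul_inv_eq_iff_eq_mul.1 e))).2
    exact mem_centralizer_singleton_iff.1 (by rcases hw with rfl | rfl; exacts [this, inv_mem_iff.1 this])
  have e1 := (hF _ (h2 s hs) (by rw [show n₀⁻¹ * s * n₀ = n₀⁻¹ * s * n₀⁻¹⁻¹ by simp, conj_pow, ha]; simp) _
    (.inr rfl)).isConj_left (hN (h2 c hc')) (inv_mem hr')
  have e2 := (hF s hs ha _ (.inl rfl)).isConj_right (hN hd) hr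
  have e3 : IsConj (s * z) (n₀ * ((x'⁻¹ * v⁻¹)⁻¹ * (n₀⁻¹ * c * n₀ * (n₀⁻¹ * s * n₀ * z⁻¹) * (n₀⁻¹ * c * n₀)⁻¹)) *
      n₀⁻¹) := ((isConj_iff.2 ⟨n₀⁻¹, by rw [← hinv z hz]; group⟩).trans e1).trans (isConj_iff.2 ⟨n₀, rfl⟩)
  refine Two.of_conj (y := y) ?_
  convert Two.of_isConj e3 e2 using 1
  have k1 := (h3 c hc').inv_left.eq
  have k2 := (h3 d hd).inv_left.eq
  have k3 := (h3 x (hX hx)).eq
  have k4 := (h3 _ (mul_mem (mul_mem hd hs) (inv_mem hd))).eq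
  rw [e, ← hinv z hz]
  calc _ = n₀ * (v * x') * n₀⁻¹ * (n₀ * x'⁻¹ * n₀⁻¹ * (z * z * x)) * (x⁻¹ * u) := by group
    _ = n₀ * (v * x') * n₀⁻¹ * (c * s * c⁻¹ * (d * s * d⁻¹) * z * z) * (x⁻¹ * u) := by
      rw [← e', mul_assoc z, ← k3, ← mul_assoc z, ← k3]; group
    _ = n₀ * (v * x') * n₀⁻¹ * (c * s * (c⁻¹ * z) * (d * s * (d⁻¹ * z))) * (x⁻¹ * u) := by
      rw [mul_assoc (c * s * c⁻¹), k4]; group
    _ = _ := by rw [k1, k2]; group

end Split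

end Cfsg.Agent.Lang

namespace Cfsg.Agent.Chev

open Cfsg.Lie Cfsg.Agent.Lang Cfsg.Agent.St Cfsg.Agent.UL Subgroup

variable {K : Type*} [Field K] {m : ℕ} [SzField K m]

theorem Suz.eq_top_of_uu {N : Subgroup (Sz K m)} (h1 : ∀ a b : K, Suz.uu a b ∈ N)
    (h2 : ∀ a b : K, Suz.tt K * Suz.uu a b * Suz.tt K ∈ N) : N = ⊤ := by
  refine Suz.eq_top_of_involutions fun g hg => ?_
  obtain ⟨p, hp⟩ := Suz.exists_mem_Zp hg
  rcases Suz.pt_cases p with rfl | ⟨a, b, rfl⟩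
  · obtain ⟨b, rfl⟩ := Suz.mem_Zp_inf.1 hp
    exact h1 _ _
  · obtain ⟨c, e⟩ := Suz.mem_Zp_inf.1 ((Suz.conj_mem_Zp_iff (Suz.uu a b * Suz.tt K) g _).2
      (by simpa [mul_smul] using hp))
    have := mul_mem (mul_mem (h1 a b) (h2 0 c)) (inv_mem (h1 a b))
    rw [← e] at this
    simpa [mul_assoc, ← mul_assoc (Suz.tt K) (Suz.tt K)] using this

theorem Suz.tu_pow : (Suz.tt K * Suz.uu 0 1) ^ 5 = 1 := by
  have h : (1 : K) + 1 = 0 := CharTwo.add_self_eq_zero 1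
  refine Suz.mat_injective ?_
  simp only [pow_succ, pow_zero, one_mul, Suz.mat_mul, Suz.mat_tt, Suz.mat_uu, Suz.uMat, Suz.ff, suzukiForm, map_zero,
    map_one, mul_fin_four, mul_zero, mul_one, add_zero, zero_add, h, Suz.mat_one]
  ext i j
  fin_cases i <;> fin_cases j <;> simp

theorem Suz.two_tu (g : Sz K m) : Two (Suz.tt K * Suz.uu 0 1) g := by
  have := Fintype.ofFinite (Sz K m)
  by_cases hg : g = 1
  · refine ⟨1, Suz.tt K, ?_⟩
    have : Suz.uu (0 : K) 1 * Suz.uu 0 1 = 1 := by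
      rw [← sq, Suz.uu_sq_eq_one]
    simp [hg, mul_assoc, ← mul_assoc (Suz.tt K) (Suz.tt K), ← mul_assoc (Suz.uu (0 : K) 1), this]
  · refine Suz.exists_eq_conj_mul_conj (fun e => ?_) hg
    have h := Suz.tu_pow (K := K)
    rw [show 5 = 2 * 2 + 1 from rfl, pow_succ, pow_mul, e, one_pow, one_mul] at h
    simpa [mul_smul] using congrArg (· • Suz.inf K) h

theorem exists_uu {θ : K →+* K} (hθ : ∀ t, θ (θ t) ^ 2 = t) (a b : K) : ∃ s w, a = θ s ∧ b = θ s * s + θ w := by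
  have h : ∀ t, θ (θ t ^ 2) = t := fun t => by rw [map_pow, hθ]
  exact ⟨θ a ^ 2, θ (b - a * θ a ^ 2) ^ 2, (h a).symm, by rw [h, h, add_sub_cancel]⟩

theorem IsSt0.exists_sz [Fintype K] {G : Type*} [Group G] {θ : K →+* K} (hθ : ∀ t, θ (θ t) ^ 2 = t)
    (hq : ∀ t, θ t = t ^ 2 ^ m) {y : ℕ → K → G} (hy : IsSt0 chevB2 y) (h1 : y 0 1 ≠ 1) :
    ∃ Φ : Sz K m →* G, ∀ s w, Φ (Suz.uu (θ s) (θ s * s + θ w)) = F4.sz y θ 5 4 6 7 s w ∧
      Φ (Suz.tt K * Suz.uu (θ s) (θ s * s + θ w) * Suz.tt K) = F4.sz y θ 2 3 1 0 s w := by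
  have := goodB2
  have hK := Suz.exists_ne_zero_one K
  obtain ⟨φ, -, hφ⟩ := hy.exists_injective_B2 hK h1
  obtain ⟨ψ, i2, hψ⟩ := (RepTab.isSt0 (e := eqSp4) (F := K) check_repSp4).exists_injective_B2 hK
    fun e => by
      have := coe_repSp4 (r := 0) (by decide) (1 : K)
      rw [e] at this
      simpa using congrFun (congrFun this 3) 0
  have e1 := fun s w => (hom_sz ψ hψ θ s w).1.trans (sz_repSp4 hq s w).1.symm
  have e2 := fun s w => (hom_sz ψ hψ θ s w).2.trans (sz_repSp4 hq s w).2.symm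
  have h3 : ψ.range.comap (Suz.toGL K) = ⊤ := Suz.eq_top_of_uu
    (fun a b => by obtain ⟨s, w, rfl, rfl⟩ := exists_uu hθ a b; exact ⟨_, e1 s w⟩)
    (fun a b => by obtain ⟨s, w, rfl, rfl⟩ := exists_uu hθ a b; exact ⟨_, e2 s w⟩)
  let f := (MonoidHom.ofInjective i2).symm.toMonoidHom.comp ((Suz.toGL K).codRestrict _ fun g => h3.ge (mem_top g))
  have hf : ∀ g, ψ (f g) = Suz.toGL K g := fun g => MonoidHom.apply_ofInjective_symm i2 _
  refine ⟨φ.comp f, fun s w => ⟨?_, ?_⟩⟩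
  · rw [← (hom_sz φ hφ θ s w).1, i2 ((e1 s w).trans (hf _).symm)]
    rfl
  · rw [← (hom_sz φ hφ θ s w).2, i2 ((e2 s w).trans (hf _).symm)]
    rfl

theorem coprime_five (m : ℕ) : Nat.Coprime 5 (2 ^ (2 * m + 1) - 1) := by
  have h : 2 ^ (2 * m + 1) % 5 = 2 ∨ 2 ^ (2 * m + 1) % 5 = 3 := by
    induction m with
    | zero => decide
    | succ m ih => rw [show 2 * (m + 1) + 1 = 2 * m + 1 + 2 from rfl, pow_add]; omega
  generalize 2 ^ (2 * m + 1) = q at h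
  exact (Nat.Prime.coprime_iff_not_dvd (by norm_num)).2 (by omega)

namespace F4

theorem pat29 : ∀ r < 48, Pat 29 r ∨ ∀ i < 4, i ≠ 1 → i ≠ 2 → (chevF4.coroot.getD r #[]).getD i 0 = 0 := by
  decide +kernel

variable [Fintype K] [CharP K 2] {T : RootTable chevF4}
  (S : ChevSys T (xC chevF4 K)) (θ : K →+* K) (hθ : ∀ t, θ (θ t) ^ 2 = t)
  (hq : ∀ t, θ t = t ^ 2 ^ m) {T' : Type*} [Group T'] (j : T' →* chevF4.group K)
  (hj : Function.Injective j) (hr : j.range = (tw S θ hθ).data.T)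
include hq hj hr

theorem exists_two : ∃ x : T', Odd (orderOf x) ∧ ∀ g, g ≠ 1 → Two x g := by
  have := S.finite
  have := Finite.of_injective j hj
  have h8 := Suz.eight_le_card (F := K)
  rw [Nat.card_eq_fintype_card] at h8
  set M := tw S θ hθ
  have := (isSimpleGroup S θ hθ (by omega) j hj hr).1
  let P := sysSplit 2 M j hj hr
  have hH : P.H = S.R.H.comap j := twTits_H ..
  have hX : rootX P 1 = (S.R.UJ (M.data.J 1)).comap j := rootX_sysSplit ..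
  have hfix : ∀ g, M.data.σ (j g) = j g := fun g => M.data.σ_eq (M.data.j_mem j hr g)
  obtain ⟨n, hn, hl⟩ := M.data.exists_longest_rep_T
  obtain ⟨n₀, e₀⟩ := M.data.exists_j j hr hn
  have hN : n₀ ∈ P.N := show j n₀ ∈ S.R.N from e₀ ▸ n.2
  have hneg : ∀ n : S.R.N, IsLongest T.cs Set.univ (S.R.π n) → ∀ v, T.rep (S.R.π n) v = -v := fun n h =>
    geomRep_longestF4 T.cs T.isCartan cm_F4 h
  have hU : ∀ g, (g ∈ S.R.UJ (M.data.J 1) ∧ M.data.σ g = g) ↔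
      ∃ s w, g = sz (xC chevF4 K) θ 27 25 28 30 s w := M.UJ_eq 1 ▸ fix_pos S θ hθ 1
  have hV : ∀ g, (g ∈ S.R.VJ (M.data.J 1) ∧ M.data.σ g = g) ↔
      ∃ s w, g = sz (xC chevF4 K) θ 20 22 19 17 s w := M.VJ_eq 1 ▸ fix_neg S θ hθ 1
  obtain ⟨Φ, hΦ⟩ := IsSt0.exists_sz hθ hq (y := fun r => xC chevF4 K (Lang.embB2 r))
    (by simpa using Lang.isEmbB2.isSt0 S.st.toIsSt0) fun e => one_ne_zero
      (S.nd.eq_zero_of_x_eq_one (r := 17) (T.lt_iff.1 (by decide)) e)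
  have e0 : ∀ s w, sz (fun r => xC chevF4 K (Lang.embB2 r)) θ 5 4 6 7 s w =
      sz (xC chevF4 K) θ 27 25 28 30 s w ∧ sz (fun r => xC chevF4 K (Lang.embB2 r)) θ 2 3 1 0 s w =
      sz (xC chevF4 K) θ 20 22 19 17 s w := by
    simp [sz, show Lang.embB2 0 = 17 ∧ Lang.embB2 1 = 19 ∧ Lang.embB2 2 = 20 ∧ Lang.embB2 3 = 22 ∧
      Lang.embB2 4 = 25 ∧ Lang.embB2 5 = 27 ∧ Lang.embB2 6 = 28 ∧ Lang.embB2 7 = 30 by decide +kernel]
  simp only [e0] at hΦ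
  have gen : ∀ N : Subgroup (chevF4.group K), (∀ g, g ∈ S.R.UJ (M.data.J 1) ∨ g ∈ S.R.VJ (M.data.J 1) →
      M.data.σ g = g → g ∈ N) → ∀ g, Φ g ∈ N := fun N h g => by
    refine (Suz.eq_top_of_uu (N := N.comap Φ) (fun a b => ?_) fun a b => ?_).ge (mem_top g) <;>
      obtain ⟨s, w, rfl, rfl⟩ := exists_uu hθ a b
    · have := (hU _).2 ⟨s, w, (hΦ s w).1⟩
      exact h _ (.inl this.1) this.2
    · have := (hV _).2 ⟨s, w, (hΦ s w).2⟩
      exact h _ (.inr this.1) this.2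
  let Ψ := (MonoidHom.ofInjective hj).symm.toMonoidHom.comp (Φ.codRestrict _ (gen j.range fun g h h' =>
    hr ▸ h.elim (M.data.mem_T_of_UJ · h') (M.data.mem_T_of_VJ · h')))
  have hΨ : ∀ g, j (Ψ g) = Φ g := fun g => MonoidHom.apply_ofInjective_symm hj _
  have gen' : ∀ N : Subgroup T', (∀ g, j g ∈ S.R.UJ (M.data.J 1) ∨ j g ∈ S.R.VJ (M.data.J 1) → g ∈ N) →
      Ψ.range ≤ N := by
    rintro N h _ ⟨g, rfl⟩
    obtain ⟨g', h1, h2⟩ := gen (N.map j) (fun g h1 h2 => by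
      obtain ⟨g, rfl⟩ := M.data.exists_j j hr (h1.elim (M.data.mem_T_of_UJ · h2) (M.data.mem_T_of_VJ · h2))
      exact mem_map_of_mem j (h g h1)) g
    exact hj (h2.trans (hΨ g).symm) ▸ h1
  have hL : ∀ g, j g ∈ S.R.UJ (M.data.J 1) ∨ j g ∈ S.R.VJ (M.data.J 1) → g ∈ Ψ.range := by
    rintro g (h | h)
    · obtain ⟨s, w, e⟩ := (hU _).1 ⟨h, hfix g⟩
      exact ⟨_, hj ((hΨ _).trans ((hΦ s w).1.trans e.symm))⟩
    · obtain ⟨s, w, e⟩ := (hV _).1 ⟨h, hfix g⟩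
      exact ⟨_, hj ((hΨ _).trans ((hΦ s w).2.trans e.symm))⟩
  have hc : ∀ (t : T') (n : S.R.N), j t = n → IsLongest T.cs Set.univ (S.R.π n) → ∀ l ∈ Ψ.range,
      t * l * t⁻¹ ∈ Ψ.range := fun t n e h => gen' (Ψ.range.comap (MulAut.conj t).toMonoidHom) fun g hg => by
    refine hL (t * g * t⁻¹) ?_
    rw [map_mul, map_mul, map_inv, e]
    exact hg.symm.imp
      (S.R.conj_mem_rootSpan n (p := fun v => v ≤ 0 ∧ ∀ k, k ∉ M.data.J 1 → v k = 0)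
        (p' := fun v => 0 ≤ v ∧ ∀ k, k ∉ M.data.J 1 → v k = 0) fun r r' h1 e1 => by
          rw [e1, show geomRep _ _ _ _ = _ from hneg n h _]
          exact ⟨neg_nonneg.2 h1.1, fun k hk => by simp [h1.2 k hk]⟩)
      (S.R.conj_mem_rootSpan n (p := fun v => 0 ≤ v ∧ ∀ k, k ∉ M.data.J 1 → v k = 0)
        (p' := fun v => v ≤ 0 ∧ ∀ k, k ∉ M.data.J 1 → v k = 0) fun r r' h1 e1 => by
          rw [e1, show geomRep _ _ _ _ = _ from hneg n h _]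
          exact ⟨neg_nonpos.2 h1.1, fun k hk => by simp [h1.2 k hk]⟩)
  obtain ⟨c, hc1⟩ := Suz.exists_unit_ne_one K
  obtain ⟨z', hz', h1, h2⟩ := sep S θ hθ hc1 (T.nil_setUJ (Fin.val '' {i | M.F.o i ∈ ({1} : Set (Fin 2))}))
    (Z' := {r | r ∈ [27, 25, 28, 30, 20, 22, 19, 17]}) (k := 29)
    (show ∀ s ∈ [27, 25, 28, 30, 20, 22, 19, 17], Ort 29 s by decide +kernel) fun r hr =>
      (pat29 r hr.1.1).resolve_right fun h => hr.2 ⟨hr.1.1, fun i hi h3 => h i hi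
        (fun e => h3 ⟨(1 : Fin 4), rfl, e.symm⟩) fun e => h3 ⟨(2 : Fin 4), rfl, e.symm⟩⟩
  obtain ⟨z, rfl⟩ := M.data.exists_j j hr ((T_eq_Fix S θ hθ).ge hz'.2)
  have h3 : Ψ.range ≤ centralizer {z} := gen' _ fun g hg => mem_centralizer_singleton_iff.2 (hj (by
    rw [map_mul, map_mul]
    refine (h1 _ ⟨?_, hfix g⟩).symm
    rcases hg with h | h
    · obtain ⟨s, w, e⟩ := (hU _).1 ⟨h, hfix g⟩
      exact e ▸ mul_mem (mem_XS (by simp) _) (mul_mem (mem_XS (by simp) _) (mul_mem (mem_XS (by simp) _)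
        (mul_mem (mem_XS (by simp) _) (one_mem _))))
    · obtain ⟨s, w, e⟩ := (hV _).1 ⟨h, hfix g⟩
      exact e ▸ mul_mem (mem_XS (by simp) _) (mul_mem (mem_XS (by simp) _) (mul_mem (mem_XS (by simp) _)
        (mul_mem (mem_XS (by simp) _) (one_mem _))))))
  have h4 : Ψ (Suz.tt K * Suz.uu 0 1) ^ 5 = 1 := by rw [← map_pow, Suz.tu_pow, map_one]
  have h5 : z ^ (2 ^ (2 * m + 1) - 1) = 1 := hj (by
    obtain ⟨d, e⟩ := S.exists_tor hz'.1
    rw [map_pow, ← e, ← Suz.card_units K, TwoGen.tor_pow_card, map_one])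
  have h6 : Commute (Ψ (Suz.tt K * Suz.uu 0 1)) z := mem_centralizer_singleton_iff.1 (h3 ⟨_, rfl⟩)
  refine ⟨Ψ (Suz.tt K * Suz.uu 0 1) * z, Odd.of_dvd_nat (((by decide : Odd 5)).mul (Suz.odd_q_sub_one m))
    (orderOf_dvd_of_pow_eq_one (by rw [h6.mul_pow, pow_mul, h4, one_pow, pow_mul', h5, one_pow, mul_one])),
    fun g hg => two_of_levi P hN ?_ (irred_of_simple P)
    (fun a ha b hb => hj (by rw [map_mul, map_mul]; exact S.H_comm (hH.le ha) (hH.le hb)))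
    (Nat.odd_iff.2 (Nat.two_dvd_ne_zero.1 P.not_dvd_card_H)) (fun h hh => hj ?_) (i := 1) (L := Ψ.range)
    (fun g hg => hL g (.inl (hX.le hg))) (gen' _ fun g hg => ?_) (hc n₀ n e₀ hl) ?_ (hH.ge hz'.1)
    (fun l hl => mem_centralizer_singleton_iff.1 (h3 hl)) (fun r hr e => hj ?_) ⟨_, rfl⟩ h4 h5 (coprime_five m)
    ?_ (by rwa [core_of_simple P, mem_bot])⟩
  · refine isTop_of_opp _ hN fun u hu h => ?_
    have h1 : j (n₀⁻¹ * u * n₀) ∈ S.R.Bor := h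
    rw [map_mul, map_mul, map_inv, e₀] at h1
    have := S.R.eq_one_of_mem_Bor_of_mem_V h1 (by simpa using S.R.conj_U_longest (S.R.isLongest_inv hl) hu)
    exact hj (by rw [map_one]; simpa [mul_assoc, inv_mul_eq_one] using this)
  · simpa [e₀] using S.conj_tor_of_neg n⁻¹ (hneg _ (S.R.isLongest_inv hl)) (hH.le hh)
  · have k1 : ∀ g, j g ∈ S.R.UJ (M.data.J 1) → g ∈ P.par {1} := fun g h => P.B_le_par _ (P.U_le (hX.ge h).1)
    refine hg.elim (k1 g) fun h => ?_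
    have k2 := mem_par_gen P.toTits (twTits_wt_sJ M.data j hj hr 1)
    have := k1 (M.data.sJ j hr 1 * g * (M.data.sJ j hr 1)⁻¹) (by
      rw [map_mul, map_mul, map_inv, M.data.j_sJ]
      exact S.R.conj_VJ_longest (M.data.π_nJ 1 ▸ M.data.longest 1) h)
    rwa [mul_mem_cancel_right (inv_mem k2), mul_mem_cancel_left k2] at this
  · simpa using hc n₀⁻¹ n⁻¹ (by simp [e₀]) (S.R.isLongest_inv hl)
  · rw [map_one]
    refine h2 _ ⟨?_, hfix r⟩ (e.map j)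
    exact (radJ_eq S _).le ((twSplit_R M.data j hj _ (sys_hQ S) 2 (sys_pU S 2) (sys_hH S 2) {1}).le hr)
  · rintro _ ⟨l, rfl⟩
    obtain ⟨a, b, e⟩ := Suz.two_tu l
    exact ⟨_, ⟨a, rfl⟩, _, ⟨b, rfl⟩, by simp only [e, map_mul, map_inv]⟩

end F4

end Cfsg.Agent.Chev
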