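import Mathlib
import Cfsg.Prelude.Def_Classical
import Cfsg.Agent.Class.LinearBasic
import Cfsg.Agent.Class.U.SU2
import Cfsg.Agent.S2352
import Cfsg.Agent.S2353

/-!
# Laws in classical groups
-/

set_option autoImplicit false

namespace Cfsg.Agent.Chev.Law

open Cfsg Matrix

/-- `H` embeds in `G`. -/
def Emb (H G : Type*) [Group H] [Group G] : Prop := ∃ φ : H →* G, Function.Injective φ

/-- All values of `w` are central. -/
def CLaw (w : FreeGroup ℕ) (G : Type*) [Group G] : Prop :=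
  ∀ f : ℕ → G, FreeGroup.lift f w ∈ Subgroup.center G

section
variable {G H K : Type*} [Group G] [Group H] [Group K] {w : FreeGroup ℕ}

theorem Emb.trans (h : Emb K H) (h' : Emb H G) : Emb K G := by
  obtain ⟨φ, hφ⟩ := h
  obtain ⟨ψ, hψ⟩ := h'
  exact ⟨ψ.comp φ, hψ.comp hφ⟩

theorem Emb.commutator (h : Emb H G) (hH : commutator H = ⊤) : Emb H (commutator G) := by
  obtain ⟨φ, hφ⟩ := h
  refine ⟨φ.codRestrict _ fun x => ?_, fun a b e => hφ (congrArg Subtype.val e)⟩
  have : (_root_.commutator H).map φ ≤ _root_.commutator G := by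
    rw [commutator_def, Subgroup.map_commutator]
    exact Subgroup.commutator_mono le_top le_top
  exact this ⟨x, by rw [hH]; trivial, rfl⟩

theorem map_lift (φ : H →* G) (f : ℕ → H) (w : FreeGroup ℕ) :
    φ (FreeGroup.lift f w) = FreeGroup.lift (fun n => φ (f n)) w :=
  FreeGroup.lift_unique (φ.comp (FreeGroup.lift f)) (fun n => by simp)

theorem CLaw.of_emb (h : CLaw w G) (e : Emb H G) : CLaw w H := by
  obtain ⟨φ, hφ⟩ := e
  intro f
  refine Subgroup.mem_center_iff.2 fun g => hφ ?_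
  rw [map_mul, map_mul, map_lift, Subgroup.mem_center_iff.1 (h _)]

theorem claw_iff : CLaw w G ↔ ∀ f : ℕ → G ⧸ Subgroup.center G, FreeGroup.lift f w = 1 := by
  constructor
  · intro h f
    choose g hg using fun n => QuotientGroup.mk'_surjective (Subgroup.center G) (f n)
    obtain rfl : f = fun n => QuotientGroup.mk' _ (g n) := funext fun n => (hg n).symm
    rw [← map_lift]
    exact (QuotientGroup.eq_one_iff _).2 (h g)
  · intro h f
    rw [← QuotientGroup.eq_one_iff, ← QuotientGroup.mk'_apply, map_lift, h]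

theorem CLaw.of_equiv (h : ∀ f : ℕ → H, FreeGroup.lift f w = 1) (e : H ≃* G ⧸ Subgroup.center G) :
    CLaw w G := by
  refine claw_iff.2 fun f => e.symm.injective ?_
  rw [map_one]
  exact (map_lift e.symm.toMonoidHom f w).trans (h _)

theorem card_le_of_equiv (e : H ≃* G ⧸ Subgroup.center G) {ι F : Type*} [Fintype ι] [Finite F]
    (φ : G → Matrix ι ι F) (hφ : Function.Injective φ) :
    Nat.card H ≤ Nat.card F ^ (Fintype.card ι ^ 2) := by
  have : Finite G := Finite.of_injective φ hφ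
  rw [Nat.card_congr e.toEquiv]
  refine (Nat.card_le_card_of_surjective _ (QuotientGroup.mk'_surjective _)).trans
    ((Nat.card_le_card_of_injective φ hφ).trans ?_)
  simp [Matrix, Nat.card_fun, ← pow_mul, sq]

end

theorem exists_bound (w : FreeGroup ℕ) (hw : w ≠ 1) : ∃ N : ℕ, 5 ≤ N ∧
    (∀ n, CLaw w (alternatingGroup (Fin n)) → n ≤ N) ∧
    ∀ (K : Type) [Field K] [Finite K], CLaw w (SpecialLinearGroup (Fin 2) K) → Nat.card K ≤ N := by
  obtain ⟨N₁, h₁⟩ := S2352.result w hw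
  obtain ⟨N₂, h₂⟩ := S2353.result.{0} w hw
  refine ⟨N₁ + N₂ + 5, by omega, fun n h => ?_, fun K _ _ h => ?_⟩
  · by_contra hn
    obtain ⟨f, hf⟩ := h₁ n (by omega)
    have := h f
    rw [alternatingGroup.center_eq_bot (by simp; omega)] at this
    exact hf this
  · by_contra hn
    have := Fintype.ofFinite K
    obtain ⟨f, hf⟩ := h₂ K (by rw [← Nat.card_eq_fintype_card]; omega)
    exact hf (claw_iff.1 h f)

section
variable {F : Type*} [Field F] {α β γ : Type} [Fintype α] [Fintype β] [Fintype γ] [DecidableEq α]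
  [DecidableEq β] [DecidableEq γ]

/-- Block inclusion of matrices. -/
def blk (e : α ⊕ β ≃ γ) : Matrix α α F →* Matrix γ γ F where
  toFun A := reindex e e (fromBlocks A 0 0 1)
  map_one' := by simp
  map_mul' A B := by simp [fromBlocks_multiply]

theorem blk_injective (e : α ⊕ β ≃ γ) : Function.Injective (blk (F := F) e) := fun _ _ h =>
  (fromBlocks_inj.1 ((reindex e e).injective h)).1

theorem det_blk (e : α ⊕ β ≃ γ) (A : Matrix α α F) : (blk e A).det = A.det := by
  simp [blk]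

theorem blk_mulVec_inl (e : α ⊕ β ≃ γ) (A : Matrix α α F) (v : γ → F) (i : α) :
    (blk e A *ᵥ v) (e (.inl i)) = (A *ᵥ fun i => v (e (.inl i))) i := by
  simp [blk, submatrix_mulVec_equiv, fromBlocks_mulVec, Function.comp_def]

theorem blk_mulVec_inr (e : α ⊕ β ≃ γ) (A : Matrix α α F) (v : γ → F) (i : β) :
    (blk e A *ᵥ v) (e (.inr i)) = v (e (.inr i)) := by
  simp [blk, submatrix_mulVec_equiv, fromBlocks_mulVec, Function.comp_def]

/-- Block inclusion of special linear groups. -/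
def blkSL (e : α ⊕ β ≃ γ) : SpecialLinearGroup α F →* SpecialLinearGroup γ F where
  toFun A := ⟨blk e A.1, by rw [det_blk, A.2]⟩
  map_one' := Subtype.ext (map_one _)
  map_mul' A B := Subtype.ext (map_mul _ _ _)

theorem blkSL_injective (e : α ⊕ β ≃ γ) : Function.Injective (blkSL (F := F) e) :=
  fun _ _ h => Subtype.ext (blk_injective e (congrArg Subtype.val h))

theorem emb_SL {k n : ℕ} (h : k ≤ n) :
    Emb (SpecialLinearGroup (Fin k) F) (SpecialLinearGroup (Fin n) F) := by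
  obtain ⟨j, rfl⟩ := Nat.exists_eq_add_of_le h
  exact ⟨_, blkSL_injective finSumFinEquiv⟩

theorem emb_SU {k n : ℕ} (h : k ≤ n) (q : ℕ) : Emb (SU k F q) (SU n F q) := by
  obtain ⟨j, rfl⟩ := Nat.exists_eq_add_of_le h
  refine ⟨((blkSL finSumFinEquiv).comp (SU k F q).subtype).codRestrict _ fun A u v => ?_,
    fun a b e => Subtype.ext (blkSL_injective _ (congrArg Subtype.val e))⟩
  have h1 := A.2 (fun i => u (finSumFinEquiv (.inl i))) (fun i => v (finSumFinEquiv (.inl i)))
  change hermForm _ F q (blk finSumFinEquiv A.1.1 *ᵥ u) (blk finSumFinEquiv A.1.1 *ᵥ v) = _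
  simp only [hermForm, ← finSumFinEquiv.sum_comp, Fintype.sum_sum_type, blk_mulVec_inl,
    blk_mulVec_inr]
  congr 1

theorem emb_isometry (e : α ⊕ β ≃ γ) {Q : (γ → F) → F} {Q₁ : (α → F) → F} (Q₂ : (β → F) → F)
    (h : ∀ v, Q v = Q₁ (fun i => v (e (.inl i))) + Q₂ (fun i => v (e (.inr i)))) :
    Emb (isometryGroup F Q₁) (isometryGroup F Q) := by
  refine ⟨((Units.map (blk e)).comp (isometryGroup F Q₁).subtype).codRestrict _ fun A u v => ?_,
    fun a b e => Subtype.ext (Units.map_injective (blk_injective _) (congrArg Subtype.val e))⟩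
  change Q (blk e A.1.1 *ᵥ u) = Q u
  simp only [h, blk_mulVec_inl, blk_mulVec_inr]
  congr 1
  exact A.2 _ 0

/-- Permutation matrices. -/
def altSL (F : Type*) [Field F] (α : Type) [Fintype α] [DecidableEq α] :
    alternatingGroup α →* SpecialLinearGroup α F where
  toFun σ := ⟨permMatrixHom σ.1, by
    have : Equiv.Perm.sign σ.1 = 1 := σ.2
    simp [this]⟩
  map_one' := Subtype.ext (map_one _)
  map_mul' A B := Subtype.ext (map_mul _ _ _)

theorem altSL_injective : Function.Injective (altSL F α) := by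
  refine (injective_iff_map_eq_one _).2 fun σ h => Subtype.ext (Equiv.ext fun i => ?_)
  have : σ.1⁻¹.permMatrix F (σ.1 i) i = (1 : Matrix α α F) (σ.1 i) i :=
    congrFun (congrFun (congrArg Subtype.val h) (σ.1 i)) i
  by_contra hne
  simp [Matrix.one_apply_ne (show σ.1 i ≠ i from hne), PEquiv.toMatrix_apply] at this

theorem emb_alt_SU (n q : ℕ) : Emb (alternatingGroup (Fin n)) (SU n F q) := by
  refine ⟨(altSL F (Fin n)).codRestrict _ fun σ u v => ?_,
    fun a b e => altSL_injective (congrArg Subtype.val e)⟩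
  change hermForm _ F q (σ.1⁻¹.permMatrix F *ᵥ u) (σ.1⁻¹.permMatrix F *ᵥ v) = _
  simp only [hermForm, permMatrix_mulVec]
  exact Equiv.sum_comp σ.1⁻¹ (fun i => u i * v i ^ q)

/-- The Levi embedding. -/
def levi : SpecialLinearGroup α F →* Matrix (α ⊕ α) (α ⊕ α) F where
  toFun A := fromBlocks A.1 0 0 (A⁻¹).1ᵀ
  map_one' := by simp
  map_mul' A B := by
    rw [_root_.mul_inv_rev]
    simp only [Matrix.SpecialLinearGroup.coe_mul, fromBlocks_multiply, transpose_mul, Matrix.mul_zero,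
      Matrix.zero_mul, add_zero, zero_add]

theorem levi_injective : Function.Injective (levi (F := F) (α := α)) := fun _ _ h =>
  Subtype.ext (fromBlocks_inj.1 h).1

theorem emb_Sp : Emb (SpecialLinearGroup α F) (symplecticGroup α F) := by
  refine ⟨(levi (F := F) (α := α)).codRestrict _ fun A => ?_,
    fun a b e => levi_injective (congrArg Subtype.val e)⟩
  have h : A.1 * (A⁻¹).1 = 1 := congrArg Subtype.val (mul_inv_cancel A)
  have h' : (A⁻¹).1ᵀ * A.1ᵀ = 1 := by rw [← transpose_mul, h, transpose_one]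
  rw [SymplecticGroup.mem_iff]
  change fromBlocks A.1 0 0 (A⁻¹).1ᵀ * _ * (fromBlocks A.1 0 0 (A⁻¹).1ᵀ)ᵀ = _
  generalize (A⁻¹).1 = B at h h'
  simp [Matrix.J, fromBlocks_transpose, fromBlocks_multiply, h, h']

theorem emb_plus (k : ℕ) :
    Emb (SpecialLinearGroup (Fin k) F) (isometryGroup F (quadFormPlus k F)) := by
  refine ⟨levi.toHomUnits.codRestrict _ fun A u v => ?_,
    fun a b e => levi_injective (congrArg (fun x => x.1.1) e)⟩
  have h : (A⁻¹).1 * A.1 = 1 := congrArg Subtype.val (inv_mul_cancel A)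
  change quadFormPlus k F (fromBlocks A.1 0 0 (A⁻¹).1ᵀ *ᵥ u) = quadFormPlus k F u
  generalize (A⁻¹).1 = B at h
  change ((fromBlocks A.1 0 0 Bᵀ *ᵥ u) ∘ Sum.inl) ⬝ᵥ ((fromBlocks A.1 0 0 Bᵀ *ᵥ u) ∘ Sum.inr) =
    (u ∘ Sum.inl) ⬝ᵥ (u ∘ Sum.inr)
  rw [fromBlocks_mulVec, Sum.elim_comp_inl, Sum.elim_comp_inr, zero_mulVec, zero_mulVec, add_zero,
    zero_add, mulVec_transpose, dotProduct_comm, ← dotProduct_mulVec, mulVec_mulVec, h, one_mulVec,
    dotProduct_comm]

theorem emb_odd (k : ℕ) :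
    Emb (SpecialLinearGroup (Fin k) F) (isometryGroup F (quadFormOdd k F)) :=
  (emb_plus k).trans (emb_isometry (Equiv.sumComm _ _) (fun v => v () ^ 2) fun v => by
    simp [quadFormOdd, quadFormPlus, add_comm])

theorem emb_minus (k : ℕ) (a b : F) :
    Emb (SpecialLinearGroup (Fin k) F) (isometryGroup F (quadFormMinus k F a b)) :=
  (emb_plus k).trans (emb_isometry (Equiv.refl _)
    (fun v => v 0 ^ 2 + a * v 0 * v 1 + b * v 1 ^ 2) fun _ => rfl)

end

theorem pow_bound {a b d N : ℕ} (hN : 5 ≤ N) (h : a ≤ b ^ d ^ 2) (hb : b ≤ N ^ 2)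
    (hd : d ≤ 2 * N + 2) : a ≤ (N ^ 2) ^ (2 * N + 2) ^ 2 :=
  h.trans ((Nat.pow_le_pow_left hb _).trans
    (Nat.pow_le_pow_right (by positivity) (Nat.pow_le_pow_left hd _)))

theorem card_le (w : FreeGroup ℕ) (hw : w ≠ 1) : ∃ N : ℕ, ∀ (G : Type*) [Group G],
    (IsAlternating G ∨ IsPSL G ∨ IsPSp G ∨ IsPSU G ∨ IsPOmegaOdd G ∨ IsPOmegaPlus G ∨
      IsPOmegaMinus G) → (∀ f : ℕ → G, FreeGroup.lift f w = 1) → Nat.card G ≤ N := by
  obtain ⟨N, hN, h₁, h₂⟩ := exists_bound w hw
  have hSL : ∀ (F : Type) [Field F] [Fintype F] (k : ℕ), 2 ≤ k →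
      CLaw w (SpecialLinearGroup (Fin k) F) → k ≤ N ∧ Nat.card F ≤ N ^ 2 := fun F _ _ k hk h =>
    ⟨h₁ k (h.of_emb ⟨_, altSL_injective⟩), (h₂ F (h.of_emb (emb_SL hk))).trans (by nlinarith)⟩
  have hO : ∀ (F : Type) [Field F] [Fintype F] (k : ℕ) (ι : Type) [Fintype ι] [DecidableEq ι]
      (Q : (ι → F) → F) (G : Type _) [Group G], 3 ≤ k → Fintype.card ι ≤ 2 * k + 2 →
      Emb (SpecialLinearGroup (Fin k) F) (isometryGroup F Q) → Nonempty (G ≃* POmega F Q) →
      (∀ f : ℕ → G, FreeGroup.lift f w = 1) → Nat.card G ≤ (N ^ 2) ^ (2 * N + 2) ^ 2 := by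
    rintro F _ _ k ι _ _ Q G _ hk hι he ⟨e⟩ h
    obtain ⟨k1, k2⟩ := hSL F k (by omega) ((CLaw.of_equiv h e).of_emb
      (he.commutator (Class.SL_commutator_eq_top (by simpa using hk))))
    exact pow_bound hN (card_le_of_equiv e (fun x => x.1.1.1) fun a b h =>
      Subtype.ext (Subtype.ext (Units.ext h))) k2 (by omega)
  refine ⟨N.factorial + (N ^ 2) ^ (2 * N + 2) ^ 2, fun G _ hG h => ?_⟩
  rcases hG with ⟨n, hn, ⟨e⟩⟩ | hG
  · have k1 := h₁ n fun f => by
      rw [← e.apply_symm_apply (FreeGroup.lift f w)]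
      rw [show e.symm (FreeGroup.lift f w) = 1 from (map_lift e.symm.toMonoidHom f w).trans (h _),
        map_one]
      exact one_mem _
    rw [Nat.card_congr e.toEquiv]
    refine le_add_right ((Nat.card_le_card_of_injective _ Subtype.val_injective).trans ?_)
    simpa [Fintype.card_perm] using Nat.factorial_le k1
  refine le_add_left ?_
  rcases hG with ⟨F, _, _, n, hn, -, ⟨e⟩⟩ | ⟨F, _, _, n, hn, -, ⟨e⟩⟩ | ⟨F, _, _, n, q, hq, hn, -, ⟨e⟩⟩ |
    ⟨F, _, _, n, hn, -, e⟩ | ⟨F, _, _, n, hn, e⟩ | ⟨F, _, _, n, a, b, hn, -, e⟩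
  · obtain ⟨k1, k2⟩ := hSL F n hn (CLaw.of_equiv h e)
    exact pow_bound hN (card_le_of_equiv e _ Subtype.val_injective) k2 (by simp; omega)
  · obtain ⟨k1, k2⟩ := hSL F n hn ((CLaw.of_equiv h e).of_emb emb_Sp)
    exact pow_bound hN (card_le_of_equiv e _ Subtype.val_injective) k2 (by simp; omega)
  · have hU := Class.U.UF.of_card hq
    obtain ⟨p, k, hp, -, rfl, hk⟩ := Class.U.exists_prime_pow F q
    have := Fact.mk hp
    have hK := GaloisField.card p k hk.ne'
    obtain ⟨e'⟩ := Class.U.nonempty_SU2_equiv (F := F) hK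
    have k0 := CLaw.of_equiv h e
    have k1 := h₁ n (k0.of_emb (emb_alt_SU _ _))
    have k2 := h₂ _ ((k0.of_emb (emb_SU (show 2 ≤ n by omega) _)).of_emb
      ⟨e'.symm.toMonoidHom, e'.symm.injective⟩)
    refine pow_bound hN (card_le_of_equiv e (fun x => x.1.1) fun a b h =>
      Subtype.ext (Subtype.ext h)) ?_ (by simp; omega)
    rw [Nat.card_eq_fintype_card, hq, ← hK]
    exact Nat.pow_le_pow_left k2 2
  · exact hO F n _ _ G hn (by simp; omega) (emb_odd n) e h
  · exact hO F n _ _ G (by omega) (by simp; omega) (emb_plus n) e h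
  · exact hO F (n - 1) _ _ G (by omega) (by simp; omega) (emb_minus _ a b) e h

end Cfsg.Agent.Chev.Law
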