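import Mathlib
import Cfsg.Agent.Chev.MinDegTw3

/-!
Counting lemmas for root systems of type `G₂`.
-/

set_option autoImplicit false

namespace Cfsg.Agent.Chev.MD

open Module Cfsg.Lie

section Lin

variable {G : Type*} [Group G] {V : Type*} [AddCommGroup V] [Module ℂ V]
  {ρ : Representation ℂ G V} {F : Type*} [Field F] [Fintype F] {ψ : AddChar F ℂ} {x : F → G}

theorem finrank_eq_sum [FiniteDimensional ℂ V] (hψ : ψ.IsPrimitive)
    (hx : ∀ t u, x (t + u) = x t * x u) (hx0 : x 0 = 1) {W : Submodule ℂ V}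
    (hW : ∀ t, Pres ρ W (x t)) : finrank ℂ W = ∑ c, finrank ℂ ↥(W ⊓ Eig ρ ψ x c) := by
  classical
  refine le_antisymm ?_ (sum_finrank_le hψ W)
  let Φ : (∀ c : F, ↥(W ⊓ Eig ρ ψ x c)) →ₗ[ℂ] W :=
    ∑ c : F, (Submodule.inclusion inf_le_left) ∘ₗ LinearMap.proj c
  have hΦ : ∀ f, (Φ f : V) = ∑ c : F, (f c : V) := fun f => by
    simp [Φ, LinearMap.sum_apply]
  have hs : Function.Surjective Φ := fun w =>
    ⟨fun c => ⟨proj ρ ψ x c w, proj_mem_of_pres hW c w.2, proj_mem hx c _⟩,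
      Subtype.ext ((hΦ _).trans (sum_proj hψ hx0 _))⟩
  have := LinearMap.finrank_le_finrank_of_surjective hs
  rwa [finrank_pi_fintype] at this

theorem exists_eig (hψ : ψ.IsPrimitive) (hx : ∀ t u, x (t + u) = x t * x u) (hx0 : x 0 = 1)
    {W : Submodule ℂ V} (hW : ∀ t, Pres ρ W (x t)) (h : W ≠ ⊥) :
    ∃ c, ∃ v ∈ W, v ≠ 0 ∧ v ∈ Eig ρ ψ x c := by
  obtain ⟨w, hw, h0⟩ := Submodule.exists_mem_ne_zero_of_ne_bot h
  by_contra! hc
  apply h0
  rw [← sum_proj (ρ := ρ) hψ hx0 w]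
  refine Finset.sum_eq_zero fun c _ => ?_
  by_contra h1
  exact hc c _ (proj_mem_of_pres hW c hw) h1 (proj_mem hx c w)

omit [Fintype F] in
theorem rho_conj (g h : G) (w : V) : ρ g (ρ h w) = ρ h (ρ (h⁻¹ * g * h) w) := by
  simp only [← rho_mul]; congr 2; group

omit [Fintype F] in
theorem rho_ne_zero (g : G) {v : V} (h : v ≠ 0) : ρ g v ≠ 0 := fun e =>
  h (by rw [← rho_inv_self ρ g v, e, map_zero])

omit [Fintype F] in
theorem mem_Eig_conj {x' : F → G} {h : G} {l c : F} (e : ∀ t, h⁻¹ * x t * h = x' (l * t)) {v : V}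
    (hv : v ∈ Eig ρ ψ x' c) : ρ h v ∈ Eig ρ ψ x (c * l) := fun t => by
  rw [rho_conj, e, hv, map_smul, mul_assoc]

theorem mem_FixS_conj {A B : Subgroup G} {h : G} (e : ∀ y ∈ A, h⁻¹ * y * h ∈ B) {v : V}
    (hv : v ∈ FixS ρ B) : ρ h v ∈ FixS ρ A := fun y hy => by
  rw [rho_conj, hv _ (e y hy)]

end Lin

namespace HeisSys

variable {G : Type*} [Group G] {F : Type*} [Field F] {Φ L : Type*} [AddCommGroup L]
  {R : HeisSys G F Φ L} {V : Type*} [AddCommGroup V] [Module ℂ V] {ρ : Representation ℂ G V}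
  {ψ : AddChar F ℂ}

theorem FixS_eq_Eig {a : Φ} (ha : R.long a) : FixS ρ (R.X a) = Eig ρ ψ (R.x a) 0 := by
  ext v
  refine ⟨fun hv t => by rw [hv _ (R.x_mem ha t)]; simp, fun hv y hy => ?_⟩
  obtain ⟨t, rfl⟩ := (R.mem_X a ha y).mp hy
  simpa using hv t

theorem Fix_insert (κ : Φ) (K : Set Φ) : R.Fix ρ (insert κ K) = FixS ρ (R.X κ) ⊓ R.Fix ρ K := by
  ext v
  simp only [Submodule.mem_inf, mem_Fix, Set.mem_insert_iff, forall_eq_or_imp]

theorem Fix_singleton (κ : Φ) : R.Fix ρ {κ} = FixS ρ (R.X κ) := by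
  ext v
  simp only [mem_Fix, Set.mem_singleton_iff, forall_eq]

theorem commute_of_co {a b : Φ} (ha : R.long a) (hab : R.co a (R.vec b) = 1) {y z : G}
    (hy : y ∈ R.X a) (hz : z ∈ R.X b) : Commute y z := by
  have := R.comm a b (fun h => by
    have := congrArg (R.co a) h
    rw [map_add, R.co_self a ha, hab, map_zero] at this
    omega) _ hy _ hz ⊥ fun k i j hi hj e => by
      have := congrArg (R.co a) e
      rw [map_add, map_nsmul, map_nsmul, R.co_self a ha, hab] at this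
      have h2 := R.co_le_two ha k
      simp only [nsmul_eq_mul] at this
      omega
  rw [Subgroup.mem_bot] at this
  calc y * z = z * y * (y⁻¹ * z⁻¹ * y * z) := by group
    _ = _ := by rw [this, mul_one]

variable [Finite G] [FiniteDimensional ℂ V] [Fintype F] (hψ : ψ.IsPrimitive)
include hψ

/-- The dimension in terms of the fixed space of two commuting long root subgroups. -/
theorem finrank_eq_two {θ α : Φ} (hθ : R.long θ) (hα : R.long α) (h1 : R.co α (R.vec θ) = 1)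
    (hq : Nat.card (R.X θ) = Fintype.card F) {N : ℕ}
    (hm : ∀ a, R.long a → ∀ c, c ≠ 0 → finrank ℂ (Eig ρ ψ (R.x a) c) = N) :
    Fintype.card F * finrank ℂ V = (Fintype.card F - 1) * (Fintype.card F * N + N) +
      Fintype.card F * finrank ℂ (R.Fix ρ {θ, α}) := by
  classical
  have e1 := finrank_eq_sum (ρ := ρ) hψ (R.x_add θ hθ) (R.x_zero hθ) (W := ⊤) fun _ _ _ => trivial
  have e2 := finrank_eq_sum (ρ := ρ) hψ (R.x_add α hα) (R.x_zero hα) (W := FixS ρ (R.X θ))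
    fun t v hv => mem_FixS_conj (fun y hy => by
      rwa [mul_assoc, ← (commute_of_co hα h1 (R.x_mem hα t) hy).eq, inv_mul_cancel_left]) hv
  rw [← Finset.add_sum_erase _ _ (Finset.mem_univ (0 : F))] at e1 e2
  rw [finrank_top, top_inf_eq, ← FixS_eq_Eig hθ, Finset.sum_congr rfl (g := fun _ => N)
    fun c hc => by rw [top_inf_eq, hm θ hθ c (Finset.mem_erase.mp hc).1]] at e1
  have e3 : ∀ c ∈ Finset.univ.erase (0 : F),
      Fintype.card F * finrank ℂ ↥(FixS ρ (R.X θ) ⊓ Eig ρ ψ (R.x α) c) = N := fun c hc => by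
    have := finrank_Y_union (ρ := ρ) hψ hα (Finset.mem_erase.mp hc).1 (K₀ := ∅) {θ}
      (by simpa using ⟨h1, R.dual_ne α hα θ h1⟩) (by simp)
    rw [Y_empty, hm α hα c (Finset.mem_erase.mp hc).1, Finset.prod_singleton, hq, Set.empty_union,
      Finset.coe_singleton, Y, Fix_singleton, inf_comm] at this
    exact this.symm
  rw [e1, e2, Fix_insert, Fix_singleton, FixS_eq_Eig (ψ := ψ) hα, mul_add, mul_add, Finset.mul_sum,
    Finset.sum_congr rfl e3]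
  simp only [Finset.sum_const, Finset.card_erase_of_mem (Finset.mem_univ _), Finset.card_univ,
    smul_eq_mul]
  ring

variable [Fintype Φ] {N : ℕ}
  (hN : ∀ a, R.long a →
    ∏ β ∈ Finset.univ.filter (fun β => R.co a (R.vec β) = 1), Nat.card (R.X β) = N ^ 2)
include hN

omit [Fintype F] in
theorem finrank_axis {a C : Φ} (ha : R.long a) (h1 : R.co C (R.vec a) = 1) {c : F} (hc : c ≠ 0)
    (hm : finrank ℂ (Eig ρ ψ (R.x a) c) = N) :
    finrank ℂ (R.Y ρ ψ a c {β | R.co a (R.vec β) = 1 ∧ 1 ≤ R.co C (R.vec β)}) = 1 :=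
  finrank_Y_eq_one (ρ := ρ) hψ hN ha hc hm (fun β hβ => hβ.1) fun β hβ => by
    simp only [Set.mem_ofPred_eq, hβ, true_and, R.dual_vec a ha β hβ, map_sub, h1,
      R.co_self a ha]
    omega

omit hψ hN [Finite G] [FiniteDimensional ℂ V] [Fintype F] [Fintype Φ] in
theorem pres_axis {a C : Φ} (ha : R.long a) (hC : R.long C) (h1 : R.co C (R.vec a) = 1)
    (h2 : R.co a (R.vec C) = 1) (c : F) {b : Φ} (hb : R.co C (R.vec b) = 1) {y : G}
    (hy : y ∈ R.X b) :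
    Pres ρ (R.Y ρ ψ a c {β | R.co a (R.vec β) = 1 ∧ 1 ≤ R.co C (R.vec β)}) y := by
  refine pres_Y ha (fun κ hκ => ?_) hy
  have h3 : 1 ≤ R.co C (R.vec κ) := by
    rcases hκ with rfl | hκ
    exacts [h1.ge, hκ.2]
  refine ⟨fun h => ?_, fun k i j hi hj e => ?_⟩
  · have := congrArg (R.co C) h
    rw [map_add, hb, map_zero] at this
    omega
  · have := congrArg (R.co C) e
    rw [map_add, map_nsmul, map_nsmul, hb] at this
    simp only [nsmul_eq_mul] at this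
    rw [R.eq_of_two_le hC (c := k) (by nlinarith)]
    exact Y_le_FixS ⟨h2, by rw [R.co_self C hC]; omega⟩

/-- The bound for the triality groups. -/
theorem cubic_bound {θ α β : Φ} (hθ : R.long θ) (hα : R.long α) (hβ : R.long β)
    (h1 : R.co α (R.vec θ) = 1) (h2 : R.co θ (R.vec α) = 1) (h3 : R.co β (R.vec θ) = 1)
    (h4 : R.co θ (R.vec β) = 1) (hq : Nat.card (R.X θ) = Fintype.card F)
    (hm : ∀ a, R.long a → ∀ c, c ≠ 0 → finrank ℂ (Eig ρ ψ (R.x a) c) = N)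
    (tor : ∀ g, ¬ R.long g → ∃ h : G, (∀ c, ∀ y ∈ R.X c, h⁻¹ * y * h ∈ R.X c) ∧
      (∀ t, h⁻¹ * R.x β t * h = R.x β t) ∧ ∀ z ∈ R.X g, ∃ y ∈ R.X g, z = y⁻¹ * h⁻¹ * y * h)
    (cub : ∀ κ : F, ∃ y : G, (∀ t, Commute (R.x θ t) y) ∧ (∀ t, Commute (R.x α t) y) ∧
      ∀ t, ∀ M : Subgroup G, R.X θ ≤ M → (∀ g, ¬ R.long g → R.co θ (R.vec g) = 1 → R.X g ≤ M) →
        (R.x β t)⁻¹ * (y⁻¹ * R.x β t * y) * (R.x α (κ * t))⁻¹ ∈ M)
    (sc : ∀ l : F, l ≠ 0 → ∃ h : G, (∀ t, h⁻¹ * R.x θ t * h = R.x θ (l ^ 2 * t)) ∧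
      (∀ t, h⁻¹ * R.x α t * h = R.x α (l * t)) ∧ ∀ t, h⁻¹ * R.x β t * h = R.x β (l * t)) :
    (Fintype.card F - 1) * (Fintype.card F * N + N + Fintype.card F) ≤
      Fintype.card F * finrank ℂ V := by
  classical
  have key : ∀ {α β : Φ}, R.long α → R.long β → R.co α (R.vec θ) = 1 →
      (∀ l : F, l ≠ 0 → ∃ h : G, (∀ t, h⁻¹ * R.x θ t * h = R.x θ (l ^ 2 * t)) ∧
        (∀ t, h⁻¹ * R.x α t * h = R.x α (l * t)) ∧ ∀ t, h⁻¹ * R.x β t * h = R.x β (l * t)) →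
      ∀ c, c ≠ 0 → ∀ v, v ≠ 0 → v ∈ Eig ρ ψ (R.x θ) 0 → v ∈ Eig ρ ψ (R.x α) 0 →
      v ∈ Eig ρ ψ (R.x β) c → (Fintype.card F - 1) * (Fintype.card F * N + N + Fintype.card F) ≤
        Fintype.card F * finrank ℂ V := by
    intro α β hα hβ h1 sc c hc v h0 v1 v2 v3
    rw [finrank_eq_two hψ hθ hα h1 hq hm, mul_add (_ - 1) _ (Fintype.card F), mul_comm (_ - 1)
      (Fintype.card F)]
    refine Nat.add_le_add_left (Nat.mul_le_mul_left _ ?_) _
    refine le_trans ?_ (sum_finrank_le (ρ := ρ) (x := R.x β) hψ _)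
    rw [← Finset.add_sum_erase _ _ (Finset.mem_univ (0 : F)), ← Finset.card_univ,
      ← Finset.card_erase_of_mem (Finset.mem_univ (0 : F)), Finset.card_eq_sum_ones]
    refine le_add_left (Finset.sum_le_sum fun d hd => ?_)
    obtain ⟨h, e1, e2, e3⟩ := sc (d / c) (div_ne_zero (Finset.mem_erase.mp hd).1 hc)
    rw [Nat.succ_le_iff, finrank_pos_iff_exists_ne_zero]
    refine ⟨⟨ρ h v, ?_, ?_⟩, fun e => rho_ne_zero h h0 (congrArg Subtype.val e)⟩
    · rw [Fix_insert, Fix_singleton, FixS_eq_Eig (ψ := ψ) hθ, FixS_eq_Eig (ψ := ψ) hα]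
      exact ⟨by simpa using mem_Eig_conj e1 v1, by simpa using mem_Eig_conj e2 v2⟩
    · have := mem_Eig_conj e3 v3
      rwa [mul_div_cancel₀ _ hc] at this
  have hl := finrank_axis (ρ := ρ) hψ hN hβ h4 one_ne_zero (hm β hβ 1 one_ne_zero)
  have hp := fun b => pres_axis (ρ := ρ) (ψ := ψ) hβ hθ h4 h3 1 (b := b)
  obtain ⟨μ, v, hv, h0, v2⟩ := exists_eig hψ (R.x_add α hα) (R.x_zero hα)
    (fun t => hp α h2 (R.x_mem hα t)) (fun e => by rw [e, finrank_bot] at hl; omega)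
  have v1 : v ∈ FixS ρ (R.X θ) := Y_le_FixS (by exact ⟨h3, by rw [R.co_self θ hθ]; omega⟩) hv
  by_cases hμ : μ = 0
  · exact key hα hβ h1 sc 1 one_ne_zero v h0 (by rwa [← FixS_eq_Eig hθ]) (hμ ▸ v2) hv.1
  obtain ⟨y, c1, c2, c3⟩ := cub (-μ⁻¹)
  refine key hβ hα h3 (fun l hl => (sc l hl).imp fun h e => ⟨e.1, e.2.2, e.2.1⟩) μ hμ (ρ y v)
    (rho_ne_zero y h0) ?_ (fun t => ?_) ?_
  · rw [FixS_eq_Eig (ψ := ψ) hθ] at v1
    simpa using mem_Eig_conj (l := 1) (fun t => by rw [mul_assoc, (c1 t).eq]; simp) v1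
  · have := c3 t (stab ρ v) (mem_FixS_iff.mp v1) fun g hg hg' z hz => by
      obtain ⟨h, e1, e2, e3⟩ := tor g hg
      obtain ⟨y, hy, rfl⟩ := e3 z hz
      refine comm_fix_of_line hl.le (hp g hg' hy) (fun w hw => ⟨?_, mem_Fix.mpr fun κ hκ =>
        mem_FixS_conj (e1 κ) (mem_Fix.mp hw.2 κ hκ)⟩) hv
      simpa using mem_Eig_conj (l := 1) (fun t => by rw [e2, one_mul]) hw.1
    rw [mem_stab] at this
    rw [rho_conj, show y⁻¹ * R.x β t * y = R.x β t * ((R.x β t)⁻¹ * (y⁻¹ * R.x β t * y) *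
      (R.x α (-μ⁻¹ * t))⁻¹) * R.x α (-μ⁻¹ * t) by group, rho_mul, v2, map_smul, rho_mul, this,
      hv.1, smul_smul, ← AddChar.map_add_eq_mul, map_smul]
    congr 2
    field_simp
    ring
  · simpa using mem_Eig_conj (l := 1) (fun t => by rw [mul_assoc, (c2 t).eq]; simp) v2

end HeisSys

namespace TwSys

variable {D : ChevalleyDatum} [hG : Good D] {K : Type*} [Field K] {G : Type*} [Group G]
  {x : ℕ → K → G} (S : TwSys D x) {G' : Type*} [Group G'] {j : G' →* G}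
  (hj : Function.Injective j) (hr : ∀ g, g ∈ j.range ↔ S.σ g = g) (h : IsSt0 D x) {T : RootTable D}
  (hn : IsND x T)
include hj hr h hn

theorem mem_of_rad {C : Rt D} (hC : S.ρ C = C) {g : G'}
    (hg : j g ∈ XS x {k | ∃ r : Rt D, (r : ℕ) = k ∧ S.ρ r ≠ r ∧ A C r = 1}) {M : Subgroup G'}
    (h1 : S.X j (S.cls C) ≤ M) (h2 : ∀ b, ¬ (S.heis hj hr h hn).long b →
      (S.heis hj hr h hn).co (S.cls C) ((S.heis hj hr h hn).vec b) = 1 → S.X j b ≤ M) : g ∈ M := by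
  classical
  let Z : Finset (Rt D) := Finset.univ.filter fun r => r = C ∨ (S.ρ r ≠ r ∧ A C r = 1)
  have hZ : ∀ r, r ∈ Z ↔ r = C ∨ (S.ρ r ≠ r ∧ A C r = 1) := fun r => by simp [Z]
  have hA : ∀ r ∈ Z, 1 ≤ A C r := fun r hr' => by
    rcases (hZ r).mp hr' with rfl | h3
    · rw [A_self]; omega
    · exact h3.2.ge
  have := S.mem_of_fix h hn (cor C).toAddMonoidHom
    (fun r s e => by simpa using S.A_fib C r s hC e) (M := M.map j) Z
    (fun r hr' => by simpa using lt_of_lt_of_le one_pos (hA r hr')) (fun r hr' s e => ?_)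
    (fun r hr' s hs k i i' hi hi' e => ?_) (fun r hr' u hu hσ => ?_) _
    (XS_mono (by rintro _ ⟨r, rfl, hr'⟩; exact ⟨r, (hZ r).mpr (.inr hr'), rfl⟩) hg) (S.σ_j hr g)
  · obtain ⟨w, hw, e⟩ := this
    rwa [← hj e]
  · rcases (hZ r).mp hr' with rfl | h3
    · exact (hZ s).mpr (.inl (S.eq_of_fix _ _ hC e))
    · exact (hZ s).mpr (.inr ⟨fun e' => h3.1 ((S.fix_iff e).mp e'), by rw [S.A_fib C _ _ hC e, h3.2]⟩)
  · refine (hZ k).mpr (.inl ?_)
    by_contra hk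
    have h3 := (S.sl C).A_le S.hlen hk
    rw [← cor_v, e, map_add, map_nsmul, map_nsmul, cor_v, cor_v, nsmul_eq_mul, nsmul_eq_mul] at h3
    have := hA r hr'
    have := hA s hs
    nlinarith
  · obtain ⟨w, rfl⟩ := (hr u).mpr hσ
    refine ⟨w, ?_, rfl⟩
    rcases (hZ r).mp hr' with rfl | h3
    · exact h1 hu
    · exact h2 _ (fun e => h3.1 (S.long_cls.mp e)) (by rw [S.heis_co_cls hj hr h hn hC, h3.2]) hu

omit h hn in
theorem exists_scale (h : IsSt D x) (T : RootTable D) {C : Rt D} (hC : S.ρ C = C) {l : S.F} (hl : l ≠ 0) :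
    ∃ k : G', ∀ a, S.ρ a = a → ∀ t, k⁻¹ * S.xx j (S.cls a) t * k = S.xx j (S.cls a) (l ^ A C a * t) := by
  have hl' : (l : K) ≠ 0 := fun e => hl (Subtype.ext e)
  obtain ⟨k, hk⟩ := (hr (hh D x C l)).mpr (by
    rw [hh, map_mul, S.σ_nn hC (S.mem_F.mp l.2), S.σ_nn hC (by simp)])
  refine ⟨k⁻¹, fun a ha t => hj ?_⟩
  rw [inv_inv, map_mul, map_mul, map_inv, hk, S.j_xx hr (S.long_cls.mpr ha),
    S.j_xx hr (S.long_cls.mpr ha), S.rep_cls ha, hh_conj' h T _ _ hl', Subfield.coe_mul]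
  rfl

end TwSys

theorem exists_norm_three {K : Type*} [Field K] [Fintype K] {q : ℕ} (hK : Fintype.card K = q ^ 3)
    {c : K} (hc : c ^ q = c) : ∃ s : K, s * s ^ q * (s ^ q) ^ q = c := by
  have h2 : 2 ≤ q := by
    by_contra h
    have := Fintype.one_lt_card (α := K)
    have : q = 0 ∨ q = 1 := by omega
    rcases this with rfl | rfl <;> simp_all
  by_cases h0 : c = 0
  · exact ⟨0, by simp [h0]⟩
  obtain ⟨g, hg⟩ := IsCyclic.exists_generator (α := Kˣ)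
  have ho := orderOf_eq_card_of_forall_mem_zpowers hg
  obtain ⟨k, hk⟩ := mem_powers_iff_mem_zpowers.mpr (hg (Units.mk0 c h0))
  have hk' : (g : K) ^ k = c := by rw [← Units.val_pow_eq_pow_val]; exact congrArg Units.val hk
  obtain ⟨r, rfl⟩ : ∃ r, q = r + 1 := ⟨q - 1, by omega⟩
  have h1 : g ^ (k * r) = 1 := by
    rw [pow_succ, mul_eq_right₀ h0] at hc
    exact Units.ext (by rw [Units.val_pow_eq_pow_val, pow_mul, hk', hc]; rfl)
  rw [← orderOf_dvd_iff_pow_eq_one, ho, Nat.card_units, Nat.card_eq_fintype_card, hK,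
    show (r + 1) ^ 3 - 1 = (1 + (r + 1) + (r + 1) * (r + 1)) * r from Nat.sub_eq_of_eq_add (by ring),
    Nat.mul_dvd_mul_iff_right (by omega)] at h1
  obtain ⟨m, rfl⟩ := h1
  exact ⟨g ^ m, by rw [← hk']; ring⟩

end Cfsg.Agent.Chev.MD
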