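import Mathlib
import Cfsg.Agent.Chev.MinDegG
import Cfsg.Agent.Char.Values

/-!
Linear algebra for the minimal degrees of `G₂(q)`.
-/

set_option autoImplicit false

namespace Cfsg.Agent.Chev.MD

open Module

theorem card_filter_eval_le {F : Type*} [Field F] [Fintype F] [DecidableEq F] (P : Polynomial F)
    (h : 0 < P.natDegree) (b : F) :
    (Finset.univ.filter fun t => P.eval t = b).card ≤ P.natDegree := by
  have h1 : (P - Polynomial.C b).natDegree = P.natDegree := Polynomial.natDegree_sub_C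
  have h0 : P - Polynomial.C b ≠ 0 := fun e => by rw [e] at h1; simp at h1; omega
  refine le_trans (Finset.card_le_card fun t ht => ?_) ((Multiset.toFinset_card_le _).trans
    ((Polynomial.card_roots' (P - Polynomial.C b)).trans h1.le))
  simpa [h0, sub_eq_zero] using ht

theorem orderOf_dvd_sum {Γ : Type*} [Group Γ] [Fintype Γ] (k : Γ) (f : Γ → ℕ)
    (hf : ∀ g, f (g * k) = f g) : orderOf k ∣ ∑ g, f g := by
  classical
  have h1 : ∀ g, ∀ h ∈ Subgroup.zpowers k, f (g * h) = f g := by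
    intro g h hh
    obtain ⟨n, rfl⟩ := mem_powers_iff_mem_zpowers.mpr hh
    induction n with
    | zero => simp
    | succ n ih => simp only [pow_succ, ← mul_assoc, hf]; exact ih (Subgroup.npow_mem_zpowers _ _)
  have hb : Function.Bijective fun p : (Γ ⧸ Subgroup.zpowers k) × Subgroup.zpowers k =>
      p.1.out * (p.2 : Γ) := by
    rw [Nat.bijective_iff_injective_and_card, Nat.card_prod,
      ← Subgroup.card_eq_card_quotient_mul_card_subgroup]
    refine ⟨fun p p' e => ?_, rfl⟩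
    have e1 : p.1 = p'.1 := by
      have := congrArg (QuotientGroup.mk (s := Subgroup.zpowers k)) e
      simpa using this
    refine Prod.ext e1 (Subtype.ext ?_)
    simp only [e1] at e
    exact mul_left_cancel e
  rw [← Fintype.sum_bijective _ hb (fun p => f p.1.out) f fun p => (h1 _ _ p.2.2).symm,
    Fintype.sum_prod_type, ← Fintype.card_zpowers]
  exact Finset.dvd_sum fun a _ => by simp

theorem sum_erase_eq_sum_units {F : Type*} [Field F] [Fintype F] [DecidableEq F] (f : F → ℕ) :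
    ∑ c ∈ Finset.univ.erase 0, f c = ∑ c : Fˣ, f c := by
  symm
  exact Finset.sum_bij (fun (c : Fˣ) _ => (c : F)) (fun c _ => by simp) (fun _ _ _ _ e => Units.ext e)
    (fun c hc => ⟨Units.mk0 c (Finset.mem_erase.mp hc).1, by simp, rfl⟩) fun _ _ => rfl

theorem sum_erase_const {F : Type*} [Field F] [Fintype F] [DecidableEq F] {f : F → ℕ} {m : ℕ}
    (h : ∀ c, c ≠ 0 → f c = m) : ∑ c, f c = (Fintype.card F - 1) * m + f 0 := by
  rw [← Finset.add_sum_erase _ _ (Finset.mem_univ (0 : F)), Finset.sum_congr rfl (g := fun _ => m)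
    fun c hc => h c (Finset.mem_erase.mp hc).1]
  simp [add_comm]

theorem le_sum_erase {F : Type*} [Field F] [Fintype F] [DecidableEq F] {f : F → ℕ} {m : ℕ}
    (h : ∀ c, c ≠ 0 → m ≤ f c) : (Fintype.card F - 1) * m + f 0 ≤ ∑ c, f c := by
  have := sum_erase_const (f := fun c : F => if c = 0 then f 0 else m) (m := m) fun c hc => if_neg hc
  rw [if_pos rfl] at this
  rw [← this]
  refine Finset.sum_le_sum fun c _ => ?_
  split_ifs with hc
  · rw [hc]
  · exact h c hc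

variable {G : Type*} [Group G] {V : Type*} [AddCommGroup V] [Module ℂ V]
  {ρ : Representation ℂ G V} {F : Type*} [Field F] {ψ : AddChar F ℂ} {x : F → G}

theorem Pres.inf {W W' : Submodule ℂ V} {g : G} (h : Pres ρ W g) (h' : Pres ρ W' g) :
    Pres ρ (W ⊓ W') g := fun v hv => ⟨h v hv.1, h' v hv.2⟩

theorem pres_Eig {g : G} (h : ∀ t, Commute (x t) g) (c : F) : Pres ρ (Eig ρ ψ x c) g :=
  fun v hv t => by rw [← rho_mul, (h t).eq, rho_mul, hv t, map_smul]

theorem conj_of_commute {g y : G} (h : Commute y g) : g⁻¹ * y * g = y := by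
  rw [mul_assoc, h.eq, inv_mul_cancel_left]

theorem fix_of_Eig {v : V} (hv : v ∈ Eig ρ ψ x 0) (t : F) : ρ (x t) v = v := by simpa using hv t

theorem mem_Eig_shift {y : G} {c l : F} {v : V}
    (e : ∀ u, ρ (y⁻¹ * x u * y) v = ψ (l * u) • ρ (x u) v) (hv : v ∈ Eig ρ ψ x c) :
    ρ y v ∈ Eig ρ ψ x (c + l) := fun u => by
  rw [rho_conj, e, hv, smul_smul, ← AddChar.map_add_eq_mul, map_smul, add_mul, add_comm]

section Avg

variable {A : Subgroup G} [Fintype A]

theorem avg_rho_mem {r : G} (hr : r ∈ A) (v : V) : avg ρ A (ρ r v) = avg ρ A v := by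
  rw [avg_apply, avg_apply]
  congr 1
  refine Fintype.sum_equiv (Equiv.mulRight (⟨r, hr⟩ : A)) _ _ fun b => ?_
  simp

theorem avg_rho_norm {g : G} (hg : g ∈ Subgroup.normalizer (A : Set G)) (v : V) :
    avg ρ A (ρ g v) = ρ g (avg ρ A v) := by
  rw [avg_apply, avg_apply, map_smul, map_sum]
  congr 1
  refine Fintype.sum_bijective (fun a : A => (⟨g⁻¹ * a * g, conj_mem_of_mem_normalizer' hg a.2⟩ : A))
    (Finite.injective_iff_bijective.mp fun a b e => Subtype.ext (by simpa using e)) _ _ fun a => ?_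
  rw [rho_conj]

theorem pres_FixS {A : Subgroup G} {g : G} (hg : g ∈ Subgroup.normalizer (A : Set G)) :
    Pres ρ (FixS ρ A) g := fun _ hv =>
  mem_FixS_conj (fun _ hy => conj_mem_of_mem_normalizer' hg hy) hv

theorem avg_eq_zero {b : F → G} (hb : ∀ t, b t ∈ Subgroup.normalizer (A : Set G))
    (h0 : FixS ρ A ⊓ Eig ρ ψ b 0 = ⊥) {y : G} (hy : ∀ t, Commute (b t) y)
    (h : ∀ t, ∃ r ∈ A, y⁻¹ * r * y = r * b t) {a : V} (ha : a ∈ FixS ρ A) :
    avg ρ A (ρ y a) = 0 := by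
  rw [← Submodule.mem_bot ℂ, ← h0]
  refine ⟨avg_mem_FixS _, fun t => ?_⟩
  obtain ⟨r, hr, e⟩ := h t
  rw [← avg_rho_norm (hb t), ← rho_mul, (hy t).eq, rho_mul, ← pres_FixS (hb t) a ha r hr,
    ← rho_mul ρ r, ← e, ← rho_conj, avg_rho_mem hr]
  simp

theorem trace_avg [FiniteDimensional ℂ V] (y : G) :
    ∑ r : A, ρ.character (y * r) = Fintype.card A * LinearMap.trace ℂ V (ρ y ∘ₗ avg ρ A) := by
  have : (Fintype.card A : ℂ) ≠ 0 := by exact_mod_cast Fintype.card_ne_zero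
  rw [avg, LinearMap.comp_smul, map_smul, smul_eq_mul, mul_inv_cancel_left₀ this,
    ← End.mul_eq_comp, Finset.mul_sum, map_sum]
  exact Finset.sum_congr rfl fun r _ => by rw [Representation.character, map_mul]

theorem sum_trace_avg [FiniteDimensional ℂ V] [Fintype F] (hψ : ψ.IsPrimitive)
    (hx : ∀ t u, x (t + u) = x t * x u) (hb : ∀ t, x t ∈ Subgroup.normalizer (A : Set G)) :
    ∑ t, ∑ r : A, ρ.character (x t * r) =
      Fintype.card A * Fintype.card F * finrank ℂ ↥(FixS ρ A ⊓ Eig ρ ψ x 0) := by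
  classical
  have h1 : LinearMap.IsProj (FixS ρ A ⊓ Eig ρ ψ x 0) (proj ρ ψ x 0 ∘ₗ avg ρ A) :=
    ⟨fun v => ⟨proj_mem_of_pres (fun t => pres_FixS (hb t)) 0 (avg_mem_FixS _), proj_mem hx 0 _⟩,
      fun v hv => by rw [LinearMap.comp_apply, avg_of_mem hv.1, proj_of_mem hψ hv.2, if_pos rfl]⟩
  simp only [trace_avg]
  rw [← h1.trace, proj, LinearMap.smul_comp, map_smul, smul_eq_mul, mul_assoc,
    mul_inv_cancel_left₀ card_ne_zero, ← Finset.mul_sum, ← End.mul_eq_comp, Finset.sum_mul, map_sum]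
  simp [End.mul_eq_comp]

end Avg

variable [FiniteDimensional ℂ V]

theorem finrank_le_of_map (g : G) {W W' : Submodule ℂ V} (h : ∀ v ∈ W, ρ g v ∈ W') :
    finrank ℂ W ≤ finrank ℂ W' :=
  LinearMap.finrank_le_finrank_of_injective (f := (ρ g).restrict h) fun v w e => Subtype.ext (by
    rw [← rho_inv_self ρ g v.1, ← rho_inv_self ρ g w.1]
    exact congrArg (fun z : W' => ρ g⁻¹ z.1) e)

variable [Fintype F] (hψ : ψ.IsPrimitive) (hx : ∀ t u, x (t + u) = x t * x u) (hx0 : x 0 = 1)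
include hψ hx hx0

theorem finrank_eq_mul {W : Submodule ℂ V} (hW : ∀ t, Pres ρ W (x t))
    (hy : ∀ l : F, ∃ y, Pres ρ W y ∧ ∀ u, ∀ v ∈ W, ρ (y⁻¹ * x u * y) v = ψ (l * u) • ρ (x u) v)
    (c : F) : finrank ℂ W = Fintype.card F * finrank ℂ ↥(W ⊓ Eig ρ ψ x c) := by
  have key : ∀ c c', finrank ℂ ↥(W ⊓ Eig ρ ψ x c) ≤ finrank ℂ ↥(W ⊓ Eig ρ ψ x c') := fun c c' => by
    obtain ⟨y, h1, h2⟩ := hy (c' - c)
    refine finrank_le_of_map y fun v hv => ⟨h1 v hv.1, ?_⟩
    have := mem_Eig_shift (fun u => h2 u v hv.1) hv.2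
    rwa [add_sub_cancel] at this
  rw [finrank_eq_sum hψ hx hx0 hW, Finset.sum_congr rfl fun c' _ => le_antisymm (key c' c) (key c c')]
  simp

theorem card_le_of_shift [DecidableEq F] {W : Submodule ℂ V} (hW : ∀ t, Pres ρ W (x t))
    {L : F → F} {n : ℕ} (hL : ∀ b, (Finset.univ.filter fun t => L t = b).card ≤ n)
    (hy : ∀ t, ∃ y, Pres ρ W y ∧ ∀ u, ∀ v ∈ W, ρ (y⁻¹ * x u * y) v = ψ (L t * u) • ρ (x u) v)
    (h0 : W ≠ ⊥) : Fintype.card F ≤ n * finrank ℂ W := by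
  obtain ⟨c, v, hv, v0, hc⟩ := exists_eig hψ hx hx0 hW h0
  refine (Finset.card_le_mul_card_image (f := L) Finset.univ n fun b _ => hL b).trans
    (Nat.mul_le_mul_left _ ?_)
  rw [finrank_eq_sum hψ hx hx0 hW, ← Equiv.sum_comp (Equiv.addLeft c), Finset.card_eq_sum_ones]
  refine le_trans (Finset.sum_le_sum fun b hb => ?_)
    (Finset.sum_le_sum_of_subset (Finset.subset_univ _))
  obtain ⟨t, -, rfl⟩ := Finset.mem_image.mp hb
  obtain ⟨y, h1, h2⟩ := hy t
  rw [Nat.succ_le_iff, finrank_pos_iff_exists_ne_zero]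
  exact ⟨⟨ρ y v, h1 v hv, mem_Eig_shift (fun u => h2 u v hv) hc⟩,
    fun e => rho_ne_zero y v0 (congrArg Subtype.val e)⟩

theorem one_le_of_scale {W : Submodule ℂ V} (hW : ∀ t, Pres ρ W (x t))
    (hq : finrank ℂ W = Fintype.card F) {k : F} (h0 : k ≠ 0) (h1 : k ≠ 1) {h : G}
    (hh : Pres ρ W h) (hh' : Pres ρ W h⁻¹) (e : ∀ t, h⁻¹ * x t * h = x (k * t)) :
    1 ≤ finrank ℂ ↥(W ⊓ Eig ρ ψ x 0) := by
  classical
  by_contra hc
  have h2 := orderOf_dvd_sum (Units.mk0 k h0) (fun c => finrank ℂ ↥(W ⊓ Eig ρ ψ x c)) fun c => by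
    refine le_antisymm (finrank_le_of_map h⁻¹ fun v hv => ⟨hh' v hv.1, ?_⟩)
      (finrank_le_of_map h fun v hv => ⟨hh v hv.1, mem_Eig_conj e hv.2⟩)
    have := mem_Eig_conj (x := x) (h := h⁻¹) (l := k⁻¹) (fun t => by
      rw [← mul_inv_cancel_left₀ h0 t, ← e, inv_mul_cancel_left₀ h0]; group) hv.2
    simpa [h0] using this
  rw [← sum_erase_eq_sum_units (fun c => finrank ℂ ↥(W ⊓ Eig ρ ψ x c))] at h2
  have h3 := finrank_eq_sum hψ hx hx0 hW
  rw [← Finset.add_sum_erase _ _ (Finset.mem_univ (0 : F)), hq] at h3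
  have h4 := orderOf_dvd_card (x := Units.mk0 k h0)
  rw [Fintype.card_units] at h4
  have h5 : orderOf (Units.mk0 k h0) ∣ 1 := by
    have := Fintype.card_pos (α := F)
    have := Nat.dvd_sub h2 h4
    rwa [show _ - _ = 1 by omega] at this
  exact h1 (congrArg Units.val (orderOf_eq_one_iff.mp (Nat.dvd_one.mp h5)))

omit hx hx0 in
theorem finrank_add_two_le {W : Submodule ℂ V} (hl : ∀ c, 1 ≤ finrank ℂ ↥(W ⊓ Eig ρ ψ x c))
    {z : G} {w : F} (h0 : w ≠ 0) (h1 : w ≠ 1) (h2 : w * w ≠ 1) (e : ∀ t, z⁻¹ * x t * z = x (w * t))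
    (η : ℂ) : finrank ℂ ↥(End.eigenspace (ρ z) η ⊓ W) + 2 ≤ finrank ℂ W := by
  classical
  have h3 : w * w ≠ w := fun e => h1 (mul_left_cancel₀ h0 (e.trans (mul_one w).symm))
  have d1 : (W ⊓ Eig ρ ψ x 1) ⊓ (W ⊓ Eig ρ ψ x w) = ⊥ := by
    refine eq_bot_iff.mpr fun v hv => ?_
    have := proj_of_mem (c := w) hψ hv.1.2
    rwa [proj_of_mem hψ hv.2.2, if_pos rfl, if_neg h1.symm] at this
  have d2 : (End.eigenspace (ρ z) η ⊓ W) ⊓ ((W ⊓ Eig ρ ψ x 1) ⊔ (W ⊓ Eig ρ ψ x w)) = ⊥ := by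
    refine eq_bot_iff.mpr fun v hv => ?_
    obtain ⟨a, ha, b, hb, rfl⟩ := Submodule.mem_sup.mp hv.2
    have e1 := End.mem_eigenspace_iff.mp hv.1.1
    have ha' := mem_Eig_conj e ha.2
    have hb' := mem_Eig_conj e hb.2
    rw [one_mul] at ha'
    have e2 := congrArg (proj ρ ψ x (w * w)) e1
    simp only [map_add, map_smul, proj_of_mem hψ ha', proj_of_mem hψ hb', proj_of_mem hψ ha.2,
      proj_of_mem hψ hb.2, if_neg h3.symm, if_neg h2.symm, if_true, zero_add, smul_zero] at e2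
    obtain rfl : b = 0 := by by_contra h; exact rho_ne_zero z h e2
    have e3 := congrArg (proj ρ ψ x w) e1
    simp only [add_zero, map_smul, proj_of_mem hψ ha', proj_of_mem hψ ha.2, if_neg h1.symm, if_true,
      smul_zero] at e3
    obtain rfl : a = 0 := by by_contra h; exact rho_ne_zero z h e3
    simp
  have f1 := Submodule.finrank_sup_add_finrank_inf_eq (W ⊓ Eig ρ ψ x 1) (W ⊓ Eig ρ ψ x w)
  have f2 := Submodule.finrank_sup_add_finrank_inf_eq (End.eigenspace (ρ z) η ⊓ W)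
    ((W ⊓ Eig ρ ψ x 1) ⊔ (W ⊓ Eig ρ ψ x w))
  have f3 := Submodule.finrank_mono (sup_le inf_le_right (sup_le inf_le_left inf_le_left) :
    (End.eigenspace (ρ z) η ⊓ W) ⊔ ((W ⊓ Eig ρ ψ x 1) ⊔ (W ⊓ Eig ρ ψ x w)) ≤ W)
  rw [d1, finrank_bot] at f1
  rw [d2, finrank_bot] at f2
  have := hl 1
  have := hl w
  omega

end Cfsg.Agent.Chev.MD
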