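import Mathlib
import Cfsg.Agent.Chev.MinDegG2a

/-!
Minimal degrees of `G₂(q)` in characteristic different from three.
-/

set_option autoImplicit false

namespace Cfsg.Agent.Chev.MD

open Module Cfsg.Lie

section Gen

variable {D : ChevalleyDatum} {F : Type*} [Field F] {G : Type*} [Group G] {x : ℕ → F → G}

theorem sum_cells [Fintype G] [Fintype F] (h : IsSt D x) {T : RootTable D} (hn : IsND x T)
    (htop : Gs D x = ⊤) (φ : G → ℂ) (hφ : ∀ b ∈ Bs D x, ∀ b' ∈ Bs D x, ∀ g, φ (b * g * b') = φ g)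
    {M : ℂ} (hM : ∀ n w, Acts x T n w → w ≠ 1 → ∃ z, IsIntegral ℤ z ∧
      (Fintype.card F : ℂ) ^ (T.invSet w⁻¹).ncard * φ n = M * z) :
    ∃ z, IsIntegral ℤ z ∧ ∑ g, φ g = Nat.card (Bs D x) * (φ 1 + M * z) := by
  classical
  have : Fintype (BN.W (hn.bnPair h htop)) := Fintype.ofFinite _
  choose n hn' using BN.mk_surj (P := hn.bnPair h htop)
  have h1 : ∀ w, ∑ g ∈ Finset.univ.filter (fun g => BN.wt (hn.bnPair h htop) g = w), φ g =
      Nat.card (Bs D x) * ((Fintype.card F : ℂ) ^ (T.invSet (hn.piB h htop (n w))⁻¹).ncard *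
        φ (n w)) := fun w => by
    rw [Finset.sum_congr rfl (g := fun _ => φ (n w)) fun g hg => by
      have := BN.wt_eq_iff.mp (Finset.mem_filter.mp hg).2
      rw [← hn' w] at this
      obtain ⟨b, hb, b', hb', rfl⟩ := BN.mem_cell_mk.mp this
      exact hφ b hb b' hb' _]
    have := hn.card_cell_mk h htop (n w)
    rw [hn', Nat.card_eq_fintype_card (α := F), Nat.subtype_card (Finset.univ.filter fun g =>
      BN.wt (hn.bnPair h htop) g = w) (by simp [BN.wt_eq_iff])] at this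
    rw [Finset.sum_const, this, nsmul_eq_mul]
    push_cast
    ring
  have h2 : ∀ w, hn.piB h htop (n w) = hn.wEquiv h htop w := fun w => by
    rw [← hn.wEquiv_mk, hn']
  choose! z hz using fun w (hw : w ≠ 1) => hM _ _ (hn.acts_piB h htop (n w))
    (by rw [h2]; simpa using hw)
  refine ⟨∑ w ∈ Finset.univ.erase 1, z w,
    IsIntegral.sum _ fun w hw => (hz w (Finset.mem_erase.mp hw).1).1, ?_⟩
  rw [← Finset.sum_fiberwise Finset.univ (BN.wt (hn.bnPair h htop)), Finset.sum_congr rfl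
    fun w _ => h1 w, ← Finset.mul_sum, ← Finset.add_sum_erase _ _ (Finset.mem_univ 1),
    Finset.sum_congr rfl fun w hw => (hz w (Finset.mem_erase.mp hw).1).2, ← Finset.mul_sum]
  have e1 : T.invSet 1 = ∅ := Set.eq_empty_of_forall_notMem fun r hr => by
    have := hr.2
    rw [T.act_one] at this
    exact absurd hr.1.1 (not_le.mpr this)
  have e2 := hφ _ (BN.mk_eq_one_iff.mp (hn' 1)) 1 (one_mem _) 1
  rw [mul_one, mul_one] at e2
  rw [h2, map_one, inv_one, e1, e2]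
  simp

theorem sum_conj_eq_zero [Fintype G] {V : Type*} [AddCommGroup V] [Module ℂ V]
    [FiniteDimensional ℂ V] (ρ : Representation ℂ G V) [ρ.IsIrreducible] {z : G}
    (hz : ρ.character z = 0) (r : G) : ∑ g, ρ.character (g * z * g⁻¹ * r) = 0 := by
  obtain ⟨c, hc⟩ := Char.exists_eq_smul_of_commute ρ (∑ g, ρ (g * z * g⁻¹)) fun k => by
    rw [Finset.sum_mul, Finset.mul_sum]
    refine (Fintype.sum_equiv (Equiv.mulLeft k) _ _ fun g => ?_).symm
    simp only [← map_mul, Equiv.coe_mulLeft]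
    congr 1
    group
  have h1 := congrArg (LinearMap.trace ℂ V) hc
  rw [map_sum, Finset.sum_eq_zero (f := fun g => LinearMap.trace ℂ V (ρ (g * z * g⁻¹)))
    fun g _ => (ρ.char_conj z g).trans hz, map_smul,
    LinearMap.trace_one, smul_eq_mul, eq_comm, mul_eq_zero] at h1
  have h2 := Char.finrank_pos_of_isIrreducible ρ
  obtain rfl : c = 0 := h1.resolve_right (by exact_mod_cast h2.ne')
  have := congrArg (fun f => LinearMap.trace ℂ V (f * ρ r)) hc
  simpa [Finset.sum_mul, Representation.character] using this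

theorem mem_FixS_XS {V : Type*} [AddCommGroup V] [Module ℂ V] {ρ : Representation ℂ G V}
    {S : Set ℕ} {v : V} : v ∈ FixS ρ (XS x S) ↔ ∀ r ∈ S, ∀ t, ρ (x r t) v = v :=
  XS_le (K := stab ρ v)

/-- The inverse of a torus element. -/
def tr (D : ChevalleyDatum) (x : ℕ → F → G) (r : ℕ) (c : F) : G := (hh D x r c)⁻¹

end Gen

namespace G2

variable {F : Type*} [Field F] {G : Type*} [Group G] {x : ℕ → F → G} (h : IsSt chevG2 x)
include h

theorem add (r : ℕ) (hr : r < 12) (t u : F) : x r (t + u) = x r t * x r u := (h.add r hr t u).symm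

theorem zero (r : ℕ) (hr : r < 12) : x r 0 = 1 := h.x_zero hr

theorem cm {p : ℤ} (hp : (p : F) = 0) (r s : ℕ) (H : r < 12 ∧ s < 12 ∧ s ≠ chevG2.neg r ∧
    ∀ c ∈ chevG2.commTerms r s, p ∣ c.2.1) (t u : F) : Commute (x r t) (x s u) :=
  h.commute_x rootTableG2 H.1 H.2.1 H.2.2.1 (fun c hc => by
    obtain ⟨k, hk⟩ := H.2.2.2 c hc
    rw [hk, Int.cast_mul, hp, zero_mul]) t u

theorem cj (r s k : ℕ) (e : ℤ) (H : r < 12 ∧ s < 12 ∧ s ≠ r ∧ s ≠ chevG2.neg r ∧
    chevG2.commTerms r s = [(k, e, 1, 1)]) (t u : F) :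
    (x r t)⁻¹ * x s u * x r t = x s u * x k (-e * t * u) := by
  rw [h.conj_x H.1 H.2.1 H.2.2.1 H.2.2.2.1, ChevalleyDatum.commWord, H.2.2.2.2]
  simp

theorem tc (r s : ℕ) (n : ℤ) (H : r < 12 ∧ s < 12 ∧ chevG2.pairing r s = n) {c : F} (hc : c ≠ 0)
    (t : F) : (tr chevG2 x r c)⁻¹ * x s t * tr chevG2 x r c = x s (c ^ n * t) := by
  rw [tr, inv_inv, h.hh_conj rootTableG2 H.1 H.2.1 hc, H.2.2]

theorem mem_norm (r : ℕ) (H : r < 12 ∧ ∀ s ∈ [10, 11], s ≠ chevG2.neg r ∧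
    ∀ c ∈ chevG2.commTerms r s, c.1 ∈ [10, 11]) (t : F) :
    x r t ∈ Subgroup.normalizer (XS x {10, 11} : Set G) := by
  have key : ∀ t, ∀ g ∈ XS x {10, 11}, x r t * g * (x r t)⁻¹ ∈ XS x {10, 11} := fun t g hg =>
    conj_mem_of_XS (fun s hs u => by
      have hs' : s ∈ [10, 11] := by simpa using hs
      have := mul_mem (mem_XS hs u) (h.comm_x_mem rootTableG2 H.1 (s := s)
        (by rcases hs with rfl | rfl <;> decide) (H.2 s hs').1 (S := {10, 11})
        (fun c hc => .inl (by simpa using (H.2 s hs').2 c hc)) (-t) u)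
      simpa [h.x_neg H.1, mul_assoc] using this) hg
  exact Subgroup.mem_normalizer_iff.mpr fun g =>
    ⟨key t g, fun hg => by simpa [h.x_neg H.1, mul_assoc] using key (-t) _ hg⟩

variable {V : Type*} [AddCommGroup V] [Module ℂ V] {ρ : Representation ℂ G V} {ψ : AddChar F ℂ}

theorem pres_cj {r s k : ℕ} {e : ℤ} (H : r < 12 ∧ s < 12 ∧ s ≠ r ∧ s ≠ chevG2.neg r ∧
    chevG2.commTerms r s = [(k, e, 1, 1)]) (t : F) {c : F} {v : V} (hv : v ∈ Eig ρ ψ (x s) c)
    (hk : v ∈ Eig ρ ψ (x k) 0) : ρ (x r t) v ∈ Eig ρ ψ (x s) c := fun u => by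
  rw [rho_conj, cj h r s k e H, rho_mul, fix_of_Eig hk, hv, map_smul]

omit h in
theorem fix_eq : FixS ρ (XS x {10, 11}) = Eig ρ ψ (x 11) 0 ⊓ Eig ρ ψ (x 10) 0 := by
  ext v
  simp [mem_FixS_XS, mem_Eig, and_comm]

variable [FiniteDimensional ℂ V] [Fintype F] (hψ : ψ.IsPrimitive)
include hψ

theorem heis {r s k : ℕ} {e : ℤ} (H : r < 12 ∧ s < 12 ∧ s ≠ r ∧ s ≠ chevG2.neg r ∧
    chevG2.commTerms r s = [(k, e, 1, 1)]) (he : (e : F) ≠ 0) {W : Submodule ℂ V}
    (h1 : ∀ t, Pres ρ W (x r t)) (h2 : ∀ t, Pres ρ W (x s t)) {c : F} (hc : c ≠ 0)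
    (hW : W ≤ Eig ρ ψ (x k) c) (b : F) :
    finrank ℂ W = Fintype.card F * finrank ℂ ↥(W ⊓ Eig ρ ψ (x s) b) :=
  finrank_eq_mul hψ (add h s H.2.1) (zero h s H.2.1) h2 (fun l =>
    ⟨x r (-(l / (c * e))), h1 _, fun u v hv => by
      rw [cj h r s k e H, rho_mul, hW hv, map_smul]
      congr 2
      field_simp⟩) b

theorem count (hq : 4 < Fintype.card F) {z a b n g : ℕ} {i j : ℤ}
    (H1 : n < 12 ∧ z < 12 ∧ z ≠ n ∧ z ≠ chevG2.neg n ∧ chevG2.commTerms n z = [(b, -1, 1, 1)])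
    (H2 : a < 12 ∧ b < 12 ∧ b ≠ a ∧ b ≠ chevG2.neg a ∧ chevG2.commTerms a b = [(z, -1, 1, 1)])
    (H3 : b < 12 ∧ a < 12 ∧ a ≠ b ∧ a ≠ chevG2.neg b ∧ chevG2.commTerms b a = [(z, 1, 1, 1)])
    (H4 : ∀ p ∈ [(b, n), (b, z), (z, a), (z, b)], p.1 < 12 ∧ p.2 < 12 ∧ p.2 ≠ chevG2.neg p.1 ∧
      ∀ c ∈ chevG2.commTerms p.1 p.2, 0 ∣ c.2.1)
    (H5 : ∀ p ∈ [(9, b, 0), (9, a, 3), (9, z, 3), (g, b, 1), (g, a, i), (g, z, j)],
      p.1 < 12 ∧ p.2.1 < 12 ∧ chevG2.pairing p.1 p.2.1 = p.2.2)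
    (hm : ∀ c, c ≠ 0 → finrank ℂ (Eig ρ ψ (x b) c) = Fintype.card F ^ 2) :
    ∃ m, 1 ≤ m ∧
      (∀ c, c ≠ 0 → finrank ℂ ↥(Eig ρ ψ (x z) 0 ⊓ Eig ρ ψ (x a) 0 ⊓ Eig ρ ψ (x b) c) = m) ∧
      finrank ℂ ↥(Eig ρ ψ (x z) 0 ⊓ Eig ρ ψ (x a) 0) = (Fintype.card F - 1) * m +
        finrank ℂ ↥(Eig ρ ψ (x z) 0 ⊓ Eig ρ ψ (x a) 0 ⊓ Eig ρ ψ (x b) 0) := by
  classical
  simp only [List.mem_cons, List.not_mem_nil, or_false, forall_eq_or_imp, forall_eq] at H4 H5
  obtain ⟨c1, c2, c3, c4⟩ := H4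
  obtain ⟨t1, t2, t3, t4, t5, t6⟩ := H5
  have z0 : ((0 : ℤ) : F) = 0 := Int.cast_zero
  have key : ∀ c c', c ≠ 0 → c' ≠ 0 →
      finrank ℂ ↥(Eig ρ ψ (x z) 0 ⊓ Eig ρ ψ (x a) 0 ⊓ Eig ρ ψ (x b) c) ≤
      finrank ℂ ↥(Eig ρ ψ (x z) 0 ⊓ Eig ρ ψ (x a) 0 ⊓ Eig ρ ψ (x b) c') := fun c c' hc hc' =>
    finrank_le_of_map (tr chevG2 x g (c' / c)) fun v hv =>
      ⟨⟨by simpa using mem_Eig_conj (tc h _ _ _ t6 (div_ne_zero hc' hc)) hv.1.1,
        by simpa using mem_Eig_conj (tc h _ _ _ t5 (div_ne_zero hc' hc)) hv.1.2⟩, by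
        have := mem_Eig_conj (tc h _ _ _ t4 (div_ne_zero hc' hc)) hv.2
        rwa [zpow_one, mul_div_cancel₀ _ hc] at this⟩
  refine ⟨_, ?_, fun c hc => le_antisymm (key c 1 hc one_ne_zero) (key 1 c one_ne_zero hc), ?_⟩
  · have h1 := heis h hψ (ρ := ρ) H1 (by simp) (fun t => pres_Eig (fun u => cm h z0 _ _ c1 u t) 1)
      (fun t => pres_Eig (fun u => cm h z0 _ _ c2 u t) 1) one_ne_zero le_rfl 0
    rw [hm 1 one_ne_zero, pow_two] at h1
    obtain ⟨s, hs, e⟩ := exists_pow_ne_one (K := F) (n := 3) (by omega) (by omega)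
    have hp : ∀ {s : F}, s ≠ 0 → Pres ρ (Eig ρ ψ (x b) 1 ⊓ Eig ρ ψ (x z) 0) (tr chevG2 x 9 s) :=
      fun hs v hv => ⟨by simpa using mem_Eig_conj (tc h _ _ _ t1 hs) hv.1,
        by simpa using mem_Eig_conj (tc h _ _ _ t3 hs) hv.2⟩
    have := one_le_of_scale hψ (add h a H2.1) (zero h a H2.1)
      (W := Eig ρ ψ (x b) 1 ⊓ Eig ρ ψ (x z) 0)
      (fun t v hv => ⟨pres_cj h H2 t hv.1 hv.2, pres_Eig (fun u => cm h z0 _ _ c3 u t) 0 v hv.2⟩)
      (Nat.eq_of_mul_eq_mul_left (by omega) h1).symm (pow_ne_zero 3 hs) e (hp hs)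
      (fun v hv => ⟨fun t => by
          rw [rho_conj, ← one_mul t, ← zpow_zero s, ← tc h _ _ _ t1 hs, zpow_zero, one_mul, one_mul,
            ← map_smul, ← one_mul t, ← hv.1 t, one_mul]
          congr 2
          group, fun t => by
          have := tc h _ _ _ t3 hs ((s ^ (3 : ℤ))⁻¹ * t)
          rw [mul_inv_cancel_left₀ (zpow_ne_zero _ hs)] at this
          rw [rho_conj, ← this, show ∀ a b : G, a⁻¹⁻¹ * (a⁻¹ * b * a) * a⁻¹ = b from fun a b => by group,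
            fix_of_Eig hv.2]
          simp⟩)
      (fun t => by rw [tc h _ _ _ t2 hs, zpow_ofNat])
    rwa [inf_assoc, inf_comm] at this
  · rw [finrank_eq_sum (ρ := ρ) hψ (add h b H3.1) (zero h b H3.1)
      (W := Eig ρ ψ (x z) 0 ⊓ Eig ρ ψ (x a) 0) fun t v hv => ⟨pres_Eig (fun u => cm h z0 _ _ c4 u t) 0 v hv.1, pres_cj h H3 t hv.2 hv.1⟩]
    exact sum_erase_const fun c hc => le_antisymm (key c 1 hc one_ne_zero) (key 1 c one_ne_zero hc)

theorem ne_cusp [Finite G] (hq : 4 < Fintype.card F) {ω : F} (h1 : ω ≠ 1) (h3 : ω ^ 3 = 1)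
    (hm : ∀ r ∈ [0, 1, 5, 6, 10, 11], ∀ c, c ≠ 0 →
      finrank ℂ (Eig ρ ψ (x r) c) = Fintype.card F ^ 2) :
    finrank ℂ ↥(Eig ρ ψ (x 11) 0 ⊓ Eig ρ ψ (x 10) 0) ≠ Fintype.card F - 1 := by
  classical
  intro ha
  have z0 : ((0 : ℤ) : F) = 0 := Int.cast_zero
  have h0 : ω ≠ 0 := by rintro rfl; simp at h3
  have h2 : ω * ω ≠ 1 := fun e => h1 (by rwa [pow_succ, pow_two, e, one_mul] at h3)
  have three : ((-3 : ℤ) : F) ≠ 0 := fun e => by
    have e3 : (3 : F) = 0 := by simpa using e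
    exact h1 (sub_eq_zero.mp (pow_eq_zero_iff three_ne_zero |>.mp
      (show (ω - 1) ^ 3 = 0 by linear_combination h3 + (ω - ω ^ 2) * e3)))
  obtain ⟨m, m1, m2, m3⟩ := count h hψ hq (ρ := ρ) (z := 11) (a := 10) (b := 6) (n := 1) (g := 11)
    (i := 1) (j := 2) (by decide +kernel) (by decide +kernel) (by decide +kernel) (by decide +kernel)
    (by decide +kernel) (hm 6 (by simp))
  obtain ⟨n, n1, -, n3⟩ := count h hψ hq (ρ := ρ) (z := 10) (a := 11) (b := 5) (n := 0) (g := 0)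
    (i := -2) (j := -1) (by decide +kernel) (by decide +kernel) (by decide +kernel)
    (by decide +kernel) (by decide +kernel) (hm 5 (by simp))
  rw [inf_comm (Eig ρ ψ (x 10) 0)] at n3
  rw [ha] at m3 n3
  have := Nat.le_mul_of_pos_right (Fintype.card F - 1) m1
  have := Nat.le_mul_of_pos_right (Fintype.card F - 1) n1
  obtain rfl : m = 1 := Nat.eq_of_mul_eq_mul_left (show 0 < Fintype.card F - 1 by omega) (by omega)
  have f6 := Submodule.finrank_eq_zero.mp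
    (by omega : finrank ℂ ↥(Eig ρ ψ (x 11) 0 ⊓ Eig ρ ψ (x 10) 0 ⊓ Eig ρ ψ (x 6) 0) = 0)
  have f5 := Submodule.finrank_eq_zero.mp
    (by omega : finrank ℂ ↥(Eig ρ ψ (x 11) 0 ⊓ Eig ρ ψ (x 10) 0 ⊓ Eig ρ ψ (x 5) 0) = 0)
  rw [← fix_eq] at f5 f6 m2 ha
  set ζ := tr chevG2 x 9 ω
  have hζ : ∀ s ∈ [0, 1, 5, 6, 10, 11], ∀ t, Commute (x s t) ζ := fun s hs t => by
    obtain ⟨l, k, e⟩ := (by decide +kernel : ∀ s ∈ [0, 1, 5, 6, 10, 11], s < 12 ∧
      ∃ k ∈ [-1, 0, 1], chevG2.pairing 9 s = 3 * k) s hs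
    have := tc h 9 s _ ⟨by omega, l, e.2⟩ h0 t
    rw [zpow_mul, zpow_ofNat, h3, one_zpow, one_mul, mul_assoc, inv_mul_eq_iff_eq_mul] at this
    exact this
  have pζ : ∀ c, Pres ρ (FixS ρ (XS x {10, 11}) ⊓ Eig ρ ψ (x 6) c) ζ := fun c => by
    rw [fix_eq (ψ := ψ)]
    exact ((pres_Eig (hζ 11 (by simp)) 0).inf (pres_Eig (hζ 10 (by simp)) 0)).inf
      (pres_Eig (hζ 6 (by simp)) c)
  obtain ⟨v, v0, hv⟩ := finrank_eq_one_iff'.mp (m2 1 one_ne_zero)
  obtain ⟨η, hη⟩ := hv ⟨_, pζ 1 v v.2⟩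
  have hη' : ρ ζ v = η • (v : V) := (congrArg Subtype.val hη).symm
  have hA : FixS ρ (XS x {10, 11}) ≤ End.eigenspace (ρ ζ) η := fun w hw => by
    rw [← sum_proj (ρ := ρ) hψ (zero h 6 (by omega)) w]
    refine Submodule.sum_mem _ fun c _ => ?_
    have hc' : proj ρ ψ (x 6) c w ∈ FixS ρ (XS x {10, 11}) ⊓ Eig ρ ψ (x 6) c :=
      ⟨proj_mem_of_pres (fun t => pres_FixS (mem_norm h 6 (by decide +kernel) t)) c hw,
        proj_mem (add h 6 (by omega)) c w⟩
    by_cases hc : c = 0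
    · subst hc
      rw [f6, Submodule.mem_bot] at hc'
      rw [hc']
      exact zero_mem _
    have hk : ρ (tr chevG2 x 11 c) v ∈ FixS ρ (XS x {10, 11}) ⊓ Eig ρ ψ (x 6) c := by
      have hv := And.intro ((fix_eq (ψ := ψ)).le v.2.1) v.2.2
      exact ⟨(fix_eq (ψ := ψ)).ge ⟨
        by simpa using mem_Eig_conj (tc h 11 11 2 (by decide +kernel) hc) hv.1.1,
        by simpa using mem_Eig_conj (tc h 11 10 1 (by decide +kernel) hc) hv.1.2⟩,
        by simpa using mem_Eig_conj (tc h 11 6 1 (by decide +kernel) hc) hv.2⟩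
    obtain ⟨e, he⟩ := (finrank_eq_one_iff_of_nonzero' (⟨_, hk⟩ : ↥(FixS ρ (XS x {10, 11}) ⊓
      Eig ρ ψ (x 6) c)) fun e => rho_ne_zero _ (fun e => v0 (Subtype.ext e))
        (congrArg Subtype.val e)).mp (m2 c hc) ⟨_, hc'⟩
    have hcm : tr chevG2 x 11 c ∈ Subgroup.centralizer {ζ} := inv_mem (hh_mem (D := chevG2)
      (fun t => Subgroup.mem_centralizer_singleton_iff.mpr (hζ 11 (by simp) t))
      (fun t => Subgroup.mem_centralizer_singleton_iff.mpr (hζ 0 (by simp) t)) c)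
    rw [← show _ = proj ρ ψ (x 6) c w from congrArg Subtype.val he]
    refine Submodule.smul_mem _ _ (End.mem_eigenspace_iff.mpr ?_)
    rw [← rho_mul, ← Subgroup.mem_centralizer_singleton_iff.mp hcm, rho_mul, hη', map_smul]
  have pV : ∀ s ∈ [0, 1, 5, 6, 10, 11], ∀ t, Pres ρ (End.eigenspace (ρ ζ) η) (x s t) :=
    fun s hs t w hw => End.mem_eigenspace_iff.mpr (by
      rw [← rho_mul, ← (hζ s hs t).eq, rho_mul, End.mem_eigenspace_iff.mp hw, map_smul])
  have := Fintype.ofFinite (XS x {10, 11})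
  have e0 : ∀ u t, ∀ a ∈ FixS ρ (XS x {10, 11}), ¬(u = 0 ∧ t = 0) →
      avg ρ (XS x {10, 11}) (ρ (x 0 u) (ρ (x 1 t) a)) = 0 := fun u t a ha hne => by
    by_cases hu : u = 0
    · have ht : t ≠ 0 := fun e => hne ⟨hu, e⟩
      rw [hu, zero h 0 (by omega), map_one, End.one_apply]
      exact avg_eq_zero (mem_norm h 6 (by decide +kernel)) f6
        (fun s => cm h z0 6 1 (by decide +kernel) s t) (fun s => ⟨x 11 (s / t), mem_XS (by simp) _, by
          rw [cj h 1 11 6 (-1) (by decide +kernel)]; congr 2; field_simp; simp⟩) ha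
    · have e := cj h 6 0 1 (-1) (by decide +kernel) (t / u) u
      rw [show -((-1 : ℤ) : F) * (t / u) * u = t by field_simp; simp] at e
      rw [← rho_mul, ← e, rho_mul, rho_mul,
        avg_rho_norm (inv_mem (mem_norm h 6 (by decide +kernel) _)),
        avg_eq_zero (mem_norm h 5 (by decide +kernel)) f5
        (fun s => cm h z0 5 0 (by decide +kernel) s u) (fun s => ⟨x 10 (s / u), mem_XS (by simp) _, by
          rw [cj h 0 10 5 (-1) (by decide +kernel)]; congr 2; field_simp; simp⟩)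
        (pres_FixS (mem_norm h 6 (by decide +kernel) _) a ha), map_zero]
  have hinj : ∀ a ∈ FixS ρ (XS x {10, 11}),
      proj ρ ψ (x 0) 0 (proj ρ ψ (x 1) 1 a) = 0 → a = 0 := fun a ha e => by
    have := congrArg (avg ρ (XS x {10, 11})) e
    simp only [proj_apply, map_smul, map_sum, map_zero] at this
    rw [Finset.sum_eq_single 0 (fun t _ ht => by
      rw [Finset.sum_eq_zero fun u _ => by rw [e0 u t a ha (by simp [ht]), smul_zero]]; simp) (by simp),
      Finset.sum_eq_single 0 (fun u _ hu => by rw [e0 u 0 a ha (by simp [hu]), smul_zero]) (by simp)]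
      at this
    simpa [zero h 0, zero h 1, avg_of_mem ha] using this
  have p1 : ∀ r, (r < 12 ∧ ∀ s ∈ [0, 1], s < 12 ∧ r ≠ chevG2.neg s ∧
      ∀ c ∈ chevG2.commTerms s r, 0 ∣ c.2.1) → ∀ t,
      Pres ρ (Eig ρ ψ (x 1) 1 ⊓ Eig ρ ψ (x 0) 0) (x r t) := fun r hr t =>
    (pres_Eig (fun u => cm h z0 1 r ⟨by omega, hr.1, (hr.2 1 (by simp)).2⟩ u t) 1).inf
      (pres_Eig (fun u => cm h z0 0 r ⟨by omega, hr.1, (hr.2 0 (by simp)).2⟩ u t) 0)
  have p0 : ∀ t, Pres ρ (Eig ρ ψ (x 1) 1) (x 0 t) := fun t =>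
    pres_Eig (fun u => cm h z0 1 0 (by decide +kernel) u t) 1
  have d1 := heis h hψ (ρ := ρ) (r := 6) (s := 0) (k := 1) (e := -1) (by decide +kernel) (by simp)
    (fun t => pres_Eig (fun u => cm h z0 1 6 (by decide +kernel) u t) 1) p0 one_ne_zero le_rfl 0
  rw [hm 1 (by simp) 1 one_ne_zero, pow_two] at d1
  replace d1 := Nat.eq_of_mul_eq_mul_left (by omega) d1
  have d2 := heis h hψ (ρ := ρ) (r := 4) (s := 2) (k := 1) (e := -3) (by decide +kernel) three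
    (p1 4 (by decide +kernel)) (p1 2 (by decide +kernel)) one_ne_zero inf_le_left
  have d3 := finrank_add_two_le (ρ := ρ) (x := x 2) hψ (W := Eig ρ ψ (x 1) 1 ⊓ Eig ρ ψ (x 0) 0)
    (fun c => Nat.pos_of_mul_pos_left (by rw [← d2 c, ← d1]; omega)) (z := ζ) h0 h1 h2 (fun t => by
      rw [tc h 9 2 (-2) (by decide +kernel) h0]
      congr 2
      rw [zpow_neg, zpow_ofNat, inv_eq_iff_eq_inv, eq_comm, inv_eq_iff_eq_inv, eq_comm]
      exact inv_eq_of_mul_eq_one_right (by rw [← pow_succ, h3])) η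
  have d4 := LinearMap.finrank_le_finrank_of_injective (f := (proj ρ ψ (x 0) 0 ∘ₗ
    proj ρ ψ (x 1) 1).restrict (q := End.eigenspace (ρ ζ) η ⊓ (Eig ρ ψ (x 1) 1 ⊓ Eig ρ ψ (x 0) 0))
      fun a ha => ⟨proj_mem_of_pres (pV 0 (by simp)) 0 (proj_mem_of_pres (pV 1 (by simp)) 1 (hA ha)),
        proj_mem_of_pres p0 0 (proj_mem (add h 1 (by omega)) 1 a), proj_mem (add h 0 (by omega)) 0 _⟩)
    ((injective_iff_map_eq_zero _).mpr fun a e => Subtype.ext (hinj a a.2 (congrArg Subtype.val e)))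
  omega

theorem ne_st [Finite G] [ρ.IsIrreducible] {T : RootTable chevG2} (hn : IsND x T)
    (htop : Gs chevG2 x = ⊤) (hq : 4 < Fintype.card F)
    (hm : ∀ r ∈ [0, 1, 5, 6, 10, 11], ∀ c, c ≠ 0 →
      finrank ℂ (Eig ρ ψ (x r) c) = Fintype.card F ^ 2)
    (hχ : ∀ t, t ≠ 0 → ρ.character (x 11 t) = 0) :
    finrank ℂ ↥(Eig ρ ψ (x 11) 0 ⊓ Eig ρ ψ (x 10) 0) ≠ Fintype.card F := by
  classical
  intro ha
  have := Fintype.ofFinite G
  have hN : T.N = 6 := T.N_eq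
  obtain ⟨m, m1, -, m3⟩ := count h hψ hq (ρ := ρ) (z := 11) (a := 10) (b := 6) (n := 1) (g := 11)
    (i := 1) (j := 2) (by decide +kernel) (by decide +kernel) (by decide +kernel) (by decide +kernel)
    (by decide +kernel) (hm 6 (by simp))
  obtain ⟨n, n1, -, n3⟩ := count h hψ hq (ρ := ρ) (z := 10) (a := 11) (b := 5) (n := 0) (g := 0)
    (i := -2) (j := -1) (by decide +kernel) (by decide +kernel) (by decide +kernel)
    (by decide +kernel) (by decide +kernel) (hm 5 (by simp))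
  rw [inf_comm (Eig ρ ψ (x 10) 0)] at n3
  rw [ha] at m3 n3
  have k1 : ∀ m k : ℕ, 1 ≤ m → Fintype.card F = (Fintype.card F - 1) * m + k → k = 1 := by
    intro m k h1 h2
    obtain ⟨q, hq'⟩ : ∃ q, Fintype.card F = q + 1 := ⟨Fintype.card F - 1, by omega⟩
    rw [hq', Nat.add_sub_cancel] at h2
    obtain rfl : m = 1 := by
      by_contra h3
      have := Nat.mul_le_mul_left q (show 2 ≤ m by omega)
      omega
    omega
  replace m3 := (k1 _ _ m1 m3).symm
  replace n3 := (k1 _ _ n1 n3).symm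
  rw [← fix_eq] at m3 n3 ha
  have hR : Fintype.card (XS x {10, 11}) = Fintype.card F ^ 2 := by
    have e : {r | r < 2 * T.N ∧ T.val (T.vec 9) < T.val (T.vec r)} = {10, 11} := by
      ext r
      simp only [Set.mem_ofPred_eq, Set.mem_insert_iff, Set.mem_singleton_iff]
      exact ⟨fun e => by have := (T.val_lt_iff (by omega) e.1).mp e.2; omega,
        fun e => ⟨by omega, T.val_lt (by omega) (by omega)⟩⟩
    rw [← Nat.card_eq_fintype_card, hn.card_XS h.toIsSt0 (e ▸ T.nil_gt T.val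
      (T.val_pos (by omega) (by omega)).le), Set.ncard_pair (by omega), Nat.card_eq_fintype_card]
  have hB : Bs chevG2 x ≤ Subgroup.normalizer (XS x {10, 11} : Set G) :=
    sup_le (XS_le.mpr fun r hr t => mem_norm h r ((by decide +kernel : ∀ r < 12, 6 ≤ r →
      r < 12 ∧ ∀ s ∈ [10, 11], s ≠ chevG2.neg r ∧ ∀ c ∈ chevG2.commTerms r s, c.1 ∈ [10, 11]) r hr.1
        (hN ▸ ((T.pos_iff r).mp hr).1)) t)
      (h.Hs_le_normalizer_XS T (by rintro _ (rfl | rfl) <;> omega))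
  let S : G → ℂ := fun y => ∑ r : XS x {10, 11}, ρ.character (y * r)
  have hS : ∀ b ∈ Bs chevG2 x, ∀ y, S (b * y * b⁻¹) = S y := fun b hb y =>
    Fintype.sum_bijective (fun a : XS x {10, 11} =>
      (⟨b⁻¹ * a * b, conj_mem_of_mem_normalizer' (hB hb) a.2⟩ : XS x {10, 11}))
      (Finite.injective_iff_bijective.mp fun a b e => Subtype.ext (by simpa using e)) _ _ fun a => by
        rw [← ρ.char_conj _ b⁻¹]; congr 1; group
  have hS0 : ∀ y ∈ XS x {10, 11}, S y = S 1 := fun y hy =>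
    Fintype.sum_equiv (Equiv.mulLeft (⟨y, hy⟩ : XS x {10, 11})) _ _ fun a => by simp
  have hS1 : S 1 = (Fintype.card F : ℂ) ^ 3 := by
    have := sum_trace_avg (ρ := ρ) hψ (add h 11 (by omega)) (mem_norm h 11 (by decide +kernel))
    rw [Finset.sum_congr rfl fun t _ => hS0 _ (mem_XS (by simp) t), inf_eq_left.mpr
      ((fix_eq (ψ := ψ)).le.trans inf_le_left), ha, hR, Finset.sum_const, Finset.card_univ,
      nsmul_eq_mul] at this
    refine mul_left_cancel₀ (card_ne_zero (F := F)) (this.trans ?_)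
    push_cast; ring
  have hu : ∀ f : F → ℂ, ∑ t : Fˣ, f t = ∑ t, f t - f 0 := fun f => by
    rw [← Finset.add_sum_erase _ _ (Finset.mem_univ (0 : F)), add_sub_cancel_left]
    exact Finset.sum_bij (fun (c : Fˣ) _ => (c : F)) (fun c _ => by simp)
      (fun _ _ _ _ e => Units.ext e)
      (fun c hc => ⟨Units.mk0 c (Finset.mem_erase.mp hc).1, by simp, rfl⟩) fun _ _ => rfl
  have hR' : ∀ r ∈ ({10, 11} : Set ℕ), ∑ t : Fˣ, S (x r t) =
      (Fintype.card F - 1 : ℕ) * (Fintype.card F : ℂ) ^ 3 := fun r hr => by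
    rw [Finset.sum_congr rfl fun t _ => hS0 _ (mem_XS hr _), hS1, Finset.sum_const,
      Finset.card_univ, Fintype.card_units, nsmul_eq_mul]
  obtain ⟨z, hz, e⟩ := sum_cells h hn htop (fun g => ∑ t : Fˣ, S (g * x 11 t * g⁻¹))
    (M := (Fintype.card F : ℂ) ^ 4) (fun b hb b' hb' g => by
      obtain ⟨c, hc⟩ := Bs_le_topStab h T hb'
      refine Fintype.sum_equiv (Equiv.mulLeft c) _ _ fun t => ?_
      rw [Equiv.coe_mulLeft, ← hS b hb (g * _ * _), Units.val_mul,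
        ← show b' * x 11 t * b'⁻¹ = x 11 _ from hc t]
      congr 1
      group) fun n w hw h1 => by
      obtain ⟨c, hc, e⟩ := hw.conj (s := 11) (by omega)
      have l1 := T.act_lt w (s := 11) (by omega)
      have hp : ∀ s < 12, chevG2.pairing (T.act w 11) s = chevG2.pairing 11 (T.act w⁻¹ s) :=
        fun s hs => by
          rw [← T.pairing_act w (by omega) (T.act_lt w⁻¹ (by omega)), T.act_act_inv]
      have hfin : (T.invSet w⁻¹).Finite := (T.nil_invSet _).finite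
      rw [show ∑ t : Fˣ, S (n * x 11 t * n⁻¹) = ∑ t : Fˣ, S (x (T.act w 11) t) from
        Fintype.sum_equiv (Equiv.mulLeft (Units.mk0 c hc)) _ _ fun t => by rw [e]; rfl]
      have hI : IsIntegral ℤ (Fintype.card F : ℂ) := isIntegral_natCast _
      rcases (by decide +kernel : ∀ g < 12, (∃ s < 12, 2 < chevG2.pairing g s) ∨ (g = 10 ∨ g = 11) ∨
        g = 5 ∨ g = 6 ∨ ∃ a ∈ [7, 8], ∀ r ∈ [a, 9, 10, 11], chevG2.pairing g r < 0) _ (hN ▸ l1) with
        ⟨s, hs, h2⟩ | h2 | h2 | h2 | ⟨a, ha, h2⟩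
      · have := (by decide +kernel : ∀ s < 12, chevG2.pairing 11 s ≤ 2) _
          (hN ▸ T.act_lt w⁻¹ (s := s) (by omega))
        rw [hp s hs] at h2
        omega
      · obtain ⟨l, hl⟩ : ∃ l, (T.invSet w⁻¹).ncard = l + 1 := Nat.exists_eq_succ_of_ne_zero fun e => by
          rw [Set.ncard_eq_zero hfin] at e
          refine h1 (inv_eq_one.mp (T.eq_one_of_act_pos fun i => not_lt.mp fun hi => ?_))
          exact (e ▸ (show _ ∈ T.invSet w⁻¹ from ⟨⟨T.N_le_simple i, T.simple_lt i⟩, hi⟩) :)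
        refine ⟨_ ^ l * (Fintype.card F - 1 : ℕ), (hI.pow l).mul (isIntegral_natCast _), ?_⟩
        rw [hR' _ h2, hl]; ring
      · refine ⟨0, isIntegral_zero, ?_⟩
        rw [h2, hu fun t => S (x 5 t), sum_trace_avg hψ (add h 5 (by omega))
          (mem_norm h 5 (by decide +kernel)), ← n3, hR, zero h 5 (by omega), hS1]
        push_cast; ring
      · refine ⟨0, isIntegral_zero, ?_⟩
        rw [h2, hu fun t => S (x 6 t), sum_trace_avg hψ (add h 6 (by omega))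
          (mem_norm h 6 (by decide +kernel)), ← m3, hR, zero h 6 (by omega), hS1]
        push_cast; ring
      · have h4 : (([a, 9, 10, 11] : List ℕ).toFinset : Set ℕ) ⊆ T.invSet w⁻¹ := fun r hr => by
          have hr' : r ∈ [a, 9, 10, 11] := by simpa using hr
          have l2 : 6 ≤ r ∧ r < 12 := by simp at ha hr'; omega
          have := h2 r hr'
          rw [hp r l2.2] at this
          exact ⟨by omega, hN ▸ (by decide +kernel : ∀ s < 12, chevG2.pairing 11 s < 0 → s < 6) _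
            (by have := T.act_lt w⁻¹ (s := r) (by omega); omega) this⟩
        have h5 := Set.ncard_le_ncard h4 hfin
        rw [Set.ncard_coe_finset, List.toFinset_card_of_nodup (by simp at ha ⊢; omega)] at h5
        obtain ⟨l, hl⟩ := Nat.exists_eq_add_of_le h5
        refine ⟨_ ^ l * ∑ t : Fˣ, S (x (T.act w 11) t), (hI.pow l).mul (IsIntegral.sum _ fun t _ =>
          IsIntegral.sum _ fun r _ => Char.rep_char_isIntegral ρ _), ?_⟩
        rw [hl, pow_add, mul_assoc]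
        rfl
  rw [Finset.sum_comm, Finset.sum_eq_zero fun t _ => by
    rw [Finset.sum_comm]
    exact Finset.sum_eq_zero fun r _ => sum_conj_eq_zero ρ (hχ _ t.ne_zero) _, eq_comm, mul_eq_zero,
    Nat.cast_eq_zero] at e
  have e2 := e.resolve_left Nat.card_pos.ne'
  simp only [one_mul, inv_one, mul_one] at e2
  rw [hR' 11 (by simp)] at e2
  have := Nat.le_of_dvd (by omega) (Char.dvd_of_isIntegral_div (a := Fintype.card F - 1)
    (b := Fintype.card F) (by omega) (by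
      convert hz.neg using 1
      have := card_ne_zero (F := F)
      field_simp
      refine mul_left_cancel₀ (pow_ne_zero 3 this) ?_
      linear_combination e2))
  omega

omit h hψ in
theorem lg_iff (a : Rt chevG2) : Lg a ↔ (a : ℕ) ∈ [0, 1, 5, 6, 10, 11] :=
  (by decide +kernel : ∀ a < 12, encG2.len a = encG2.len 11 ↔ a ∈ [0, 1, 5, 6, 10, 11]) a a.2

omit h hψ in
theorem hlen (c : Rt chevG2) : ln c ≤ ln (top chevG2) :=
  (by decide +kernel : ∀ a < 12, encG2.len a ≤ encG2.len 11) c c.2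

omit h hψ in
theorem hdom (r : Rt chevG2) (h1 : Lg r) (h2 : r ≠ top chevG2) : ∃ i, A (sr i) r < 0 := by
  simp only [A_sr_left]
  exact (by decide +kernel : ∀ r ∈ [0, 1, 5, 6, 10, 11], r ≠ 11 →
    ∃ i : Fin 2, chevG2.cartan i r < 0) r ((lg_iff r).mp h1) fun e => h2 (Fin.ext e)

omit hψ [Fintype F] in
theorem isConj_long {r : ℕ} (hr : r ∈ [0, 1, 5, 6, 10, 11]) {t : F} (ht : t ≠ 0) :
    IsConj (x 11 1) (x r t) :=
  isConj_of_long h rootTableG2 hdom (b := ⟨6, by decide⟩) (by decide +kernel)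
    (a := ⟨r, show r < 12 by simp at hr; omega⟩) ((lg_iff _).mpr hr) t ht

omit hψ in
theorem bound_ne_three [Finite G] [IsSimpleGroup G] {T : RootTable chevG2} (hn : IsND x T)
    (htop : Gs chevG2 x = ⊤) (hq : 4 < Fintype.card F) (h3 : (3 : F) ≠ 0) {k : ℕ}
    (ρ : Representation ℂ G (Fin k → ℂ)) [ρ.IsIrreducible] (hk : 2 ≤ k) :
    Fintype.card F ^ 3 - 1 ≤ k ∧ ∀ ω : F, ω ≠ 1 → ω ^ 3 = 1 → Fintype.card F ^ 3 + 1 ≤ k := by
  classical
  obtain ⟨ψ, hψ⟩ : ∃ ψ : AddChar F ℂ, ψ.IsPrimitive :=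
    ⟨_, AddChar.FiniteField.primitiveChar_to_Complex_isPrimitive F⟩
  set R := chevHeis hlen h.toIsSt0 hn (fun a b ha hab => by
    have e := fun i => (v_enc encG2_agree encG2_A rfl (dl a b) i).symm.trans (congrFun (v_dl hab) i)
    simp only [Pi.sub_apply, v_enc encG2_agree encG2_A rfl] at e
    have := (by decide +kernel : ∀ a ∈ [0, 1, 5, 6, 10, 11], ∀ b < 12, ∀ c < 12,
      (∀ i : Fin 2, encG2.vec c i = encG2.vec a i - encG2.vec b i) → chevG2.pairing a b = 1 →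
      chevG2.chainM c b 1 ∈ [1, -1, 3, -3]) a ((lg_iff a).mp ha) b b.2 _ (dl a b).2 e hab
    simp only [List.mem_cons, List.not_mem_nil, or_false] at this
    rcases this with e | e | e | e <;> simp [e, h3]) with hR
  have hco : ∀ a b : Rt chevG2, R.co a (R.vec b) = A a b := fun a b => cor_v a b
  have hX : ∀ a : Rt chevG2, Nat.card (R.X a) = Fintype.card F := fun a => by
    rw [← Nat.card_eq_fintype_card]; exact card_XS_singleton h.toIsSt0 hn a
  have hN : ∀ a, R.long a → ∏ β ∈ Finset.univ.filter (fun β => R.co a (R.vec β) = 1),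
      Nat.card (R.X β) = (Fintype.card F ^ 2) ^ 2 := fun a ha => by
    simp only [hco, hX, Finset.prod_const]
    rw [← pow_mul, card_filter_enc (fun s => isZ (chevG2.pairing a s - 1)) _
      fun s => by rw [isZ_iff, sub_eq_zero, A]]
    exact congrArg _ ((by decide +kernel : ∀ a ∈ [0, 1, 5, 6, 10, 11],
      cntN 12 (fun s => isZ (chevG2.pairing a s - 1)) = 4) a ((lg_iff a).mp ha))
  have hx1 : x 11 1 ≠ 1 := fun e =>
    one_ne_zero (hn.eq_zero_of_x_eq_one (T.lt_iff.mp (top chevG2).2) e)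
  have l1 : Lg (top chevG2) := rfl
  have l2 : Lg (⟨10, by decide⟩ : Rt chevG2) := (lg_iff _).mpr (by decide)
  obtain ⟨q, hq'⟩ : ∃ q, Fintype.card F = q + 1 := ⟨Fintype.card F - 1, by omega⟩
  rcases HeisSys.dichotomy (R := R) (ρ := ρ) hψ hN l1 l2 ((hco _ _).trans (by decide +kernel))
    (fun a ha t ht => isConj_long h ((lg_iff a).mp ha) ht) (rho_ne_one ρ hk hx1) with h4 | ⟨h4, h5⟩
  · rw [finrank_fin_fun, hq', show (q + 1) ^ 2 - 1 = q ^ 2 + 2 * q from
      Nat.sub_eq_of_eq_add (by ring)] at h4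
    have : (q + 1) ^ 3 + 1 ≤ k := Nat.le_of_mul_le_mul_left (le_trans (by
      have : 4 ≤ q := by omega
      nlinarith [Nat.zero_le (q ^ 4), Nat.mul_le_mul_left (q ^ 3) this]) h4) q.succ_pos
    rw [hq']
    exact ⟨by omega, fun _ _ _ => this⟩
  have hm : ∀ r ∈ [0, 1, 5, 6, 10, 11], ∀ c, c ≠ 0 → finrank ℂ (Eig ρ ψ (x r) c) =
      Fintype.card F ^ 2 := fun r hr =>
    h5 ⟨r, show r < 12 by simp at hr; omega⟩ ((lg_iff _).mpr hr)
  have h6 := HeisSys.finrank_eq_two (R := R) (ρ := ρ) hψ l1 l2 ((hco _ _).trans (by decide +kernel))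
    (hX _) h5
  rw [HeisSys.Fix_insert, HeisSys.Fix_singleton, HeisSys.FixS_eq_Eig (ψ := ψ) l1,
    HeisSys.FixS_eq_Eig (ψ := ψ) l2, finrank_fin_fun] at h6
  obtain ⟨m, m1, -, m3⟩ := count h hψ hq (ρ := ρ) (z := 11) (a := 10) (b := 6) (n := 1) (g := 11)
    (i := 1) (j := 2) (by decide +kernel) (by decide +kernel) (by decide +kernel) (by decide +kernel)
    (by decide +kernel) (hm 6 (by simp))
  have h7 := fun (ω : F) h1 h3 => ne_cusp h hψ hq (ρ := ρ) (ω := ω) h1 h3 hm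
  have h8 := ne_st h hψ hn htop hq hm
  change _ = _ + _ * finrank ℂ ↥(Eig ρ ψ (x 11) 0 ⊓ Eig ρ ψ (x 10) 0) at h6
  generalize finrank ℂ ↥(Eig ρ ψ (x 11) 0 ⊓ Eig ρ ψ (x 10) 0) = a at *
  have h9 := Nat.le_mul_of_pos_right (Fintype.card F - 1) m1
  have h10 : k + Fintype.card F = Fintype.card F ^ 3 + a :=
    Nat.eq_of_mul_eq_mul_left (show 0 < Fintype.card F by omega) (by
      rw [mul_add, h6, hq', Nat.add_sub_cancel]; ring)
  refine ⟨by omega, fun ω h1 h3 => ?_⟩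
  have := h7 ω h1 h3
  by_contra h11
  refine h8 (fun t ht => ?_) (by omega)
  obtain ⟨g, hg⟩ := isConj_iff.mp (isConj_long h (r := 11) (by simp) ht)
  rw [← hg, ρ.char_conj]
  refine h4.trans ?_
  rw [finrank_fin_fun, show k = Fintype.card F ^ 3 by omega]
  push_cast
  ring

end G2

end Cfsg.Agent.Chev.MD
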