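import Mathlib
import Cfsg.Agent.Chev.MinDegG2b

/-!
Minimal degrees of `G₂(q)` in characteristic three.
-/

set_option autoImplicit false

namespace Cfsg.Agent.Chev.MD

open Module Cfsg.Lie

section Lin

variable {G : Type*} [Group G] {V : Type*} [AddCommGroup V] [Module ℂ V]
  {ρ : Representation ℂ G V} {F : Type*} [Field F] {ψ : AddChar F ℂ}

theorem mem_Eig_conj_iff {x x' : F → G} {h : G} {l c : F} (hl : l ≠ 0)
    (e : ∀ t, h⁻¹ * x t * h = x' (l * t)) {v : V} :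
    ρ h v ∈ Eig ρ ψ x (c * l) ↔ v ∈ Eig ρ ψ x' c := by
  refine ⟨fun hv => ?_, mem_Eig_conj e⟩
  have := mem_Eig_conj (x := x') (h := h⁻¹) (l := l⁻¹) (fun t => by
    rw [← mul_inv_cancel_left₀ hl t, ← e, inv_mul_cancel_left₀ hl]; group) hv
  rwa [rho_inv_self, mul_inv_cancel_right₀ hl] at this

theorem finrank_eq_of_iff [FiniteDimensional ℂ V] (g : G) {W W' : Submodule ℂ V}
    (h : ∀ v, ρ g v ∈ W' ↔ v ∈ W) : finrank ℂ W = finrank ℂ W' :=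
  le_antisymm (finrank_le_of_map g fun v hv => (h v).mpr hv)
    (finrank_le_of_map g⁻¹ fun v hv => (h _).mp (by rwa [rho_self_inv]))

end Lin

theorem arith_three {q d j : ℕ} (hq : IsPrimePow q) (h9 : 9 ≤ q) (hd : d + j = q ^ 2 * (q ^ 2 + 1))
    (hj : j ≤ 2 * q) (h : d ∣ (q ^ 6 - 1) * q ^ 4) : False := by
  obtain ⟨Q, hQ⟩ : ∃ Q, q ^ 2 = Q + 1 := 
    ⟨q ^ 2 - 1, (Nat.sub_add_cancel (by nlinarith)).symm⟩
  have h8 : 8 * q ≤ Q := by nlinarith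
  rw [show q ^ 6 - 1 = Q * (d + (j + 1)) from Nat.sub_eq_of_eq_add (by
    rw [← add_assoc, hd, show q ^ 6 = (q ^ 2) ^ 3 by ring, hQ]; ring), mul_add, add_mul] at h
  replace h := (Nat.dvd_add_right (Dvd.intro (Q * q ^ 4) (by ring))).mp h
  rcases Nat.eq_zero_or_pos j with rfl | h0
  · rw [add_zero] at hd
    rw [hd, show Q * (0 + 1) * q ^ 4 = q ^ 2 * (q ^ 2 * Q) by ring,
      Nat.mul_dvd_mul_iff_left (by omega), hQ] at h
    obtain ⟨P, rfl⟩ : ∃ P, Q = P + 1 := ⟨Q - 1, by omega⟩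
    rw [show (P + 1 + 1) * (P + 1) = (P + 1 + 1 + 1) * P + 2 by ring] at h
    have := Nat.le_of_dvd two_pos ((Nat.dvd_add_right (Dvd.intro _ rfl)).mp h)
    omega
  obtain ⟨p, f, hp, -, e⟩ := (isPrimePow_nat_iff q).mp hq
  have e2 : p ^ (f * 2) = q ^ 2 := by rw [pow_mul, e]
  obtain ⟨k, hk⟩ : d ∣ j * (Q * (j + 1)) := dvd_of_prime_pow hp (f := f * 2) (m := q ^ 2 + 1) (e := 2)
    (by rw [e2, hd]) h0 (by rw [e2]; omega) (by rw [e2, ← pow_mul, mul_comm]; exact h)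
  rw [hQ] at hd
  have h1 : j * (j + 1) ≤ 5 * Q := by nlinarith
  have h2 : Q * Q ≤ d := by nlinarith
  have h3 : k ≤ 4 := by
    by_contra h3
    have : d * 5 ≤ d * k := Nat.mul_le_mul_left _ (by omega)
    nlinarith
  have h4 : (Q : ℤ) ∣ k * (j - 2) := ⟨k * (Q + 3) - j * (j + 1), by
    zify at hk hd
    linear_combination hk + k * hd⟩
  have h5 := Int.eq_zero_of_abs_lt_dvd h4 (by
    rw [abs_lt]
    constructor <;> nlinarith)
  rcases mul_eq_zero.mp h5 with h6 | h6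
  · obtain rfl : k = 0 := by omega
    have h7 : 0 < Q := by omega
    have : 0 < j * (Q * (j + 1)) := by positivity
    omega
  · obtain rfl : j = 2 := by omega
    rcases Nat.eq_zero_or_pos k with rfl | h7
    · omega
    · have := Nat.le_mul_of_pos_right d h7
      nlinarith

namespace G2

variable {F : Type*} [Field F] {G : Type*} [Group G] {V : Type*} [AddCommGroup V] [Module ℂ V]
  (ρ : Representation ℂ G V) (ψ : AddChar F ℂ) (x : ℕ → F → G)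

/-- Joint eigenspaces. -/
def J3 (c μ ν : F) : Submodule ℂ V := Eig ρ ψ (x 11) c ⊓ Eig ρ ψ (x 10) μ ⊓ Eig ρ ψ (x 9) ν

/-- Joint eigenspaces. -/
def K3 (c ν l : F) : Submodule ℂ V := Eig ρ ψ (x 11) c ⊓ Eig ρ ψ (x 9) ν ⊓ Eig ρ ψ (x 8) l

/-- Joint multiplicities. -/
noncomputable def M (c μ ν l : F) : ℕ := finrank ℂ ↥(J3 ρ ψ x c μ ν ⊓ Eig ρ ψ (x 8) l)

variable {ρ ψ x}

theorem K3_inf (c μ ν l : F) :
    K3 ρ ψ x c ν l ⊓ Eig ρ ψ (x 10) μ = J3 ρ ψ x c μ ν ⊓ Eig ρ ψ (x 8) l := by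
  rw [K3, J3]; ac_rfl

variable (h : IsSt chevG2 x)
include h

theorem c76 (t u : F) : (x 7 t)⁻¹ * x 6 u * x 7 t =
    x 6 u * (x 8 (t * u) * (x 9 (t ^ 2 * u) * (x 10 (-(t ^ 3 * u)) * x 11 (-(t ^ 3 * u ^ 2))))) := by
  rw [h.conj_x (by decide) (by decide) (by decide) (by decide), ChevalleyDatum.commWord,
    (by decide +kernel : chevG2.commTerms 7 6 = [(8, -1, 1, 1), (9, 1, 2, 1), (10, 1, 3, 1),
      (11, 1, 3, 2)])]
  simp [Odd.neg_pow (by decide : Odd 3)]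

theorem nc (i : Fin 2) (s k : ℕ) (H : s < 12 ∧ chevG2.reflectRoot i s = k) : ∃ η : F, η ≠ 0 ∧
    ∀ t, (nn chevG2 x (chevG2.simple i) 1)⁻¹⁻¹ * x s t * (nn chevG2 x (chevG2.simple i) 1)⁻¹ =
      x k (η * t) := by
  obtain ⟨η, h1, h2, -⟩ := h.nconj_nn rootTableG2 i (s := s) H.1
  exact ⟨η, by rcases h1 with rfl | rfl <;> simp, fun t => by rw [inv_inv, h2, H.2]⟩

variable [FiniteDimensional ℂ V]

theorem M_tor (r : ℕ) (a b c d : ℤ) (H : r < 12 ∧ chevG2.pairing r 11 = a ∧ chevG2.pairing r 10 = b ∧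
    chevG2.pairing r 9 = c ∧ chevG2.pairing r 8 = d) {s : F} (hs : s ≠ 0) (e μ ν l : F) :
    M ρ ψ x e μ ν l = M ρ ψ x (e * s ^ a) (μ * s ^ b) (ν * s ^ c) (l * s ^ d) :=
  finrank_eq_of_iff (ρ := ρ) (tr chevG2 x r s) fun v => by
    simp only [J3, Submodule.mem_inf,
      mem_Eig_conj_iff (zpow_ne_zero _ hs) (tc h r 11 a ⟨H.1, by omega, H.2.1⟩ hs),
      mem_Eig_conj_iff (zpow_ne_zero _ hs) (tc h r 10 b ⟨H.1, by omega, H.2.2.1⟩ hs),
      mem_Eig_conj_iff (zpow_ne_zero _ hs) (tc h r 9 c ⟨H.1, by omega, H.2.2.2.1⟩ hs),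
      mem_Eig_conj_iff (zpow_ne_zero _ hs) (tc h r 8 d ⟨H.1, by omega, H.2.2.2.2⟩ hs)]

theorem J3_swap : ∃ a b : F, a ≠ 0 ∧ b ≠ 0 ∧ ∀ μ ν,
    finrank ℂ (J3 ρ ψ x 0 μ ν) = finrank ℂ (J3 ρ ψ x (μ * a) 0 (ν * b)) := by
  obtain ⟨a, ha, e1⟩ := nc h 1 11 10 (by decide +kernel)
  obtain ⟨b, hb, e2⟩ := nc h 1 10 11 (by decide +kernel)
  obtain ⟨c, hc, e3⟩ := nc h 1 9 9 (by decide +kernel)
  refine ⟨a, c, ha, hc, fun μ ν => finrank_eq_of_iff (ρ := ρ)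
    (nn chevG2 x (chevG2.simple (1 : Fin 2)) 1)⁻¹ fun v => ?_⟩
  have := mem_Eig_conj_iff (ρ := ρ) (ψ := ψ) (c := 0) hb e2 (v := v)
  rw [zero_mul] at this
  simp only [J3, Submodule.mem_inf, mem_Eig_conj_iff ha e1, mem_Eig_conj_iff hc e3, this, and_comm]

theorem K3_swap : ∃ a b : F, a ≠ 0 ∧ b ≠ 0 ∧ ∀ c l,
    finrank ℂ (K3 ρ ψ x c 0 l) = finrank ℂ (K3 ρ ψ x (c * a) (l * b) 0) := by
  obtain ⟨a, ha, e1⟩ := nc h 0 11 11 (by decide +kernel)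
  obtain ⟨b, hb, e2⟩ := nc h 0 8 9 (by decide +kernel)
  obtain ⟨c, hc, e3⟩ := nc h 0 9 8 (by decide +kernel)
  refine ⟨a, c, ha, hc, fun μ ν => finrank_eq_of_iff (ρ := ρ)
    (nn chevG2 x (chevG2.simple (0 : Fin 2)) 1)⁻¹ fun v => ?_⟩
  have := mem_Eig_conj_iff (ρ := ρ) (ψ := ψ) (c := 0) hb e2 (v := v)
  rw [zero_mul] at this
  simp only [K3, Submodule.mem_inf, mem_Eig_conj_iff ha e1, mem_Eig_conj_iff hc e3, this]
  tauto

variable (h3 : ((3 : ℤ) : F) = 0)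
include h3

omit [FiniteDimensional ℂ V] in
theorem c78 (t u : F) : (x 7 t)⁻¹ * x 8 u * x 7 t = x 8 u * x 9 (2 * t * u) := by
  rw [h.conj_x (by decide) (by decide) (by decide) (by decide), ChevalleyDatum.commWord,
    (by decide +kernel : chevG2.commTerms 7 8 = [(9, -2, 1, 1), (10, -3, 2, 1), (11, 3, 1, 2)])]
  simp [show (3 : F) = 0 by simpa using h3, zero h]

omit [FiniteDimensional ℂ V] in
theorem pE (s r : ℕ) (H : s < 12 ∧ r < 12 ∧ r ≠ chevG2.neg s ∧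
    ∀ c ∈ chevG2.commTerms s r, 3 ∣ c.2.1) (c t : F) : Pres ρ (Eig ρ ψ (x s) c) (x r t) :=
  pres_Eig (fun u => cm h h3 s r H u t) c

omit [FiniteDimensional ℂ V] in
theorem pJ (r : ℕ) (H : ∀ s ∈ [9, 10, 11], s < 12 ∧ r < 12 ∧ r ≠ chevG2.neg s ∧
    ∀ c ∈ chevG2.commTerms s r, 3 ∣ c.2.1) (c μ ν t : F) : Pres ρ (J3 ρ ψ x c μ ν) (x r t) :=
  ((pE h h3 11 r (H 11 (by simp)) c t).inf (pE h h3 10 r (H 10 (by simp)) μ t)).inf
    (pE h h3 9 r (H 9 (by simp)) ν t)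

omit [FiniteDimensional ℂ V] in
theorem pK (r : ℕ) (H : ∀ s ∈ [8, 9, 11], s < 12 ∧ r < 12 ∧ r ≠ chevG2.neg s ∧
    ∀ c ∈ chevG2.commTerms s r, 3 ∣ c.2.1) (c μ ν t : F) : Pres ρ (K3 ρ ψ x c μ ν) (x r t) :=
  ((pE h h3 11 r (H 11 (by simp)) c t).inf (pE h h3 9 r (H 9 (by simp)) μ t)).inf
    (pE h h3 8 r (H 8 (by simp)) ν t)

variable [Fintype F] (hψ : ψ.IsPrimitive)
include hψ

theorem J3_sum (c μ ν : F) : finrank ℂ (J3 ρ ψ x c μ ν) = ∑ l, M ρ ψ x c μ ν l :=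
  finrank_eq_sum hψ (add h 8 (by omega)) (zero h 8 (by omega)) (pJ h h3 8 (by decide +kernel) c μ ν)

theorem K3_sum (c ν l : F) : finrank ℂ (K3 ρ ψ x c ν l) = ∑ μ, M ρ ψ x c μ ν l := by
  rw [finrank_eq_sum hψ (add h 10 (by omega)) (zero h 10 (by omega))
    (pK h h3 10 (by decide +kernel) c ν l)]
  exact Finset.sum_congr rfl fun μ _ => by rw [K3_inf, M]

theorem J3_mul (c μ : F) {ν : F} (hν : ν ≠ 0) (l : F) :
    finrank ℂ (J3 ρ ψ x c μ ν) = Fintype.card F * M ρ ψ x c μ ν l :=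
  finrank_eq_mul hψ (add h 8 (by omega)) (zero h 8 (by omega)) (pJ h h3 8 (by decide +kernel) c μ ν)
    (fun k => ⟨x 7 (-(k / ν)), pJ h h3 7 (by decide +kernel) c μ ν _, fun u v hv => by
      rw [c78 h h3, rho_mul, hv.2, map_smul]
      congr 2
      field_simp
      linear_combination -(k * u) * h3⟩) l

theorem K3_mul {c : F} (hc : c ≠ 0) (μ ν l : F) :
    finrank ℂ (K3 ρ ψ x c ν l) = Fintype.card F * M ρ ψ x c μ ν l := by
  rw [heis h hψ (r := 6) (s := 10) (k := 11) (e := 1) (by decide +kernel) (by simp)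
    (pK h h3 6 (by decide +kernel) c ν l) (pK h h3 10 (by decide +kernel) c ν l) hc
    (inf_le_left.trans inf_le_left) μ, K3_inf, M]

theorem M_eq {c : F} (hc : c ≠ 0) (μ ν l : F) : M ρ ψ x c μ ν l = M ρ ψ x c 0 ν l :=
  Nat.eq_of_mul_eq_mul_left Fintype.card_pos
    ((K3_mul h h3 hψ hc μ ν l).symm.trans (K3_mul h h3 hψ hc 0 ν l))

theorem M_gen {c ν : F} (hc : c ≠ 0) (hν : ν ≠ 0) (μ l : F) : M ρ ψ x c μ ν l = M ρ ψ x 1 0 1 0 := by
  rw [M_eq h h3 hψ hc, Nat.eq_of_mul_eq_mul_left Fintype.card_pos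
    ((J3_mul h h3 hψ c 0 hν l).symm.trans (J3_mul h h3 hψ c 0 hν 0)),
    M_tor h 6 1 (-1) 0 1 (by decide +kernel) hc 1,
    M_tor h 7 0 3 1 (-1) (by decide +kernel) hν (1 * _)]
  simp

theorem M_gen' {c l : F} (hc : c ≠ 0) (hl : l ≠ 0) (μ : F) : M ρ ψ x c μ 0 l = M ρ ψ x 1 0 1 0 := by
  obtain ⟨a, b, ha, hb, e⟩ := K3_swap h (ρ := ρ) (ψ := ψ)
  refine Nat.eq_of_mul_eq_mul_left (Fintype.card_pos (α := F)) ?_
  rw [← K3_mul h h3 hψ hc, e, K3_mul h h3 hψ (mul_ne_zero hc ha) 0,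
    M_gen h h3 hψ (mul_ne_zero hc ha) (mul_ne_zero hl hb)]

theorem J3_gen {μ ν : F} (hμ : μ ≠ 0) (hν : ν ≠ 0) :
    finrank ℂ (J3 ρ ψ x 0 μ ν) = Fintype.card F * M ρ ψ x 1 0 1 0 := by
  obtain ⟨a, b, ha, hb, e⟩ := J3_swap h (ρ := ρ) (ψ := ψ)
  rw [e, J3_mul h h3 hψ _ _ (mul_ne_zero hν hb) 0,
    M_gen h h3 hψ (mul_ne_zero hμ ha) (mul_ne_zero hν hb)]

theorem J3_zero {c : F} (hc : c ≠ 0) (μ : F) : finrank ℂ (J3 ρ ψ x c μ 0) =
    (Fintype.card F - 1) * M ρ ψ x 1 0 1 0 + M ρ ψ x 1 0 0 0 := by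
  classical
  rw [J3_sum h h3 hψ, sum_erase_const fun l hl => M_gen' h h3 hψ hc hl μ, M_eq h h3 hψ hc,
    M_tor h 6 1 (-1) 0 1 (by decide +kernel) hc 1 0 0]
  simp

theorem J3_zero' {μ : F} (hμ : μ ≠ 0) : finrank ℂ (J3 ρ ψ x 0 μ 0) =
    (Fintype.card F - 1) * M ρ ψ x 1 0 1 0 + M ρ ψ x 1 0 0 0 := by
  obtain ⟨a, b, ha, hb, e⟩ := J3_swap h (ρ := ρ) (ψ := ψ)
  rw [e, zero_mul, J3_zero h h3 hψ (mul_ne_zero hμ ha)]

theorem K3_zero {l : F} (hl : l ≠ 0) : finrank ℂ (K3 ρ ψ x 0 0 l) =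
    (Fintype.card F - 1) * M ρ ψ x 1 0 1 0 + M ρ ψ x 0 0 1 0 := by
  classical
  obtain ⟨a, b, ha, hb, e⟩ := K3_swap h (ρ := ρ) (ψ := ψ)
  have hl' := mul_ne_zero hl hb
  rw [e, zero_mul, K3_sum h h3 hψ, sum_erase_const fun μ hμ => Nat.eq_of_mul_eq_mul_left
    Fintype.card_pos ((J3_mul h h3 hψ 0 μ hl' 0).symm.trans (J3_gen h h3 hψ hμ hl')),
    M_tor h 7 0 3 1 (-1) (by decide +kernel) hl' 0 0 1]
  simp

theorem two_sum (c μ : F) : finrank ℂ ↥(Eig ρ ψ (x 11) c ⊓ Eig ρ ψ (x 10) μ) =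
    ∑ ν, finrank ℂ (J3 ρ ψ x c μ ν) :=
  finrank_eq_sum hψ (add h 9 (by omega)) (zero h 9 (by omega)) fun t =>
    (pE h h3 11 9 (by decide +kernel) c t).inf (pE h h3 10 9 (by decide +kernel) μ t)

theorem one_sum (c : F) : finrank ℂ (Eig ρ ψ (x 11) c) =
    ∑ μ, finrank ℂ ↥(Eig ρ ψ (x 11) c ⊓ Eig ρ ψ (x 10) μ) :=
  finrank_eq_sum hψ (add h 10 (by omega)) (zero h 10 (by omega))
    (pE h h3 11 10 (by decide +kernel) c)

theorem two_eq {c μ : F} (hc : c ≠ 0 ∨ μ ≠ 0) : finrank ℂ ↥(Eig ρ ψ (x 11) c ⊓ Eig ρ ψ (x 10) μ) =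
    (Fintype.card F - 1) * (Fintype.card F * M ρ ψ x 1 0 1 0) +
      ((Fintype.card F - 1) * M ρ ψ x 1 0 1 0 + M ρ ψ x 1 0 0 0) := by
  classical
  rw [two_sum h h3 hψ]
  by_cases h0 : c = 0
  · subst h0
    have hμ := hc.resolve_left (by simp)
    rw [sum_erase_const fun ν hν => J3_gen h h3 hψ hμ hν, J3_zero' h h3 hψ hμ]
  · rw [sum_erase_const fun ν hν => (J3_mul h h3 hψ c μ hν 0).trans
      (by rw [M_gen h h3 hψ h0 hν]), J3_zero h h3 hψ h0]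

omit hψ [FiniteDimensional ℂ V] [Group G] h in
theorem exists_cube (b : F) : ∃ t : F, t ^ 3 = b := by
  have : Fact (Nat.Prime 3) := ⟨by norm_num⟩
  have : CharP F 3 := (CharP.charP_iff_prime_eq_zero (by norm_num)).mpr (by simpa using h3)
  exact Finite.injective_iff_surjective.mp (frobenius F 3).injective b

omit hψ [FiniteDimensional ℂ V] [Fintype F] in
theorem shift (μ l t : F) : ∃ y, Pres ρ (J3 ρ ψ x 0 μ 0 ⊓ Eig ρ ψ (x 8) l) y ∧ ∀ u,
    ∀ v ∈ J3 ρ ψ x 0 μ 0 ⊓ Eig ρ ψ (x 8) l, ρ (y⁻¹ * x 6 u * y) v =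
      ψ ((l * t - μ * t ^ 3) * u) • ρ (x 6 u) v := by
  refine ⟨x 7 t, fun v hv => ⟨pJ h h3 7 (by decide +kernel) _ _ _ t v hv.1, fun u => ?_⟩,
    fun u v hv => ?_⟩
  · rw [rho_conj, c78 h h3, rho_mul, fix_of_Eig hv.1.2, hv.2, map_smul]
  · simp only [c76 h, rho_mul, fix_of_Eig hv.1.1.1, hv.1.1.2 _, map_smul, fix_of_Eig hv.1.2, hv.2 _,
      smul_smul, ← AddChar.map_add_eq_mul]
    congr 2
    ring

omit hψ [FiniteDimensional ℂ V] [Fintype F] in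
theorem p6 (μ l t : F) : Pres ρ (J3 ρ ψ x 0 μ 0 ⊓ Eig ρ ψ (x 8) l) (x 6 t) := fun v hv =>
  ⟨⟨⟨pE h h3 11 6 (by decide +kernel) _ t v hv.1.1.1,
    pres_cj h (r := 6) (s := 10) (k := 11) (e := 1) (by decide +kernel) t hv.1.1.2 hv.1.1.1⟩,
    pE h h3 9 6 (by decide +kernel) _ t v hv.1.2⟩, pE h h3 8 6 (by decide +kernel) _ t v hv.2⟩

theorem dvd_M {μ l : F} (hs : ∀ b, ∃ t, l * t - μ * t ^ 3 = b) : Fintype.card F ∣ M ρ ψ x 0 μ 0 l :=
  ⟨_, finrank_eq_mul hψ (add h 6 (by omega)) (zero h 6 (by omega)) (p6 h h3 μ l) (fun b => by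
    obtain ⟨t, rfl⟩ := hs b
    exact shift h h3 μ l t) 0⟩

theorem mixed {μ l : F} (hμ : μ ≠ 0) (hl : l ≠ 0) (h0 : M ρ ψ x 0 μ 0 l ≠ 0) :
    (Fintype.card F - 1) * Fintype.card F ≤ 6 * finrank ℂ (J3 ρ ψ x 0 μ 0) := by
  classical
  have h1 : Fintype.card F ≤ 3 * M ρ ψ x 0 μ 0 l :=
    card_le_of_shift hψ (add h 6 (by omega)) (zero h 6 (by omega)) (p6 h h3 μ l) (fun b => by
      have e : (Polynomial.C l * Polynomial.X - Polynomial.C μ * Polynomial.X ^ 3).natDegree = 3 := by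
        compute_degree!
      have := card_filter_eval_le _ (e ▸ three_pos) b
      rw [e] at this
      simpa using this) (shift h h3 μ l)
      fun e => h0 (by rw [M, e, finrank_bot])
  have h2 := Finset.card_le_mul_card_image (f := fun s : F => l * s ^ 2) (Finset.univ.erase 0) 2
    fun b _ => by
      have e : (Polynomial.C l * Polynomial.X ^ 2).natDegree = 2 := by compute_degree!
      refine le_trans (Finset.card_le_card (Finset.filter_subset_filter _ (Finset.subset_univ _))) ?_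
      have := card_filter_eval_le _ (e ▸ two_pos) b
      rw [e] at this
      simpa using this
  rw [Finset.card_erase_of_mem (Finset.mem_univ _), Finset.card_univ] at h2
  have h4 : ((Finset.univ.erase 0).image fun s : F => l * s ^ 2).card * M ρ ψ x 0 μ 0 l ≤
      finrank ℂ (J3 ρ ψ x 0 μ 0) := by
    rw [J3_sum h h3 hψ, ← smul_eq_mul]
    refine (Finset.card_nsmul_le_sum _ _ _ fun b hb => ?_).trans
      (Finset.sum_le_sum_of_subset (Finset.subset_univ _))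
    obtain ⟨s, hs, rfl⟩ := Finset.mem_image.mp hb
    rw [M_tor h 8 3 0 1 2 (by decide +kernel) (Finset.mem_erase.mp hs).1]
    simp [zpow_ofNat]
  nlinarith

theorem M_ne_zero (hq : 3 < Fintype.card F) (h0 : M ρ ψ x 1 0 0 0 ≠ 0) : M ρ ψ x 1 0 1 0 ≠ 0 := by
  classical
  intro hm
  have k1 : ∀ μ, μ ≠ 0 → ∀ v ∈ Eig ρ ψ (x 10) μ, v ∈ Eig ρ ψ (x 7) 0 := fun μ hμ v hv => by
    obtain ⟨a, ha, e1⟩ := nc h 1 11 10 (by decide +kernel)
    obtain ⟨b, hb, e2⟩ := nc h 1 8 7 (by decide +kernel)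
    rw [← sum_proj (ρ := ρ) hψ (zero h 7 (by omega)) v]
    refine Submodule.sum_mem _ fun c _ => ?_
    by_cases hc : c = 0
    · rw [hc]; exact proj_mem (add h 7 (by omega)) 0 v
    by_contra h1
    obtain ⟨ν, w, hw, w0, hν⟩ := exists_eig hψ (add h 9 (by omega)) (zero h 9 (by omega))
      (W := Eig ρ ψ (x 11) (μ * a) ⊓ Eig ρ ψ (x 8) (c * b)) (fun t =>
        (pE h h3 11 9 (by decide +kernel) _ t).inf (pE h h3 8 9 (by decide +kernel) _ t))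
      ((Submodule.ne_bot_iff _).mpr ⟨_, ⟨mem_Eig_conj e1 (proj_mem_of_pres
        (pE h h3 10 7 (by decide +kernel) μ) c hv), mem_Eig_conj e2 (proj_mem (add h 7 (by omega)) c v)⟩,
        rho_ne_zero _ fun e => h1 (e ▸ zero_mem _)⟩)
    have h2 := K3_mul h h3 hψ (ρ := ρ) (mul_ne_zero hμ ha) 0 ν (c * b)
    have h4 : M ρ ψ x (μ * a) 0 ν (c * b) = 0 := by
      by_cases h5 : ν = 0
      · rw [h5, M_gen' h h3 hψ (mul_ne_zero hμ ha) (mul_ne_zero hc hb), hm]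
      · rw [M_gen h h3 hψ (mul_ne_zero hμ ha) h5, hm]
    rw [h4, mul_zero, Submodule.finrank_eq_zero] at h2
    exact w0 (h2.le ⟨⟨hw.1, hν⟩, hw.2⟩)
  rw [← M_eq h h3 hψ one_ne_zero 1, M, Ne, Submodule.finrank_eq_zero, ← Ne,
    Submodule.ne_bot_iff] at h0
  obtain ⟨v, hv, v0⟩ := h0
  obtain ⟨t, t0, t1⟩ := exists_pow_ne_one (K := F) (n := 2) (by omega) (by omega)
  have t2 : 1 + -t ≠ 0 := fun e => t1 (by rw [show t = 1 by linear_combination -e]; simp)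
  have t3 : t + t ^ 2 ≠ 0 := fun e => t1 (by
    have : t = -1 := mul_left_cancel₀ t0 (by linear_combination e)
    rw [this]; simp)
  have k2 := k1 _ t2 _ (mem_Eig_shift (y := x 6 t) (fun u => by
    rw [cj h 6 10 11 1 (by decide +kernel), rho_mul, hv.1.1.1, map_smul]; simp) hv.1.1.2)
  refine hψ (neg_ne_zero.mpr t3) (AddChar.ext _ _ fun b => ?_)
  obtain ⟨s, rfl⟩ := exists_cube h3 b
  have e := congrArg (fun g => ρ g v) (c76 h s t)
  simp only [rho_mul, hv.1.1.1 _, hv.1.1.2 _, map_smul, fix_of_Eig hv.1.2, fix_of_Eig hv.2,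
    fix_of_Eig (k1 1 one_ne_zero v hv.1.1.2), smul_smul, ← AddChar.map_add_eq_mul,
    ← h.x_neg (show 7 < 12 by omega), fix_of_Eig k2] at e
  by_contra h1
  refine rho_ne_zero _ v0 (eq_zero_of_eq_smul (fun e' => h1 ?_) e)
  rw [AddChar.mulShift_apply, AddChar.one_apply, ← e']
  congr 1
  ring

omit hψ in
theorem bound_three [Finite G] [IsSimpleGroup G] {T : RootTable chevG2} (hn : IsND x T)
    (htop : Gs chevG2 x = ⊤) (hq : 9 ≤ Fintype.card F) {k : ℕ}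
    (ρ : Representation ℂ G (Fin k → ℂ)) [ρ.IsIrreducible] (hk : 2 ≤ k) :
    Fintype.card F ^ 4 + Fintype.card F ^ 2 + 1 ≤ k := by
  classical
  obtain ⟨ψ, hψ⟩ : ∃ ψ : AddChar F ℂ, ψ.IsPrimitive :=
    ⟨_, AddChar.FiniteField.primitiveChar_to_Complex_isPrimitive F⟩
  have e1 : ∀ c, c ≠ 0 → finrank ℂ (Eig ρ ψ (x 11) c) = _ := fun c hc =>
    (one_sum h h3 hψ c).trans (Finset.sum_congr rfl fun μ _ => two_eq h h3 hψ (.inl hc))
  have e2 := finrank_eq_sum (ρ := ρ) hψ (add h 11 (by omega)) (zero h 11 (by omega)) (W := ⊤)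
    fun _ _ _ => trivial
  rw [finrank_top, finrank_fin_fun, Finset.sum_congr rfl fun c _ => by rw [top_inf_eq],
    sum_erase_const e1, one_sum h h3 hψ, sum_erase_const fun μ hμ => two_eq h h3 hψ (.inr hμ),
    two_sum h h3 hψ, sum_erase_const (m := Fintype.card F * M ρ ψ x 0 0 1 0) fun ν hν =>
      (J3_mul h h3 hψ 0 0 hν 0).trans (by
        rw [M_tor h 7 0 3 1 (-1) (by decide +kernel) hν 0 0 1 0]; simp), J3_sum h h3 hψ] at e2
  have e3 := finrank_Eig (ρ := ρ) hψ (add h 11 (by omega)) (zero h 11 (by omega)) (fun t ht => by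
    obtain ⟨g, hg⟩ := isConj_iff.mp (isConj_long h (r := 11) (by simp) ht)
    rw [← hg, ρ.char_conj]) one_ne_zero
  rw [e1 1 one_ne_zero] at e3
  simp only [Finset.sum_const, Finset.card_univ, smul_eq_mul] at e1 e2 e3
  have hm := M_ne_zero h h3 hψ (ρ := ρ) (by omega)
  have m0 : M ρ ψ x 1 0 1 0 ≠ 0 := fun e => by
    have e' : M ρ ψ x 1 0 0 0 = 0 := by by_contra h1; exact hm h1 e
    refine rho_ne_one ρ hk (g := x 11 1) (fun e => one_ne_zero (hn.eq_zero_of_x_eq_one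
      (T.lt_iff.mp (top chevG2).2) e)) (LinearMap.ext fun v => fix_of_Eig (ψ := ψ) ?_ 1)
    rw [← sum_proj (ρ := ρ) hψ (zero h 11 (by omega)) v]
    refine Submodule.sum_mem _ fun c _ => ?_
    have h1 := proj_mem (ρ := ρ) (ψ := ψ) (add h 11 (by omega)) c v
    by_cases hc : c = 0
    · exact hc ▸ h1
    · rw [Submodule.finrank_eq_zero.mp ((e1 c hc).trans (by simp [e, e'])), Submodule.mem_bot] at h1
      rw [h1]; exact zero_mem _
  have k1 := fun μ l hμ hl h0 => (mixed h h3 hψ (ρ := ρ) (μ := μ) (l := l) hμ hl h0).trans_eq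
    (congrArg _ (J3_zero' h h3 hψ hμ))
  have k2 := (J3_sum h h3 hψ 0 1 0).symm.trans (J3_zero' h h3 hψ (ρ := ρ) one_ne_zero)
  have k3 := fun l hl => (K3_sum h h3 hψ 0 0 l).symm.trans (K3_zero h h3 hψ (ρ := ρ) (l := l) hl)
  have k4 := dvd_M h h3 hψ (ρ := ρ) (μ := 1) (l := 0) fun b => by
    obtain ⟨t, ht⟩ := exists_cube h3 (-b)
    exact ⟨t, by simp [ht]⟩
  have k5 := fun l (hl : l ≠ 0) => dvd_M h h3 hψ (ρ := ρ) (μ := 0) (l := l) fun b =>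
    ⟨b / l, by rw [zero_mul, sub_zero, mul_div_cancel₀ _ hl]⟩
  have hi := index_cent_dvd h hn htop (k := 1) (fun i hi => by
      rw [A_sr_left]
      exact (by decide +kernel : ∀ i : Fin 2, (i : ℕ) ≠ 1 → chevG2.cartan i 11 = 0) i hi)
    (a := cartanG2) (cm_G2 ▸ T.isCartan) (c := [1, 1]) (show ∀ i < 2, _ by decide)
    (L := [([0, 1], 0), ([1, -1], 1), ([-1, 2], 2), ([1, -2], 3), ([-1, 1], 4), ([0, -1], 5)])
    (show checkFull 2 _ _ _ _ = true by decide +kernel)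
  have hpp : IsPrimePow (Fintype.card F) := Fintype.isPrimePow_card_of_field
  generalize M ρ ψ x 1 0 1 0 = m at *
  generalize M ρ ψ x 1 0 0 0 = a at *
  generalize M ρ ψ x 0 0 1 0 = b at *
  obtain ⟨q, hq'⟩ : ∃ q, Fintype.card F = q + 1 := ⟨Fintype.card F - 1, by omega⟩
  by_contra hc
  have h8 : 8 ≤ q := by omega
  have h9 : ∀ n, q * (q + 1) * m + q * m + a = q * (q + 2) + n → n ≤ 3 := fun n hn => by
    by_contra h1
    rw [hq', Nat.add_sub_cancel] at e2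
    rw [hq'] at hc
    have : q * (q + 2) * (q * (q + 2) + 4) ≤ k := by
      rw [e2]
      have := Nat.mul_le_mul_left (q * (q + 2)) (show q * (q + 2) + 4 ≤ q * (q + 2) + n by omega)
      rw [← hn] at this
      exact this.trans (le_trans (le_of_eq (by ring)) (Nat.add_le_add_left (Nat.le_add_right _ _) _))
    nlinarith
  obtain rfl : m = 1 := by
    by_contra h1
    obtain ⟨n, rfl⟩ : ∃ n, m = n + 2 := ⟨m - 2, by omega⟩
    have := h9 (q * (q + 2) * (n + 1) + a) (by ring)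
    nlinarith [Nat.zero_le (q * (q + 2) * n)]
  replace h9 := h9 a (by ring)
  have k6 : ∀ μ l, μ ≠ 0 → l ≠ 0 → M ρ ψ x 0 μ 0 l = 0 := fun μ l hμ hl => by
    by_contra h1
    have := k1 μ l hμ hl h1
    rw [hq', Nat.add_sub_cancel] at this
    nlinarith
  rw [sum_erase_const fun l hl => k6 1 l one_ne_zero hl, mul_zero, zero_add] at k2
  obtain rfl : a = 1 := by
    rw [k2, hq', Nat.add_sub_cancel, mul_one] at k4
    obtain ⟨c, hc⟩ := k4
    obtain rfl : c = 1 := by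
      rcases c with _ | _ | c
      · omega
      · rfl
      · nlinarith
    omega
  have k7 : ∀ l, l ≠ 0 → Fintype.card F ≤ M ρ ψ x 0 0 0 l ∧ 1 ≤ b := fun l hl => by
    have h1 := k3 l hl
    rw [sum_erase_const fun μ hμ => k6 μ l hμ hl, mul_zero, zero_add] at h1
    have := Nat.le_of_dvd (by omega) (k5 l hl)
    omega
  have k8 := le_sum_erase (f := M ρ ψ x 0 0 0) fun l hl => (k7 l hl).1
  have k9 := (k7 1 one_ne_zero).2
  have k10 := dvd_of_char ρ (by omega) (g := x 11 1) (c := Fintype.card F ^ 4) (by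
    rw [← sub_sub_cancel (finrank ℂ (Fin k → ℂ) : ℂ) (ρ.character (x 11 1)), ← e3, hq']
    push_cast
    ring)
  refine arith_three hpp hq (d := k) (j := Fintype.card F ^ 2 * (Fintype.card F ^ 2 + 1) - k)
    (Nat.add_sub_cancel' (by nlinarith)) ?_ (k10.trans (Nat.mul_dvd_mul_right (hi.trans
      (dvd_of_eq ?_)) _))
  · rw [hq', Nat.add_sub_cancel] at e2 k8
    rw [hq', Nat.sub_le_iff_le_add]
    have := Nat.mul_le_mul_left (q * (q + 1)) k9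
    nlinarith
  · rw [hq']
    simp only [List.map_cons, List.map_nil, List.sum_cons, List.sum_nil, Nat.add_sub_cancel]
    exact (Nat.sub_eq_of_eq_add (by ring)).symm

end G2

end Cfsg.Agent.Chev.MD
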