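import Mathlib

/-!
# The prime graph of `M^k ⋊ G`
-/

set_option autoImplicit false

namespace Cfsg.Agent.Chev

open SemidirectProduct

variable (G M : Type*) [Group G] [AddCommGroup M] [DistribMulAction G M]

/-- An element of order `s` fixes a non-zero vector. -/
def FixOrd (s : ℕ) : Prop := ∃ g : G, orderOf g = s ∧ ∃ m : M, m ≠ 0 ∧ g • m = m

/-- The action as automorphisms of the multiplicative group. -/
def affAct : G →* MulAut (Multiplicative M) where
  toFun g := AddEquiv.toMultiplicative (DistribMulAction.toAddEquiv M g)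
  map_one' := by ext; simp
  map_mul' g h := by ext; simp [mul_smul]

variable {G M}

theorem aff_order {p : ℕ} (hp : p.Prime) (hM : ∀ m : M, p • m = 0) {r s : ℕ} (hr : r.Prime)
    (hs : s.Prime) (hrs : r ≠ s) : (∃ y : Multiplicative M ⋊[affAct G M] G, orderOf y = r * s) ↔
      (∃ g : G, orderOf g = r * s) ∨ (r = p ∧ FixOrd G M s) ∨ (s = p ∧ FixOrd G M r) := by
  have := Fact.mk hp
  have h1 : ∀ m : Multiplicative M, m ^ p = 1 := fun m => hM m.toAdd
  have key : ∀ s : ℕ, s.Prime → p ≠ s → ((∃ y : Multiplicative M ⋊[affAct G M] G, orderOf y = p * s) ↔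
      (∃ g : G, orderOf g = p * s) ∨ FixOrd G M s) := fun s hs hps => by
    constructor
    · rintro ⟨y, hy⟩
      have h4 : orderOf y.right ∣ p * s := hy ▸ orderOf_map_dvd rightHom y
      have h2 : ∀ n, y.right ^ n = 1 → y ^ n = inl (y ^ n).left := fun n hn => by
        rw [← rightHom_eq_right, ← map_pow] at hn
        exact SemidirectProduct.ext rfl hn
      have h3 : p * s ∣ orderOf y.right * p := by
        rw [← hy, orderOf_dvd_iff_pow_eq_one, pow_mul, h2 _ (pow_orderOf_eq_one _), ← map_pow, h1,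
          map_one]
      rw [mul_comm p] at h3 h4
      obtain ⟨k, hk⟩ := Nat.dvd_of_mul_dvd_mul_right hp.pos h3
      rw [hk] at h4
      rcases (Nat.dvd_prime hp).1 (Nat.dvd_of_mul_dvd_mul_left hs.pos h4) with rfl | rfl
      · rw [mul_one] at hk
        have h5 := h2 s (by rw [← hk, pow_orderOf_eq_one])
        refine Or.inr ⟨_, hk, (y ^ s).left.toAdd, fun h => ?_, ?_⟩
        · have h6 : y ^ s = 1 := by rw [h5, show (y ^ s).left = 1 from h, map_one]
          have := Nat.le_of_dvd hs.pos (hy ▸ orderOf_dvd_of_pow_eq_one h6)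
          have := hp.two_le; have := hs.pos; nlinarith
        · have h6 := congrArg SemidirectProduct.left (show y * y ^ s = y ^ s * y by group)
          rw [h5, mul_left, mul_left, right_inl, map_one, MulAut.one_apply, left_inl, mul_comm,
            mul_left_inj] at h6
          exact h6
      · exact Or.inl ⟨_, hk.trans (mul_comm _ _)⟩
    · rintro (⟨g, hg⟩ | ⟨g, hg, m, hm, h⟩)
      · exact ⟨inr g, by rw [orderOf_injective _ inr_injective, hg]⟩
      · have h2 : orderOf (Multiplicative.ofAdd m) = p := orderOf_eq_prime (h1 _) hm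
        refine ⟨inl (Multiplicative.ofAdd m) * inr g, ?_⟩
        rw [Commute.orderOf_mul_eq_mul_orderOf_of_coprime, orderOf_injective _ inr_injective,
          orderOf_injective _ inl_injective, hg, h2]
        · exact SemidirectProduct.ext (by
            rw [mul_left, mul_left, left_inl, right_inl, left_inr, right_inr, map_one, mul_one, one_mul]
            exact h.symm) (by rw [mul_right, mul_right]; simp)
        · rw [orderOf_injective _ inr_injective, orderOf_injective _ inl_injective, hg, h2]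
          exact (Nat.coprime_primes hp hs).2 hps
  by_cases h2 : r = p
  · subst h2
    rw [key s hs hrs]; simp [hrs.symm]
  by_cases h3 : s = p
  · subst h3
    rw [mul_comm, key r hr hrs.symm]; simp [hrs]
  simp only [h2, h3, false_and, or_false]
  refine ⟨fun ⟨y, hy⟩ => ⟨y.right, Nat.dvd_antisymm (hy ▸ orderOf_map_dvd rightHom y) ?_⟩,
    fun ⟨g, hg⟩ => ⟨inr g, by rw [orderOf_injective _ inr_injective, hg]⟩⟩
  refine (Nat.Coprime.mul_left ((Nat.coprime_primes hr hp).2 h2)
    ((Nat.coprime_primes hs hp).2 h3)).dvd_of_dvd_mul_right ?_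
  have h4 : y ^ orderOf y.right = inl (y ^ orderOf y.right).left :=
    SemidirectProduct.ext rfl (by rw [← rightHom_eq_right, map_pow]; exact pow_orderOf_eq_one _)
  rw [← hy, orderOf_dvd_iff_pow_eq_one, pow_mul, h4, ← map_pow, h1, map_one]

variable (G M) in
theorem exists_large_aff [Finite G] [Finite M] [Nontrivial M] {p : ℕ} (hp : p.Prime)
    (hM : ∀ m : M, p • m = 0) (N : ℕ) : ∃ (H : Type) (_ : Group H) (_ : Finite H), N < Nat.card H ∧
      (∀ r : ℕ, r.Prime → (r ∣ Nat.card H ↔ r = p ∨ r ∣ Nat.card G)) ∧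
      ∀ r s : ℕ, r.Prime → s.Prime → r ≠ s → ((∃ y : H, orderOf y = r * s) ↔
        (∃ g : G, orderOf g = r * s) ∨ (r = p ∧ FixOrd G M s) ∨ (s = p ∧ FixOrd G M r)) := by
  have := Fact.mk hp
  let H := Multiplicative (Fin (N + 1) → M) ⋊[affAct G _] G
  have : Finite H := Finite.of_equiv _ SemidirectProduct.equivProd.symm
  let e : Shrink.{0} H ≃* H := Shrink.mulEquiv
  have hc : Nat.card (Shrink.{0} H) = Nat.card M ^ (N + 1) * Nat.card G := by
    rw [Nat.card_congr e.toEquiv, SemidirectProduct.card, Nat.card_congr Multiplicative.toAdd,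
      Nat.card_fun]
    simp
  have hP : IsPGroup p (Multiplicative M) := fun m => ⟨1, by rw [pow_one]; exact hM m.toAdd⟩
  obtain ⟨n, hn, h⟩ := hP.nontrivial_iff_card.1 inferInstance
  rw [Nat.card_congr Multiplicative.toAdd] at h
  have hF : ∀ s, FixOrd G (Fin (N + 1) → M) s ↔ FixOrd G M s := fun s =>
    ⟨fun ⟨g, hg, m, hm, h⟩ => by
      obtain ⟨i, hi⟩ := Function.ne_iff.1 hm
      exact ⟨g, hg, m i, hi, congrFun h i⟩, fun ⟨g, hg, m, hm, h⟩ =>
      ⟨g, hg, fun _ => m, fun h' => hm (congrFun h' 0), funext fun _ => h⟩⟩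
  refine ⟨Shrink.{0} H, inferInstance, Finite.of_equiv _ e.toEquiv.symm, ?_, fun r hr => ?_,
    fun r s hr hs hrs => ?_⟩
  · rw [hc]
    calc N < Nat.card M ^ (N + 1) := (Nat.lt_succ_self N).trans (Nat.lt_pow_self Finite.one_lt_card)
      _ ≤ _ := Nat.le_mul_of_pos_right _ Nat.card_pos
  · rw [hc, hr.dvd_mul, h, ← pow_mul, hr.prime.dvd_pow_iff_dvd (by positivity),
      Nat.prime_dvd_prime_iff_eq hr hp]
  · rw [← hF, ← hF, ← aff_order hp (fun m => funext fun i => hM (m i)) hr hs hrs]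
    exact ⟨fun ⟨y, hy⟩ => ⟨e y, by rw [MulEquiv.orderOf_eq, hy]⟩,
      fun ⟨y, hy⟩ => ⟨e.symm y, by rw [MulEquiv.orderOf_eq, hy]⟩⟩

variable (M) in
/-- Groups of unbounded order with the prime graph of `G`. -/
theorem exists_large_same {L : Type*} [Group L] (e : G ≃* L) [Finite G] [Finite M] [Nontrivial M]
    {p : ℕ} (hp : p.Prime) (hM : ∀ m : M, p • m = 0) (hG : p ∣ Nat.card G)
    (h : ∀ s : ℕ, s.Prime → s ≠ p → FixOrd G M s → ∃ g : G, orderOf g = p * s) (N : ℕ) :
    ∃ (H : Type) (_ : Group H) (_ : Finite H), N < Nat.card H ∧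
      (∀ r : ℕ, r.Prime → (r ∣ Nat.card L ↔ r ∣ Nat.card H)) ∧
      ∀ r s : ℕ, r.Prime → s.Prime → r ≠ s →
        ((∃ g : L, orderOf g = r * s) ↔ ∃ y : H, orderOf y = r * s) := by
  obtain ⟨H, _, _, h1, h2, h3⟩ := exists_large_aff G M hp hM N
  refine ⟨H, inferInstance, inferInstance, h1, fun r hr => ?_, fun r s hr hs hrs => ?_⟩
  · rw [h2 r hr, ← Nat.card_congr e.toEquiv]
    exact ⟨Or.inr, fun h => h.elim (fun h => h ▸ hG) id⟩
  · rw [h3 r s hr hs hrs]
    refine ⟨fun ⟨y, hy⟩ => Or.inl ⟨e.symm y, by rw [MulEquiv.orderOf_eq, hy]⟩, fun h' => ?_⟩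
    obtain ⟨y, hy⟩ : ∃ g : G, orderOf g = r * s := by
      rcases h' with h' | ⟨rfl, h'⟩ | ⟨rfl, h'⟩
      exacts [h', h s hs hrs.symm h', mul_comm s r ▸ h r hr hrs h']
    exact ⟨e y, by rw [MulEquiv.orderOf_eq, hy]⟩

end Cfsg.Agent.Chev
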