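import Mathlib
import Cfsg.Agent.Chev.RepTwo
import Cfsg.Agent.Chev.StCT

/-! Homomorphisms from Chevalley groups over the field with two elements, from the relations in
the standard subsystems of rank two. -/

set_option autoImplicit false

namespace Cfsg.Agent.Chev

open Cfsg.Lie

variable {F : Type*} [Field F] {H : Type*} [Group H] {D : ChevalleyDatum}

/-- the roots of the standard subsystem of rank two -/
def subL (D : ChevalleyDatum) (i j : ℕ) : List ℕ :=
  (List.range D.nroots).filter fun r => D.InRankTwoSub i j r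

theorem exists_hom_two_CT (hD : D ∈ [chevG2, chevB2, chevD4, chevF4, chevE6, chevE7, chevE8])
    (hF : ∀ t : F, t = 0 ∨ t = 1) (Z : ℕ → H) (h1 : ∀ r < D.nroots, Z r * Z r = 1)
    (h4 : ∀ i < D.rank, ∀ j ≤ i, ∀ r ∈ subL D i j, ∀ s ∈ subL D i j, s ≠ r → s ≠ D.neg r →
      Z s * Z r = Z r * Z s * ((oddW D r s).map Z).prod) [Good D] :
    ∃ φ : D.group F →* H, ∀ i j, ∀ r ∈ Phi D i j, φ (xC D F r 1) = Z r := by
  classical
  have h11 : (1 : F) + 1 = 0 := (hF _).resolve_right (by simp)
  have h2 : (2 : F) = 0 := one_add_one_eq_two.symm.trans h11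
  have key : ∀ i j : Fin D.rank, (j : ℕ) ≤ i →
      IsStOn D (fun r (t : F) => if t = 0 then 1 else Z r) (Phi D i j) := by
    refine fun i j hij => ⟨fun r hr => hr.1, fun r hr t u => ?_, fun r hr s hs e1 e2 t u => ?_⟩
    · rcases hF t with rfl | rfl <;> rcases hF u with rfl | rfl <;> simp [h11, h1 r hr.1]
    have hm : ∀ r ∈ Phi D i j, r ∈ subL D i j := fun r hr =>
      List.mem_filter.2 ⟨List.mem_range.2 hr.1, decide_eq_true (mem_Phi_iff.1 hr)⟩
    have h0 : t = 0 ∨ u = 0 →
        word (fun r (t : F) => if t = 0 then 1 else Z r) (D.commWord F r s t u) = 1 := fun h =>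
      Subgroup.mem_bot.1 (word_mem fun p hp => by
        obtain ⟨c, hc, rfl⟩ := List.mem_map.1 hp
        obtain ⟨-, -, a, b, -⟩ := mem_commTerms (D := D) (r := ⟨r, hr.1⟩) (s := ⟨s, hs.1⟩) hc
        rcases h with rfl | rfl <;> simp [a.ne', b.ne'])
    rcases hF t with rfl | rfl
    · simp [h0]
    rcases hF u with rfl | rfl
    · simp [h0]
    have h5 : ∀ L : List (ℕ × ℤ × ℕ × ℕ), word (fun r (t : F) => if t = 0 then 1 else Z r)
        (L.map fun c => (c.1, (c.2.1 : F) * (-1) ^ c.2.2.1 * 1 ^ c.2.2.2)) =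
        (((L.filter fun c => c.2.1 % 2 = 1).map (·.1)).map Z).prod := fun L => by
      induction L with
      | nil => rfl
      | cons c L ih =>
        rw [List.map_cons, word_cons, ih, List.filter_cons]
        obtain ⟨k, h | h⟩ := c.2.1.even_or_odd'
        · simp [h, h2]
        · simp [h, h2, Int.add_emod]
    rw [ChevalleyDatum.commWord, h5]
    simpa only [one_ne_zero, if_false, oddW] using h4 i i.2 j hij r (hm r hr) s (hm s hs) e1 e2
  obtain ⟨z, hz, e⟩ := curtis_tits hD fun i j => (le_total (j : ℕ) i).elim (key i j)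
    fun h => Phi_comm i j ▸ key j i h
  obtain ⟨φ, hφ⟩ := hz.exists_hom_two hD hF
  exact ⟨φ, fun i j r hr => by rw [hφ r hr.1, e i j r hr, if_neg one_ne_zero]⟩

end Cfsg.Agent.Chev
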