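import Mathlib
import Cfsg.Agent.Chev.SzBasic

/-!
# Laws in Suzuki groups
-/

set_option autoImplicit false
set_option maxSynthPendingDepth 3

namespace Cfsg.Agent.Chev

open Cfsg Matrix Polynomial

/-- A polynomial vector of degree at most `n` with coefficient vector `a` in degree `n`. -/
def Lead {F : Type*} [Field F] {ι : Type*} (n : ℕ) (v : ι → F[X]) (a : ι → F) : Prop :=
  ∀ i, (v i).natDegree ≤ n ∧ (v i).coeff n = a i

theorem Lead.mulVec {F : Type*} [Field F] {ι : Type*} [Fintype ι] {n r : ℕ} {v : ι → F[X]}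
    {a : ι → F} (h : Lead n v a) {A : Matrix ι ι F[X]} {B : Matrix ι ι F}
    (hA : ∀ i, Lead r (A i) (B i)) : Lead (r + n) (A *ᵥ v) (B *ᵥ a) := by
  intro i
  simp only [Matrix.mulVec, dotProduct]
  refine ⟨natDegree_sum_le_of_forall_le _ _ fun j _ =>
    natDegree_mul_le.trans (add_le_add (hA i j).1 (h j).1), ?_⟩
  rw [finsetSum_coeff]
  refine Finset.sum_congr rfl fun j _ => ?_
  rw [coeff_mul_add_eq_of_natDegree_le (hA i j).1 (h j).1, (hA i j).2, (h j).2]

/-- The list of reflections attached to a word. -/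
def dbl (L : List (ℕ × Bool)) : List ℕ :=
  L.flatMap fun x => cond x.2 [2 * x.1, 2 * x.1 + 1] [2 * x.1 + 1, 2 * x.1]

theorem isChain_dbl : ∀ {L : List (ℕ × Bool)}, FreeGroup.IsReduced L → (dbl L).IsChain (· ≠ ·)
  | [], _ => by simp [dbl]
  | [(a, b)], _ => by cases b <;> simp [dbl]
  | (a, b) :: (c, d) :: L, h => by
    obtain ⟨h1, h2⟩ := FreeGroup.isReduced_cons_cons.1 h
    have h3 := isChain_dbl h2
    cases b <;> cases d <;> simp_all [dbl] <;> omega

theorem prod_dbl {G : Type*} [Group G] (t : ℕ → G) (ht : ∀ n, (t n)⁻¹ = t n) (L : List (ℕ × Bool)) :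
    FreeGroup.lift (fun n => t (2 * n) * t (2 * n + 1)) (FreeGroup.mk L) = ((dbl L).map t).prod := by
  rw [FreeGroup.lift_mk]
  induction L with
  | nil => simp [dbl]
  | cons x L ih =>
    rw [List.map_cons, List.prod_cons, ih]
    obtain ⟨a, b⟩ := x
    cases b <;> simp [dbl, ht, mul_assoc]

namespace Suz

variable {F : Type*} [Field F] {m : ℕ} [hSz : SzField F m]
include hSz

/-- A family of involutions. -/
noncomputable def tc (x c : F) : Sz F m := (tt F * uu 0 c * tt F) * uu 0 x * (tt F * uu 0 c * tt F)⁻¹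

theorem tc_inv (x c : F) : (tc x c)⁻¹ = tc x c := by
  simp only [tc, _root_.mul_inv_rev, inv_inv, uu_inv, zero_mul, add_zero, mul_assoc]

/-- The leading coefficient. -/
noncomputable def tcB (c : F) : Matrix (Fin 4) (Fin 4) F :=
  vecMulVec ![1, 0, c, th F c] ![th F c, c, 0, 1]

/-- The linear coefficient. -/
noncomputable def tcN (c : F) : Matrix (Fin 4) (Fin 4) F :=
  !![c, 0, 1, 0; th F c, c, 0, 1; c ^ 2, 0, c, 0; 0, c ^ 2, th F c, c]

theorem mat_tc (x c : F) : mat (tc x c) = 1 + x • tcN c + th F x • tcB c := by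
  simp only [tc, _root_.mul_inv_rev, uu_inv, zero_mul, add_zero, tt_inv, mat_mul, mat_tt, mat_uu]
  ext i j
  fin_cases i <;> fin_cases j <;>
    simp [uMat, suzukiForm, tcN, tcB, ff, Matrix.mul_apply, Fin.sum_univ_four, vecMulVec] <;> grind

/-- The polynomial matrix. -/
noncomputable def tcP (c : F) : Matrix (Fin 4) (Fin 4) F[X] :=
  of fun i j => C ((1 : Matrix (Fin 4) (Fin 4) F) i j) + monomial 1 (tcN c i j) +
    monomial (2 ^ (m + 1)) (tcB c i j)

theorem eval_tcP (x c : F) : (evalRingHom x).mapMatrix (tcP c) = mat (tc x c) := by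
  rw [mat_tc]
  ext i j
  simp [tcP, th_def, mul_comm]

theorem lead_tcP (c : F) (i : Fin 4) : Lead (2 ^ (m + 1)) (tcP c i) (tcB c i) := by
  intro j
  have h : 1 < 2 ^ (m + 1) := Nat.one_lt_two_pow (by omega)
  refine ⟨natDegree_add_le_of_degree_le (natDegree_add_le_of_degree_le (by simp)
    ((natDegree_monomial_le _).trans h.le)) (natDegree_monomial_le _), ?_⟩
  simp [tcP, coeff_monomial, coeff_C, h.ne]

theorem lead_prod : ∀ {L : List F}, L.IsChain (· ≠ ·) → ∃ a : Fin 4 → F,
    Lead (2 ^ (m + 1) * L.length) ((L.map tcP).prod *ᵥ ![0, 0, 0, 1]) a ∧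
      (∀ c, (∀ y ∈ L.head?, c ≠ y) → ![th F c, c, 0, 1] ⬝ᵥ a ≠ 0) ∧ (L ≠ [] → a 0 ≠ 0)
  | [], _ => ⟨![0, 0, 0, 1], fun i => by fin_cases i <;> simp, fun c _ => by simp, by simp⟩
  | c :: L, h => by
    obtain ⟨h1, h2⟩ := List.isChain_cons.1 h
    obtain ⟨a, k1, k2, -⟩ := lead_prod h2
    have k3 := k2 c h1
    refine ⟨tcB c *ᵥ a, ?_, fun d hd => ?_, fun _ => ?_⟩
    · rw [List.map_cons, List.prod_cons, ← mulVec_mulVec, List.length_cons, mul_add, mul_one,
        add_comm]
      exact k1.mulVec (lead_tcP c)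
    · rw [tcB, vecMulVec_mulVec, dotProduct_smul, op_smul_eq_mul]
      refine mul_ne_zero ?_ k3
      have : d ≠ c := hd c (by simp)
      simp only [dotProduct, Fin.sum_univ_four]
      simp
      intro e
      exact this (th_injective (by grind))
    · rw [tcB, vecMulVec_mulVec]
      simpa using k3

theorem eval_prod (x : F) (L : List F) :
    (evalRingHom x).mapMatrix (L.map tcP).prod = mat (L.map (tc x)).prod := by
  induction L with
  | nil => simp
  | cons c L ih => simp only [List.map_cons, List.prod_cons, map_mul, ih, eval_tcP, mat_mul]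

theorem exists_prod_ne_one {L : List F} (h : L.IsChain (· ≠ ·)) (h0 : L ≠ [])
    (hl : L.length < 2 ^ m) : ∃ x : F, (L.map (tc x)).prod ≠ 1 := by
  by_contra hx
  push Not at hx
  obtain ⟨a, k1, -, k2⟩ := lead_prod h
  refine k2 h0 ?_
  have := Fintype.ofFinite F
  have key : ((L.map tcP).prod *ᵥ ![0, 0, 0, 1]) 0 = 0 := by
    refine eq_zero_of_natDegree_lt_card_of_eval_eq_zero' _ Finset.univ (fun x _ => ?_)
      ((k1 0).1.trans_lt ?_)
    · have h1 := eval_prod x L
      rw [hx x] at h1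
      simpa [mulVec, dotProduct, Fin.sum_univ_four] using congrFun (congrFun h1 0) 3
    · rw [Finset.card_univ, ← Nat.card_eq_fintype_card, card_F F]
      calc _ < 2 ^ (m + 1) * 2 ^ m := Nat.mul_lt_mul_of_pos_left hl (by positivity)
        _ = _ := by ring
  rw [← (k1 0).2, key, coeff_zero]

omit hSz in
theorem exists_not_law (w : FreeGroup ℕ) (hw : w ≠ 1) : ∃ N : ℕ, ∀ (F : Type*) [Field F] (m : ℕ)
    [SzField F m], N ≤ m → ∃ f : ℕ → Sz F m, FreeGroup.lift f w ≠ 1 := by
  refine ⟨(dbl w.toWord).length + (dbl w.toWord).sum, fun F _ m _ hm => ?_⟩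
  have := Fintype.ofFinite F
  have hq : Fintype.card F = 2 ^ (2 * m + 1) := by rw [← Nat.card_eq_fintype_card, card_F F]
  have h1 : m < 2 ^ m := Nat.lt_two_pow_self
  have h2 : 2 ^ m ≤ 2 ^ (2 * m + 1) := Nat.pow_le_pow_right two_pos (by omega)
  let c : ℕ → F := fun n => (Fintype.equivFin F).symm ⟨n % _, Nat.mod_lt _ Fintype.card_pos⟩
  have h3 : ((dbl w.toWord).map c).IsChain (· ≠ ·) := by
    rw [List.isChain_map]
    refine (isChain_dbl FreeGroup.isReduced_toWord).imp_of_mem_imp fun a b ha hb h e => h ?_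
    have k1 := List.single_le_sum (fun _ _ => Nat.zero_le _) a ha
    have k2 := List.single_le_sum (fun _ _ => Nat.zero_le _) b hb
    simpa [c, Nat.mod_eq_of_lt (show a < Fintype.card F by omega),
      Nat.mod_eq_of_lt (show b < Fintype.card F by omega)] using e
  have h4 : (dbl w.toWord).map c ≠ [] := by
    obtain ⟨⟨a, b⟩, L, h⟩ := List.exists_cons_of_ne_nil (FreeGroup.toWord_eq_nil_iff.not.2 hw)
    cases b <;> simp [h, dbl]
  obtain ⟨x, hx⟩ := exists_prod_ne_one h3 h4 (by simp only [List.length_map]; omega)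
  refine ⟨fun n => tc x (c (2 * n)) * tc x (c (2 * n + 1)), ?_⟩
  rw [← w.mk_toWord, prod_dbl (fun n => tc x (c n)) fun n => tc_inv _ _]
  rwa [List.map_map] at hx

end Suz

end Cfsg.Agent.Chev
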