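import Mathlib
import Cfsg.Agent.Inv.SU3Syl
import Cfsg.Agent.Class.U.Simple

/-!
# A module of `SU₃(4)` in characteristic five
-/

set_option autoImplicit false

namespace Cfsg.Agent.Chev.U34

open Matrix Cfsg.Agent.Class

/-- The field with sixteen elements. -/
def K : Type := Fin 16

instance instDecEq : DecidableEq K := inferInstanceAs (DecidableEq (Fin 16))
instance instFintype : Fintype K := inferInstanceAs (Fintype (Fin 16))
instance instZero : Zero K := ⟨(0 : Fin 16)⟩
instance instOne : One K := ⟨(1 : Fin 16)⟩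
instance instAdd : Add K := ⟨fun a b => Fin.ofNat 16 (a.1 ^^^ b.1)⟩
instance instNeg : Neg K := ⟨id⟩
instance instMul : Mul K := ⟨fun a b => Fin.ofNat 16 (0xa5783ce1b4692df05ba48679c23d1fe07ae36bf258c149d0843fd16a2e957bc0386d92c74f1ae5b0c6b1285f394ed7a0e7f6c5d4a3b28190192a7f4cd5e6b380bc5243ad618f9e70428ef93517dbac6063c914be8d27fa509d15ae26fb73c8402147ed8b9afc5630df9b5713eca86420fedcba98765432100000000000000000 >>> (4 * (16 * a.1 + b.1)))⟩
instance instInv : Inv K := ⟨fun a => Fin.ofNat 16 (0x834a5c2f67bde910 >>> (4 * a.1))⟩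

instance instField : Field K := Field.ofMinimalAxioms K (by decide +kernel) (by decide +kernel)
  (by decide +kernel) (by decide +kernel) (by decide +kernel) (by decide +kernel) (by decide +kernel)
  (by decide +kernel) (by decide +kernel) ⟨0, 1, by decide⟩

instance instUF : U.UF K 4 := U.UF.of_card rfl

/-- Elements of the field. -/
def k (n : ℕ) : K := Fin.ofNat 16 n

/-- The conjugation. -/
def cj (a : K) : K := k (0x89badcef76452310 >>> (4 * a.1))

/-- The logarithm modulo five. -/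
def lg (a : K) : ZMod 5 := (0x2131244300324100 >>> (4 * a.1) % 16 : ℕ)

/-- The hermitian form. -/
def h (u v : Fin 3 → K) : K := u 0 * cj (v 0) + u 1 * cj (v 1) + u 2 * cj (v 2)

theorem h_eq (u v : Fin 3 → K) : h u v = hermForm 3 K 4 u v := by
  have : ∀ a, cj a = a ^ 4 := by decide +kernel
  simp [h, hermForm, Fin.sum_univ_three, this]

/-- Isotropic vectors. -/
def Iso (x : Fin 3 → K) : Prop := h x x = 0 ∧ (x 0 ≠ 0 ∨ x 1 ≠ 0 ∨ x 2 ≠ 0)

instance instDecIso (x : Fin 3 → K) : Decidable (Iso x) := inferInstanceAs (Decidable (_ ∧ _))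

theorem iso_iff {x : Fin 3 → K} : Iso x ↔ hermForm 3 K 4 x x = 0 ∧ x ≠ 0 := by
  simp [Iso, h_eq, funext_iff, Fin.forall_fin_succ, imp_iff_not_or]

theorem iso_smul {x : Fin 3 → K} {c : K} (hc : c ≠ 0) : Iso (c • x) ↔ Iso x := by
  simp [iso_iff, U.herm_smul_left, U.herm_smul_right, hc]

theorem iso_act {x : Fin 3 → K} (g : SU 3 K 4) : Iso (g • x) ↔ Iso x := by
  rw [iso_iff, iso_iff, U.SU_herm, Ne, smul_eq_zero_iff_eq]

/-- Differences of functions on the unital whose sums over the blocks vanish. -/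
def M : AddSubgroup ((Fin 3 → K) → (Fin 3 → K) → ZMod 5) where
  carrier := {F | (∀ x y, ¬ (Iso x ∧ Iso y) → F x y = 0) ∧
    (∀ x y z, Iso x → Iso y → Iso z → F x y + F y z = F x z) ∧
    (∀ x (c : K), Iso x → c ≠ 0 → F (c • x) x = 0) ∧
    ∀ x y, Iso x → Iso y → h x y ≠ 0 → ∑ c : K, F (x + c • y) y = 0}
  zero_mem' := by simp
  add_mem' := fun ⟨a, b, c, d⟩ ⟨a', b', c', d'⟩ => ⟨fun x y e => by simp [a x y e, a' x y e],
    fun x y z e f g => by simp only [Pi.add_apply, ← b x y z e f g, ← b' x y z e f g]; ring,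
    fun x y e f => by simp [c x y e f, c' x y e f],
    fun x y e f g => by simp [Finset.sum_add_distrib, d x y e f g, d' x y e f g]⟩
  neg_mem' := fun ⟨a, b, c, d⟩ => ⟨fun x y e => by simp [a x y e],
    fun x y z e f g => by simp only [Pi.neg_apply, ← b x y z e f g]; ring,
    fun x y e f => by simp [c x y e f], fun x y e f g => by simp [d x y e f g]⟩

instance instAct : DistribMulAction (SU 3 K 4) M where
  smul g F := ⟨fun x y => F.1 (g⁻¹ • x) (g⁻¹ • y),
    fun x y e => F.2.1 _ _ (by rwa [iso_act, iso_act]),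
    fun x y z a b c => F.2.2.1 _ _ _ ((iso_act _).2 a) ((iso_act _).2 b) ((iso_act _).2 c),
    fun x c a b => by
      show F.1 _ _ = 0
      rw [U.SU_smul_comm]; exact F.2.2.2.1 _ _ ((iso_act _).2 a) b,
    fun x y a b c => by
      simpa only [smul_add, U.SU_smul_comm] using F.2.2.2.2 _ _ ((iso_act g⁻¹).2 a) ((iso_act _).2 b)
        (by rwa [h_eq, U.SU_herm, ← h_eq])⟩
  one_smul F := Subtype.ext (funext₂ fun x y => by show F.1 _ _ = _; simp)
  mul_smul g g' F := Subtype.ext (funext₂ fun x y => by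
    show F.1 _ _ = F.1 _ _; simp [mul_smul])
  smul_zero _ := rfl
  smul_add _ _ _ := rfl

/-- Representatives of the points, along the orbits of an element of order thirteen. -/
def L (n : ℕ) : Fin 3 → K := fun i => k (0x314d8478e3ce978b6183e5d19836d81b42e8921175febabe10a0654833615cdec274a4a704ea01ed1da68ed0cc47aa0c80c6780aca933c4ebfc1013913ef80162d9fe71cbe096a299d1b98153810b689df4c7ea73c97c65834c363fb4caf0b0b110 >>> (12 * n + 4 * i.1))

theorem cover {x : Fin 3 → K} (hx : Iso x) : ∃ n < 65, ∃ a : K, a ≠ 0 ∧ x = a • L n := by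
  have key : ∀ s t u : K, (s = 1 ∨ s = 0 ∧ t = 1) → Iso ![s, t, u] → ∃ n < 65, ∃ a : K,
      s = a * L n 0 ∧ t = a * L n 1 ∧ u = a * L n 2 ∧ a ≠ 0 := by decide +kernel
  obtain ⟨c, hc, h1⟩ : ∃ c : K, c ≠ 0 ∧ ((c • x) 0 = 1 ∨ (c • x) 0 = 0 ∧ (c • x) 1 = 1) := by
    by_cases h0 : x 0 = 0
    · have h1 : x 1 ≠ 0 := fun h1 => by
        have := hx.1
        simp only [h, h0, h1, zero_mul, zero_add] at this
        exact (by decide +kernel : ∀ a : K, a * cj a = 0 → a = 0) _ this |>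
          (hx.2.resolve_left (not_not.2 h0)).resolve_left (not_not.2 h1)
      exact ⟨(x 1)⁻¹, inv_ne_zero h1, Or.inr ⟨by simp [h0], by simp [h1]⟩⟩
    · exact ⟨(x 0)⁻¹, inv_ne_zero h0, Or.inl (by simp [h0])⟩
  have e : ![(c • x) 0, (c • x) 1, (c • x) 2] = c • x := by ext i; fin_cases i <;> rfl
  obtain ⟨n, hn, a, b0, b1, b2, ha⟩ := key _ _ _ h1 (by rw [e]; exact (iso_smul hc).2 hx)
  refine ⟨n, hn, c⁻¹ * a, mul_ne_zero (inv_ne_zero hc) ha, ?_⟩
  rw [mul_smul, eq_inv_smul_iff₀ hc]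
  ext i; fin_cases i <;> assumption

/-- A non-constant function. -/
def f (x : Fin 3 → K) : ZMod 5 :=
  if h x (L 0) = 0 ∨ h x (L 13) = 0 then 4 else lg (h x (L 0)) - lg (h x (L 13))

/-- Its differences. -/
def F0 (x y : Fin 3 → K) : ZMod 5 := if Iso x ∧ Iso y then f x - f y else 0

theorem f_smul {c : K} (hc : c ≠ 0) (x : Fin 3 → K) : f (c • x) = f x := by
  simp only [f, h_eq, U.herm_smul_left]
  generalize hermForm 3 K 4 x (L 0) = a
  generalize hermForm 3 K 4 x (L 13) = b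
  revert a b c
  decide +kernel

theorem F0_smul {a b : K} (ha : a ≠ 0) (hb : b ≠ 0) (x y : Fin 3 → K) :
    F0 (a • x) (b • y) = F0 x y := by
  simp only [F0, iso_smul ha, iso_smul hb, f_smul ha, f_smul hb]

theorem blocks : ∀ n < 65, ∀ m < 65, n ≠ m →
    ∑ c : K, (if Iso (L n + c • L m) then f (L n + c • L m) - f (L m) else 0) = 0 := by
  decide +kernel

theorem F0_mem : F0 ∈ M := by
  refine ⟨fun x y e => if_neg e, fun x y z a b c => by simp [F0, a, b, c], fun x c a b => by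
    simp [F0, f_smul b], fun x y a b c => ?_⟩
  obtain ⟨n, hn, s, hs, rfl⟩ := cover a
  obtain ⟨m, hm, t, ht, rfl⟩ := cover b
  rw [iso_smul ht] at b
  rw [← blocks n hn m hm (by
    rintro rfl; simp [h_eq, U.herm_smul_left, U.herm_smul_right, (iso_iff.1 b).1] at c),
    ← Equiv.sum_comp (Equiv.mulRight₀ (s / t) (div_ne_zero hs ht))]
  refine Finset.sum_congr rfl fun c _ => ?_
  rw [show s • L n + Equiv.mulRight₀ (s / t) (div_ne_zero hs ht) c • t • L m = s • (L n + c • L m) by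
    simp [smul_smul, ht, mul_assoc, mul_comm s], F0_smul hs ht]
  simp [F0, b]

/-- Elements of the unitary group. -/
def el (A : Matrix (Fin 3) (Fin 3) K) (h1 : Aᵀ * A.map (· ^ 4) = 1) (h2 : A.det = 1) : SU 3 K 4 :=
  U.mkSU A (U.pres_iff.2 h1) h2

/-- An element of order thirteen. -/
def g13 : SU 3 K 4 := el !![k 3, k 8, k 3; k 12, k 10, k 10; k 3, k 12, k 7] (by decide +kernel)
  (by decide +kernel)

theorem cardG : Nat.card (SU 3 K 4) = 62400 := by rw [Inv.UH.card_SU3]; norm_num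


end Cfsg.Agent.Chev.U34
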